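import Mathlib
import Cfsg.Agent.Lib.H08.CQ.Core

/-! Stability in a section for `p = 3`: variants of the adjustment and quadratic lemmas, without
the assumption that the element centralizes the bottom of the section. -/

set_option autoImplicit false

namespace Cfsg.Agent.H24.CQ3

open Cfsg Cfsg.Agent.H08.CQ Cfsg.Agent.H08.CQ.Sec
open scoped commutatorElement

section Sec

variable {G : Type*} [Group G] [Finite G] {p : ℕ} [Fact p.Prime]
variable {Q₀ Q₂ H : Subgroup G} {W : Type*} [AddCommGroup W] (S : Sec p Q₀ Q₂ H W)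

include S

theorem adjust' (hp2 : p ≠ 2) (s : H) (hs1 : (orderOf (s : G)).Coprime p) (hs2 : S.σ s = -1) (y₀ : H) :
    ∃ y : H, S.σ y = S.σ y₀ ∧
      ∀ a ∈ Q₀, (y : G) * ((s : G) * a * (s : G)⁻¹) * (y : G)⁻¹ = (s : G) * ((y : G) * a * (y : G)⁻¹) * (s : G)⁻¹ := by
  classical
  have hp : p.Prime := Fact.out
  set Cen := Subgroup.centralizer (Q₂ : Set G) with hCen
  have hsC : (s : G) ∈ Cen := S.hpc s s.2 hs1
  have hσinv : ∀ g : H, S.σ g⁻¹ * S.σ g = 1 := fun g => by rw [← map_mul, inv_mul_cancel, map_one]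
  have hσinv' : ∀ g : H, S.σ g * S.σ g⁻¹ = 1 := fun g => by rw [← map_mul, mul_inv_cancel, map_one]
  -- the involution
  set SS := S.ρ s with hSS
  have hss : SS * SS = 1 := by
    have h1 : S.σ (s * s) = 1 := by
      rw [map_mul, hs2]
      noncomm_ring
    have h2 : (orderOf ((s * s : H) : G)).Coprime p := by
      have e : ((s * s : H) : G) = (s : G) ^ 2 := by simp [pow_two]
      rw [e]
      exact Nat.Coprime.coprime_dvd_left (orderOf_pow_dvd 2) hs1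
    have h3 := S.centralizes (s * s) h2 h1
    rw [hSS, ← map_mul]
    ext a
    have h4 := h3 a a.2
    change ((s * s : H) : G) * a * ((s * s : H) : G)⁻¹ = a
    rw [h4]
    group
  set s' : H := y₀ * s * y₀⁻¹ with hs'
  set r : H := s' * s with hr
  have hs'σ : S.σ s' = -1 := by
    rw [hs', map_mul, map_mul, hs2, mul_neg, mul_one, neg_mul, hσinv']
  have hrσ : S.σ r = 1 := by
    rw [hr, map_mul, hs'σ, hs2]
    noncomm_ring
  have hs'C : (s' : G) ∈ Cen := by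
    apply S.hpc s' s'.2
    have e : ((s' : H) : G) = (MulAut.conj (y₀ : G)).toMonoidHom (s : G) := by
      simp [hs', MulAut.conj_apply]
    rw [e, orderOf_injective _ (MulAut.conj (y₀ : G)).injective]
    exact hs1
  have hrC : (r : G) ∈ Cen := Cen.mul_mem hs'C hsC
  set SS' := S.ρ s' with hSS'
  have hSS'e : SS' = S.ρ y₀ * SS * (S.ρ y₀)⁻¹ := by
    rw [hSS', hs', map_mul, map_mul, map_inv]
  have hss' : SS' * SS' = 1 := by
    rw [hSS'e]
    calc S.ρ y₀ * SS * (S.ρ y₀)⁻¹ * (S.ρ y₀ * SS * (S.ρ y₀)⁻¹) = S.ρ y₀ * (SS * SS) * (S.ρ y₀)⁻¹ := by group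
      _ = 1 := by rw [hss]; group
  set R := SS' * SS with hR
  have hRρ : R = S.ρ r := by rw [hR, hr, map_mul]
  -- the order of `R`
  set N := Nat.card Q₀ with hN
  have hNodd : Odd N := by
    obtain ⟨n, hn⟩ := IsPGroup.iff_card.mp S.hQ₀
    rw [hN, hn]
    exact (hp.odd_of_ne_two hp2).pow
  have hRN : R ^ N = 1 := by
    rw [hRρ, ← map_pow]
    ext a
    change ((r ^ N : H) : G) * a * ((r ^ N : H) : G)⁻¹ = a
    have hrc : ∀ c ∈ Q₂, (r : G) * c = c * r := fun c hc =>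
      ((Subgroup.mem_centralizer_iff.mp hrC) c hc).symm
    have hb := S.comm_mem r a.2 (by rw [hrσ]; rfl)
    set b := (r : G) * a * (r : G)⁻¹ * (a : G)⁻¹ with hbdef
    have h1 := conj_pow_step (g := (r : G)) (a := (a : G)) (b := b) (hrc b hb) (by rw [hbdef]; group) N
    have hbN : b ^ N = 1 := by
      have h2 : (⟨b, S.hle hb⟩ : Q₀) ^ N = 1 := pow_card_eq_one'
      exact congrArg Subtype.val h2
    rw [hbN, one_mul] at h1
    simpa using h1
  set k := (N + 1) / 2 with hk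
  have h2k : 2 * k = N + 1 := by
    obtain ⟨m, hm⟩ := hNodd
    rw [hk, hm]
    omega
  set WW := R ^ k with hWW
  have hWWsq : WW * WW = SS' * SS := by
    rw [hWW, ← pow_add, ← two_mul, h2k, pow_succ, hRN, one_mul]
  have hSSinv : SS⁻¹ = SS := inv_eq_of_mul_eq_one_left hss
  have hSS'inv : SS'⁻¹ = SS' := inv_eq_of_mul_eq_one_left hss'
  have hconjR : SS * R * SS⁻¹ = R⁻¹ := by
    rw [hR, mul_inv_rev, hSSinv, hSS'inv, mul_assoc, mul_assoc, hss, mul_one]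
  have hWc : SS * WW * SS⁻¹ = WW⁻¹ := by
    rw [hWW, ← conj_pow, hconjR, inv_pow]
  have hfix := conj_fix hss hWWsq hWc
  refine ⟨(r ^ k)⁻¹ * y₀, ?_, ?_⟩
  · have h1 : S.σ (r ^ k) = 1 := by rw [map_pow, hrσ, one_pow]
    have h2 : S.σ (r ^ k)⁻¹ = 1 := by
      have := hσinv (r ^ k)
      rwa [h1, mul_one] at this
    rw [map_mul, h2, one_mul]
  · intro a ha
    set Y := S.ρ ((r ^ k)⁻¹ * y₀) with hY
    have hYe : Y = WW⁻¹ * S.ρ y₀ := by
      rw [hY, map_mul, map_inv, map_pow, ← hRρ]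
    have hYS : Y * SS = SS * Y := by
      have h1 : Y * SS * Y⁻¹ = SS := by
        rw [hYe]
        calc WW⁻¹ * S.ρ y₀ * SS * (WW⁻¹ * S.ρ y₀)⁻¹ = WW⁻¹ * (S.ρ y₀ * SS * (S.ρ y₀)⁻¹) * WW := by group
          _ = WW⁻¹ * SS' * WW := by rw [hSS'e]
          _ = SS := hfix
      calc Y * SS = (Y * SS * Y⁻¹) * Y := by group
        _ = SS * Y := by rw [h1]
    have h2 : (((Y * SS) ⟨a, ha⟩ : Q₀) : G) = (((SS * Y) ⟨a, ha⟩ : Q₀) : G) := by rw [hYS]
    exact h2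

theorem quad' (hp2 : p ≠ 2) (s : H) (hs1 : (orderOf (s : G)).Coprime p) (y : H)
    (hδ : ∀ g ∈ Subgroup.closure (Iset Q₀ H s), ∀ h ∈ Subgroup.closure (Iset Q₀ H s),
      (g⁻¹ * ((y : G) * g * (y : G)⁻¹)) * (h⁻¹ * ((y : G) * h * (y : G)⁻¹)) =
        (h⁻¹ * ((y : G) * h * (y : G)⁻¹)) * (g⁻¹ * ((y : G) * g * (y : G)⁻¹)))
    (hys : ∀ a ∈ Q₀, (y : G) * ((s : G) * a * (s : G)⁻¹) * (y : G)⁻¹ =
      (s : G) * ((y : G) * a * (y : G)⁻¹) * (s : G)⁻¹)
    (hyq : (S.σ y - 1) * (S.σ y - 1) = 0) :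
    (y : G) ∈ Subgroup.normalizer ((Subgroup.closure (Iset Q₀ H s) : Subgroup G) : Set G) ∧
      ⁅⁅Subgroup.closure (Iset Q₀ H s), Subgroup.zpowers (y : G)⁆, Subgroup.zpowers (y : G)⁆ = ⊥ := by
  classical
  have hsC : (s : G) ∈ Subgroup.centralizer (Q₂ : Set G) := S.hpc s s.2 hs1
  set E := Subgroup.closure (Iset Q₀ H s) with hE
  have hEQ : E ≤ Q₀ := by
    rw [hE, Subgroup.closure_le]
    exact fun e he => he.1
  have hyQ : ∀ a ∈ Q₀, (y : G) * a * (y : G)⁻¹ ∈ Q₀ := fun a ha => S.hH y y.2 a ha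
  have hyI : ∀ d ∈ Iset Q₀ H s, (y : G) * d * (y : G)⁻¹ ∈ Iset Q₀ H s := by
    rintro d ⟨hd, hds⟩
    refine ⟨hyQ d hd, ?_⟩
    have h1 := hys d hd
    rw [hds] at h1
    rw [← h1]
    group
  have hyE : ∀ g ∈ E, (y : G) * g * (y : G)⁻¹ ∈ E := by
    intro g hg
    have hle : E ≤ E.comap (MulAut.conj (y : G)).toMonoidHom := by
      rw [hE, Subgroup.closure_le]
      intro d hd
      exact Subgroup.subset_closure (hyI d hd)
    exact hle hg
  refine ⟨Cfsg.Agent.H13.mem_normalizer_of_map_conj_le ?_, ?_⟩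
  · rintro _ ⟨g, hg, rfl⟩
    exact hyE g hg
  -- elements of `Q₂` commute with `E`
  have hcE : ∀ c ∈ Q₂, ∀ g ∈ E, c * g = g * c := by
    intro c hc g hg
    have hle : E ≤ Subgroup.centralizer ({c} : Set G) := by
      rw [hE, Subgroup.closure_le]
      intro d hd
      rw [SetLike.mem_coe, Subgroup.mem_centralizer_singleton_iff]
      exact (S.inv_comm s hsC hp2 hc hd.1 hd.2).symm
    have := hle hg
    rw [Subgroup.mem_centralizer_singleton_iff] at this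
    exact this.symm
  have hsc : ∀ c ∈ Q₂, (s : G) * c * (s : G)⁻¹ = c := by
    intro c hc
    have h1 := (Subgroup.mem_centralizer_iff.mp hsC) c hc
    rw [← h1]
    group
  -- the linear form of the quadratic condition
  have hπf : ∀ a ∈ Q₀, S.π (a⁻¹ * ((y : G) * a * (y : G)⁻¹)) = (S.σ y - 1) (S.π a) := by
    intro a ha
    rw [S.hadd _ (Q₀.inv_mem ha) _ (hyQ a ha), S.π_inv ha, ← S.hσ y a ha]
    change _ = S.σ y (S.π a) - S.π a
    abel
  have hq2 : ∀ a ∈ Q₀, (a⁻¹ * ((y : G) * a * (y : G)⁻¹))⁻¹ *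
      ((y : G) * (a⁻¹ * ((y : G) * a * (y : G)⁻¹)) * (y : G)⁻¹) ∈ Q₂ := by
    intro a ha
    have hf : a⁻¹ * ((y : G) * a * (y : G)⁻¹) ∈ Q₀ := Q₀.mul_mem (Q₀.inv_mem ha) (hyQ a ha)
    rw [← S.h0 _ (Q₀.mul_mem (Q₀.inv_mem hf) (hyQ _ hf)), hπf _ hf, hπf _ ha]
    have h1 : ((S.σ y - 1) * (S.σ y - 1)) (S.π a) = 0 := by rw [hyq]; rfl
    exact h1
  -- the inverted elements
  have F4 : ∀ d ∈ Iset Q₀ H s, (y : G) * (d⁻¹ * ((y : G) * d * (y : G)⁻¹)) * (y : G)⁻¹ =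
      d⁻¹ * ((y : G) * d * (y : G)⁻¹) := by
    intro d hdI
    obtain ⟨hdQ, hds⟩ := id hdI
    have he'I := hyI d hdI
    obtain ⟨e', he'⟩ : ∃ e', e' = (y : G) * d * (y : G)⁻¹ := ⟨_, rfl⟩
    rw [← he'] at he'I ⊢
    obtain ⟨f, hf⟩ : ∃ f, f = d⁻¹ * e' := ⟨_, rfl⟩
    rw [← hf]
    have hdE : d ∈ E := Subgroup.subset_closure hdI
    have he'E : e' ∈ E := Subgroup.subset_closure he'I
    have hfE : f ∈ E := by
      rw [hf]
      exact E.mul_mem (E.inv_mem hdE) he'E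
    have hfQ : f ∈ Q₀ := hEQ hfE
    have he'df : e' = d * f := by rw [hf]; group
    obtain ⟨γ, hγ⟩ : ∃ γ, γ = f⁻¹ * ((y : G) * f * (y : G)⁻¹) := ⟨_, rfl⟩
    have hγQ : γ ∈ Q₂ := by
      have h1 := hq2 d hdQ
      rw [← he', ← hf, ← hγ] at h1
      exact h1
    have hyf : (y : G) * f * (y : G)⁻¹ = f * γ := by rw [hγ]; group
    have hγd : γ * d = d * γ := hcE γ hγQ d hdE
    have hγf : γ * f = f * γ := hcE γ hγQ f hfE
    have hγe' : γ * e' = e' * γ := hcE γ hγQ e' he'E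
    have hsf : (s : G) * f * (s : G)⁻¹ = d * e'⁻¹ := by
      have e1 : (s : G) * f * (s : G)⁻¹ = ((s : G) * d * (s : G)⁻¹)⁻¹ * ((s : G) * e' * (s : G)⁻¹) := by
        rw [hf]
        group
      rw [e1, hds, he'I.2, inv_inv]
    have hye' : (y : G) * e' * (y : G)⁻¹ = e' * (f * γ) := by
      have e1 : (y : G) * e' * (y : G)⁻¹ = ((y : G) * d * (y : G)⁻¹) * ((y : G) * f * (y : G)⁻¹) := by
        rw [he'df]
        group
      rw [e1, hyf, ← he']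
    have key := hys f hfQ
    rw [hsf, hyf] at key
    have hL : (y : G) * (d * e'⁻¹) * (y : G)⁻¹ = e' * γ⁻¹ * f⁻¹ * e'⁻¹ := by
      have e1 : (y : G) * (d * e'⁻¹) * (y : G)⁻¹ = ((y : G) * d * (y : G)⁻¹) * ((y : G) * e' * (y : G)⁻¹)⁻¹ := by
        group
      rw [e1, hye', ← he']
      group
    have hR : (s : G) * (f * γ) * (s : G)⁻¹ = d * e'⁻¹ * γ := by
      have e1 : (s : G) * (f * γ) * (s : G)⁻¹ = ((s : G) * f * (s : G)⁻¹) * ((s : G) * γ * (s : G)⁻¹) := by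
        group
      rw [e1, hsf, hsc γ hγQ]
    rw [hL, hR] at key
    -- simplification with `γ` central
    have hX1 : e' * γ⁻¹ * f⁻¹ * e'⁻¹ = γ⁻¹ * (d * f⁻¹ * d⁻¹) := by
      have h1 : e' * γ⁻¹ = γ⁻¹ * e' := by
        have : Commute γ e' := hγe'
        exact (this.inv_left).symm.eq
      rw [h1, he'df]
      group
    have hX2 : d * e'⁻¹ * γ = γ * (d * f⁻¹ * d⁻¹) := by
      have h2 : Commute γ f := hγf
      have h3 : Commute γ d := hγd
      have h4 : Commute γ (d * f⁻¹ * d⁻¹) := ((h3.mul_right h2.inv_right).mul_right h3.inv_right)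
      have e1 : d * e'⁻¹ = d * f⁻¹ * d⁻¹ := by rw [he'df]; group
      rw [e1]
      exact h4.symm.eq
    rw [hX1, hX2] at key
    have hγ2 : γ⁻¹ = γ := mul_right_cancel key
    have hγ1 : γ = 1 := by
      apply odd_order_of_mem hp2 (S.hQ₀.to_le S.hle) hγQ
      have h9 := congrArg (fun z => z * γ) hγ2
      simp only [inv_mul_cancel] at h9
      rw [pow_two]
      exact h9.symm
    have h10 := hyf
    rw [hγ1, mul_one] at h10
    exact h10
  -- all of `E`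
  have F5 : ∀ g ∈ E, (y : G) * (g⁻¹ * ((y : G) * g * (y : G)⁻¹)) * (y : G)⁻¹ =
      g⁻¹ * ((y : G) * g * (y : G)⁻¹) := by
    intro g hg
    rw [hE] at hg
    induction hg using Subgroup.closure_induction with
    | mem d hd => exact F4 d hd
    | one => simp
    | mul g h hgE hhE hgy hhy =>
      have hgE' : g ∈ E := hgE
      have hhE' : h ∈ E := hhE
      have hgQ := hEQ hgE'
      have hhQ := hEQ hhE'
      obtain ⟨fg, hfg⟩ : ∃ fg, fg = g⁻¹ * ((y : G) * g * (y : G)⁻¹) := ⟨_, rfl⟩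
      obtain ⟨fh, hfh⟩ : ∃ fh, fh = h⁻¹ * ((y : G) * h * (y : G)⁻¹) := ⟨_, rfl⟩
      rw [← hfg] at hgy
      rw [← hfh] at hhy
      have hfgQ : fg ∈ Q₀ := by
        rw [hfg]
        exact Q₀.mul_mem (Q₀.inv_mem hgQ) (hyQ g hgQ)
      have hc : fg⁻¹ * h⁻¹ * fg⁻¹⁻¹ * h⁻¹⁻¹ ∈ Q₂ :=
        S.hcomm _ (Q₀.inv_mem hfgQ) _ (Q₀.inv_mem hhQ)
      obtain ⟨c, hcdef⟩ : ∃ c, c = fg⁻¹ * h⁻¹ * fg⁻¹⁻¹ * h⁻¹⁻¹ := ⟨_, rfl⟩
      rw [← hcdef] at hc
      have e1 : (g * h)⁻¹ * ((y : G) * (g * h) * (y : G)⁻¹) = fg * c * fh := by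
        rw [hcdef, hfg, hfh]
        group
      rw [e1]
      have e2 : (y : G) * (fg * c * fh) * (y : G)⁻¹ =
          ((y : G) * fg * (y : G)⁻¹) * ((y : G) * c * (y : G)⁻¹) * ((y : G) * fh * (y : G)⁻¹) := by group
      have hcy : (y : G) * c * (y : G)⁻¹ = c := by
        obtain ⟨δ, hδd⟩ : ∃ δ, δ = h⁻¹⁻¹ * ((y : G) * h⁻¹ * (y : G)⁻¹) := ⟨_, rfl⟩
        have hyh : (y : G) * h⁻¹ * (y : G)⁻¹ = h⁻¹ * δ := by rw [hδd]; group
        have hcomm : fg * δ = δ * fg := by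
          rw [hfg, hδd]
          exact hδ g hgE' h⁻¹ (E.inv_mem hhE')
        have e3 : (y : G) * c * (y : G)⁻¹ = ((y : G) * fg * (y : G)⁻¹)⁻¹ * ((y : G) * h⁻¹ * (y : G)⁻¹) *
            ((y : G) * fg * (y : G)⁻¹) * ((y : G) * h⁻¹ * (y : G)⁻¹)⁻¹ := by
          rw [hcdef]
          group
        rw [e3, hgy, hyh, hcdef]
        have e4 : fg⁻¹ * (h⁻¹ * δ) * fg * (h⁻¹ * δ)⁻¹ = fg⁻¹ * h⁻¹ * (δ * fg * δ⁻¹) * h := by group
        rw [e4, ← hcomm]
        group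
      rw [e2, hgy, hhy, hcy]
    | inv g hgE hgy =>
      have hgE' : g ∈ E := hgE
      have hgQ := hEQ hgE'
      obtain ⟨fg, hfg⟩ : ∃ fg, fg = g⁻¹ * ((y : G) * g * (y : G)⁻¹) := ⟨_, rfl⟩
      rw [← hfg] at hgy
      have hfgQ : fg ∈ Q₀ := by
        rw [hfg]
        exact Q₀.mul_mem (Q₀.inv_mem hgQ) (hyQ g hgQ)
      have hc : fg * g * fg⁻¹ * g⁻¹ ∈ Q₂ := S.hcomm _ hfgQ _ hgQ
      obtain ⟨c, hcdef⟩ : ∃ c, c = fg * g * fg⁻¹ * g⁻¹ := ⟨_, rfl⟩
      rw [← hcdef] at hc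
      have e1 : g⁻¹⁻¹ * ((y : G) * g⁻¹ * (y : G)⁻¹) = fg⁻¹ * c := by
        rw [hcdef, hfg]
        group
      rw [e1]
      have e2 : (y : G) * (fg⁻¹ * c) * (y : G)⁻¹ =
          ((y : G) * fg * (y : G)⁻¹)⁻¹ * ((y : G) * c * (y : G)⁻¹) := by group
      have hyg : (y : G) * g * (y : G)⁻¹ = g * fg := by rw [hfg]; group
      have hcy : (y : G) * c * (y : G)⁻¹ = c := by
        have e3 : (y : G) * c * (y : G)⁻¹ = ((y : G) * fg * (y : G)⁻¹) * ((y : G) * g * (y : G)⁻¹) *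
            ((y : G) * fg * (y : G)⁻¹)⁻¹ * ((y : G) * g * (y : G)⁻¹)⁻¹ := by
          rw [hcdef]
          group
        rw [e3, hgy, hyg, hcdef]
        group
      rw [e2, hgy, hcy]
  -- the commutators
  have F6 : ∀ g ∈ E, ∀ z ∈ Subgroup.zpowers (y : G), ⁅g, z⁆ ∈ Subgroup.centralizer (Subgroup.zpowers (y : G) : Set G) := by
    intro g hg z hz
    have hz' : z ∈ Submonoid.powers (y : G) := mem_powers_iff_mem_zpowers.mpr hz
    obtain ⟨j, rfl⟩ := hz'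
    obtain ⟨b, hb⟩ : ∃ b, b = (y : G) * g * (y : G)⁻¹ * g⁻¹ := ⟨_, rfl⟩
    have hyb : (y : G) * b = b * (y : G) := by
      have h1 := F5 g⁻¹ (E.inv_mem hg)
      have e0 : g⁻¹⁻¹ * ((y : G) * g⁻¹ * (y : G)⁻¹) = b⁻¹ := by rw [hb]; group
      rw [e0] at h1
      have h2 : (y : G) * b * (y : G)⁻¹ = b := by
        have e3 : (y : G) * b * (y : G)⁻¹ = ((y : G) * b⁻¹ * (y : G)⁻¹)⁻¹ := by group
        rw [e3, h1, inv_inv]
      exact mul_inv_eq_iff_eq_mul.mp h2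
    have h1 := conj_pow_step (g := (y : G)) (a := g) (b := b) hyb (by rw [hb]; group) j
    have h2 : ⁅g, (y : G) ^ j⁆ = (b ^ j)⁻¹ := by
      rw [commutatorElement_def]
      calc g * (y : G) ^ j * g⁻¹ * ((y : G) ^ j)⁻¹ = g * ((y : G) ^ j * g * ((y : G) ^ j)⁻¹)⁻¹ := by group
        _ = g * (b ^ j * g)⁻¹ := by rw [h1]
        _ = (b ^ j)⁻¹ := by group
    change ⁅g, (y : G) ^ j⁆ ∈ _
    rw [h2, Subgroup.mem_centralizer_iff]
    intro w hw
    obtain ⟨i, rfl⟩ := Subgroup.mem_zpowers_iff.mp hw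
    have h3 : Commute (y : G) (b ^ j)⁻¹ := ((show Commute (y : G) b from hyb).pow_right j).inv_right
    exact (h3.zpow_left i).eq
  rw [Subgroup.commutator_eq_bot_iff_le_centralizer, Subgroup.commutator_le]
  intro g hg z hz
  exact F6 g hg z hz


end Sec

end Cfsg.Agent.H24.CQ3
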