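import Mathlib
import Cfsg.Agent.Lib.H24.CQ3a

/-! Stability in a section for `p = 3`: the commutator form. -/

set_option autoImplicit false

namespace Cfsg.Agent.H24.CQ3

open Cfsg Cfsg.Agent.H08.CQ Cfsg.Agent.H08.CQ.Sec
open scoped commutatorElement

section Form

variable {L : Type*} [Group L] {W : Type*} [AddCommGroup W]

/-- The center of a group, as a commutative group. -/
instance centerCommGroupH24 : CommGroup ↥(Subgroup.center L) :=
  { (inferInstance : Group ↥(Subgroup.center L)) with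
    mul_comm := fun a b => Subtype.ext (Subgroup.mem_center_iff.mp a.2 b).symm }

/-- The commutator form on a section of class two. -/
theorem form_exists (φ : L → W) (hadd : ∀ a b, φ (a * b) = φ a + φ b) (hsurj : ∀ w, ∃ a, φ a = w)
    (hker : ∀ a, φ a = 0 → a ∈ Subgroup.center L)
    (hcomm : ∀ a b : L, a * b * a⁻¹ * b⁻¹ ∈ Subgroup.center L) :
    ∃ B : W →+ W →+ Additive (Subgroup.center L),
      ∀ a b : L, ((Additive.toMul (B (φ a) (φ b)) : Subgroup.center L) : L) = a * b * a⁻¹ * b⁻¹ := by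
  classical
  choose ℓ hℓ using hsurj
  let cv : L → L → Subgroup.center L := fun a b => ⟨a * b * a⁻¹ * b⁻¹, hcomm a b⟩
  have hφ1 : φ 1 = 0 := by
    have h := hadd 1 1
    rw [mul_one] at h
    exact left_eq_add.mp h
  have hφinv : ∀ a, φ a⁻¹ = - φ a := by
    intro a
    have h := hadd a⁻¹ a
    rw [inv_mul_cancel, hφ1] at h
    exact eq_neg_of_add_eq_zero_left h.symm
  have hZ : ∀ z ∈ Subgroup.center L, ∀ g, z * g = g * z := fun z hz g =>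
    (Subgroup.mem_center_iff.mp hz g).symm
  have hstep1 : ∀ a z b : L, z ∈ Subgroup.center L →
      (a * z) * b * (a * z)⁻¹ * b⁻¹ = a * b * a⁻¹ * b⁻¹ := by
    intro a z b hz
    have e : (a * z) * b * (a * z)⁻¹ * b⁻¹ = a * (z * b) * z⁻¹ * a⁻¹ * b⁻¹ := by group
    rw [e, hZ z hz b]
    group
  have hstep2 : ∀ a b z : L, z ∈ Subgroup.center L →
      a * (b * z) * a⁻¹ * (b * z)⁻¹ = a * b * a⁻¹ * b⁻¹ := by
    intro a b z hz
    have e : a * (b * z) * a⁻¹ * (b * z)⁻¹ = a * b * (z * a⁻¹) * z⁻¹ * b⁻¹ := by group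
    rw [e, hZ z hz a⁻¹]
    group
  have hcong : ∀ a a' b b', φ a = φ a' → φ b = φ b' → cv a b = cv a' b' := by
    intro a a' b b' h1 h2
    have hz₁ : a⁻¹ * a' ∈ Subgroup.center L := hker _ (by rw [hadd, hφinv, h1]; simp)
    have hz₂ : b⁻¹ * b' ∈ Subgroup.center L := hker _ (by rw [hadd, hφinv, h2]; simp)
    have ea : a' = a * (a⁻¹ * a') := by group
    have eb : b' = b * (b⁻¹ * b') := by group
    apply Subtype.ext
    change a * b * a⁻¹ * b⁻¹ = a' * b' * a'⁻¹ * b'⁻¹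
    rw [ea, eb, hstep1 _ _ _ hz₁, hstep2 _ _ _ hz₂]
  have hl : ∀ a₁ a₂ b : L, (a₁ * a₂) * b * (a₁ * a₂)⁻¹ * b⁻¹ = (a₁ * b * a₁⁻¹ * b⁻¹) * (a₂ * b * a₂⁻¹ * b⁻¹) := by
    intro a₁ a₂ b
    obtain ⟨c, hc⟩ : ∃ c, c = a₂ * b * a₂⁻¹ * b⁻¹ := ⟨_, rfl⟩
    have hcz : c ∈ Subgroup.center L := hc ▸ hcomm a₂ b
    have e1 : (a₁ * a₂) * b * (a₁ * a₂)⁻¹ * b⁻¹ = a₁ * c * b * a₁⁻¹ * b⁻¹ := by rw [hc]; group
    rw [e1, ← hc, ← hZ c hcz a₁, ← hZ c hcz (a₁ * b * a₁⁻¹ * b⁻¹)]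
    group
  have hr : ∀ a b₁ b₂ : L, a * (b₁ * b₂) * a⁻¹ * (b₁ * b₂)⁻¹ = (a * b₁ * a⁻¹ * b₁⁻¹) * (a * b₂ * a⁻¹ * b₂⁻¹) := by
    intro a b₁ b₂
    obtain ⟨c, hc⟩ : ∃ c, c = a * b₂ * a⁻¹ * b₂⁻¹ := ⟨_, rfl⟩
    have hcz : c ∈ Subgroup.center L := hc ▸ hcomm a b₂
    have e1 : a * (b₁ * b₂) * a⁻¹ * (b₁ * b₂)⁻¹ = a * b₁ * a⁻¹ * (c * b₁⁻¹) := by rw [hc]; group
    rw [e1, ← hc, hZ c hcz b₁⁻¹]
    group
  let Bf : W → W → Additive (Subgroup.center L) := fun w₁ w₂ => Additive.ofMul (cv (ℓ w₁) (ℓ w₂))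
  have hspec : ∀ a b, Bf (φ a) (φ b) = Additive.ofMul (cv a b) := by
    intro a b
    exact congrArg Additive.ofMul (hcong _ _ _ _ (hℓ _) (hℓ _))
  have hBl : ∀ w₁ w₂ w₃, Bf (w₁ + w₂) w₃ = Bf w₁ w₃ + Bf w₂ w₃ := by
    intro w₁ w₂ w₃
    obtain ⟨a₁, rfl⟩ : ∃ a, φ a = w₁ := ⟨_, hℓ _⟩
    obtain ⟨a₂, rfl⟩ : ∃ a, φ a = w₂ := ⟨_, hℓ _⟩
    obtain ⟨a₃, rfl⟩ : ∃ a, φ a = w₃ := ⟨_, hℓ _⟩
    rw [← hadd, hspec, hspec, hspec, ← ofMul_mul]
    congr 1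
    exact Subtype.ext (hl _ _ _)
  have hBr : ∀ w₁ w₂ w₃, Bf w₁ (w₂ + w₃) = Bf w₁ w₂ + Bf w₁ w₃ := by
    intro w₁ w₂ w₃
    obtain ⟨a₁, rfl⟩ : ∃ a, φ a = w₁ := ⟨_, hℓ _⟩
    obtain ⟨a₂, rfl⟩ : ∃ a, φ a = w₂ := ⟨_, hℓ _⟩
    obtain ⟨a₃, rfl⟩ : ∃ a, φ a = w₃ := ⟨_, hℓ _⟩
    rw [← hadd, hspec, hspec, hspec, ← ofMul_mul]
    congr 1
    exact Subtype.ext (hr _ _ _)
  refine ⟨AddMonoidHom.mk' (fun w₁ => AddMonoidHom.mk' (fun w₂ => Bf w₁ w₂) (hBr w₁))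
    (fun w₁ w₂ => AddMonoidHom.ext (fun w₃ => hBl w₁ w₂ w₃)), ?_⟩
  intro a b
  change ((Additive.toMul (Bf (φ a) (φ b)) : Subgroup.center L) : L) = _
  rw [hspec]
  rfl

theorem form_inv (φ : L → W) (hsurj : ∀ w, ∃ a, φ a = w)
    (B : W →+ W →+ Additive (Subgroup.center L))
    (hB : ∀ a b : L, ((Additive.toMul (B (φ a) (φ b)) : Subgroup.center L) : L) = a * b * a⁻¹ * b⁻¹)
    (A : AddMonoid.End W) (t : L → L) (ht : ∀ a, φ (t a) = A (φ a))
    (hfix : ∀ a b, t a * t b * (t a)⁻¹ * (t b)⁻¹ = a * b * a⁻¹ * b⁻¹) :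
    ∀ w₁ w₂, B (A w₁) (A w₂) = B w₁ w₂ := by
  intro w₁ w₂
  obtain ⟨a, rfl⟩ := hsurj w₁
  obtain ⟨b, rfl⟩ := hsurj w₂
  rw [← ht, ← ht]
  apply Additive.toMul.injective
  apply Subtype.ext
  rw [hB, hB, hfix]

end Form

section Sk

variable {W Z : Type*} [AddCommGroup W] [AddCommGroup Z]

/-- Skew-adjointness for a biadditive form. -/
def Sk (B : W →+ W →+ Z) (A : AddMonoid.End W) : Prop := ∀ w₁ w₂, B (A w₁) w₂ + B w₁ (A w₂) = 0

variable {B : W →+ W →+ Z} {A A' : AddMonoid.End W}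

theorem sk_of_inv (hinv : ∀ w₁ w₂, B (A w₁) (A w₂) = B w₁ w₂) (hA : A * A = -1) : Sk B A := by
  intro w₁ w₂
  have h := hinv w₁ (-(A w₂))
  have h2 : A (A w₂) = -w₂ := by
    have h3 := congrArg (fun F : AddMonoid.End W => F w₂) hA
    exact h3
  have e : A (-(A w₂)) = w₂ := by
    rw [map_neg, h2, neg_neg]
  rw [e, map_neg] at h
  rw [h]
  simp

theorem Sk.add (h : Sk B A) (h' : Sk B A') : Sk B (A + A') := by
  intro w₁ w₂
  have e : B ((A + A') w₁) w₂ + B w₁ ((A + A') w₂) =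
      (B (A w₁) w₂ + B w₁ (A w₂)) + (B (A' w₁) w₂ + B w₁ (A' w₂)) := by
    change B (A w₁ + A' w₁) w₂ + B w₁ (A w₂ + A' w₂) = _
    rw [map_add, AddMonoidHom.add_apply, map_add]
    abel
  rw [e, h, h', add_zero]

theorem Sk.neg (h : Sk B A) : Sk B (-A) := by
  intro w₁ w₂
  have e : B ((-A) w₁) w₂ + B w₁ ((-A) w₂) = -(B (A w₁) w₂ + B w₁ (A w₂)) := by
    change B (-(A w₁)) w₂ + B w₁ (-(A w₂)) = _
    rw [map_neg, AddMonoidHom.neg_apply, map_neg]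
    abel
  rw [e, h, neg_zero]

theorem Sk.sq0 (h : Sk B A) (h0 : A * A = 0) (w₁ w₂ : W) : B (A w₁) (A w₂) = 0 := by
  have h1 := h w₁ (A w₂)
  have h2 : A (A w₂) = 0 := by
    have h3 := congrArg (fun F : AddMonoid.End W => F w₂) h0
    exact h3
  rwa [h2, map_zero, add_zero] at h1

end Sk

section Sec

variable {G : Type*} [Group G] [Finite G] {p : ℕ} [Fact p.Prime]
variable {Q₀ Q₂ H : Subgroup G} {W : Type*} [AddCommGroup W] (S : Sec p Q₀ Q₂ H W)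

include S

lemma closure_le_Q₀ (s : H) : Subgroup.closure (Iset Q₀ H s) ≤ Q₀ := by
  rw [Subgroup.closure_le]
  exact fun e he => he.1

lemma conj_closure (s τ : H)
    (hτs : ∀ a ∈ Q₀, (τ : G) * ((s : G) * a * (s : G)⁻¹) * (τ : G)⁻¹ =
      (s : G) * ((τ : G) * a * (τ : G)⁻¹) * (s : G)⁻¹) :
    ∀ g ∈ Subgroup.closure (Iset Q₀ H s), (τ : G) * g * (τ : G)⁻¹ ∈ Subgroup.closure (Iset Q₀ H s) := by
  have hyI : ∀ d ∈ Iset Q₀ H s, (τ : G) * d * (τ : G)⁻¹ ∈ Iset Q₀ H s := by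
    rintro d ⟨hd, hds⟩
    refine ⟨S.hH τ τ.2 d hd, ?_⟩
    have h1 := hτs d hd
    rw [hds] at h1
    rw [← h1]
    group
  intro g hg
  have hle : Subgroup.closure (Iset Q₀ H s) ≤ (Subgroup.closure (Iset Q₀ H s)).comap (MulAut.conj (τ : G)).toMonoidHom := by
    rw [Subgroup.closure_le]
    intro d hd
    exact Subgroup.subset_closure (hyI d hd)
  exact hle hg

lemma iset_lift (hp3 : p = 3) (s : H) (hs1 : (orderOf (s : G)).Coprime p) (hs2 : S.σ s = -1) (w : W) :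
    ∃ e ∈ Iset Q₀ H s, S.π e = w := by
  obtain ⟨a, ha, rfl⟩ := S.hsurj w
  have hsa := S.hH s s.2 a ha
  have he₀Q : a⁻¹ * ((s : G) * a * (s : G)⁻¹) ∈ Q₀ := Q₀.mul_mem (Q₀.inv_mem ha) hsa
  refine ⟨a⁻¹ * ((s : G) * a * (s : G)⁻¹), ⟨he₀Q, ?_⟩, ?_⟩
  · have h3 := S.sq_fix s hs1 hs2 ha
    have e1 : (s : G) * (a⁻¹ * ((s : G) * a * (s : G)⁻¹)) * (s : G)⁻¹ = ((s : G) * a * (s : G)⁻¹)⁻¹ * ((s : G) * ((s : G) * a * (s : G)⁻¹) * (s : G)⁻¹) := by
      group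
    rw [e1, h3]
    group
  · rw [S.hadd _ (Q₀.inv_mem ha) _ hsa, S.π_inv ha, ← S.hσ s a ha, hs2]
    change - S.π a + - S.π a = _
    have h : 3 • S.π a = 0 := by
      have h0 := S.hW (S.π a)
      have e : (3 : ℕ) = p := hp3.symm
      rw [e]
      exact h0
    have h4 : S.π a + S.π a + S.π a = 0 := by
      rw [← h]
      simp only [succ_nsmul, zero_nsmul, zero_add]
    have e : - S.π a + - S.π a = S.π a - (S.π a + S.π a + S.π a) := by abel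
    rw [e, h4, sub_zero]

lemma Q₂_comm_closure (hp2 : p ≠ 2) (s : H) (hs1 : (orderOf (s : G)).Coprime p) :
    ∀ c ∈ Q₂, ∀ g ∈ Subgroup.closure (Iset Q₀ H s), c * g = g * c := by
  have hsC : (s : G) ∈ Subgroup.centralizer (Q₂ : Set G) := S.hpc s s.2 hs1
  intro c hc g hg
  have hle : Subgroup.closure (Iset Q₀ H s) ≤ Subgroup.centralizer ({c} : Set G) := by
    rw [Subgroup.closure_le]
    intro d hd
    rw [SetLike.mem_coe, Subgroup.mem_centralizer_singleton_iff]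
    exact (S.inv_comm s hsC hp2 hc hd.1 hd.2).symm
  have := hle hg
  rw [Subgroup.mem_centralizer_singleton_iff] at this
  exact this.symm

/-- The commutator form on `W`, with values in the center of `E`. -/
theorem exists_form (hp2 : p ≠ 2) (hp3 : p = 3) (s : H) (hs1 : (orderOf (s : G)).Coprime p) (hs2 : S.σ s = -1) :
    ∃ B : W →+ W →+ Additive (Subgroup.center ↥(Subgroup.closure (Iset Q₀ H s))),
      ∀ a b : ↥(Subgroup.closure (Iset Q₀ H s)),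
        ((Additive.toMul (B (S.π a) (S.π b)) : Subgroup.center ↥(Subgroup.closure (Iset Q₀ H s))) :
          ↥(Subgroup.closure (Iset Q₀ H s))) = a * b * a⁻¹ * b⁻¹ := by
  have hEQ := closure_le_Q₀ S s
  have hc := Q₂_comm_closure S hp2 s hs1
  have hker' : ∀ x : ↥(Subgroup.closure (Iset Q₀ H s)), (x : G) ∈ Q₂ →
      x ∈ Subgroup.center ↥(Subgroup.closure (Iset Q₀ H s)) := by
    intro x hx
    rw [Subgroup.mem_center_iff]
    intro g
    apply Subtype.ext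
    exact (hc x hx g g.2).symm
  refine form_exists (fun a : ↥(Subgroup.closure (Iset Q₀ H s)) => S.π a) ?_ ?_ ?_ ?_
  · intro a b
    exact S.hadd a (hEQ a.2) b (hEQ b.2)
  · intro w
    obtain ⟨e, he, rfl⟩ := iset_lift S hp3 s hs1 hs2 w
    exact ⟨⟨e, Subgroup.subset_closure he⟩, rfl⟩
  · intro a ha
    exact hker' a ((S.h0 a (hEQ a.2)).mp ha)
  · intro a b
    exact hker' _ (S.hcomm a (hEQ a.2) b (hEQ b.2))

/-- Invariance of the form. -/
theorem form_tau (hp3 : p = 3) (s : H) (hs1 : (orderOf (s : G)).Coprime p) (hs2 : S.σ s = -1)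
    (B : W →+ W →+ Additive (Subgroup.center ↥(Subgroup.closure (Iset Q₀ H s))))
    (hB : ∀ a b : ↥(Subgroup.closure (Iset Q₀ H s)),
        ((Additive.toMul (B (S.π a) (S.π b)) : Subgroup.center ↥(Subgroup.closure (Iset Q₀ H s))) :
          ↥(Subgroup.closure (Iset Q₀ H s))) = a * b * a⁻¹ * b⁻¹)
    (τ : H) (hτC : (τ : G) ∈ Subgroup.centralizer (Q₂ : Set G))
    (hτs : ∀ a ∈ Q₀, (τ : G) * ((s : G) * a * (s : G)⁻¹) * (τ : G)⁻¹ =
      (s : G) * ((τ : G) * a * (τ : G)⁻¹) * (s : G)⁻¹) :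
    ∀ w₁ w₂, B (S.σ τ w₁) (S.σ τ w₂) = B w₁ w₂ := by
  have hEQ := closure_le_Q₀ S s
  have hcl := conj_closure S s τ hτs
  refine form_inv (fun a : ↥(Subgroup.closure (Iset Q₀ H s)) => S.π a) ?_ B hB (S.σ τ)
    (fun a => ⟨(τ : G) * a * (τ : G)⁻¹, hcl a a.2⟩) ?_ ?_
  · intro w
    obtain ⟨e, he, rfl⟩ := iset_lift S hp3 s hs1 hs2 w
    exact ⟨⟨e, Subgroup.subset_closure he⟩, rfl⟩
  · intro a
    exact (S.hσ τ a (hEQ a.2)).symm
  · intro a b
    apply Subtype.ext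
    have h1 : (a : G) * b * (a : G)⁻¹ * (b : G)⁻¹ ∈ Q₂ := S.hcomm a (hEQ a.2) b (hEQ b.2)
    have h2 := (Subgroup.mem_centralizer_iff.mp hτC) _ h1
    change ((τ : G) * a * (τ : G)⁻¹) * ((τ : G) * b * (τ : G)⁻¹) * ((τ : G) * a * (τ : G)⁻¹)⁻¹ *
      ((τ : G) * b * (τ : G)⁻¹)⁻¹ = (a : G) * b * (a : G)⁻¹ * (b : G)⁻¹
    have e : ((τ : G) * a * (τ : G)⁻¹) * ((τ : G) * b * (τ : G)⁻¹) * ((τ : G) * a * (τ : G)⁻¹)⁻¹ *
      ((τ : G) * b * (τ : G)⁻¹)⁻¹ = (τ : G) * ((a : G) * b * (a : G)⁻¹ * (b : G)⁻¹) * (τ : G)⁻¹ := by group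
    rw [e, ← h2]
    group

/-- The commutation condition of `quad'`, from the vanishing of the form on the image of `σ y - 1`. -/
theorem delta_comm (s y : H)
    (B : W →+ W →+ Additive (Subgroup.center ↥(Subgroup.closure (Iset Q₀ H s))))
    (hB : ∀ a b : ↥(Subgroup.closure (Iset Q₀ H s)),
        ((Additive.toMul (B (S.π a) (S.π b)) : Subgroup.center ↥(Subgroup.closure (Iset Q₀ H s))) :
          ↥(Subgroup.closure (Iset Q₀ H s))) = a * b * a⁻¹ * b⁻¹)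
    (hys : ∀ a ∈ Q₀, (y : G) * ((s : G) * a * (s : G)⁻¹) * (y : G)⁻¹ =
      (s : G) * ((y : G) * a * (y : G)⁻¹) * (s : G)⁻¹)
    (hz : ∀ w₁ w₂, B ((S.σ y - 1) w₁) ((S.σ y - 1) w₂) = 0) :
    ∀ g ∈ Subgroup.closure (Iset Q₀ H s), ∀ h ∈ Subgroup.closure (Iset Q₀ H s),
      (g⁻¹ * ((y : G) * g * (y : G)⁻¹)) * (h⁻¹ * ((y : G) * h * (y : G)⁻¹)) =
        (h⁻¹ * ((y : G) * h * (y : G)⁻¹)) * (g⁻¹ * ((y : G) * g * (y : G)⁻¹)) := by
  have hEQ := closure_le_Q₀ S s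
  have hcl := conj_closure S s y hys
  have hπf : ∀ a ∈ Q₀, S.π (a⁻¹ * ((y : G) * a * (y : G)⁻¹)) = (S.σ y - 1) (S.π a) := by
    intro a ha
    rw [S.hadd _ (Q₀.inv_mem ha) _ (S.hH y y.2 a ha), S.π_inv ha, ← S.hσ y a ha]
    change _ = S.σ y (S.π a) - S.π a
    abel
  intro g hg h hh
  have hδg : g⁻¹ * ((y : G) * g * (y : G)⁻¹) ∈ Subgroup.closure (Iset Q₀ H s) :=
    Subgroup.mul_mem _ (Subgroup.inv_mem _ hg) (hcl g hg)
  have hδh : h⁻¹ * ((y : G) * h * (y : G)⁻¹) ∈ Subgroup.closure (Iset Q₀ H s) :=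
    Subgroup.mul_mem _ (Subgroup.inv_mem _ hh) (hcl h hh)
  have h1 := hB ⟨_, hδg⟩ ⟨_, hδh⟩
  have e0 : S.π (g⁻¹ * ((y : G) * g * (y : G)⁻¹)) = (S.σ y - 1) (S.π g) := hπf g (hEQ hg)
  have e0' : S.π (h⁻¹ * ((y : G) * h * (y : G)⁻¹)) = (S.σ y - 1) (S.π h) := hπf h (hEQ hh)
  simp only [e0, e0', hz] at h1
  have h2 := congrArg Subtype.val h1
  have h3 : (g⁻¹ * ((y : G) * g * (y : G)⁻¹)) * (h⁻¹ * ((y : G) * h * (y : G)⁻¹)) *
      (g⁻¹ * ((y : G) * g * (y : G)⁻¹))⁻¹ * (h⁻¹ * ((y : G) * h * (y : G)⁻¹))⁻¹ = 1 := h2.symm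
  have h4 := mul_inv_eq_one.mp h3
  exact mul_inv_eq_iff_eq_mul.mp h4

/-- Elements acting as square roots of `-1`, adjusted to commute with `s`, give skew endomorphisms. -/
theorem sk_of_sqrt (hp2 : p ≠ 2) (hp3 : p = 3) (s : H) (hs1 : (orderOf (s : G)).Coprime p) (hs2 : S.σ s = -1)
    (B : W →+ W →+ Additive (Subgroup.center ↥(Subgroup.closure (Iset Q₀ H s))))
    (hB : ∀ a b : ↥(Subgroup.closure (Iset Q₀ H s)),
        ((Additive.toMul (B (S.π a) (S.π b)) : Subgroup.center ↥(Subgroup.closure (Iset Q₀ H s))) :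
          ↥(Subgroup.closure (Iset Q₀ H s))) = a * b * a⁻¹ * b⁻¹)
    (g : H) (hg : S.σ g * S.σ g = -1) : Sk B (S.σ g) := by
  have hp : p.Prime := Fact.out
  have hcp2 : (2 : ℕ).Coprime p := (Nat.coprime_primes Nat.prime_two hp).mpr (Ne.symm hp2)
  have hcp4 : (4 : ℕ).Coprime p := by
    have : (2 ^ 2 : ℕ).Coprime p := hcp2.pow_left 2
    simpa using this
  have hpow4 : (S.σ g) ^ 4 = 1 := by
    have e4 : (S.σ g) ^ 4 = ((S.σ g) * (S.σ g)) * ((S.σ g) * (S.σ g)) := by noncomm_ring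
    rw [e4, hg]
    noncomm_ring
  obtain ⟨k, hk, hko⟩ := exists_coprime_part (p := p) S.σ g (by norm_num) hpow4 hcp4
  have hcoe : ∀ g : H, orderOf g = orderOf (g : G) := fun g => (Subgroup.orderOf_coe g).symm
  have hxC := S.hpc ((g ^ k : H) : G) (g ^ k).2 (by rw [← hcoe]; exact hko)
  obtain ⟨τ, hτC, hτσ, hτs⟩ := S.adjust hp2 s hs1 hs2 (g ^ k) hxC
  have h1 := form_tau S hp3 s hs1 hs2 B hB τ hτC hτs
  rw [hτσ, hk] at h1
  exact sk_of_inv h1 hg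

theorem false_of_pair3 [Nontrivial W] [Finite H] (hp3 : p = 3) (hst : IsNormalizerPStable p G) (u v : H)
    (hα : (S.σ u - 1) * (S.σ u - 1) = 0) (hβ : (S.σ v - 1) * (S.σ v - 1) = 0)
    (hαβ : (S.σ u - 1) * (S.σ v - 1) + (S.σ v - 1) * (S.σ u - 1) = -4) : False := by
  classical
  have hp : p.Prime := Fact.out
  have hp2 : p ≠ 2 := by omega
  have hcp2 : (2 : ℕ).Coprime p := (Nat.coprime_primes Nat.prime_two hp).mpr (Ne.symm hp2)
  have hcp4 : (4 : ℕ).Coprime p := by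
    have : (2 ^ 2 : ℕ).Coprime p := hcp2.pow_left 2
    simpa using this
  have hpA : ((p : ℕ) : AddMonoid.End W) = 0 := by
    apply AddMonoidHom.ext
    intro w
    exact (AddMonoid.End.natCast_apply p w).trans (S.hW w)
  have h3E : (3 : AddMonoid.End W) = 0 := by
    rw [hp3] at hpA
    exact_mod_cast hpA
  obtain ⟨b, -, hb⟩ := Nat.exists_mul_mod_eq_one_of_coprime hcp4 hp.one_lt
  have h4b : ((4 : AddMonoid.End W)) * (b : AddMonoid.End W) = 1 := by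
    have h1 : (4 * b : ℕ) = p * (4 * b / p) + 1 := by
      conv_lhs => rw [← Nat.div_add_mod (4 * b) p, hb]
    have h2 : ((4 * b : ℕ) : AddMonoid.End W) = 1 := by
      rw [h1]
      push_cast
      rw [hpA, zero_mul, zero_add]
    push_cast at h2
    exact h2
  set e : AddMonoid.End W := S.σ u - 1 with he
  set β : AddMonoid.End W := S.σ v - 1 with hβdef
  set f : AddMonoid.End W := -((b : AddMonoid.End W) * β) with hf
  have hbβ : β * (b : AddMonoid.End W) = (b : AddMonoid.End W) * β := (Nat.cast_comm b β).symm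
  have hbe : e * (b : AddMonoid.End W) = (b : AddMonoid.End W) * e := (Nat.cast_comm b e).symm
  have hee : e * e = 0 := hα
  have hff : f * f = 0 := by
    have e1 : f * f = (b : AddMonoid.End W) * (β * (b : AddMonoid.End W)) * β := by
      rw [hf]
      noncomm_ring
    rw [e1, hbβ]
    have e2 : (b : AddMonoid.End W) * ((b : AddMonoid.End W) * β) * β =
        (b : AddMonoid.End W) * (b : AddMonoid.End W) * (β * β) := by noncomm_ring
    rw [e2, hβ, mul_zero]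
  have hef : e * f + f * e = 1 := by
    have e1 : e * f + f * e = - (e * (b : AddMonoid.End W)) * β - (b : AddMonoid.End W) * (β * e) := by
      rw [hf]
      noncomm_ring
    rw [e1, hbe]
    have e2 : - ((b : AddMonoid.End W) * e) * β - (b : AddMonoid.End W) * (β * e) =
        - ((b : AddMonoid.End W) * (e * β + β * e)) := by noncomm_ring
    rw [e2, hαβ]
    have e3 : - ((b : AddMonoid.End W) * (-4)) = (4 : AddMonoid.End W) * (b : AddMonoid.End W) := by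
      rw [mul_neg, neg_neg]
      exact (Nat.cast_comm b 4)
    rw [e3, h4b]
  have hσu : S.σ u = 1 + e := by rw [he]; abel
  have hσv : S.σ v = 1 + β := by rw [hβdef]; abel
  have hσinv : ∀ g : H, S.σ g⁻¹ * S.σ g = 1 := fun g => by rw [← map_mul, inv_mul_cancel, map_one]
  have hVb : S.σ (v ^ b) = 1 - f := by
    rw [map_pow, hσv, pow_one_add_of_sq hβ b, hf]
    abel
  set W1 : H := u * v ^ b * u with hW1
  have hσW1 : S.σ W1 = e - f := by
    rw [hW1, map_mul, map_mul, hVb, hσu]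
    exact cl_word hee hff hef
  have hpow4 : (S.σ W1) ^ 4 = 1 := by
    rw [hσW1]
    have e4 : (e - f) ^ 4 = ((e - f) * (e - f)) * ((e - f) * (e - f)) := by noncomm_ring
    rw [e4, cl_sq hee hff hef]
    noncomm_ring
  obtain ⟨k₁, hk₁, hk₁o⟩ := exists_coprime_part (p := p) S.σ W1 (by norm_num) hpow4 hcp4
  set x₁ : H := W1 ^ k₁ with hx₁
  have hcoe : ∀ g : H, orderOf g = orderOf (g : G) := fun g => (Subgroup.orderOf_coe g).symm
  set s : H := x₁ * x₁ with hs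
  have hs1 : (orderOf (s : G)).Coprime p := by
    rw [← hcoe]
    have e : s = x₁ ^ 2 := by rw [hs, pow_two]
    rw [e]
    exact Nat.Coprime.coprime_dvd_left (orderOf_pow_dvd 2) hk₁o
  have hs2 : S.σ s = -1 := by
    rw [hs, map_mul, hk₁, hσW1]
    exact cl_sq hee hff hef
  -- the form
  obtain ⟨B, hB⟩ := exists_form S hp2 hp3 s hs1 hs2
  have hsq : (e - f) * (e - f) = -1 := cl_sq hee hff hef
  have hsk := sk_of_sqrt S hp2 hp3 s hs1 hs2 B hB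
  have hu1 : (1 + e) * (1 - e) = 1 := by
    linear_combination (norm := noncomm_ring) (-1 : AddMonoid.End W) * hee
  have hu2 : (1 - e) * (1 + e) = 1 := by
    linear_combination (norm := noncomm_ring) (-1 : AddMonoid.End W) * hee
  have hσui : S.σ u⁻¹ = 1 - e := by
    have h1 := hσinv u
    rw [hσu] at h1
    calc S.σ u⁻¹ = S.σ u⁻¹ * ((1 + e) * (1 - e)) := by rw [hu1, mul_one]
      _ = (S.σ u⁻¹ * (1 + e)) * (1 - e) := by rw [mul_assoc]
      _ = 1 - e := by rw [h1, one_mul]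
  set A₁ : AddMonoid.End W := e - f with hA₁
  set A₂ : AddMonoid.End W := (1 + e) * A₁ * (1 - e) with hA₂
  set A₄ : AddMonoid.End W := (1 - e) * A₁ * (1 + e) with hA₄
  have hsk1 : Sk B A₁ := by
    have h := hsk W1 (by rw [hσW1]; exact hsq)
    rwa [hσW1] at h
  have hA₂sq : A₂ * A₂ = -1 := by
    have e1 : A₂ * A₂ = (1 + e) * A₁ * ((1 - e) * (1 + e)) * A₁ * (1 - e) := by
      rw [hA₂]
      noncomm_ring
    rw [e1, hu2, mul_one]
    have e2 : (1 + e) * A₁ * A₁ * (1 - e) = (1 + e) * (A₁ * A₁) * (1 - e) := by noncomm_ring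
    rw [e2, hsq]
    have e3 : (1 + e) * (-1) * (1 - e) = -((1 + e) * (1 - e)) := by noncomm_ring
    rw [e3, hu1]
  have hA₄sq : A₄ * A₄ = -1 := by
    have e1 : A₄ * A₄ = (1 - e) * A₁ * ((1 + e) * (1 - e)) * A₁ * (1 + e) := by
      rw [hA₄]
      noncomm_ring
    rw [e1, hu1, mul_one]
    have e2 : (1 - e) * A₁ * A₁ * (1 + e) = (1 - e) * (A₁ * A₁) * (1 + e) := by noncomm_ring
    rw [e2, hsq]
    have e3 : (1 - e) * (-1) * (1 + e) = -((1 - e) * (1 + e)) := by noncomm_ring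
    rw [e3, hu2]
  have hσg2 : S.σ (u * W1 * u⁻¹) = A₂ := by
    rw [map_mul, map_mul, hσu, hσW1, hσui]
  have hσg4 : S.σ (u⁻¹ * W1 * u) = A₄ := by
    rw [map_mul, map_mul, hσu, hσW1, hσui]
  have hsk2 : Sk B A₂ := by
    have h := hsk (u * W1 * u⁻¹) (by rw [hσg2]; exact hA₂sq)
    rwa [hσg2] at h
  have hsk4 : Sk B A₄ := by
    have h := hsk (u⁻¹ * W1 * u) (by rw [hσg4]; exact hA₄sq)
    rwa [hσg4] at h
  have hefe : e * f * e = e := cl_efe hee hef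
  have hsum : e = -(A₁ + A₂ + A₄) := by
    have h0 : e + (A₁ + A₂ + A₄) = 0 := by
      rw [hA₂, hA₄, hA₁]
      linear_combination (norm := noncomm_ring) (2 : AddMonoid.End W) * hefe - (2 : AddMonoid.End W) * e * hee + h3E * ((2 : AddMonoid.End W) * e - f)
    exact eq_neg_of_add_eq_zero_left h0
  have hske : Sk B e := by
    rw [hsum]
    exact ((hsk1.add hsk2).add hsk4).neg
  have hskf : Sk B (-f) := by
    have e1 : -f = A₁ + (-e) := by
      rw [hA₁]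
      abel
    rw [e1]
    exact hsk1.add hske.neg
  have hff' : (-f) * (-f) = 0 := by rw [neg_mul_neg, hff]
  -- the quadratic elements
  obtain ⟨y, hyσ, hys⟩ := adjust' S hp2 s hs1 hs2 u
  obtain ⟨y', hy'σ, hy's⟩ := adjust' S hp2 s hs1 hs2 (v ^ b)
  have hyq1 : S.σ y - 1 = e := by
    rw [hyσ, hσu]
    abel
  have hy'q1 : S.σ y' - 1 = -f := by
    rw [hy'σ, hVb]
    abel
  have hyq : (S.σ y - 1) * (S.σ y - 1) = 0 := by
    rw [hyq1, hee]
  have hy'q : (S.σ y' - 1) * (S.σ y' - 1) = 0 := by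
    rw [hy'q1, hff']
  have hδ := delta_comm S s y B hB hys (by
    rw [hyq1]
    exact hske.sq0 hee)
  have hδ' := delta_comm S s y' B hB hy's (by
    rw [hy'q1]
    exact hskf.sq0 hff')
  obtain ⟨hyN, hyQ⟩ := quad' S hp2 s hs1 y hδ hys hyq
  obtain ⟨hy'N, hy'Q⟩ := quad' S hp2 s hs1 y' hδ' hy's hy'q
  set E := Subgroup.closure (Iset Q₀ H s) with hE
  have hEQ : E ≤ Q₀ := by
    rw [hE, Subgroup.closure_le]
    exact fun e he => he.1
  have hEp : IsPGroup p E := S.hQ₀.to_le hEQ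
  have h1 := hst E hEp y hyN hyQ
  have h2 := hst E hEp y' hy'N hy'Q
  set N₁ := Subgroup.normalizer (E : Set G) with hN₁
  set C₁ := (Subgroup.centralizer (E : Set G)).subgroupOf N₁ with hC₁
  set O₁ := pCore p (↥N₁ ⧸ C₁) with hO₁
  have hO₁p : IsPGroup p O₁ := Cfsg.Agent.H01.pCore_isPGroup p
  let n₁ : N₁ := (⟨y, hyN⟩ * ⟨y', hy'N⟩ * ⟨y, hyN⟩) * (⟨y, hyN⟩ * ⟨y', hy'N⟩ * ⟨y, hyN⟩)
  have hn₁ : (QuotientGroup.mk n₁ : ↥N₁ ⧸ C₁) ∈ O₁ := by
    have e1 : (QuotientGroup.mk n₁ : ↥N₁ ⧸ C₁) =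
        ((QuotientGroup.mk ⟨y, hyN⟩ * QuotientGroup.mk ⟨y', hy'N⟩ * QuotientGroup.mk ⟨y, hyN⟩) *
          (QuotientGroup.mk ⟨y, hyN⟩ * QuotientGroup.mk ⟨y', hy'N⟩ * QuotientGroup.mk ⟨y, hyN⟩) : ↥N₁ ⧸ C₁) := rfl
    rw [e1]
    exact O₁.mul_mem (O₁.mul_mem (O₁.mul_mem h1 h2) h1) (O₁.mul_mem (O₁.mul_mem h1 h2) h1)
  obtain ⟨m, hm⟩ := hO₁p ⟨_, hn₁⟩
  have hm' : (QuotientGroup.mk n₁ : ↥N₁ ⧸ C₁) ^ p ^ m = 1 := congrArg Subtype.val hm
  have hm2 : n₁ ^ p ^ m ∈ C₁ := by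
    rw [← QuotientGroup.eq_one_iff]
    rw [QuotientGroup.mk_pow]
    exact hm'
  have hm3 : ((n₁ ^ p ^ m : N₁) : G) ∈ Subgroup.centralizer (E : Set G) := Subgroup.mem_subgroupOf.mp hm2
  set g : H := (y * y' * y) * (y * y' * y) with hg
  have hgcoe : ((n₁ ^ p ^ m : N₁) : G) = ((g ^ p ^ m : H) : G) := by
    simp [n₁, hg]
  have hgσ : S.σ g = -1 := by
    have hyy : S.σ (y * y' * y) = e - f := by
      rw [map_mul S.σ (y * y') y, map_mul S.σ y y', hyσ, hy'σ, hσu, hVb]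
      exact cl_word hee hff hef
    rw [hg, map_mul S.σ (y * y' * y) (y * y' * y), hyy]
    exact cl_sq hee hff hef
  have hgpow : S.σ (g ^ p ^ m) = -1 := by
    rw [map_pow, hgσ]
    exact ((hp.odd_of_ne_two hp2).pow).neg_one_pow
  -- a nonzero vector coming from an inverted element
  obtain ⟨w, hw⟩ := exists_ne (0 : W)
  obtain ⟨a, ha, rfl⟩ := S.hsurj w
  have hsa := S.hH s s.2 a ha
  set e₀ := a⁻¹ * ((s : G) * a * (s : G)⁻¹) with he₀
  have he₀Q : e₀ ∈ Q₀ := Q₀.mul_mem (Q₀.inv_mem ha) hsa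
  have he₀I : e₀ ∈ Iset Q₀ H s := by
    refine ⟨he₀Q, ?_⟩
    have h3 := S.sq_fix s hs1 hs2 ha
    have e1 : (s : G) * e₀ * (s : G)⁻¹ = ((s : G) * a * (s : G)⁻¹)⁻¹ * ((s : G) * ((s : G) * a * (s : G)⁻¹) * (s : G)⁻¹) := by
      rw [he₀]
      group
    rw [e1, h3, he₀]
    group
  have hπe₀ : S.π e₀ = - S.π a - S.π a := by
    rw [he₀, S.hadd _ (Q₀.inv_mem ha) _ hsa, S.π_inv ha, ← S.hσ s a ha, hs2]
    change - S.π a + - S.π a = _
    abel
  have hfix : S.σ (g ^ p ^ m) (S.π e₀) = S.π e₀ := by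
    have he₀E : e₀ ∈ E := Subgroup.subset_closure he₀I
    rw [S.hσ _ e₀ he₀Q]
    congr 1
    have h4 := (Subgroup.mem_centralizer_iff.mp hm3) e₀ he₀E
    rw [hgcoe] at h4
    rw [← h4]
    group
  rw [hgpow] at hfix
  have hneg : - S.π e₀ = S.π e₀ := hfix
  have h2π : (2 : ℕ) • S.π e₀ = 0 := by
    rw [two_nsmul]
    nth_rewrite 1 [← hneg]
    abel
  have hodd : ∀ z : W, (2 : ℕ) • z = 0 → z = 0 := by
    intro z hz
    obtain ⟨t, ht⟩ := hp.odd_of_ne_two hp2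
    have h5 := S.hW z
    rw [ht, add_nsmul, one_nsmul, mul_comm 2 t, mul_nsmul', hz, nsmul_zero, zero_add] at h5
    exact h5
  have h6 : S.π e₀ = 0 := hodd _ h2π
  rw [hπe₀] at h6
  have h7 : (2 : ℕ) • S.π a = 0 := by
    rw [two_nsmul]
    have : S.π a + S.π a = - (- S.π a - S.π a) := by abel
    rw [this, h6, neg_zero]
  exact hw (hodd _ h7)

/-- The contradiction for all odd primes. -/
theorem false_of_pair_odd [Nontrivial W] [Finite H] (hp2 : p ≠ 2) (hst : IsNormalizerPStable p G) (u v : H)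
    (hα : (S.σ u - 1) * (S.σ u - 1) = 0) (hβ : (S.σ v - 1) * (S.σ v - 1) = 0)
    (hαβ : (S.σ u - 1) * (S.σ v - 1) + (S.σ v - 1) * (S.σ u - 1) = -4) : False := by
  have hp : p.Prime := Fact.out
  by_cases hp3 : p = 3
  · exact false_of_pair3 S hp3 hst u v hα hβ hαβ
  · have hp5 : 5 ≤ p := by
      have h2 := hp.two_le
      have h4 : p ≠ 4 := by
        rintro rfl
        exact absurd hp (by norm_num)
      omega
    exact S.false_of_pair hp5 hst u v hα hβ hαβ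

end Sec

end Cfsg.Agent.H24.CQ3
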