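import Mathlib
import Cfsg.Agent.Lib.H24.FusExt2

/-!
The action of the hyperfocal subgroup on a strongly closed subgroup.
-/

set_option autoImplicit false

namespace Cfsg.Agent.H24

open scoped commutatorElement

open Cfsg Cfsg.FusionSystem

section Main

variable {Ω : Type*} [Group Ω] {S : Subgroup Ω} {F : FusionSystem S} {P T : Subgroup Ω} {p : ℕ}

variable [Fact p.Prime]

/-- A prime-to-`p` automorphism of `P` gives, modulo `T`, a prime-to-`p` automorphism of `P T`. -/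
theorem exists_ext_coprime [Finite S] (hS : IsPGroup p S) (hF : F.IsSaturated p) (hT : F.StronglyClosed T)
    (hP : P ≤ S) (κ : MulAut P) (hκ : κ ∈ F.autGroup P) (hord : Nat.Coprime (orderOf κ) p) :
    ∃ Ψ ∈ F.autGroup (P ⊔ T : Subgroup Ω), Nat.Coprime (orderOf Ψ) p ∧
      ∀ x : P, ((κ x : P) : Ω)⁻¹ * (Ψ (Subgroup.inclusion le_sup_left x) : ↥(P ⊔ T)) ∈ T := by
  have hp : p.Prime := Fact.out
  have hWS : P ⊔ T ≤ S := sup_le hP hT.1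
  have : Finite ↥(P ⊔ T) := finite_of_le hWS
  have hφ := (mem_autGroup_iff hP κ).1 hκ
  obtain ⟨ψ, hψ, hψv⟩ := exists_ext_mod hS hF hT P _ hφ
  have hval : ∀ z, ψ z ∈ P ⊔ T := extMod_val hT hP hψ hψv (fun x => (κ x).2)
  have hψr : ψ.range = P ⊔ T := by
    apply Subgroup.eq_of_le_of_card_ge
    · rintro _ ⟨z, rfl⟩
      exact hval z
    · rw [card_range hψ]
  let Ψ₀ : MulAut ↥(P ⊔ T) := autOfHom hψ hψr
  have hΨ₀ : Ψ₀ ∈ F.autGroup (P ⊔ T : Subgroup Ω) := autOfHom_mem hψ hψr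
  have hΨ₀T : ∀ (t : Ω) (ht : t ∈ T), ((Ψ₀ ⟨t, (le_sup_right : T ≤ P ⊔ T) ht⟩ : ↥(P ⊔ T)) : Ω) ∈ T := by
    intro t ht
    exact map_mem_of_mem hT hψ le_sup_right ht
  have hpow : ∀ (n : ℕ) (x : P), (((κ ^ n) x : P) : Ω)⁻¹ * ((Ψ₀ ^ n) (Subgroup.inclusion le_sup_left x) : ↥(P ⊔ T)) ∈ T := by
    intro n x
    induction n with
    | zero =>
      show ((x : P) : Ω)⁻¹ * (x : Ω) ∈ T
      simp
    | succ n ih =>
      rw [pow_succ', pow_succ']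
      show (((κ ((κ ^ n) x) : P) : Ω))⁻¹ * (Ψ₀ ((Ψ₀ ^ n) (Subgroup.inclusion le_sup_left x)) : ↥(P ⊔ T)) ∈ T
      set y := (κ ^ n) x with hy
      set z := (Ψ₀ ^ n) (Subgroup.inclusion le_sup_left x) with hz
      have e : z = Subgroup.inclusion le_sup_left y * ⟨(y : Ω)⁻¹ * z, (le_sup_right : T ≤ P ⊔ T) ih⟩ := by
        apply Subtype.ext
        show (z : Ω) = (y : Ω) * ((y : Ω)⁻¹ * z)
        group
      rw [e, map_mul]
      have h1 : ((κ y : P) : Ω)⁻¹ * ψ (Subgroup.inclusion le_sup_left y) ∈ T := hψv y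
      have h2 := hΨ₀T _ ih
      have e2 : ((κ y : P) : Ω)⁻¹ * ((Ψ₀ (Subgroup.inclusion le_sup_left y) * Ψ₀ ⟨(y : Ω)⁻¹ * z, (le_sup_right : T ≤ P ⊔ T) ih⟩ : ↥(P ⊔ T)) : Ω) =
          (((κ y : P) : Ω)⁻¹ * ψ (Subgroup.inclusion le_sup_left y)) * (Ψ₀ ⟨(y : Ω)⁻¹ * z, (le_sup_right : T ≤ P ⊔ T) ih⟩ : ↥(P ⊔ T)) := by
        show ((κ y : P) : Ω)⁻¹ * (ψ (Subgroup.inclusion le_sup_left y) * _) = _
        group
      rw [e2]
      exact T.mul_mem h1 h2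
  obtain ⟨a, m, hm, hmo⟩ := Nat.exists_eq_pow_mul_and_not_dvd (orderOf_pos Ψ₀).ne' p hp.ne_one
  have hco : Nat.Coprime (orderOf κ) (p ^ a) := Nat.Coprime.pow_right a hord
  obtain ⟨k, hk1, hk0⟩ := Nat.chineseRemainder hco 1 0
  have hκk : κ ^ k = κ := by
    have := pow_eq_pow_iff_modEq.2 hk1
    rwa [pow_one] at this
  have hdvd : p ^ a ∣ k := (Nat.modEq_zero_iff_dvd).1 hk0
  have hΨm : (Ψ₀ ^ k) ^ m = 1 := by
    rw [← pow_mul]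
    apply orderOf_dvd_iff_pow_eq_one.1
    rw [hmo]
    exact Nat.mul_dvd_mul hdvd dvd_rfl
  refine ⟨Ψ₀ ^ k, Subgroup.pow_mem _ hΨ₀ k, ?_, fun x => ?_⟩
  · have h1 : orderOf (Ψ₀ ^ k) ∣ m := orderOf_dvd_of_pow_eq_one hΨm
    exact Nat.Coprime.coprime_dvd_left h1 (((Nat.Prime.coprime_iff_not_dvd hp).2 hm).symm)
  · have := hpow k x
    rwa [hκk] at this

/-- Conjugation on a strongly closed subgroup. -/
noncomputable def rhoOn (hT : F.StronglyClosed T) : S →* MulAut T :=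
  T.normalizerMonoidHom.comp (Subgroup.inclusion (normalizer_of_stronglyClosed hT))

@[simp] theorem rhoOn_apply (hT : F.StronglyClosed T) (s : S) (t : T) :
    ((rhoOn hT s t : T) : Ω) = (s : Ω) * (t : Ω) * (s : Ω)⁻¹ := rfl

theorem rhoOn_mem (hT : F.StronglyClosed T) (s : S) : rhoOn hT s ∈ F.autGroup T := by
  apply autInducedBy_le_autGroup hT.1
  exact (mem_autInducedBy_iff S T _).2 ⟨s, s.2, fun _ => rfl⟩

/-- The subgroup `O^p(Aut_F(T)) Inn(T)`. -/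
def residInn (F : FusionSystem S) (p : ℕ) (T : Subgroup Ω) : Subgroup (MulAut T) :=
  (pResidual p (F.autGroup T)).map (F.autGroup T).subtype ⊔ Inn T

theorem rho_gen [Finite S] (hS : IsPGroup p S) (hF : F.IsSaturated p) (hT : F.StronglyClosed T)
    (hP : P ≤ S) (κ : MulAut P) (hκ : κ ∈ F.autGroup P) (hord : Nat.Coprime (orderOf κ) p) (x : P) :
    (rhoOn hT ⟨x, hP x.2⟩)⁻¹ * rhoOn hT ⟨κ x, hP (κ x).2⟩ ∈ residInn F p T := by
  have hWS : P ⊔ T ≤ S := sup_le hP hT.1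
  have hTfin : Finite T := finite_of_le hT.1
  obtain ⟨Ψ, hΨ, hΨo, hΨv⟩ := exists_ext_coprime hS hF hT hP κ hκ hord
  have hΨF := (mem_autGroup_iff hWS Ψ).1 hΨ
  obtain ⟨χ, hχ, hχv⟩ := exists_restrict (le_sup_right : T ≤ P ⊔ T) hΨF
  have hχT : ∀ t : T, χ t ∈ T := by
    intro t
    rw [hχv]
    exact map_mem_of_mem hT hΨF le_sup_right t.2
  have hχr : χ.range = T := by
    apply Subgroup.eq_of_le_of_card_ge
    · rintro _ ⟨z, rfl⟩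
      exact hχT z
    · rw [card_range hχ]
  let β : MulAut T := autOfHom hχ hχr
  have hβ : β ∈ F.autGroup T := autOfHom_mem hχ hχr
  have hβv : ∀ t : T, ((β t : T) : Ω) = (Ψ (Subgroup.inclusion le_sup_right t) : ↥(P ⊔ T)) := by
    intro t
    exact hχv t
  have hβpow : ∀ (n : ℕ) (t : T), (((β ^ n) t : T) : Ω) = ((Ψ ^ n) (Subgroup.inclusion le_sup_right t) : ↥(P ⊔ T)) := by
    intro n t
    induction n with
    | zero => rfl
    | succ n ih =>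
      rw [pow_succ', pow_succ']
      show ((β ((β ^ n) t) : T) : Ω) = (Ψ ((Ψ ^ n) (Subgroup.inclusion le_sup_right t)) : ↥(P ⊔ T))
      rw [hβv]
      congr 2
      exact Subtype.ext ih
  have hβo : Nat.Coprime (orderOf β) p := by
    have h1 : β ^ orderOf Ψ = 1 := by
      ext t
      rw [hβpow, pow_orderOf_eq_one]
      rfl
    exact Nat.Coprime.coprime_dvd_left (orderOf_dvd_of_pow_eq_one h1) hΨo
  let β₀ : F.autGroup T := ⟨β, hβ⟩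
  have hβ₀ : β₀ ∈ pResidual p (F.autGroup T) := by
    apply Subgroup.subset_closure
    show Nat.Coprime (orderOf β₀) p
    rw [Subgroup.orderOf_mk]
    exact hβo
  -- the conjugation relation
  have hrel : ∀ z : ↥(P ⊔ T), rhoOn hT ⟨(Ψ z : ↥(P ⊔ T)), hWS (Ψ z).2⟩ = β * rhoOn hT ⟨z, hWS z.2⟩ * β⁻¹ := by
    intro z
    ext t
    show (Ψ z : Ω) * (t : Ω) * (Ψ z : Ω)⁻¹ = ((β (rhoOn hT ⟨z, hWS z.2⟩ (β⁻¹ t)) : T) : Ω)
    rw [hβv]
    have e : Subgroup.inclusion (le_sup_right : T ≤ P ⊔ T) (rhoOn hT ⟨z, hWS z.2⟩ (β⁻¹ t)) =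
        z * Subgroup.inclusion le_sup_right (β⁻¹ t) * z⁻¹ := rfl
    rw [e, map_mul, map_mul, map_inv]
    have h2 : ((Ψ (Subgroup.inclusion le_sup_right (β⁻¹ t)) : ↥(P ⊔ T)) : Ω) = t := by
      rw [← hβv, MulAut.apply_inv_self]
    show (Ψ z : Ω) * (t : Ω) * (Ψ z : Ω)⁻¹ = (Ψ z : Ω) * (Ψ (Subgroup.inclusion le_sup_right (β⁻¹ t)) : ↥(P ⊔ T)) * (Ψ z : Ω)⁻¹
    rw [h2]
  -- conclusion
  have ht := hΨv x
  set t : Ω := ((κ x : P) : Ω)⁻¹ * (Ψ (Subgroup.inclusion le_sup_left x) : ↥(P ⊔ T)) with htdef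
  have hΨx : ((Ψ (Subgroup.inclusion le_sup_left x) : ↥(P ⊔ T)) : Ω) = (κ x : P) * t := by
    rw [htdef]
    group
  have hx₁ := hrel (Subgroup.inclusion le_sup_left x)
  have e1 : (⟨(Ψ (Subgroup.inclusion le_sup_left x) : ↥(P ⊔ T)), hWS (Ψ _).2⟩ : S) = ⟨κ x, hP (κ x).2⟩ * ⟨t, hT.1 ht⟩ :=
    Subtype.ext hΨx
  rw [e1, map_mul] at hx₁
  have e3 : rhoOn hT ⟨t, hT.1 ht⟩ = MulAut.conj (⟨t, ht⟩ : T) := by
    ext y
    rfl
  rw [e3] at hx₁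
  have e4 : rhoOn hT ⟨κ x, hP (κ x).2⟩ =
      β * rhoOn hT ⟨x, hP x.2⟩ * β⁻¹ * (MulAut.conj (⟨t, ht⟩ : T))⁻¹ := by
    rw [eq_mul_inv_iff_mul_eq]
    exact hx₁
  rw [e4]
  let r : F.autGroup T := ⟨rhoOn hT ⟨x, hP x.2⟩, rhoOn_mem hT _⟩
  have hN : (pResidual p (F.autGroup T)).Normal := pResidual_normal'
  have h5 : r⁻¹ * β₀ * r ∈ pResidual p (F.autGroup T) := by
    have := hN.conj_mem β₀ hβ₀ r⁻¹
    rwa [inv_inv] at this
  have h6 : β⁻¹ ∈ (pResidual p (F.autGroup T)).map (F.autGroup T).subtype :=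
    ⟨β₀⁻¹, Subgroup.inv_mem _ hβ₀, rfl⟩
  have h7 : (rhoOn hT ⟨x, hP x.2⟩)⁻¹ * β * rhoOn hT ⟨x, hP x.2⟩ ∈ (pResidual p (F.autGroup T)).map (F.autGroup T).subtype :=
    ⟨_, h5, rfl⟩
  have e5 : (rhoOn hT ⟨x, hP x.2⟩)⁻¹ * (β * rhoOn hT ⟨x, hP x.2⟩ * β⁻¹ * (MulAut.conj (⟨t, ht⟩ : T))⁻¹) =
      ((rhoOn hT ⟨x, hP x.2⟩)⁻¹ * β * rhoOn hT ⟨x, hP x.2⟩) * β⁻¹ * (MulAut.conj (⟨t, ht⟩ : T))⁻¹ := by
    group
  rw [e5]
  refine Subgroup.mul_mem _ (Subgroup.mul_mem _ (Subgroup.mem_sup_left h7) (Subgroup.mem_sup_left h6)) (Subgroup.mem_sup_right ?_)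
  exact Subgroup.inv_mem _ ⟨_, rfl⟩

theorem rho_residual [Finite S] (hS : IsPGroup p S) (hF : F.IsSaturated p) (hT : F.StronglyClosed T)
    (hP : P ≤ S) (a : F.autGroup P) (ha : a ∈ pResidual p (F.autGroup P)) :
    ∀ x : P, (rhoOn hT ⟨x, hP x.2⟩)⁻¹ * rhoOn hT ⟨(a : MulAut P) x, hP ((a : MulAut P) x).2⟩ ∈ residInn F p T := by
  refine Subgroup.closure_induction (p := fun (a : F.autGroup P) _ => ∀ x : P, (rhoOn hT ⟨x, hP x.2⟩)⁻¹ * rhoOn hT ⟨(a : MulAut P) x, hP ((a : MulAut P) x).2⟩ ∈ residInn F p T) ?_ ?_ ?_ ?_ ha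
  · intro a ha x
    refine rho_gen hS hF hT hP a a.2 ?_ x
    have h1 : Nat.Coprime (orderOf a) p := ha
    rwa [← Subgroup.orderOf_coe] at h1
  · intro x
    have e : (⟨((1 : F.autGroup P) : MulAut P) x, hP (((1 : F.autGroup P) : MulAut P) x).2⟩ : S) = ⟨x, hP x.2⟩ := rfl
    rw [e, inv_mul_cancel]
    exact Subgroup.one_mem _
  · intro a b _ _ ha hb x
    have h1 := Subgroup.mul_mem _ (hb x) (ha ((b : MulAut P) x))
    have e : (rhoOn hT ⟨x, hP x.2⟩)⁻¹ * rhoOn hT ⟨(b : MulAut P) x, hP ((b : MulAut P) x).2⟩ *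
        ((rhoOn hT ⟨(b : MulAut P) x, hP ((b : MulAut P) x).2⟩)⁻¹ * rhoOn hT ⟨(a : MulAut P) ((b : MulAut P) x), hP ((a : MulAut P) ((b : MulAut P) x)).2⟩) =
        (rhoOn hT ⟨x, hP x.2⟩)⁻¹ * rhoOn hT ⟨(a : MulAut P) ((b : MulAut P) x), hP ((a : MulAut P) ((b : MulAut P) x)).2⟩ := by
      group
    rw [e] at h1
    exact h1
  · intro a _ ha x
    have h1 := ha (((a⁻¹ : F.autGroup P) : MulAut P) x)
    have e : (a : MulAut P) (((a⁻¹ : F.autGroup P) : MulAut P) x) = x := by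
      show (a : MulAut P) ((a : MulAut P)⁻¹ x) = x
      rw [MulAut.apply_inv_self]
    have e2 : (⟨(a : MulAut P) (((a⁻¹ : F.autGroup P) : MulAut P) x), hP ((a : MulAut P) (((a⁻¹ : F.autGroup P) : MulAut P) x)).2⟩ : S) = ⟨x, hP x.2⟩ :=
      Subtype.ext (congrArg (fun z : P => (z : Ω)) e)
    rw [e2] at h1
    have h2 := Subgroup.inv_mem _ h1
    rwa [mul_inv_rev, inv_inv] at h2

/-- S5198. -/
theorem hyperfocal_acts [Finite S] (hS : IsPGroup p S) (hF : F.IsSaturated p) (hT : F.StronglyClosed T)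
    (x : Ω) (hx : x ∈ F.hyperfocalSubgroup p) :
    ∃ α ∈ residInn F p T, ∀ t : T, ((α t : T) : Ω) = x * (t : Ω) * x⁻¹ := by
  have key : ∀ x ∈ F.hyperfocalSubgroup p, ∃ hx : x ∈ S, rhoOn hT ⟨x, hx⟩ ∈ residInn F p T := by
    intro x hx
    refine Subgroup.closure_induction (p := fun x _ => ∃ hx : x ∈ S, rhoOn hT ⟨x, hx⟩ ∈ residInn F p T) ?_ ?_ ?_ ?_ hx
    · rintro _ ⟨P, a, y, hP, ha, rfl⟩
      have hm : (y : Ω)⁻¹ * (((a : MulAut P) y : P) : Ω) ∈ S := S.mul_mem (S.inv_mem (hP y.2)) (hP ((a : MulAut P) y).2)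
      refine ⟨hm, ?_⟩
      have h1 := rho_residual hS hF hT hP a ha y
      have e : (⟨(y : Ω)⁻¹ * (((a : MulAut P) y : P) : Ω), hm⟩ : S) = (⟨y, hP y.2⟩ : S)⁻¹ * ⟨(a : MulAut P) y, hP ((a : MulAut P) y).2⟩ := rfl
      rw [e, map_mul, map_inv]
      exact h1
    · refine ⟨S.one_mem, ?_⟩
      have e : (⟨1, S.one_mem⟩ : S) = 1 := rfl
      rw [e, map_one]
      exact Subgroup.one_mem _
    · rintro x y _ _ ⟨hx, hx'⟩ ⟨hy, hy'⟩
      refine ⟨S.mul_mem hx hy, ?_⟩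
      have e : (⟨x * y, S.mul_mem hx hy⟩ : S) = ⟨x, hx⟩ * ⟨y, hy⟩ := rfl
      rw [e, map_mul]
      exact Subgroup.mul_mem _ hx' hy'
    · rintro x _ ⟨hx, hx'⟩
      refine ⟨S.inv_mem hx, ?_⟩
      have e : (⟨x⁻¹, S.inv_mem hx⟩ : S) = ⟨x, hx⟩⁻¹ := rfl
      rw [e, map_inv]
      exact Subgroup.inv_mem _ hx'
  obtain ⟨hxS, h⟩ := key x hx
  exact ⟨_, h, fun _ => rfl⟩

end Main

end Cfsg.Agent.H24
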