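import Mathlib
import Cfsg.Agent.Lib.H24.LabH

/-!
Uniqueness of residual limits and residual limits of subsystems of `p`-power index.
-/

set_option autoImplicit false
set_option linter.style.haveILetI false

namespace Cfsg.Agent.H24

open Cfsg Cfsg.FusionSystem
open Cfsg.Agent.H25

universe u

variable {Ω : Type u} [Group Ω] {p : ℕ}

/-- Two systems with the same maps. -/
def SameH {X Y : Subgroup Ω} (A : FusionSystem X) (B : FusionSystem Y) : Prop := ∀ P, A.Hom P = B.Hom P

theorem SameH.symm {X Y : Subgroup Ω} {A : FusionSystem X} {B : FusionSystem Y} (h : SameH A B) : SameH B A :=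
  fun P => (h P).symm

theorem SameH.trans {X Y Z : Subgroup Ω} {A : FusionSystem X} {B : FusionSystem Y} {C : FusionSystem Z} (h : SameH A B)
    (h' : SameH B C) : SameH A C := fun P => (h P).trans (h' P)

theorem SameH.base {X Y : Subgroup Ω} {A : FusionSystem X} {B : FusionSystem Y} (h : SameH A B) : X = Y := by
  have key : ∀ {X Y : Subgroup Ω} {A : FusionSystem X} {B : FusionSystem Y}, SameH A B → X ≤ Y := by
    intro X Y A B h x hx
    have h1 : conjHom (Subgroup.zpowers x) 1 ∈ A.Hom (Subgroup.zpowers x) :=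
      A.conj_mem ((Subgroup.zpowers_le).2 hx) X.one_mem
    rw [h] at h1
    exact (B.le_of_mem h1).1 (Subgroup.mem_zpowers x)
  exact le_antisymm (key h) (key h.symm)

theorem pPrime_unique {X : Subgroup Ω} {E D D' : FusionSystem X} (h : E.IsPPrimeResidual p D) (h' : E.IsPPrimeResidual p D') :
    D = D' :=
  fs_ext (fun P => Set.Subset.antisymm (h.2.2 D' h'.1 h'.2.1 P) (h'.2.2 D h.1 h.2.1 P))

section Main

theorem stable_step [Fact p.Prime] {T S : Subgroup Ω} (hTS : T = S) [Finite S] (hS : IsPGroup p S) {F : FusionSystem S}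
    {D D' : FusionSystem T} (hyp : F.hyperfocalSubgroup p = S) (hFres : F.IsPPrimeResidual p F)
    (h1 : D.IsSaturated p ∧ D.HasPPowerIndexIn F p) (h2 : D.IsPPrimeResidual p D') :
    SameH D' F ∧ D'.hyperfocalSubgroup p = T ∧ D'.IsPPrimeResidual p D' := by
  subst hTS
  have hle : F ≤ D := le_of_residual hS hFres.1 (fun Q hQ => h1.2.2.2 Q hQ)
  have hle' : D ≤ F := h1.2.1
  have e : D = F := fs_ext (fun P => Set.Subset.antisymm (hle' P) (hle P))
  subst e
  have e2 : D' = D := pPrime_unique h2 hFres
  subst e2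
  exact ⟨fun _ => rfl, hyp, hFres⟩

theorem limit_stable {T S : Subgroup Ω} {L : FusionSystem T} {F : FusionSystem S} (h : L.IsResidualLimitOf F p) :
    Fact p.Prime → Finite S → IsPGroup p S → F.hyperfocalSubgroup p = S → F.IsPPrimeResidual p F → SameH L F := by
  induction h with
  | stable F p h1 h2 =>
    intro _ _ _ _ _
    exact fun _ => rfl
  | step F p D D' h1 h2 h3 ih =>
    intro hp hf hS hyp hres
    haveI := hp
    have hH : F.hyperfocalSubgroup p ≤ _ := hyperfocal_le
    haveI hf2 : Finite (F.hyperfocalSubgroup p) := finite_of_le hH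
    have hS2 : IsPGroup p (F.hyperfocalSubgroup p) :=
      hS.of_injective (Subgroup.inclusion hH) (Subgroup.inclusion_injective _)
    obtain ⟨h4, h5, h6⟩ := stable_step hyp hS hyp hres h1 h2
    exact (ih hp hf2 hS2 h5 h6).trans h4

theorem limit_unique {T S : Subgroup Ω} {L : FusionSystem T} {F : FusionSystem S} (h : L.IsResidualLimitOf F p) :
    Fact p.Prime → Finite S → IsPGroup p S → ∀ {T₂ : Subgroup Ω} {L₂ : FusionSystem T₂} {F₂ : FusionSystem S},
      L₂.IsResidualLimitOf F₂ p → F₂ = F → SameH L L₂ := by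
  induction h with
  | stable F p h1 h2 =>
    intro hp hf hS T₂ L₂ F₂ h' e
    subst e
    exact (limit_stable h' hp hf hS h1 h2).symm
  | step F p D D' h1 h2 h3 ih =>
    intro hp hf hS T₂ L₂ F₂ h' e
    subst e
    haveI := hp
    have hH : F₂.hyperfocalSubgroup p ≤ _ := hyperfocal_le
    haveI hf2 : Finite (F₂.hyperfocalSubgroup p) := finite_of_le hH
    have hS2 : IsPGroup p (F₂.hyperfocalSubgroup p) :=
      hS.of_injective (Subgroup.inclusion hH) (Subgroup.inclusion_injective _)
    cases h' with
    | stable _ _ h4 h5 =>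
      exact limit_stable (FusionSystem.IsResidualLimitOf.step F₂ p D D' h1 h2 h3) hp hf hS h4 h5
    | step _ _ D₂ D₂' h4 h5 h6 =>
      have e1 : D₂ = D := ppower_unique hS2 h1.1 h4.1 h1.2 h4.2
      subst e1
      have e2 : D₂' = D' := pPrime_unique h5 h2
      subst e2
      exact ih hp hf2 hS2 h6 rfl

/-- Two `p`-power index subsystems over equal subgroups agree. -/
theorem ppower_same [Fact p.Prime] {T T' S : Subgroup Ω} (hT : T = T') [Finite T] (hTp : IsPGroup p T) {F : FusionSystem S}
    {D : FusionSystem T} {D' : FusionSystem T'} (h1 : D.IsSaturated p) (h2 : D.HasPPowerIndexIn F p) (h3 : D'.IsSaturated p)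
    (h4 : D'.HasPPowerIndexIn F p) : SameH D D' := by
  subst hT
  rw [ppower_unique hTp h1 h3 h2 h4]
  exact fun _ => rfl

/-- Transitivity of `p`-power index. -/
theorem HasPPowerIndexIn.trans {S T U : Subgroup Ω} {F : FusionSystem S} {E : FusionSystem T} {D : FusionSystem U}
    (hE : E.HasPPowerIndexIn F p) (hD : D.HasPPowerIndexIn E p) (hhyp : F.hyperfocalSubgroup p ≤ U) (hUT : U ≤ T) :
    D.HasPPowerIndexIn F p :=
  ⟨fun P _ h => hE.1 P (hD.1 P h), hhyp, fun P hP =>
    (pRes_le_pRes (hE.2.2 P (hP.trans hUT))).trans (hD.2.2 P hP)⟩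

/-- Residual limits of subsystems of `p`-power index. -/
theorem limit_of_ppower [Fact p.Prime] {S T : Subgroup Ω} [Finite S] (hS : IsPGroup p S) {F : FusionSystem S} {E : FusionSystem T}
    (hF : F.IsSaturated p) (hE : E.IsNormalIn F p) (hidx : E.HasPPowerIndexIn F p) {U V : Subgroup Ω} {Finf : FusionSystem U}
    (hFinf : Finf.IsResidualLimitOf F p) {Einf : FusionSystem V} (hEinf : Einf.IsResidualLimitOf E p) :
    SameH Finf Einf := by
  have hp : Fact p.Prime := inferInstance
  obtain ⟨⟨hEs, -, hsub, hstrong, -, -⟩, -⟩ := hE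
  have hTS : T ≤ S := hstrong.1
  haveI hfT : Finite T := finite_of_le hTS
  have hTp : IsPGroup p T := hS.of_injective (Subgroup.inclusion hTS) (Subgroup.inclusion_injective _)
  have hTn : (T.subgroupOf S).Normal := by
    constructor
    intro n hn g
    have h1 := hstrong.2 T le_rfl (conjHom T (g : Ω)) (F.conj_mem hTS g.2) ⟨n, hn⟩
    exact h1
  have hhyp := hyp_eq_of_ppower hS hTS hTn hstrong hidx
  have hHE : E.hyperfocalSubgroup p ≤ T := hyperfocal_le
  haveI hfH : Finite (E.hyperfocalSubgroup p) := finite_of_le hHE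
  have hHp : IsPGroup p (E.hyperfocalSubgroup p) :=
    hTp.of_injective (Subgroup.inclusion hHE) (Subgroup.inclusion_injective _)
  cases hFinf with
  | stable _ _ h1 h2 =>
    -- `F` is stable, so `T = S` and `E = F`
    have hTeq : T = S := le_antisymm hTS (h1 ▸ hidx.2.1)
    have hsame : SameH E F := by
      subst hTeq
      have hle : F ≤ E := le_of_residual hS hF (fun Q hQ => hidx.2.2 Q hQ)
      exact fun P => Set.Subset.antisymm (hsub P) (hle P)
    subst hTeq
    have e : E = F := fs_ext hsame
    subst e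
    exact (limit_unique hEinf hp inferInstance hS (FusionSystem.IsResidualLimitOf.stable E p h1 h2) rfl).symm
  | step _ _ D D' h1 h2 h3 =>
    cases hEinf with
    | stable _ _ h4 h5 =>
      -- `E` is stable, so `T = hyp F`
      have hT : F.hyperfocalSubgroup p = T := by rw [← hhyp, h4]
      haveI hfH' : Finite (F.hyperfocalSubgroup p) := by rw [hT]; exact hfT
      have hHp' : IsPGroup p (F.hyperfocalSubgroup p) := by
        refine hS.of_injective (Subgroup.inclusion ?_) (Subgroup.inclusion_injective _)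
        exact hyperfocal_le
      have hs1 : SameH D E := ppower_same hT hHp' h1.1 h1.2 hEs hidx
      have hs2 : SameH D' E := by
        have aux : ∀ {T' : Subgroup Ω} (_ : T' = T) {D₁ D₂ : FusionSystem T'}, SameH D₁ E → D₁.IsPPrimeResidual p D₂ → SameH D₂ E := by
          intro T' hT' D₁ D₂ h6 h7
          subst hT'
          have e : D₁ = E := fs_ext h6
          subst e
          rw [pPrime_unique h7 h5]
          exact fun _ => rfl
        exact aux hT hs1 h2
      have aux2 : ∀ {T' : Subgroup Ω} (_ : T' = T) {D₂ : FusionSystem T'} [Finite T'], SameH D₂ E → Finf.IsResidualLimitOf D₂ p → SameH Finf E := by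
        intro T' hT' D₂ _ h6 h7
        subst hT'
        have e : D₂ = E := fs_ext h6
        subst e
        exact limit_unique h7 hp hfT hTp (FusionSystem.IsResidualLimitOf.stable D₂ p h4 h5) rfl
      exact aux2 hT hs2 h3
    | step _ _ D₁ D₁' h4 h5 h6 =>
      have hD₁F : D₁.HasPPowerIndexIn F p := HasPPowerIndexIn.trans hidx h4.2 (hhyp ▸ le_rfl) hyperfocal_le
      have hs1 : SameH D₁ D := ppower_same hhyp hHp h4.1 hD₁F h1.1 h1.2
      have aux : ∀ {T₁ T₂ : Subgroup Ω} (_ : T₁ = T₂) {A A' : FusionSystem T₁} {B B' : FusionSystem T₂} {L₁ : FusionSystem V} {L₂ : FusionSystem U} [Finite T₁]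
          (_ : IsPGroup p T₁), SameH A B → A.IsPPrimeResidual p A' → B.IsPPrimeResidual p B' →
          L₁.IsResidualLimitOf A' p → L₂.IsResidualLimitOf B' p → SameH L₂ L₁ := by
        intro T₁ T₂ hT A A' B B' L₁ L₂ _ hp₁ h7 h8 h9 h10 h11
        subst hT
        have e : A = B := fs_ext h7
        subst e
        have e2 : A' = B' := pPrime_unique h8 h9
        subst e2
        exact limit_unique h11 hp inferInstance hp₁ h10 rfl
      exact aux hhyp hHp hs1 h5 h2 h6 h3

end Main

end Cfsg.Agent.H24
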