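import Mathlib
import Cfsg.Agent.Lib.H24.MC2M
import Cfsg.Agent.Lib.H24.EssA
import Cfsg.Agent.Lib.H24.Ess186
import Cfsg.Agent.Lib.H19.AutFrattini
import Cfsg.Agent.Lib.H01.Basic

/-!
Odd order automorphisms of metacyclic `2`-groups: only the homocyclic abelian and the quaternion groups
admit nontrivial ones.
-/

set_option autoImplicit false
set_option linter.style.haveILetI false

namespace Cfsg.Agent.H24

open Cfsg

section

variable {V : Type*} [Group V]

theorem no_fixed_of_card_le_four [Finite V] (hcard : Nat.card V ≤ 4)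
    (h2 : ∀ x : V, x * x = 1) (β : V ≃* V) {n : ℕ} (hn : Odd n) (hβ : ∀ x, (β ^ n) x = x)
    {x : V} (hx : β x ≠ x) {v : V} (hv : v ≠ 1) : β v ≠ v := by
  classical
  intro hfix
  have hinv : ∀ s : V, s⁻¹ = s := fun s => inv_eq_of_mul_eq_one_left (h2 s)
  have hcomm : ∀ s t : V, s * t = t * s := by
    intro s t
    have h := h2 (s * t)
    have h' : s * t = (s * t)⁻¹ := (inv_eq_of_mul_eq_one_left h).symm
    rw [mul_inv_rev, hinv, hinv] at h'
    exact h'
  have hx1 : x ≠ 1 := by
    rintro rfl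
    exact hx (map_one β)
  have hxv : x ≠ v := by
    rintro rfl
    exact hx hfix
  have h1 : (1 : V) ≠ v := fun h => hv h.symm
  have h2' : (1 : V) ≠ x := fun h => hx1 h.symm
  have h3 : (1 : V) ≠ v * x := by
    intro h
    apply hxv
    have : v * x = v * v := by rw [← h, h2 v]
    exact mul_left_cancel this
  have h4 : v ≠ x := fun h => hxv h.symm
  have h5 : v ≠ v * x := by
    intro h
    apply hx1
    have : v * x = v * 1 := by rw [← h, mul_one]
    exact mul_left_cancel this
  have h6 : x ≠ v * x := by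
    intro h
    apply hv
    have : v * x = 1 * x := by rw [← h, one_mul]
    exact mul_right_cancel this
  haveI := Fintype.ofFinite V
  have hu : ({1, v, x, v * x} : Finset V) = Finset.univ := by
    apply Finset.eq_univ_of_card
    have hc : ({1, v, x, v * x} : Finset V).card = 4 := by
      rw [Finset.card_insert_of_notMem, Finset.card_insert_of_notMem, Finset.card_insert_of_notMem,
        Finset.card_singleton]
      · simpa using h6
      · simp [h4, h5]
      · simp [h1, h2', h3]
    rw [hc]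
    rw [Nat.card_eq_fintype_card] at hcard
    have : Fintype.card V ≥ 4 := by
      rw [← hc]
      exact Finset.card_le_univ _
    omega
  have hβx : β x = v * x := by
    have h : β x ∈ ({1, v, x, v * x} : Finset V) := hu ▸ Finset.mem_univ _
    simp only [Finset.mem_insert, Finset.mem_singleton] at h
    rcases h with h | h | h | h
    · exfalso
      apply hx1
      have : β x = β 1 := by rw [h, map_one]
      exact β.injective this
    · exfalso
      apply hxv
      have : β x = β v := by rw [h, hfix]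
      exact β.injective this
    · exact absurd h hx
    · exact h
  have hodd : ∀ k : ℕ, (β ^ (2 * k + 1)) x = v * x := by
    intro k
    induction k with
    | zero => simpa using hβx
    | succ k ih =>
      have e : 2 * (k + 1) + 1 = 2 + (2 * k + 1) := by ring
      have h7 : β (v * x) = x := by
        rw [map_mul, hfix, hβx, ← mul_assoc, h2 v, one_mul]
      rw [e, pow_add, MulAut.mul_apply, ih, pow_two, MulAut.mul_apply, h7, hβx]
  obtain ⟨k, rfl⟩ := hn
  have := hβ x
  rw [hodd k] at this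
  exact h6 this.symm

theorem zpow_cases_of_sq {x : V} (h : x * x = 1) (i : ℤ) : x ^ i = 1 ∨ x ^ i = x := by
  have h2 : x ^ (2 : ℤ) = 1 := by
    rw [zpow_two]
    exact h
  obtain ⟨k, hk | hk⟩ := Int.even_or_odd' i
  · left
    rw [hk, zpow_mul, h2, one_zpow]
  · right
    rw [hk, zpow_add, zpow_mul, h2, one_zpow, one_mul, zpow_one]

theorem card_le_four_of_gens [Finite V] (h2 : ∀ x : V, x * x = 1) (p q : V)
    (h : ∀ w : V, ∃ i j : ℤ, w = p ^ i * q ^ j) : Nat.card V ≤ 4 := by
  classical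
  haveI := Fintype.ofFinite V
  have hu : ({1, p, q, p * q} : Finset V) = Finset.univ := by
    apply Finset.eq_univ_of_forall
    intro w
    obtain ⟨i, j, rfl⟩ := h w
    simp only [Finset.mem_insert, Finset.mem_singleton]
    rcases zpow_cases_of_sq (h2 p) i with h1 | h1 <;> rcases zpow_cases_of_sq (h2 q) j with h3 | h3 <;>
      rw [h1, h3] <;> simp
  rw [Nat.card_eq_fintype_card, ← Finset.card_univ, ← hu]
  exact Finset.card_le_four

end

section

variable {G : Type*} [Group G]

theorem homocyclic_of_cyclic [Finite G] (hG : IsPGroup 2 G) (hc : IsCyclic G) :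
    ∃ n k : ℕ, Nonempty (G ≃* Multiplicative (Fin k → ZMod (2 ^ n))) := by
  obtain ⟨n, hn⟩ := IsPGroup.iff_card.1 hG
  refine ⟨n, 1, ?_⟩
  have e := zmodCyclicMulEquiv hc
  rw [hn] at e
  exact ⟨e.symm.trans (AddEquiv.toMultiplicative (AddEquiv.funUnique (Fin 1) (ZMod (2 ^ n)))).symm⟩

theorem homocyclic_of_internal [Finite G] (a b : G) (m : ℕ) (ha : orderOf a = 2 ^ m) (hb : orderOf b = 2 ^ m)
    (hab : Commute a b) (hform : ∀ g : G, ∃ i j : ℤ, g = a ^ i * b ^ j)
    (hinf : ∀ y, y ∈ Subgroup.zpowers a → y ∈ Subgroup.zpowers b → y = 1) :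
    Nonempty (G ≃* Multiplicative (Fin 2 → ZMod (2 ^ m))) := by
  classical
  haveI : NeZero (2 ^ m) := ⟨by positivity⟩
  have hadd : ∀ (c : G), orderOf c = 2 ^ m → ∀ i j : ZMod (2 ^ m), c ^ (i + j).val = c ^ i.val * c ^ j.val := by
    intro c hc i j
    have e : (i.val + j.val) % (2 ^ m) = (i.val + j.val) % orderOf c := by rw [hc]
    rw [ZMod.val_add, e, pow_mod_orderOf, pow_add]
  let f : Multiplicative (Fin 2 → ZMod (2 ^ m)) →* G :=
    { toFun := fun x => a ^ (Multiplicative.toAdd x 0).val * b ^ (Multiplicative.toAdd x 1).val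
      map_one' := by
        simp
      map_mul' := by
        intro x y
        simp only [toAdd_mul, Pi.add_apply]
        rw [hadd a ha, hadd b hb]
        have : Commute (b ^ (Multiplicative.toAdd x 1).val) (a ^ (Multiplicative.toAdd y 0).val) :=
          (hab.symm.pow_left _).pow_right _
        calc a ^ (Multiplicative.toAdd x 0).val * a ^ (Multiplicative.toAdd y 0).val *
              (b ^ (Multiplicative.toAdd x 1).val * b ^ (Multiplicative.toAdd y 1).val)
            = a ^ (Multiplicative.toAdd x 0).val * (b ^ (Multiplicative.toAdd x 1).val *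
                a ^ (Multiplicative.toAdd y 0).val) * b ^ (Multiplicative.toAdd y 1).val := by
              rw [this.eq]
              simp only [mul_assoc]
          _ = _ := by simp only [mul_assoc] }
  have hval : ∀ (c : G), orderOf c = 2 ^ m → ∀ i : ℤ, c ^ ((i : ZMod (2 ^ m))).val = c ^ i := by
    intro c hc i
    rw [← zpow_natCast, ZMod.val_intCast, ← zpow_mod_orderOf c i, hc]
  have hinj : Function.Injective f := by
    intro x y hxy
    have h : a ^ (Multiplicative.toAdd x 0).val * b ^ (Multiplicative.toAdd x 1).val =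
        a ^ (Multiplicative.toAdd y 0).val * b ^ (Multiplicative.toAdd y 1).val := hxy
    have h1 : (a ^ (Multiplicative.toAdd y 0).val)⁻¹ * a ^ (Multiplicative.toAdd x 0).val =
        b ^ (Multiplicative.toAdd y 1).val * (b ^ (Multiplicative.toAdd x 1).val)⁻¹ := by
      rw [inv_mul_eq_iff_eq_mul, ← mul_assoc, eq_mul_inv_iff_mul_eq]
      exact h
    have hm1 : (a ^ (Multiplicative.toAdd y 0).val)⁻¹ * a ^ (Multiplicative.toAdd x 0).val ∈ Subgroup.zpowers a :=
      Subgroup.mul_mem _ (Subgroup.inv_mem _ (Subgroup.npow_mem_zpowers _ _)) (Subgroup.npow_mem_zpowers _ _)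
    have hm2 : (a ^ (Multiplicative.toAdd y 0).val)⁻¹ * a ^ (Multiplicative.toAdd x 0).val ∈ Subgroup.zpowers b := by
      rw [h1]
      exact Subgroup.mul_mem _ (Subgroup.npow_mem_zpowers _ _) (Subgroup.inv_mem _ (Subgroup.npow_mem_zpowers _ _))
    have h3 := hinf _ hm1 hm2
    have h4 : a ^ (Multiplicative.toAdd x 0).val = a ^ (Multiplicative.toAdd y 0).val := by
      rw [inv_mul_eq_one] at h3
      exact h3.symm
    have h5 : b ^ (Multiplicative.toAdd x 1).val = b ^ (Multiplicative.toAdd y 1).val := by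
      rw [h4] at h
      exact (mul_left_cancel h)
    have hi : ∀ (c : G), orderOf c = 2 ^ m → ∀ i j : ZMod (2 ^ m), c ^ i.val = c ^ j.val → i = j := by
      intro c hc i j hij
      have h6 : i.val = j.val := by
        have hlt1 : i.val < orderOf c := by rw [hc]; exact ZMod.val_lt i
        have hlt2 : j.val < orderOf c := by rw [hc]; exact ZMod.val_lt j
        exact pow_injOn_Iio_orderOf hlt1 hlt2 hij
      exact ZMod.val_injective _ h6
    have e0 := hi a ha _ _ h4
    have e1 := hi b hb _ _ h5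
    apply Multiplicative.toAdd.injective
    funext t
    fin_cases t
    · exact e0
    · exact e1
  have hsurj : Function.Surjective f := by
    intro g
    obtain ⟨i, j, rfl⟩ := hform g
    refine ⟨Multiplicative.ofAdd ![(i : ZMod (2 ^ m)), (j : ZMod (2 ^ m))], ?_⟩
    change a ^ ((i : ZMod (2 ^ m))).val * b ^ ((j : ZMod (2 ^ m))).val = _
    rw [hval a ha, hval b hb]
  exact ⟨(MulEquiv.ofBijective f ⟨hinj, hsurj⟩).symm⟩

/-- The unique involution of a cyclic `2`-group. -/
theorem eq_pow_of_involution {a t : G} {m : ℕ} (ha : orderOf a = 2 ^ m) (hm : 1 ≤ m)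
    (ht : t ∈ Subgroup.zpowers a) (ht1 : t ≠ 1) (ht2 : t * t = 1) : t = a ^ 2 ^ (m - 1) := by
  have hfin : IsOfFinOrder a := by
    rw [← orderOf_pos_iff, ha]
    positivity
  obtain ⟨s, rfl⟩ : ∃ s : ℕ, a ^ s = t := by
    have : t ∈ Submonoid.powers a := by
      rw [hfin.mem_powers_iff_mem_zpowers]
      exact ht
    exact this
  obtain ⟨m', rfl⟩ : ∃ m', m = m' + 1 := ⟨m - 1, by omega⟩
  simp only [Nat.add_sub_cancel]
  have h1 : 2 ^ (m' + 1) ∣ s + s := by
    rw [← ha, orderOf_dvd_iff_pow_eq_one, pow_add]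
    exact ht2
  have h2 : 2 ^ m' ∣ s := by
    have h3 : 2 * 2 ^ m' ∣ 2 * s := by
      rw [pow_succ'] at h1
      rwa [two_mul s]
    exact Nat.dvd_of_mul_dvd_mul_left (by norm_num) h3
  obtain ⟨r, rfl⟩ := h2
  obtain ⟨l, hl | hl⟩ := Nat.even_or_odd' r
  · exfalso
    apply ht1
    rw [← orderOf_dvd_iff_pow_eq_one, ha, hl]
    exact ⟨l, by ring⟩
  · rw [hl, Nat.mul_add, pow_add]
    have h4 : a ^ (2 ^ m' * (2 * l)) = 1 := by
      rw [← orderOf_dvd_iff_pow_eq_one, ha]
      exact ⟨l, by ring⟩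
    rw [h4, one_mul, mul_one]

/-- An element of a cyclic `2`-group that is nontrivial: its subgroup contains the involution. -/
theorem exists_involution_pow [Finite G] (hG : IsPGroup 2 G) {y : G} (hy : y ≠ 1) :
    ∃ e : ℕ, y ^ e ≠ 1 ∧ y ^ e * y ^ e = 1 := by
  obtain ⟨k, hk⟩ := hG y
  have h1 : orderOf y ∣ 2 ^ k := orderOf_dvd_of_pow_eq_one hk
  obtain ⟨g, -, hg⟩ := (Nat.dvd_prime_pow Nat.prime_two).1 h1
  have hg0 : g ≠ 0 := by
    rintro rfl
    apply hy
    rw [pow_zero] at hg
    exact orderOf_eq_one_iff.1 hg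
  obtain ⟨g', rfl⟩ : ∃ g', g = g' + 1 := ⟨g - 1, by omega⟩
  refine ⟨2 ^ g', ?_, ?_⟩
  · apply pow_ne_one_of_lt_orderOf (by positivity)
    rw [hg, pow_succ]
    have : 0 < 2 ^ g' := by positivity
    omega
  · rw [← pow_add, ← two_mul, ← pow_succ', ← hg]
    exact pow_orderOf_eq_one y

end

section

variable {G : Type*} [Group G]

/-- The main theorem on automorphisms of metacyclic `2`-groups. -/
theorem mc2_odd_aut [Finite G] (hG : IsPGroup 2 G) (hm : IsMetacyclic G)
    (hh : ¬ ∃ n k : ℕ, Nonempty (G ≃* Multiplicative (Fin k → ZMod (2 ^ n))))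
    (hq : ¬ ∃ m : ℕ, Nonempty (G ≃* QuaternionGroup m))
    (α : MulAut G) (hα : Odd (orderOf α)) : α = 1 := by
  classical
  by_contra hne
  obtain ⟨N, hN, hNc, hQc⟩ := hm
  obtain ⟨a₀, ha₀⟩ := hNc
  set a : G := (a₀ : G) with ha_def
  have hNa : N = Subgroup.zpowers a := by
    ext x
    constructor
    · intro hx
      obtain ⟨k, hk⟩ := ha₀ ⟨x, hx⟩
      refine ⟨k, ?_⟩
      have := congrArg (Subtype.val) hk
      simpa using this
    · rintro ⟨k, rfl⟩
      exact N.zpow_mem a₀.2 k
  obtain ⟨cq, hcq⟩ := hQc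
  obtain ⟨c, rfl⟩ := QuotientGroup.mk_surjective cq
  have hform : ∀ g : G, ∃ i j : ℤ, g = a ^ i * c ^ j := by
    intro g
    obtain ⟨j, hj⟩ := hcq (g : G ⧸ N)
    have h1 : g * (c ^ j)⁻¹ ∈ N := by
      rw [← QuotientGroup.eq_one_iff, QuotientGroup.mk_mul, QuotientGroup.mk_inv, QuotientGroup.mk_zpow]
      have : ((c : G ⧸ N) ^ j) = (g : G ⧸ N) := hj
      rw [this]
      simp
    rw [hNa] at h1
    obtain ⟨i, hi⟩ := h1
    refine ⟨i, j, ?_⟩
    have : a ^ i = g * (c ^ j)⁻¹ := hi
    rw [this]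
    group
  set Φ := frattini G with hΦ
  have hmf : ∀ (γ : MulAut G) {x : G}, x ∈ Φ → γ x ∈ Φ := fun γ x hx => map_mem_frattini γ hx
  have hΦe : Φ.map α.toMonoidHom = Φ := map_frattini α
  let β : (G ⧸ Φ) ≃* (G ⧸ Φ) := QuotientGroup.congr Φ Φ α hΦe
  have hβmk : ∀ g : G, β (g : G ⧸ Φ) = ((α g : G) : G ⧸ Φ) := fun g => rfl
  have h2V : ∀ x : G ⧸ Φ, x * x = 1 := by
    intro x
    obtain ⟨g, rfl⟩ := QuotientGroup.mk_surjective x
    rw [← QuotientGroup.mk_mul, QuotientGroup.eq_one_iff, ← pow_two]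
    exact H01.pow_mem_frattini_of_isPGroup hG g
  have hcardV : Nat.card (G ⧸ Φ) ≤ 4 := by
    refine card_le_four_of_gens h2V (a : G ⧸ Φ) (c : G ⧸ Φ) fun w => ?_
    obtain ⟨g, rfl⟩ := QuotientGroup.mk_surjective w
    obtain ⟨i, j, rfl⟩ := hform g
    exact ⟨i, j, by rw [QuotientGroup.mk_mul, QuotientGroup.mk_zpow, QuotientGroup.mk_zpow]⟩
  have hβpow : ∀ (n : ℕ) (g : G), (β ^ n) (g : G ⧸ Φ) = (((α ^ n) g : G) : G ⧸ Φ) := by
    intro n g
    induction n with
    | zero => rfl
    | succ n ih =>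
      rw [pow_succ', MulAut.mul_apply, ih, pow_succ', MulAut.mul_apply]
      rfl
  have hβord : ∀ x, (β ^ orderOf α) x = x := by
    intro x
    obtain ⟨g, rfl⟩ := QuotientGroup.mk_surjective x
    rw [hβpow, pow_orderOf_eq_one]
    rfl
  -- some element moves modulo the Frattini subgroup
  obtain ⟨y₀, hy₀⟩ : ∃ y : G ⧸ Φ, β y ≠ y := by
    by_contra hcon
    push Not at hcon
    apply hne
    apply H19.aut_eq_one_of_frattini
    · obtain ⟨n, hn⟩ := IsPGroup.iff_card.1 hG
      rw [hn]
      exact Nat.Coprime.pow_right _ (Nat.coprime_two_right.2 hα)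
    · intro x
      have := hcon (x : G ⧸ Φ)
      rw [hβmk] at this
      rw [← QuotientGroup.eq_one_iff, QuotientGroup.mk_mul, QuotientGroup.mk_inv, this]
      exact mul_inv_cancel _
  have hnofix : ∀ x : G, x ∉ Φ → ((α x : G) : G ⧸ Φ) ≠ (x : G ⧸ Φ) := by
    intro x hx
    have hx1 : (x : G ⧸ Φ) ≠ 1 := by
      rwa [Ne, QuotientGroup.eq_one_iff]
    exact no_fixed_of_card_le_four hcardV h2V β hα hβord hy₀ hx1
  -- `G` is not cyclic
  have hnc : ¬ IsCyclic G := fun h => hh (homocyclic_of_cyclic hG h)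
  have haΦ : a ∉ Φ := by
    intro haΦ
    apply hnc
    have htop : Subgroup.zpowers c ⊔ Φ = ⊤ := by
      rw [eq_top_iff]
      intro g _
      obtain ⟨i, j, rfl⟩ := hform g
      have h1 : a ^ i ∈ Subgroup.zpowers c ⊔ Φ := Subgroup.mem_sup_right (Φ.zpow_mem haΦ i)
      have h2 : c ^ j ∈ Subgroup.zpowers c ⊔ Φ := Subgroup.mem_sup_left (Subgroup.zpow_mem_zpowers c j)
      exact Subgroup.mul_mem _ h1 h2
    have h := frattini_nongenerating htop
    exact ⟨c, fun g => by
      have : g ∈ Subgroup.zpowers c := by rw [h]; exact Subgroup.mem_top g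
      exact this⟩
  set b := α a with hb_def
  have hmemΦ : ∀ x : G, α x ∈ Φ → x ∈ Φ := by
    intro x h
    have := hmf α⁻¹ h
    simpa using this
  have hbΦ : b ∉ Φ := fun h => haΦ (hmemΦ a h)
  have hab_V : (b : G ⧸ Φ) ≠ (a : G ⧸ Φ) := hnofix a haΦ
  -- normality of the image
  have hN' : (Subgroup.zpowers b).Normal := by
    constructor
    intro x hx g
    have hg : g * b * g⁻¹ ∈ Subgroup.zpowers b := by
      have h1 : α⁻¹ g * a * (α⁻¹ g)⁻¹ ∈ N := hN.conj_mem a a₀.2 _
      rw [hNa] at h1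
      obtain ⟨s, hs⟩ := h1
      have hs' : a ^ s = α⁻¹ g * a * (α⁻¹ g)⁻¹ := hs
      refine ⟨s, ?_⟩
      change b ^ s = _
      have h2 := congrArg α hs'
      rw [map_zpow, map_mul, map_mul, map_inv] at h2
      have h3 : α (α⁻¹ g) = g := by simp
      rw [h3] at h2
      exact h2
    obtain ⟨k, rfl⟩ := hx
    have e : g * (fun x => b ^ x) k * g⁻¹ = (g * b * g⁻¹) ^ k := by
      simp only [conj_zpow]
    rw [e]
    exact Subgroup.zpow_mem _ hg k
  -- every element is a product
  have hform2 : ∀ g : G, ∃ i j : ℤ, g = a ^ i * b ^ j := by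
    obtain ⟨s, t, hst⟩ := hform b
    have htodd : Odd t := by
      by_contra hteven
      rw [Int.not_odd_iff_even] at hteven
      obtain ⟨t', rfl⟩ := hteven
      have h1 : (b : G ⧸ Φ) = (a : G ⧸ Φ) ^ s := by
        rw [hst, QuotientGroup.mk_mul, QuotientGroup.mk_zpow, QuotientGroup.mk_zpow, ← two_mul, zpow_mul, zpow_two,
          h2V, one_zpow, mul_one]
      rcases zpow_cases_of_sq (h2V (a : G ⧸ Φ)) s with h3 | h3
      · rw [h3, QuotientGroup.eq_one_iff] at h1
        exact hbΦ h1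
      · rw [h3] at h1
        exact hab_V h1
    haveI hNn : N.Normal := hN
    set q : G ⧸ N := (c : G ⧸ N) with hq_def
    have hqb : (b : G ⧸ N) = q ^ t := by
      have h1 : ((a : G) : G ⧸ N) = 1 := by
        rw [QuotientGroup.eq_one_iff]
        exact a₀.2
      conv_lhs => rw [hst]
      rw [QuotientGroup.mk_mul, QuotientGroup.mk_zpow, QuotientGroup.mk_zpow, h1, one_zpow, one_mul]
    obtain ⟨l, hl⟩ := (hG.to_quotient N) q
    obtain ⟨r, hr⟩ := htodd
    have hcop : IsCoprime t (2 ^ l : ℤ) := by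
      apply IsCoprime.pow_right
      exact ⟨1, -r, by rw [hr]; ring⟩
    obtain ⟨u, v, huv⟩ := hcop
    have hqq : q = (q ^ t) ^ u := by
      have h1 : q ^ ((2 : ℤ) ^ l) = 1 := by
        have : ((2 : ℤ) ^ l) = ((2 ^ l : ℕ) : ℤ) := by push_cast; rfl
        rw [this, zpow_natCast]
        exact hl
      have h2 : q ^ (u * t + v * 2 ^ l) = q := by
        rw [huv, zpow_one]
      rw [zpow_add, mul_comm v, zpow_mul q _ v, h1, one_zpow, mul_one, mul_comm u, zpow_mul] at h2
      exact h2.symm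
    intro g
    obtain ⟨j, hj⟩ := hcq (g : G ⧸ N)
    have hj' : q ^ j = (g : G ⧸ N) := hj
    have h1 : g * (b ^ (u * j))⁻¹ ∈ N := by
      rw [← QuotientGroup.eq_one_iff, QuotientGroup.mk_mul, QuotientGroup.mk_inv, QuotientGroup.mk_zpow, hqb, ← hj',
        zpow_mul, ← hqq]
      simp
    rw [hNa] at h1
    obtain ⟨i, hi⟩ := h1
    refine ⟨i, u * j, ?_⟩
    have : a ^ i = g * (b ^ (u * j))⁻¹ := hi
    rw [this]
    group
  -- the commutator
  set z := (a * b)⁻¹ * (b * a) with hz_def
  have hz : b * a = a * b * z := by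
    rw [hz_def]
    group
  have hzN : z ∈ Subgroup.zpowers a := by
    rw [← hNa]
    have e : z = (b⁻¹ * a⁻¹ * b⁻¹⁻¹) * a := by
      rw [hz_def]
      group
    rw [e]
    exact N.mul_mem (hN.conj_mem _ (N.inv_mem a₀.2) _) a₀.2
  have hzN' : z ∈ Subgroup.zpowers b := by
    have e : z = b⁻¹ * (a⁻¹ * b * a⁻¹⁻¹) := by
      rw [hz_def]
      group
    rw [e]
    exact Subgroup.mul_mem _ (Subgroup.inv_mem _ (Subgroup.mem_zpowers b))
      (hN'.conj_mem _ (Subgroup.mem_zpowers b) _)
  have hza : Commute z a := by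
    obtain ⟨k, hk⟩ := hzN
    have hk' : a ^ k = z := hk
    rw [← hk']
    exact (Commute.refl a).zpow_left k
  have hzb : Commute z b := by
    obtain ⟨k, hk⟩ := hzN'
    have hk' : b ^ k = z := hk
    rw [← hk']
    exact (Commute.refl b).zpow_left k
  have hzc : ∀ g : G, Commute z g := by
    intro g
    obtain ⟨i, j, rfl⟩ := hform2 g
    exact (hza.zpow_right i).mul_right (hzb.zpow_right j)
  haveI hZn : (Subgroup.zpowers z).Normal := by
    constructor
    rintro _ ⟨k, rfl⟩ g
    have e : g * (fun x => z ^ x) k * g⁻¹ = z ^ k := by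
      have h1 : Commute (z ^ k) g := (hzc g).zpow_left k
      change g * z ^ k * g⁻¹ = z ^ k
      rw [← h1.eq]
      group
    rw [e]
    exact Subgroup.zpow_mem_zpowers z k
  have hcl : ∀ x y : G, ∃ t : ℤ, y * x = x * y * z ^ t := by
    have hc : Commute (a : G ⧸ Subgroup.zpowers z) (b : G ⧸ Subgroup.zpowers z) := by
      have h1 : ((z : G) : G ⧸ Subgroup.zpowers z) = 1 := by
        rw [QuotientGroup.eq_one_iff]
        exact Subgroup.mem_zpowers z
      change (a : G ⧸ Subgroup.zpowers z) * (b : G ⧸ Subgroup.zpowers z) =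
        (b : G ⧸ Subgroup.zpowers z) * (a : G ⧸ Subgroup.zpowers z)
      have h2 : ((a * b * z : G) : G ⧸ Subgroup.zpowers z) = ((a * b : G) : G ⧸ Subgroup.zpowers z) * (z : G ⧸ Subgroup.zpowers z) := rfl
      rw [← QuotientGroup.mk_mul, ← QuotientGroup.mk_mul, hz, h2, h1, mul_one]
    intro x y
    obtain ⟨i, j, rfl⟩ := hform2 x
    obtain ⟨p, r, rfl⟩ := hform2 y
    have hcomm : Commute (((a ^ i * b ^ j : G)) : G ⧸ Subgroup.zpowers z) ((a ^ p * b ^ r : G) : G ⧸ Subgroup.zpowers z) := by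
      rw [QuotientGroup.mk_mul, QuotientGroup.mk_mul, QuotientGroup.mk_zpow, QuotientGroup.mk_zpow,
        QuotientGroup.mk_zpow, QuotientGroup.mk_zpow]
      apply Commute.mul_left <;> apply Commute.mul_right
      · exact (Commute.refl _).zpow_zpow i p
      · exact hc.zpow_zpow i r
      · exact hc.symm.zpow_zpow j p
      · exact (Commute.refl _).zpow_zpow j r
    have h2 : (a ^ i * b ^ j * (a ^ p * b ^ r))⁻¹ * (a ^ p * b ^ r * (a ^ i * b ^ j)) ∈ Subgroup.zpowers z := by
      rw [← QuotientGroup.eq]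
      exact hcomm.eq
    obtain ⟨t, ht⟩ := h2
    have ht' : z ^ t = (a ^ i * b ^ j * (a ^ p * b ^ r))⁻¹ * (a ^ p * b ^ r * (a ^ i * b ^ j)) := ht
    refine ⟨t, ?_⟩
    rw [ht']
    group
  have hbk : ∀ k : ℕ, b * a ^ k = a ^ k * b * z ^ k := by
    intro k
    induction k with
    | zero => simp
    | succ k ih =>
      calc b * a ^ (k + 1) = (b * a ^ k) * a := by rw [pow_succ, mul_assoc]
        _ = a ^ k * b * z ^ k * a := by rw [ih]
        _ = a ^ k * b * (z ^ k * a) := by simp only [mul_assoc]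
        _ = a ^ k * b * (a * z ^ k) := by rw [((hzc a).pow_left k).eq]
        _ = a ^ k * (b * a) * z ^ k := by simp only [mul_assoc]
        _ = a ^ k * (a * b * z) * z ^ k := by rw [hz]
        _ = a ^ (k + 1) * b * z ^ (k + 1) := by
            rw [pow_succ a, pow_succ' z]
            simp only [mul_assoc]
  have hfa : IsOfFinOrder a := isOfFinOrder_of_finite a
  obtain ⟨k, hk⟩ : ∃ k : ℕ, a ^ k = z := by
    have : z ∈ Submonoid.powers a := by
      rw [hfa.mem_powers_iff_mem_zpowers]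
      exact hzN
    exact this
  have hzk : z ^ k = 1 := by
    have h1 := hbk k
    rw [hk, (hzb).symm.eq] at h1
    have h2 : z * b * z ^ k = z * b * 1 := by rw [← h1, mul_one]
    exact mul_left_cancel h2
  have hkk : a ^ (k * k) = 1 := by
    rw [pow_mul, hk, hzk]
  obtain ⟨m, hm⟩ : ∃ m, orderOf a = 2 ^ m := by
    obtain ⟨l, hl⟩ := hG a
    obtain ⟨g, -, hg⟩ := (Nat.dvd_prime_pow Nat.prime_two).1 (orderOf_dvd_of_pow_eq_one hl)
    exact ⟨g, hg⟩
  have hordb : orderOf b = 2 ^ m := by
    rw [← hm]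
    exact MulEquiv.orderOf_eq α a
  have ha1 : a ≠ 1 := by
    rintro h
    apply haΦ
    rw [h]
    exact Φ.one_mem
  have hm0 : 1 ≤ m := by
    by_contra h
    have : m = 0 := by omega
    rw [this, pow_zero] at hm
    exact ha1 (orderOf_eq_one_iff.1 hm)
  have hkd : 2 ^ m ∣ k * k := by
    rw [← hm]
    exact orderOf_dvd_of_pow_eq_one hkk
  set n := 2 ^ (m - 1) with hn_def
  have hnn : 2 * n = 2 ^ m := by
    rw [hn_def, ← pow_succ']
    congr 1
    omega
  have hchoose : z ^ (n.choose 2) = 1 ∨ (m = 2 ∧ z ≠ 1) := by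
    obtain rfl | hm2 | hm3 : m = 1 ∨ m = 2 ∨ 3 ≤ m := by omega
    · left
      have : n = 1 := by rw [hn_def]; norm_num
      rw [this]
      simp
    · by_cases hz1 : z = 1
      · left
        rw [hz1, one_pow]
      · right
        exact ⟨hm2, hz1⟩
    · left
      have h8 : 8 ∣ k * k := by
        have : (8 : ℕ) = 2 ^ 3 := by norm_num
        rw [this]
        exact (pow_dvd_pow 2 hm3).trans hkd
      have h4 : 4 ∣ k := by
        have h5 : (k * k) % 8 = 0 := Nat.mod_eq_zero_of_dvd h8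
        have h6 : k % 8 = 0 ∨ k % 8 = 1 ∨ k % 8 = 2 ∨ k % 8 = 3 ∨ k % 8 = 4 ∨ k % 8 = 5 ∨ k % 8 = 6 ∨ k % 8 = 7 := by
          omega
        rw [Nat.mul_mod] at h5
        rcases h6 with h6 | h6 | h6 | h6 | h6 | h6 | h6 | h6 <;> rw [h6] at h5 <;> omega
      obtain ⟨k', rfl⟩ := h4
      obtain ⟨m', rfl⟩ : ∃ m', m = m' + 2 := ⟨m - 2, by omega⟩
      have hnm : n = 2 * 2 ^ m' := by
        rw [hn_def, ← pow_succ']
        congr 1
      have hch : n.choose 2 = 2 ^ m' * (n - 1) := by
        rw [Nat.choose_two_right, hnm]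
        rw [show 2 * 2 ^ m' * (2 * 2 ^ m' - 1) = 2 * (2 ^ m' * (2 * 2 ^ m' - 1)) by ring]
        exact Nat.mul_div_cancel_left _ (by norm_num)
      rw [← hk, ← pow_mul, ← orderOf_dvd_iff_pow_eq_one, hm, hch]
      exact ⟨k' * (n - 1), by rw [pow_add]; ring⟩
  have hn0 : n ≠ 0 := by
    rw [hn_def]
    positivity
  have hnlt : n < 2 ^ m := by
    rw [← hnn]
    omega
  have hu1 : a ^ n ≠ 1 := pow_ne_one_of_lt_orderOf hn0 (by rw [hm]; exact hnlt)
  have hw1 : b ^ n ≠ 1 := pow_ne_one_of_lt_orderOf hn0 (by rw [hordb]; exact hnlt)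
  have huu : a ^ n * a ^ n = 1 := by
    rw [← pow_add, ← two_mul, hnn, ← hm, pow_orderOf_eq_one]
  have hVall : ∀ w' : G ⧸ Φ, w' = 1 ∨ w' = (a : G ⧸ Φ) ∨ w' = (b : G ⧸ Φ) ∨ w' = (a : G ⧸ Φ) * (b : G ⧸ Φ) := by
    intro w'
    obtain ⟨g, rfl⟩ := QuotientGroup.mk_surjective w'
    obtain ⟨i, j, rfl⟩ := hform2 g
    rw [QuotientGroup.mk_mul, QuotientGroup.mk_zpow, QuotientGroup.mk_zpow]
    rcases zpow_cases_of_sq (h2V (a : G ⧸ Φ)) i with h1 | h1 <;>
      rcases zpow_cases_of_sq (h2V (b : G ⧸ Φ)) j with h3 | h3 <;> rw [h1, h3] <;> simp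
  rcases hchoose with hc | ⟨hm2, hz1⟩
  · -- the power map is a homomorphism
    have hP : ∀ x y : G, (x * y) ^ n = x ^ n * y ^ n := by
      intro x y
      obtain ⟨t, ht⟩ := hcl x y
      have hcp : (z ^ t) ^ (n.choose 2) = 1 := by
        rw [← zpow_natCast, ← zpow_mul, mul_comm, zpow_mul, zpow_natCast, hc, one_zpow]
      have h1 : y * x = z ^ t * x * y := by
        rw [ht, ← ((hzc (x * y)).zpow_left t).eq, mul_assoc]
      rw [class2_pow x y (z ^ t) h1 (fun g => ((hzc g).zpow_left t).eq), hcp, mul_one]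
    by_cases hinf : ∃ y, y ≠ 1 ∧ y ∈ Subgroup.zpowers a ∧ y ∈ Subgroup.zpowers b
    · obtain ⟨y, hy1, hya, hyb⟩ := hinf
      obtain ⟨e, he1, he2⟩ := exists_involution_pow hG hy1
      have h1 : y ^ e = a ^ n := eq_pow_of_involution hm hm0 (Subgroup.pow_mem _ hya e) he1 he2
      have h2 : y ^ e = b ^ n := eq_pow_of_involution hordb hm0 (Subgroup.pow_mem _ hyb e) he1 he2
      have huw : b ^ n = a ^ n := by rw [← h1, h2]
      let P : G →* G := MonoidHom.mk' (fun x => x ^ n) hP
      have hPv : ∀ x, P x = x ^ n := fun _ => rfl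
      have hPform : ∀ x : G, ∃ i : ℤ, x ^ n = (a ^ n) ^ i := by
        intro x
        obtain ⟨i, j, rfl⟩ := hform2 x
        refine ⟨i + j, ?_⟩
        rw [hP, ← zpow_natCast (a ^ i), ← zpow_natCast (b ^ j), ← zpow_mul, ← zpow_mul, mul_comm i, mul_comm j, zpow_mul,
          zpow_mul, zpow_natCast, zpow_natCast, huw, zpow_add]
      have hΦT : Φ ≤ P.ker := by
        haveI : P.ker.Normal := inferInstance
        refine H01.frattini_le_of_comm_pow (p := 2) P.ker ?_ ?_
        · rw [_root_.commutator_def, Subgroup.commutator_le]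
          intro x _ y _
          rw [MonoidHom.mem_ker, map_commutatorElement, commutatorElement_eq_one_iff_mul_comm, hPv, hPv]
          obtain ⟨i, hi⟩ := hPform x
          obtain ⟨j, hj⟩ := hPform y
          rw [hi, hj]
          exact (Commute.refl _).zpow_zpow i j
        · intro x
          rw [MonoidHom.mem_ker, hPv]
          obtain ⟨i, hi⟩ := hPform x
          rw [← pow_mul, mul_comm, pow_mul, hi, ← zpow_natCast, ← zpow_mul, mul_comm, zpow_mul, zpow_natCast, pow_two, huu,
            one_zpow]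
      have hvker : (a * b) ^ n = 1 := by
        rw [hP, huw, huu]
      have hαv : (α (a * b)) ^ n = 1 := by
        rw [← map_pow, hvker, map_one]
      have hvΦ : a * b ∉ Φ := by
        intro h
        rw [← QuotientGroup.eq_one_iff, QuotientGroup.mk_mul] at h
        apply hab_V
        have h3 : (a : G ⧸ Φ) * (b : G ⧸ Φ) = (a : G ⧸ Φ) * (a : G ⧸ Φ) := by rw [h, h2V]
        exact mul_left_cancel h3
      have hnot : ∀ g : G, g ^ n ≠ 1 → ((α (a * b) : G) : G ⧸ Φ) ≠ (g : G ⧸ Φ) := by
        intro g hg h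
        rw [QuotientGroup.eq] at h
        have h3 := hΦT h
        rw [MonoidHom.mem_ker, map_mul, map_inv, hPv, hPv, hαv, inv_one, one_mul] at h3
        exact hg h3
      rcases hVall ((α (a * b) : G) : G ⧸ Φ) with h3 | h3 | h3 | h3
      · rw [QuotientGroup.eq_one_iff] at h3
        exact hvΦ (hmemΦ _ h3)
      · exact hnot a hu1 h3
      · exact hnot b hw1 h3
      · apply hnofix (a * b) hvΦ
        rw [h3, QuotientGroup.mk_mul]
    · push Not at hinf
      have hz1 : z = 1 := by
        by_contra h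
        exact hinf z h hzN hzN'
      have hab : Commute a b := by
        change a * b = b * a
        rw [hz, hz1, mul_one]
      obtain ⟨e⟩ := homocyclic_of_internal a b m hm hordb hab hform2 (fun y h1 h2 => by
        by_contra h
        exact hinf y h h1 h2)
      exact hh ⟨m, 2, ⟨e⟩⟩
  · -- the quaternion group
    subst hm2
    have hn2 : n = 2 := by rw [hn_def]; norm_num
    have ha4 : orderOf a = 2 * 2 := by rw [hm]; norm_num
    have h2k : 2 ∣ k := by
      have h4 : 2 ∣ k * k := (by norm_num : 2 ∣ 2 ^ 2).trans hkd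
      rcases (Nat.prime_two.dvd_mul).1 h4 with h | h <;> exact h
    obtain ⟨k', rfl⟩ := h2k
    have hzz : z * z = 1 := by
      rw [← hk, ← pow_add, ← orderOf_dvd_iff_pow_eq_one, ha4]
      exact ⟨k', by ring⟩
    have hza2 : z = a ^ 2 := by
      have := eq_pow_of_involution hm hm0 hzN hz1 hzz
      simpa using this
    have hzb2 : z = b ^ 2 := by
      have := eq_pow_of_involution hordb hm0 hzN' hz1 hzz
      simpa using this
    have hxa : b ∉ Subgroup.zpowers a := by
      rintro ⟨e, he⟩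
      apply hz1
      have he' : a ^ e = b := he
      have h1 : b * a = a * b := by
        rw [← he']
        exact ((Commute.refl a).zpow_left e)
      rw [hz_def, h1]
      group
    have hx : b * b = a ^ 2 := by
      rw [← hza2, hzb2, pow_two]
    have hrel : b * a * b⁻¹ = a⁻¹ := by
      apply eq_inv_of_mul_eq_one_left
      have h1 : a ^ 4 = 1 := by
        rw [← orderOf_dvd_iff_pow_eq_one, ha4]
      calc b * a * b⁻¹ * a = a * b * z * b⁻¹ * a := by rw [hz]
        _ = a * (b * z * b⁻¹) * a := by simp only [mul_assoc]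
        _ = a * (z * b * b⁻¹) * a := by rw [((hzb).symm.eq)]
        _ = a * z * a := by
          group
        _ = a ^ 4 := by
          rw [hza2]
          group
        _ = 1 := h1
    have hNorm : (Subgroup.zpowers a).Normal := hNa ▸ hN
    have hidx : Nat.card (G ⧸ Subgroup.zpowers a) = 2 := by
      rw [Nat.card_eq_two_iff' (1 : G ⧸ Subgroup.zpowers a)]
      refine ⟨(b : G ⧸ Subgroup.zpowers a), ?_, ?_⟩
      · change (b : G ⧸ Subgroup.zpowers a) ≠ 1
        rwa [Ne, QuotientGroup.eq_one_iff]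
      · intro y hy
        obtain ⟨g, rfl⟩ := QuotientGroup.mk_surjective y
        obtain ⟨i, j, rfl⟩ := hform2 g
        have h1 : ((a : G) : G ⧸ Subgroup.zpowers a) = 1 := by
          rw [QuotientGroup.eq_one_iff]
          exact Subgroup.mem_zpowers a
        have h2 : (b : G ⧸ Subgroup.zpowers a) * (b : G ⧸ Subgroup.zpowers a) = 1 := by
          rw [← QuotientGroup.mk_mul, QuotientGroup.eq_one_iff, hx]
          exact Subgroup.npow_mem_zpowers a 2
        change ((a ^ i * b ^ j : G) : G ⧸ Subgroup.zpowers a) ≠ 1 at hy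
        rw [QuotientGroup.mk_mul, QuotientGroup.mk_zpow, QuotientGroup.mk_zpow, h1, one_zpow, one_mul] at hy ⊢
        rcases zpow_cases_of_sq h2 j with h3 | h3
        · exact absurd h3 hy
        · exact h3
    have hcard : Nat.card G = 4 * 2 := by
      have h1 := Subgroup.card_mul_index (Subgroup.zpowers a)
      rw [Nat.card_zpowers, ha4, Subgroup.index_eq_card, hidx] at h1
      omega
    exact hq ⟨2, quaternion_of a b 2 (by norm_num) ha4 hx hrel hcard hxa⟩

end

end Cfsg.Agent.H24
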