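import Mathlib

/-!
Normal 2-rank of `GL_n(q)`: the 2-adic valuations.
-/

set_option autoImplicit false

namespace Cfsg.Agent.H24.NR2

open Matrix

/-- The valuation of `q ^ k - 1`. -/
abbrev u (q k : ℕ) : ℕ := padicValNat 2 (q ^ k - 1)

/-- The valuation of the order of `GL_n(q)`. -/
abbrev W (q n : ℕ) : ℕ := ∑ k ∈ Finset.Ioc 0 n, u q k

lemma W_succ (q n : ℕ) : W q (n + 1) = W q n + u q (n + 1) :=
  Finset.sum_Ioc_succ_top (Nat.zero_le n) _

lemma W_zero (q : ℕ) : W q 0 = 0 := by simp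

lemma val_prod {ι : Type*} (s : Finset ι) (f : ι → ℕ) (h : ∀ i ∈ s, f i ≠ 0) :
    padicValNat 2 (∏ i ∈ s, f i) = ∑ i ∈ s, padicValNat 2 (f i) := by
  classical
  induction s using Finset.induction_on with
  | empty => simp
  | insert a s ha ih =>
    rw [Finset.prod_insert ha, Finset.sum_insert ha,
      padicValNat.mul (h a (Finset.mem_insert_self _ _))
        (Finset.prod_ne_zero_iff.2 fun i hi => h i (Finset.mem_insert_of_mem hi)),
      ih fun i hi => h i (Finset.mem_insert_of_mem hi)]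

/-- The valuation of the order of `GL_n(q)`. -/
lemma valGL {F : Type*} [Field F] [Fintype F] {q : ℕ} (hqF : Fintype.card F = q) (hodd : Odd q) (n : ℕ) :
    padicValNat 2 (Nat.card (GL (Fin n) F)) = W q n := by
  have hq : 2 ≤ q := by
    rw [← hqF]
    exact Fintype.one_lt_card
  have hnd : ¬ 2 ∣ q := by
    rw [← even_iff_two_dvd, Nat.not_even_iff_odd]
    exact hodd
  rw [Matrix.card_GL_field, hqF]
  have hne : ∀ i : Fin n, q ^ n - q ^ (i : ℕ) ≠ 0 := by
    intro i
    have : q ^ (i : ℕ) < q ^ n := Nat.pow_lt_pow_right (by omega) i.2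
    omega
  rw [val_prod _ _ (fun i _ => hne i)]
  have h1 : ∀ i : Fin n, padicValNat 2 (q ^ n - q ^ (i : ℕ)) = padicValNat 2 (q ^ (n - i) - 1) := by
    intro i
    have e : q ^ n - q ^ (i : ℕ) = q ^ (i : ℕ) * (q ^ (n - i) - 1) := by
      rw [Nat.mul_sub, mul_one, ← pow_add]
      congr 2
      have := i.2
      omega
    have hne' := hne i
    rw [e] at hne' ⊢
    rw [padicValNat.mul (left_ne_zero_of_mul hne') (right_ne_zero_of_mul hne'),
      padicValNat.pow, padicValNat.eq_zero_of_not_dvd hnd]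
    simp
  rw [Finset.sum_congr rfl (fun i _ => h1 i), Fin.sum_univ_eq_sum_range (fun i => padicValNat 2 (q ^ (n - i) - 1)) n]
  apply Finset.sum_nbij' (fun i => n - i) (fun k => n - k)
  · intro i hi
    have := Finset.mem_range.1 hi
    rw [Finset.mem_Ioc]
    omega
  · intro k hk
    obtain ⟨h3, h4⟩ := Finset.mem_Ioc.1 hk
    rw [Finset.mem_range]
    omega
  · intro i hi
    have := Finset.mem_range.1 hi
    omega
  · intro k hk
    obtain ⟨h3, h4⟩ := Finset.mem_Ioc.1 hk
    omega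
  · intro i _
    rfl

/-- The geometric sum for odd base. -/
lemma geom_form (p k : ℕ) (hp : Even p) : ∃ S, S % 2 = k % 2 ∧ (p + 1) ^ k = p * S + 1 := by
  induction k with
  | zero => exact ⟨0, rfl, by simp⟩
  | succ k ih =>
    obtain ⟨S, h1, h2⟩ := ih
    refine ⟨S * (p + 1) + 1, ?_, ?_⟩
    · obtain ⟨r, rfl⟩ := hp
      have : S * (r + r + 1) + 1 = 2 * (S * r) + S + 1 := by ring
      rw [this]
      omega
    · rw [pow_succ, h2]
      ring

lemma u_odd {q k : ℕ} (hodd : Odd q) (hq : 2 ≤ q) (hk : Odd k) : u q k = padicValNat 2 (q - 1) := by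
  obtain ⟨p, rfl⟩ : ∃ p, q = p + 1 := ⟨q - 1, by omega⟩
  have hp : Even p := by
    rw [Nat.odd_add_one] at hodd
    exact Nat.not_odd_iff_even.1 hodd
  obtain ⟨S, h1, h2⟩ := geom_form p k hp
  have hS : ¬ 2 ∣ S := by
    have : k % 2 = 1 := Nat.odd_iff.1 hk
    omega
  have hp0 : p ≠ 0 := by omega
  have hS0 : S ≠ 0 := by
    rintro rfl
    simp at hS
  have e : (p + 1) ^ k - 1 = p * S := by
    rw [h2]
    omega
  simp only [u, Nat.add_sub_cancel]
  rw [e, padicValNat.mul hp0 hS0, padicValNat.eq_zero_of_not_dvd hS, add_zero]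

lemma u_even {q k : ℕ} (hodd : Odd q) (hq : 2 ≤ q) (hk0 : k ≠ 0) (hk : Even k) :
    u q k + 1 = padicValNat 2 (q + 1) + padicValNat 2 (q - 1) + padicValNat 2 k := by
  have hnd : ¬ 2 ∣ q := by
    rw [← even_iff_two_dvd, Nat.not_even_iff_odd]
    exact hodd
  have h2 : 2 ∣ q - 1 := by
    obtain ⟨r, rfl⟩ := hodd
    exact ⟨r, by omega⟩
  have := padicValNat.pow_two_sub_pow (x := q) (y := 1) (by omega) h2 hnd hk0 hk
  simpa using this

lemma val_eq_one {m : ℕ} (h : m % 4 = 2) : padicValNat 2 m = 1 := by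
  obtain ⟨r, rfl⟩ : ∃ r, m = 2 * (2 * r + 1) := ⟨m / 4, by omega⟩
  rw [padicValNat.mul (by norm_num) (by omega), padicValNat.self (by norm_num),
    padicValNat.eq_zero_of_not_dvd (by omega)]

lemma two_le_val {m : ℕ} (h : m % 4 = 0) (hm : m ≠ 0) : 2 ≤ padicValNat 2 m := by
  have : (2 : ℕ) ^ 2 ∣ m := by
    norm_num
    omega
  exact (padicValNat_dvd_iff_le hm).1 this

lemma val_odd {k : ℕ} (hk : Odd k) : padicValNat 2 k = 0 := by
  apply padicValNat.eq_zero_of_not_dvd
  rw [← even_iff_two_dvd, Nat.not_even_iff_odd]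
  exact hk

lemma val_fact_succ (n : ℕ) :
    padicValNat 2 (n + 1).factorial = padicValNat 2 (n + 1) + padicValNat 2 n.factorial := by
  rw [Nat.factorial_succ, padicValNat.mul (by omega) (Nat.factorial_ne_zero _)]

/-- The case `q ≡ 1 (mod 4)`. -/
lemma u_one {q k : ℕ} (h : q % 4 = 1) (hq : 2 ≤ q) (hk0 : k ≠ 0) :
    u q k = padicValNat 2 (q - 1) + padicValNat 2 k := by
  have hodd : Odd q := Nat.odd_iff.2 (by omega)
  rcases Nat.even_or_odd k with hk | hk
  · have h1 := u_even hodd hq hk0 hk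
    rw [val_eq_one (m := q + 1) (by omega)] at h1
    omega
  · rw [u_odd hodd hq hk, val_odd hk, add_zero]

lemma W_one {q : ℕ} (h : q % 4 = 1) (hq : 2 ≤ q) (n : ℕ) :
    W q n = n * padicValNat 2 (q - 1) + padicValNat 2 n.factorial := by
  induction n with
  | zero => simp
  | succ n ih =>
    rw [W_succ, ih, u_one h hq (by omega), val_fact_succ]
    ring

/-- The case `q ≡ 3 (mod 4)`. -/
lemma u_three_odd {q k : ℕ} (h : q % 4 = 3) (hq : 2 ≤ q) (hk : Odd k) : u q k = 1 := by
  rw [u_odd (Nat.odd_iff.2 (by omega)) hq hk]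
  exact val_eq_one (by omega)

lemma u_three_even {q k : ℕ} (h : q % 4 = 3) (hq : 2 ≤ q) (hk0 : k ≠ 0) (hk : Even k) :
    u q k = padicValNat 2 (q + 1) + padicValNat 2 k := by
  have h1 := u_even (Nat.odd_iff.2 (by omega)) hq hk0 hk
  rw [val_eq_one (m := q - 1) (by omega)] at h1
  omega

lemma W_three {q : ℕ} (h : q % 4 = 3) (hq : 2 ≤ q) (m : ℕ) :
    W q (2 * m) = m * (padicValNat 2 (q + 1) + 2) + padicValNat 2 m.factorial := by
  induction m with
  | zero => simp
  | succ m ih =>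
    have e : 2 * (m + 1) = 2 * m + 1 + 1 := by ring
    rw [e, W_succ, W_succ, ih, u_three_odd h hq ⟨m, rfl⟩,
      u_three_even h hq (by omega) (by rw [← e]; simp), val_fact_succ, ← e,
      padicValNat.mul (by norm_num) (by omega), padicValNat.self (by norm_num)]
    ring

lemma W_three_odd {q : ℕ} (h : q % 4 = 3) (hq : 2 ≤ q) (m : ℕ) :
    W q (2 * m + 1) = W q (2 * m) + 1 := by
  rw [W_succ, u_three_odd h hq ⟨m, rfl⟩]

/-- Lower bound for `u`. -/
lemma u_three_ge {q k : ℕ} (h : q % 4 = 3) (hq : 2 ≤ q) (hk0 : k ≠ 0) : 1 + padicValNat 2 k ≤ u q k := by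
  rcases Nat.even_or_odd k with hk | hk
  · have := two_le_val (m := q + 1) (by omega) (by omega)
    rw [u_three_even h hq hk0 hk]
    omega
  · rw [u_three_odd h hq hk, val_odd hk]

lemma u_three_ge_even {q k : ℕ} (h : q % 4 = 3) (hq : 2 ≤ q) (hk0 : k ≠ 0) (hk : Even k) :
    2 + padicValNat 2 k ≤ u q k := by
  have := two_le_val (m := q + 1) (by omega) (by omega)
  rw [u_three_even h hq hk0 hk]
  omega

lemma W_ge {q : ℕ} (h : q % 4 = 3) (hq : 2 ≤ q) (d k : ℕ) :
    W q d + k + padicValNat 2 (d + k).factorial ≤ W q (d + k) + padicValNat 2 d.factorial := by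
  induction k with
  | zero => simp
  | succ k ih =>
    have e : d + (k + 1) = d + k + 1 := rfl
    rw [e, W_succ, val_fact_succ]
    have := u_three_ge h hq (k := d + k + 1) (by omega)
    omega

lemma val_fact_add (d k : ℕ) :
    padicValNat 2 d.factorial + padicValNat 2 k.factorial ≤ padicValNat 2 (d + k).factorial := by
  have h1 : d.factorial * k.factorial ∣ (d + k).factorial := Nat.factorial_mul_factorial_dvd_factorial_add d k
  have h2 : d.factorial * k.factorial ≠ 0 := mul_ne_zero (Nat.factorial_ne_zero _) (Nat.factorial_ne_zero _)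
  rw [← padicValNat.mul (Nat.factorial_ne_zero _) (Nat.factorial_ne_zero _)]
  exact (padicValNat_dvd_iff_le (Nat.factorial_ne_zero _)).1 ((pow_padicValNat_dvd).trans h1)

/-- The key inequality. -/
lemma W_gt {q : ℕ} (h : q % 4 = 3) (hq : 2 ≤ q) (d k : ℕ) (hk : 2 ≤ k) :
    k + padicValNat 2 k.factorial + W q d < W q (d + k) := by
  obtain ⟨k', rfl⟩ : ∃ k', k = k' + 2 := ⟨k - 2, by omega⟩
  have h1 := W_ge h hq (d + 2) k'
  have h2 : W q d + 3 + padicValNat 2 (d + 2).factorial ≤ W q (d + 2) + padicValNat 2 d.factorial := by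
    have e : d + 2 = d + 1 + 1 := rfl
    rw [e, W_succ, W_succ, val_fact_succ, val_fact_succ]
    have a1 := u_three_ge h hq (k := d + 1) (by omega)
    have a2 := u_three_ge h hq (k := d + 1 + 1) (by omega)
    rcases Nat.even_or_odd d with hd | hd
    · have a3 := u_three_ge_even h hq (k := d + 1 + 1) (by omega) (by
        obtain ⟨r, rfl⟩ := hd
        exact ⟨r + 1, by ring⟩)
      omega
    · have a3 := u_three_ge_even h hq (k := d + 1) (by omega) (by
        obtain ⟨r, rfl⟩ := hd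
        exact ⟨r + 1, by ring⟩)
      omega
  have h3 := val_fact_add d (k' + 2)
  have e1 : d + 2 + k' = d + (k' + 2) := by ring
  rw [e1] at h1
  omega

end Cfsg.Agent.H24.NR2
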