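import Mathlib
import Cfsg.Agent.Lib.H24.NR2A

/-!
Normal 2-rank of `GL_n(q)`: weight spaces of elementary abelian 2-groups of linear maps.
-/

set_option autoImplicit false

namespace Cfsg.Agent.H24.NR2

open Module

section Iso

variable {F U U' : Type*} [Field F] [AddCommGroup U] [Module F U] [AddCommGroup U'] [Module F U']

/-- Conjugation of automorphism groups. -/
def conjAut (e : U ≃ₗ[F] U') : (U ≃ₗ[F] U) ≃* (U' ≃ₗ[F] U') where
  toFun g := e.symm.trans (g.trans e)
  invFun g := e.trans (g.trans e.symm)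
  left_inv g := by
    ext x
    simp
  right_inv g := by
    ext x
    simp
  map_mul' a b := by
    ext x
    simp [LinearEquiv.mul_apply]

/-- The general linear group as an automorphism group. -/
noncomputable def glIso {d : ℕ} (e : U ≃ₗ[F] (Fin d → F)) :
    Matrix.GeneralLinearGroup (Fin d) F ≃* (U ≃ₗ[F] U) :=
  (Matrix.GeneralLinearGroup.toLin).trans
    ((LinearMap.GeneralLinearGroup.generalLinearEquiv F (Fin d → F)).trans (conjAut e.symm))

lemma card_aut [Module.Finite F U] :
    Nat.card (U ≃ₗ[F] U) = Nat.card (Matrix.GeneralLinearGroup (Fin (finrank F U)) F) :=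
  (Nat.card_congr (glIso (LinearEquiv.ofFinrankEq U (Fin (finrank F U) → F) (by simp))).toEquiv).symm

lemma finite_aut [Finite U] : Finite (U ≃ₗ[F] U) :=
  Finite.of_injective (fun g : U ≃ₗ[F] U => (g : U → U)) DFunLike.coe_injective

end Iso

/-- Dimension of an independent sum. -/
lemma finrank_biSup {F V ι : Type*} [Field F] [AddCommGroup V] [Module F V] [Module.Finite F V]
    {A : ι → Submodule F V} (hA : iSupIndep A) (s : Finset ι) :
    finrank F ↥(⨆ i ∈ s, A i) = ∑ i ∈ s, finrank F ↥(A i) := by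
  classical
  induction s using Finset.induction_on with
  | empty => simp
  | insert a s ha ih =>
    rw [Finset.sum_insert ha, Finset.iSup_insert, ← ih]
    have hd : Disjoint (A a) (⨆ i ∈ s, A i) := by
      have := hA.disjoint_biSup (y := (s : Set ι)) (by simpa using ha)
      simpa using this
    have h1 := Submodule.finrank_sup_add_finrank_inf_eq (A a) (⨆ i ∈ s, A i)
    rw [hd.eq_bot] at h1
    simpa using h1

section Wt

variable {F V : Type*} [Field F] [AddCommGroup V] [Module F V] (E : Subgroup (V ≃ₗ[F] V))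

/-- Weight spaces. -/
def wt (χ : ↥E → F) : Submodule F V where
  carrier := {v | ∀ e : ↥E, (e : V ≃ₗ[F] V) v = χ e • v}
  add_mem' := by
    intro a b ha hb e
    simp [ha e, hb e]
  zero_mem' := by
    intro e
    simp
  smul_mem' := by
    intro c x hx e
    show (e : V ≃ₗ[F] V) (c • x) = χ e • c • x
    rw [map_smul, hx e, smul_comm]

lemma mem_wt {χ : ↥E → F} {v : V} : v ∈ wt E χ ↔ ∀ e : ↥E, (e : V ≃ₗ[F] V) v = χ e • v := Iff.rfl

variable {E}

/-- The involution step. -/
lemma inv_step {e : V ≃ₗ[F] V} (h2 : (2 : F) ≠ 0) (he : e * e = 1) (μ : F) (v : V)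
    (h : e (e v - μ • v) - μ • (e v - μ • v) = 0) : e v - μ • v = 0 := by
  have hee : ∀ w, e (e w) = w := fun w => LinearEquiv.congr_fun he w
  set z := e v - μ • v with hz
  have hez : e z = μ • z := sub_eq_zero.1 h
  have h3 : e (e z) = z := hee z
  have h4 : (μ * μ) • z = z := by
    rw [hez, map_smul, hez, smul_smul] at h3
    exact h3
  by_contra hz0
  have hμ : μ * μ = 1 := by
    have : (μ * μ - 1) • z = 0 := by
      rw [sub_smul, h4, one_smul, sub_self]
    rcases smul_eq_zero.1 this with h5 | h5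
    · exact sub_eq_zero.1 h5
    · exact absurd h5 hz0
  have h5 : e z = v - μ • e v := by
    rw [hz, map_sub, map_smul, hee v]
  have h6 : v - μ • e v = μ • e v - v := by
    rw [← h5, hez, hz, smul_sub, smul_smul, hμ, one_smul]
  have h7 : (2 : F) • v = (2 : F) • (μ • e v) := by
    have h8 : v + v = μ • e v + μ • e v := by
      have := sub_eq_sub_iff_add_eq_add.1 h6
      rw [this]
    rw [two_smul, two_smul]
    exact h8
  have h9 : v = μ • e v := smul_right_injective V h2 h7
  apply hz0
  rw [hz]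
  conv_rhs => rw [← sub_self (e v)]
  congr 1
  rw [h9, smul_smul, hμ, one_smul, ← h9]

/-- The endomorphism attached to an element. -/
abbrev fE (E : Subgroup (V ≃ₗ[F] V)) : ↥E → Module.End F V :=
  fun e => ((e : V ≃ₗ[F] V) : V →ₗ[F] V)

lemma mem_maxGen {e : V ≃ₗ[F] V} (h2 : (2 : F) ≠ 0) (he : e * e = 1) (μ : F) (v : V)
    (hv : v ∈ Module.End.maxGenEigenspace ((e : V →ₗ[F] V) : Module.End F V) μ) : e v = μ • v := by
  obtain ⟨k, hk⟩ := (Module.End.mem_maxGenEigenspace _ _ _).1 hv
  have key : ∀ (k : ℕ) (v : V),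
      ((((e : V →ₗ[F] V) : Module.End F V) - μ • (1 : Module.End F V)) ^ k) v = 0 → e v - μ • v = 0 := by
    intro k
    induction k with
    | zero =>
      intro v hv
      have : v = 0 := by simpa using hv
      simp [this]
    | succ k ih =>
      intro v hv
      rw [pow_succ, Module.End.mul_apply] at hv
      have h1 := ih _ hv
      apply inv_step h2 he μ v
      simpa using h1
  exact sub_eq_zero.1 (key k v hk)

/-- Data of an elementary abelian 2-group of linear maps. -/
structure Inv (E : Subgroup (V ≃ₗ[F] V)) : Prop where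
  two : (2 : F) ≠ 0
  sq : ∀ e ∈ E, e * e = 1
  comm : ∀ a ∈ E, ∀ b ∈ E, a * b = b * a

lemma wt_eq (hE : Inv E) (χ : ↥E → F) : wt E χ = ⨅ e, Module.End.maxGenEigenspace (fE E e) (χ e) := by
  apply le_antisymm
  · intro v hv
    rw [Submodule.mem_iInf]
    intro e
    refine (Module.End.mem_maxGenEigenspace _ _ _).2 ⟨1, ?_⟩
    have := hv e
    simp [this]
  · intro v hv e
    rw [Submodule.mem_iInf] at hv
    exact mem_maxGen hE.two (hE.sq _ e.2) _ v (hv e)

lemma commute_fE (hE : Inv E) (a b : ↥E) : Commute (fE E a) (fE E b) := by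
  ext v
  exact LinearEquiv.congr_fun (hE.comm _ a.2 _ b.2) v

lemma wt_indep (hE : Inv E) : iSupIndep (wt E) := by
  have : wt E = fun χ : ↥E → F => ⨅ e, Module.End.maxGenEigenspace (fE E e) (χ e) :=
    funext (wt_eq hE)
  rw [this]
  exact Module.End.independent_iInf_maxGenEigenspace_of_forall_mapsTo _
    (fun i j φ => Module.End.mapsTo_maxGenEigenspace_of_comm (commute_fE hE j i) φ)

lemma sup_eigen_top (hE : Inv E) (e : ↥E) : ⨆ μ, Module.End.maxGenEigenspace (fE E e) μ = ⊤ := by
  have hee : ∀ w, (e : V ≃ₗ[F] V) ((e : V ≃ₗ[F] V) w) = w := fun w => LinearEquiv.congr_fun (hE.sq _ e.2) w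
  rw [eq_top_iff]
  intro v _
  have h2 := hE.two
  have hv : v = (2 : F)⁻¹ • (v + (e : V ≃ₗ[F] V) v) + (2 : F)⁻¹ • (v - (e : V ≃ₗ[F] V) v) := by
    rw [← smul_add]
    have : v + (e : V ≃ₗ[F] V) v + (v - (e : V ≃ₗ[F] V) v) = (2 : F) • v := by
      rw [two_smul]
      abel
    rw [this, smul_smul, inv_mul_cancel₀ h2, one_smul]
  rw [hv]
  refine Submodule.add_mem _ (Submodule.smul_mem _ _ (Submodule.mem_iSup_of_mem 1 ?_))
    (Submodule.smul_mem _ _ (Submodule.mem_iSup_of_mem (-1) ?_))
  · refine (Module.End.mem_maxGenEigenspace _ _ _).2 ⟨1, ?_⟩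
    simp [hee]
    abel
  · refine (Module.End.mem_maxGenEigenspace _ _ _).2 ⟨1, ?_⟩
    simp [hee]

lemma wt_top [FiniteDimensional F V] (hE : Inv E) : ⨆ χ, wt E χ = ⊤ := by
  have : wt E = fun χ : ↥E → F => ⨅ e, Module.End.maxGenEigenspace (fE E e) (χ e) :=
    funext (wt_eq hE)
  rw [this]
  exact Module.End.iSup_iInf_maxGenEigenspace_eq_top_of_forall_mapsTo _
    (fun i j φ => Module.End.mapsTo_maxGenEigenspace_of_comm (commute_fE hE j i) φ) (sup_eigen_top hE)

/-- Maps agreeing on weight spaces are equal. -/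
lemma ext_of_wt [FiniteDimensional F V] (hE : Inv E) {a b : V ≃ₗ[F] V}
    (h : ∀ χ, ∀ v ∈ wt E χ, a v = b v) : a = b := by
  ext v
  have hv : v ∈ ⨆ χ, wt E χ := by
    rw [wt_top hE]
    exact Submodule.mem_top
  induction hv using Submodule.iSup_induction' with
  | mem χ x hx => exact h χ x hx
  | zero => simp
  | add x y _ _ hx hy => rw [map_add, map_add, hx, hy]

/-- The values of a nontrivial weight are signs. -/
lemma chi_sign (hE : Inv E) {χ : ↥E → F} (hχ : wt E χ ≠ ⊥) (e : ↥E) : χ e = 1 ∨ χ e = -1 := by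
  obtain ⟨v, hv, hv0⟩ := Submodule.exists_mem_ne_zero_of_ne_bot hχ
  have hee : (e : V ≃ₗ[F] V) ((e : V ≃ₗ[F] V) v) = v := LinearEquiv.congr_fun (hE.sq _ e.2) v
  rw [hv e, map_smul, hv e, smul_smul] at hee
  have h1 : (χ e * χ e - 1) • v = 0 := by
    rw [sub_smul, hee, one_smul, sub_self]
  rcases smul_eq_zero.1 h1 with h2 | h2
  · exact mul_self_eq_one_iff.1 (sub_eq_zero.1 h2)
  · exact absurd h2 hv0

section Finite

variable [Finite F] [Finite V]

/-- `|E| ≤ 2^r`. -/
lemma card_le (hE : Inv E) : Nat.card ↥E ≤ 2 ^ Nat.card {χ : ↥E → F // wt E χ ≠ ⊥} := by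
  classical
  have := finite_aut (F := F) (U := V)
  have hfd : FiniteDimensional F V := Module.Finite.of_finite
  let Ψ : ↥E → ({χ : ↥E → F // wt E χ ≠ ⊥} → Bool) := fun e χ => decide (χ.1 e = 1)
  have hinj : Function.Injective Ψ := by
    intro a b hab
    apply Subtype.ext
    apply ext_of_wt hE
    intro χ v hv
    by_cases hχ : wt E χ = ⊥
    · rw [hχ, Submodule.mem_bot] at hv
      simp [hv]
    · have h1 := congrFun hab ⟨χ, hχ⟩
      have h2 : χ a = χ b := by
        simp only [Ψ, decide_eq_decide] at h1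
        rcases chi_sign hE hχ a with h3 | h3 <;> rcases chi_sign hE hχ b with h4 | h4
        · rw [h3, h4]
        · exact absurd (h1.1 h3) (by
            rw [h4]
            intro h5
            apply hE.two
            have : (2 : F) = 1 + 1 := by norm_num
            rw [this]
            nth_rewrite 1 [← h5]
            ring)
        · exact absurd (h1.2 h4) (by
            rw [h3]
            intro h5
            apply hE.two
            have : (2 : F) = 1 + 1 := by norm_num
            rw [this]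
            nth_rewrite 1 [← h5]
            ring)
        · rw [h3, h4]
      rw [hv a, hv b, h2]
  have := Nat.card_le_card_of_injective Ψ hinj
  rwa [Nat.card_fun, Nat.card_eq_fintype_card (α := Bool), Fintype.card_bool] at this

end Finite

end Wt

end Cfsg.Agent.H24.NR2
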