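import Mathlib
import Cfsg.Agent.Lib.H24.NR2B

/-!
Normal 2-rank of `GL_n(q)`: the upper bounds.
-/

set_option autoImplicit false

namespace Cfsg.Agent.H24.NR2

open Module

variable {F V : Type*} [Field F] [AddCommGroup V] [Module F V] {E : Subgroup (V ≃ₗ[F] V)}

section Count

variable [Finite F] [Finite V]

lemma finite_chi : Finite (↥E → F) := by
  have := finite_aut (F := F) (U := V)
  infer_instance

lemma sum_finrank (hE : Inv E) [Fintype (↥E → F)] : ∑ χ, finrank F ↥(wt E χ) = finrank F V := by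
  have hfd : FiniteDimensional F V := Module.Finite.of_finite
  have h1 := finrank_biSup (wt_indep hE) Finset.univ
  have h2 : (⨆ i ∈ (Finset.univ : Finset (↥E → F)), wt E i) = ⨆ i, wt E i := by simp
  rw [h2, wt_top hE, finrank_top] at h1
  exact h1.symm

/-- The general bound on an elementary abelian `2`-group. -/
theorem card_le_pow (hE : Inv E) : Nat.card ↥E ≤ 2 ^ finrank F V := by
  classical
  have hfd : FiniteDimensional F V := Module.Finite.of_finite
  have := finite_chi (F := F) (V := V) (E := E)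
  letI := Fintype.ofFinite {χ : ↥E → F // wt E χ ≠ ⊥}
  have h1 := (wt_indep hE).subtype_ne_bot_le_finrank
  rw [← Nat.card_eq_fintype_card] at h1
  exact (card_le hE).trans (Nat.pow_le_pow_right (by norm_num) h1)

/-- The number of weights, given that few are one-dimensional. -/
lemma two_mul_card_le (hE : Inv E) :
    2 * Nat.card {χ : ↥E → F // wt E χ ≠ ⊥} ≤ finrank F V + Nat.card {χ : ↥E → F // finrank F ↥(wt E χ) = 1} := by
  classical
  have := finite_chi (F := F) (V := V) (E := E)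
  letI := Fintype.ofFinite (↥E → F)
  rw [← sum_finrank hE, Nat.card_eq_fintype_card, Nat.card_eq_fintype_card, Fintype.card_subtype,
    Fintype.card_subtype, Finset.card_filter, Finset.card_filter, Finset.mul_sum, ← Finset.sum_add_distrib]
  apply Finset.sum_le_sum
  intro χ _
  by_cases h0 : wt E χ = ⊥
  · simp [h0]
  · have h1 : finrank F ↥(wt E χ) ≠ 0 := by
      intro h
      exact h0 (Submodule.finrank_eq_zero.1 h)
    by_cases h2 : finrank F ↥(wt E χ) = 1
    · simp [h0, h2]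
    · simp only [h0, h2, ne_eq, not_false_eq_true, if_true, if_false]
      omega

/-- The sum of the weight spaces of dimension different from one. -/
def wR (E : Subgroup (V ≃ₗ[F] V)) : Submodule F V :=
  ⨆ χ : ↥E → F, ⨆ (_ : finrank F ↥(wt E χ) ≠ 1), wt E χ

lemma finrank_wR (hE : Inv E) :
    finrank F ↥(wR E) + Nat.card {χ : ↥E → F // finrank F ↥(wt E χ) = 1} = finrank F V := by
  classical
  have hfd : FiniteDimensional F V := Module.Finite.of_finite
  have := finite_chi (F := F) (V := V) (E := E)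
  letI := Fintype.ofFinite (↥E → F)
  set s := Finset.univ.filter fun χ : ↥E → F => finrank F ↥(wt E χ) ≠ 1 with hs
  have h1 := finrank_biSup (wt_indep hE) s
  have h2 : ⨆ χ ∈ s, wt E χ = wR E := by
    simp only [hs, Finset.mem_filter, Finset.mem_univ, true_and, wR]
  rw [h2] at h1
  rw [h1, ← sum_finrank hE, Nat.card_eq_fintype_card, Fintype.card_subtype,
    ← Finset.sum_filter_add_sum_filter_not Finset.univ (fun χ : ↥E → F => finrank F ↥(wt E χ) ≠ 1),
    add_right_inj]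
  have h3 : (Finset.univ.filter fun χ : ↥E → F => ¬ finrank F ↥(wt E χ) ≠ 1) =
      Finset.univ.filter fun χ : ↥E → F => finrank F ↥(wt E χ) = 1 := by
    ext χ
    simp
  rw [h3, Finset.card_eq_sum_ones]
  apply Finset.sum_congr rfl
  intro χ hχ
  exact (Finset.mem_filter.1 hχ).2.symm

end Count

section Act

variable {T : Subgroup (V ≃ₗ[F] V)} (hT : ∀ g ∈ T, ∀ e ∈ E, g * e * g⁻¹ ∈ E)

include hT in
lemma conj_mem' (g : ↥T) (e : ↥E) : (g : V ≃ₗ[F] V)⁻¹ * e * (g : V ≃ₗ[F] V) ∈ E := by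
  have := hT _ (T.inv_mem g.2) _ e.2
  simpa using this

/-- The action on weights. -/
def act (g : ↥T) (χ : ↥E → F) : ↥E → F :=
  fun e => χ ⟨(g : V ≃ₗ[F] V)⁻¹ * e * (g : V ≃ₗ[F] V), conj_mem' hT g e⟩

lemma act_mul (g h : ↥T) (χ : ↥E → F) : act hT (g * h) χ = act hT g (act hT h χ) := by
  funext e
  simp only [act]
  congr 1

lemma act_one (χ : ↥E → F) : act hT 1 χ = χ := by
  funext e
  simp only [act]
  congr 1

lemma map_le_wt (g : ↥T) (χ : ↥E → F) :
    (wt E χ).map ((g : V ≃ₗ[F] V) : V →ₗ[F] V) ≤ wt E (act hT g χ) := by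
  rintro _ ⟨v, hv, rfl⟩ e
  have h1 := hv ⟨(g : V ≃ₗ[F] V)⁻¹ * e * (g : V ≃ₗ[F] V), conj_mem' hT g e⟩
  have h2 : ((g : V ≃ₗ[F] V)⁻¹ * e * (g : V ≃ₗ[F] V)) v = (g : V ≃ₗ[F] V).symm ((e : V ≃ₗ[F] V) ((g : V ≃ₗ[F] V) v)) := rfl
  change ((g : V ≃ₗ[F] V)⁻¹ * e * (g : V ≃ₗ[F] V)) v = _ at h1
  rw [h2] at h1
  change (e : V ≃ₗ[F] V) ((g : V ≃ₗ[F] V) v) = act hT g χ e • (g : V ≃ₗ[F] V) v
  have h3 : (e : V ≃ₗ[F] V) ((g : V ≃ₗ[F] V) v) =
      (g : V ≃ₗ[F] V) ((g : V ≃ₗ[F] V).symm ((e : V ≃ₗ[F] V) ((g : V ≃ₗ[F] V) v))) :=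
    ((g : V ≃ₗ[F] V).apply_symm_apply _).symm
  rw [h3, h1, map_smul]
  rfl

lemma wt_act (g : ↥T) (χ : ↥E → F) :
    wt E (act hT g χ) = (wt E χ).map ((g : V ≃ₗ[F] V) : V →ₗ[F] V) := by
  apply le_antisymm _ (map_le_wt hT g χ)
  intro w hw
  have h1 := map_le_wt hT g⁻¹ (act hT g χ)
  rw [← act_mul, inv_mul_cancel, act_one] at h1
  have h2 : (g⁻¹ : ↥T).1 w ∈ wt E χ := h1 ⟨w, hw, rfl⟩
  exact ⟨_, h2, (g : V ≃ₗ[F] V).apply_symm_apply w⟩

lemma finrank_act (g : ↥T) (χ : ↥E → F) : finrank F ↥(wt E (act hT g χ)) = finrank F ↥(wt E χ) := by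
  rw [wt_act]
  exact LinearEquiv.finrank_map_eq (g : V ≃ₗ[F] V) _

/-- The permutation representation on the one-dimensional weights. -/
def permHom : ↥T →* Equiv.Perm {χ : ↥E → F // finrank F ↥(wt E χ) = 1} where
  toFun g :=
    { toFun := fun χ => ⟨act hT g χ.1, by rw [finrank_act]; exact χ.2⟩
      invFun := fun χ => ⟨act hT g⁻¹ χ.1, by rw [finrank_act]; exact χ.2⟩
      left_inv := fun χ => Subtype.ext (by
        show act hT g⁻¹ (act hT g χ.1) = χ.1
        rw [← act_mul, inv_mul_cancel, act_one])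
      right_inv := fun χ => Subtype.ext (by
        show act hT g (act hT g⁻¹ χ.1) = χ.1
        rw [← act_mul, mul_inv_cancel, act_one]) }
  map_one' := by
    ext χ : 2
    exact act_one hT χ.1
  map_mul' g h := by
    ext χ : 2
    exact act_mul hT g h χ.1

include hT in
lemma map_wR_le (g : ↥T) : (wR E).map ((g : V ≃ₗ[F] V) : V →ₗ[F] V) ≤ wR E := by
  unfold wR
  rw [Submodule.map_iSup]
  refine iSup_le fun χ => ?_
  rw [Submodule.map_iSup]
  refine iSup_le fun hχ => ?_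
  rw [← wt_act hT]
  exact le_iSup₂_of_le (act hT g χ) (by rw [finrank_act]; exact hχ) le_rfl

include hT in
lemma map_wR (g : ↥T) : (wR E).map ((g : V ≃ₗ[F] V) : V →ₗ[F] V) = wR E := by
  apply le_antisymm (map_wR_le hT g)
  intro w hw
  have h2 : (g⁻¹ : ↥T).1 w ∈ wR E := map_wR_le hT g⁻¹ ⟨w, hw, rfl⟩
  exact ⟨_, h2, (g : V ≃ₗ[F] V).apply_symm_apply w⟩

/-- Restriction to the sum of the other weight spaces. -/
def resHom : ↥T →* (↥(wR E) ≃ₗ[F] ↥(wR E)) where
  toFun g := LinearEquiv.ofSubmodules (g : V ≃ₗ[F] V) (wR E) (wR E) (map_wR hT g)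
  map_one' := by
    ext x
    rfl
  map_mul' g h := by
    ext x
    rfl

lemma resHom_apply (g : ↥T) (x : ↥(wR E)) : ((resHom hT g x : ↥(wR E)) : V) = (g : V ≃ₗ[F] V) x := rfl

end Act

section Sign

variable [Fintype F]

lemma scal_sq {q : ℕ} (hF : Fintype.card F = q) (h3 : q % 4 = 3) {c : F} (hc : c ≠ 0) (N : ℕ)
    (h : c ^ (2 ^ N) = 1) : c * c = 1 := by
  have h1 := FiniteField.pow_card_sub_one_eq_one c hc
  rw [hF] at h1
  obtain ⟨o, ho⟩ : ∃ o, q - 1 = 2 * o := ⟨(q - 1) / 2, by omega⟩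
  have hodd : Odd o := Nat.odd_iff.2 (by omega)
  rw [ho, pow_mul] at h1
  have h2 : (c ^ 2) ^ (2 ^ N) = 1 := by
    rw [← pow_mul, mul_comm, pow_mul, h, one_pow]
  have h4 := pow_gcd_eq_one.2 ⟨h1, h2⟩
  have h5 : Nat.gcd o (2 ^ N) = 1 := Nat.Coprime.pow_right N (Nat.coprime_two_right.2 hodd)
  rw [h5, pow_one, pow_two] at h4
  exact h4

variable {T : Subgroup (V ≃ₗ[F] V)} (hT : ∀ g ∈ T, ∀ e ∈ E, g * e * g⁻¹ ∈ E)

include hT in
lemma sign_of_fix {q : ℕ} (hF : Fintype.card F = q) (h3 : q % 4 = 3) (hT2 : IsPGroup 2 ↥T) (t : ↥T)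
    {χ : ↥E → F} (hχ : finrank F ↥(wt E χ) = 1) (hfix : act hT t χ = χ) :
    (∀ v ∈ wt E χ, (t : V ≃ₗ[F] V) v = v) ∨ (∀ v ∈ wt E χ, (t : V ≃ₗ[F] V) v = -v) := by
  obtain ⟨⟨v₀, hv₀⟩, hne, hall⟩ := finrank_eq_one_iff'.1 hχ
  have hv₀0 : v₀ ≠ 0 := fun h => hne (Subtype.ext h)
  have hmap : (t : V ≃ₗ[F] V) v₀ ∈ wt E χ := by
    have := map_le_wt hT t χ ⟨v₀, hv₀, rfl⟩
    rwa [hfix] at this
  obtain ⟨c, hc⟩ := hall ⟨_, hmap⟩
  have hc' : c • v₀ = (t : V ≃ₗ[F] V) v₀ := congrArg Subtype.val hc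
  have hc0 : c ≠ 0 := by
    rintro rfl
    rw [zero_smul] at hc'
    exact hv₀0 ((t : V ≃ₗ[F] V).map_eq_zero_iff.1 hc'.symm)
  obtain ⟨N, hN⟩ := hT2 t
  have hpow : ∀ m : ℕ, ((t : V ≃ₗ[F] V) ^ m) v₀ = c ^ m • v₀ := by
    intro m
    induction m with
    | zero => simp
    | succ m ih =>
      rw [pow_succ, LinearEquiv.mul_apply, ← hc', map_smul, ih, smul_smul, pow_succ, mul_comm]
  have h1 : (t : V ≃ₗ[F] V) ^ (2 ^ N) = 1 := by
    have := congrArg Subtype.val hN
    simpa using this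
  have h2 : c ^ (2 ^ N) = 1 := by
    have h4 := hpow (2 ^ N)
    rw [h1] at h4
    have h5 : (c ^ (2 ^ N) - 1) • v₀ = 0 := by
      rw [sub_smul, ← h4, one_smul]
      simp
    rcases smul_eq_zero.1 h5 with h6 | h6
    · exact sub_eq_zero.1 h6
    · exact absurd h6 hv₀0
  have h4 := scal_sq hF h3 hc0 N h2
  have hall' : ∀ w ∈ wt E χ, (t : V ≃ₗ[F] V) w = c • w := by
    intro w hw
    obtain ⟨c', hc'2⟩ := hall ⟨w, hw⟩
    have e1 : c' • v₀ = w := congrArg Subtype.val hc'2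
    rw [← e1, map_smul, ← hc', smul_comm]
  rcases mul_self_eq_one_iff.1 h4 with h5 | h5
  · left
    intro v hv
    rw [hall' v hv, h5, one_smul]
  · right
    intro v hv
    rw [hall' v hv, h5, neg_smul, one_smul]

end Sign

section Main

variable [Fintype F] [Finite V]

variable {T : Subgroup (V ≃ₗ[F] V)} (hT : ∀ g ∈ T, ∀ e ∈ E, g * e * g⁻¹ ∈ E)

/-- The combined homomorphism. -/
def thetaHom : ↥T →* Equiv.Perm {χ : ↥E → F // finrank F ↥(wt E χ) = 1} × (↥(wR E) ≃ₗ[F] ↥(wR E)) :=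
  (permHom hT).prod (resHom hT)

include hT in
lemma card_ker_le {q : ℕ} (hF : Fintype.card F = q) (h3 : q % 4 = 3) (hE : Inv E) (hT2 : IsPGroup 2 ↥T) :
    Nat.card ↥(thetaHom hT).ker ≤ 2 ^ Nat.card {χ : ↥E → F // finrank F ↥(wt E χ) = 1} := by
  classical
  have hfd : FiniteDimensional F V := Module.Finite.of_finite
  have := finite_chi (F := F) (V := V) (E := E)
  have hfix : ∀ (t : ↥(thetaHom hT).ker) (χ : ↥E → F), finrank F ↥(wt E χ) = 1 → act hT t.1 χ = χ := by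
    intro t χ hχ
    have h1 := congrArg Prod.fst (MonoidHom.mem_ker.1 t.2)
    have h2 := congrArg Subtype.val (Equiv.congr_fun h1 ⟨χ, hχ⟩)
    exact h2
  have hres : ∀ (t : ↥(thetaHom hT).ker) (v : V), v ∈ wR E → (t.1 : V ≃ₗ[F] V) v = v := by
    intro t v hv
    have h1 := congrArg Prod.snd (MonoidHom.mem_ker.1 t.2)
    have h2 := congrArg Subtype.val (LinearEquiv.congr_fun h1 ⟨v, hv⟩)
    exact h2
  let Ψ : ↥(thetaHom hT).ker → ({χ : ↥E → F // finrank F ↥(wt E χ) = 1} → Bool) :=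
    fun t χ => decide (∀ v ∈ wt E χ.1, (t.1 : V ≃ₗ[F] V) v = v)
  have hinj : Function.Injective Ψ := by
    intro a b hab
    apply Subtype.ext
    apply Subtype.ext
    apply ext_of_wt hE
    intro χ v hv
    by_cases hχ : finrank F ↥(wt E χ) = 1
    · have h1 := congrFun hab ⟨χ, hχ⟩
      simp only [Ψ, decide_eq_decide] at h1
      by_cases hP : ∀ v ∈ wt E χ, (a.1 : V ≃ₗ[F] V) v = v
      · rw [hP v hv, h1.1 hP v hv]
      · have hQ : ¬ ∀ v ∈ wt E χ, (b.1 : V ≃ₗ[F] V) v = v := fun h => hP (h1.2 h)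
        have ha := (sign_of_fix hT hF h3 hT2 a.1 hχ (hfix a χ hχ)).resolve_left hP
        have hb := (sign_of_fix hT hF h3 hT2 b.1 hχ (hfix b χ hχ)).resolve_left hQ
        rw [ha v hv, hb v hv]
    · have hle : wt E χ ≤ wR E := le_iSup₂_of_le χ hχ le_rfl
      rw [hres a v (hle hv), hres b v (hle hv)]
  have := Nat.card_le_card_of_injective Ψ hinj
  rwa [Nat.card_fun, Nat.card_eq_fintype_card (α := Bool), Fintype.card_bool] at this

include hT in
/-- At most one weight space has dimension one. -/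
theorem one_dim_le_one {q : ℕ} (hF : Fintype.card F = q) (h3 : q % 4 = 3) (hE : Inv E) (hT2 : IsPGroup 2 ↥T)
    (hcard : Nat.card ↥T = 2 ^ W q (finrank F V)) :
    Nat.card {χ : ↥E → F // finrank F ↥(wt E χ) = 1} ≤ 1 := by
  classical
  have hq : 2 ≤ q := by
    rw [← hF]
    exact Fintype.one_lt_card
  have hodd : Odd q := Nat.odd_iff.2 (by omega)
  have := finite_aut (F := F) (U := V)
  have := finite_chi (F := F) (V := V) (E := E)
  have hfd : FiniteDimensional F V := Module.Finite.of_finite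
  by_contra hk
  set k := Nat.card {χ : ↥E → F // finrank F ↥(wt E χ) = 1} with hkdef
  have hk2 : 2 ≤ k := by omega
  have hdim := finrank_wR hE
  rw [← hkdef] at hdim
  set d := finrank F ↥(wR E) with hd
  have hker := card_ker_le hT hF h3 hE hT2
  rw [← hkdef] at hker
  have hmul := Subgroup.card_mul_index (thetaHom hT).ker
  rw [Subgroup.index_ker] at hmul
  have : Finite (↥(wR E) ≃ₗ[F] ↥(wR E)) := finite_aut
  have : Finite {χ : ↥E → F // finrank F ↥(wt E χ) = 1} := inferInstance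
  have hP : IsPGroup 2 ↥(thetaHom hT).range :=
    hT2.of_surjective (thetaHom hT).rangeRestrict (thetaHom hT).rangeRestrict_surjective
  obtain ⟨s, hs⟩ := hP.exists_card_eq
  have hdvd : Nat.card ↥(thetaHom hT).range ∣
      Nat.card (Equiv.Perm {χ : ↥E → F // finrank F ↥(wt E χ) = 1} × (↥(wR E) ≃ₗ[F] ↥(wR E))) :=
    Subgroup.card_subgroup_dvd_card _
  rw [Nat.card_prod, Nat.card_perm, ← hkdef, card_aut, ← hd, hs] at hdvd
  have hne : k.factorial * Nat.card (Matrix.GeneralLinearGroup (Fin d) F) ≠ 0 :=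
    mul_ne_zero (Nat.factorial_ne_zero _) Nat.card_pos.ne'
  have hsle : s ≤ padicValNat 2 k.factorial + W q d := by
    have := (padicValNat_dvd_iff_le hne).1 hdvd
    rwa [padicValNat.mul (Nat.factorial_ne_zero _) Nat.card_pos.ne', valGL hF hodd] at this
  have hW : W q (finrank F V) ≤ k + s := by
    have h1 : 2 ^ W q (finrank F V) ≤ 2 ^ (k + s) := by
      rw [← hcard, ← hmul, hs, pow_add]
      exact Nat.mul_le_mul_right _ hker
    exact (Nat.pow_le_pow_iff_right (by norm_num)).1 h1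
  have hgt := W_gt h3 hq d k hk2
  rw [hdim] at hgt
  omega

include hT in
/-- The bound for `q ≡ 3 (mod 4)`. -/
theorem card_le_half {q : ℕ} (hF : Fintype.card F = q) (h3 : q % 4 = 3) (hE : Inv E) (hT2 : IsPGroup 2 ↥T)
    (hcard : Nat.card ↥T = 2 ^ W q (finrank F V)) :
    Nat.card ↥E ≤ 2 ^ ((finrank F V + 1) / 2) := by
  have h1 := one_dim_le_one hT hF h3 hE hT2 hcard
  have h2 := two_mul_card_le hE
  refine (card_le hE).trans (Nat.pow_le_pow_right (by norm_num) ?_)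
  omega

end Main

end Cfsg.Agent.H24.NR2
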