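import Mathlib
import Cfsg.Agent.Lib.H24.NR2C
import Cfsg.Prelude.Def_Transfer

/-!
Normal 2-rank of `GL_n(q)`: the lower bounds.
-/

set_option autoImplicit false

namespace Cfsg.Agent.H24.NR2

open Module

section Good

variable {Γ Γ' : Type*} [Group Γ] [Group Γ']

/-- An elementary abelian group `E` normalized by `M`. -/
structure Good (E M : Subgroup Γ) : Prop where
  sq : ∀ e ∈ E, e * e = 1
  comm : ∀ a ∈ E, ∀ b ∈ E, a * b = b * a
  conj : ∀ x ∈ M, ∀ e ∈ E, x * e * x⁻¹ ∈ E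

lemma Good.map {E M : Subgroup Γ} (h : Good E M) (f : Γ →* Γ') : Good (E.map f) (M.map f) := by
  refine ⟨?_, ?_, ?_⟩
  · rintro _ ⟨e, he, rfl⟩
    rw [← map_mul, h.sq e he, map_one]
  · rintro _ ⟨a, ha, rfl⟩ _ ⟨b, hb, rfl⟩
    rw [← map_mul, ← map_mul, h.comm a ha b hb]
  · rintro _ ⟨x, hx, rfl⟩ _ ⟨e, he, rfl⟩
    exact ⟨x * e * x⁻¹, h.conj x hx e he, by simp⟩

lemma Good.prod {E M : Subgroup Γ} {E' M' : Subgroup Γ'} (h : Good E M) (h' : Good E' M') :
    Good (E.prod E') (M.prod M') := by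
  refine ⟨?_, ?_, ?_⟩
  · rintro ⟨a, a'⟩ ⟨ha, ha'⟩
    exact Prod.ext (h.sq a ha) (h'.sq a' ha')
  · rintro ⟨a, a'⟩ ⟨ha, ha'⟩ ⟨b, b'⟩ ⟨hb, hb'⟩
    exact Prod.ext (h.comm a ha b hb) (h'.comm a' ha' b' hb')
  · rintro ⟨x, x'⟩ ⟨hx, hx'⟩ ⟨e, e'⟩ ⟨he, he'⟩
    exact ⟨h.conj x hx e he, h'.conj x' hx' e' he'⟩

lemma Good.le_normalizer {E M : Subgroup Γ} (h : Good E M) : M ≤ Subgroup.normalizer (E : Set Γ) := by
  intro x hx
  rw [Subgroup.mem_normalizer_iff]
  intro e
  constructor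
  · exact h.conj x hx e
  · intro he
    have := h.conj x⁻¹ (M.inv_mem hx) _ he
    simpa [mul_assoc] using this

lemma Good.isPGroup {E M : Subgroup Γ} (h : Good E M) : IsPGroup 2 ↥E := by
  rintro ⟨e, he⟩
  refine ⟨1, Subtype.ext ?_⟩
  simp [pow_two, h.sq e he]

/-- The existence of a normal subgroup of the right size in each Sylow subgroup. -/
theorem Good.exists_normal [Finite Γ] {E M : Subgroup Γ} (h : Good E M)
    (hv : padicValNat 2 (Nat.card Γ) ≤ padicValNat 2 (Nat.card ↥M)) (S : Sylow 2 Γ) :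
    ∃ E' : Subgroup ↥(S : Subgroup Γ), E'.Normal ∧ Cfsg.IsElementaryAbelian 2 E' ∧ Nat.card ↥E ≤ Nat.card ↥E' := by
  set N := Subgroup.normalizer (E : Set Γ) with hN
  have hN0 : Nat.card ↥N ≠ 0 := Nat.card_pos.ne'
  have hv2 : padicValNat 2 (Nat.card Γ) ≤ padicValNat 2 (Nat.card ↥N) := by
    refine hv.trans ?_
    exact (padicValNat_dvd_iff_le hN0).1
      ((pow_padicValNat_dvd).trans (Subgroup.card_dvd_of_le h.le_normalizer))
  obtain ⟨S₀⟩ := (inferInstance : Nonempty (Sylow 2 ↥N))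
  set T : Subgroup Γ := (S₀ : Subgroup ↥N).map N.subtype with hT
  have hTP : IsPGroup 2 ↥T := S₀.isPGroup'.map _
  obtain ⟨S₁, hS₁⟩ := hTP.exists_le_sylow
  have hcT : Nat.card ↥T = 2 ^ padicValNat 2 (Nat.card ↥N) := by
    rw [hT, Subgroup.card_map_of_injective N.subtype_injective, S₀.card_eq_multiplicity,
      Nat.factorization_def _ Nat.prime_two]
  have hcS : Nat.card ↥(S₁ : Subgroup Γ) = 2 ^ padicValNat 2 (Nat.card Γ) := by
    rw [S₁.card_eq_multiplicity, Nat.factorization_def _ Nat.prime_two]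
  have hTS : T = S₁ := Subgroup.eq_of_le_of_card_ge hS₁ (by
    rw [hcT, hcS]
    exact Nat.pow_le_pow_right (by norm_num) hv2)
  have hS₁N : (S₁ : Subgroup Γ) ≤ N := by
    rw [← hTS, hT]
    rintro _ ⟨x, _, rfl⟩
    exact x.2
  have hES : E ≤ S₁ := by
    have h1 : IsPGroup 2 ↥((S₁ : Subgroup Γ) ⊔ E) :=
      S₁.isPGroup'.to_sup_of_normal_right' h.isPGroup hS₁N
    have h2 := S₁.is_maximal' h1 le_sup_left
    rw [← h2]
    exact le_sup_right
  obtain ⟨g, hg⟩ := MulAction.exists_smul_eq Γ S₁ S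
  have hSeq : (S : Subgroup Γ) = (S₁ : Subgroup Γ).map (MulAut.conj g).toMonoidHom := by
    rw [← hg]
    rfl
  set Eg : Subgroup Γ := E.map (MulAut.conj g).toMonoidHom with hEg
  have hEgS : Eg ≤ S := by
    rw [hSeq]
    exact Subgroup.map_mono hES
  have hcard : Nat.card ↥Eg = Nat.card ↥E :=
    Subgroup.card_map_of_injective (MulAut.conj g).injective
  refine ⟨Eg.subgroupOf S, ?_, ⟨?_, ?_⟩, ?_⟩
  · constructor
    rintro ⟨a, ha⟩ ha' ⟨s, hs⟩
    rw [Subgroup.mem_subgroupOf] at ha' ⊢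
    rw [hSeq] at hs
    obtain ⟨s₀, hs₀, rfl⟩ := hs
    obtain ⟨e, he, rfl⟩ := ha'
    refine ⟨s₀ * e * s₀⁻¹, ?_, ?_⟩
    · exact (Subgroup.mem_normalizer_iff.1 (hS₁N hs₀) e).1 he
    · simp [mul_assoc]
  · constructor
    constructor
    rintro ⟨⟨a, ha⟩, ha'⟩ ⟨⟨b, hb⟩, hb'⟩
    rw [Subgroup.mem_subgroupOf] at ha' hb'
    obtain ⟨a₀, ha₀, rfl⟩ := ha'
    obtain ⟨b₀, hb₀, rfl⟩ := hb'
    apply Subtype.ext
    apply Subtype.ext
    show (MulAut.conj g).toMonoidHom a₀ * (MulAut.conj g).toMonoidHom b₀ =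
      (MulAut.conj g).toMonoidHom b₀ * (MulAut.conj g).toMonoidHom a₀
    rw [← map_mul, ← map_mul, h.comm a₀ ha₀ b₀ hb₀]
  · rintro ⟨a, ha⟩ ha'
    rw [Subgroup.mem_subgroupOf] at ha'
    obtain ⟨a₀, ha₀, rfl⟩ := ha'
    apply Subtype.ext
    show ((MulAut.conj g).toMonoidHom a₀) ^ 2 = 1
    rw [← map_pow, pow_two, h.sq a₀ ha₀, map_one]
  · rw [← hcard, ← Nat.card_congr (Subgroup.subgroupOfEquivOfLe hEgS).toEquiv]

end Good

section Wreath

variable {F U : Type*} [Field F] [AddCommGroup U] [Module F U] (m : ℕ)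

/-- The base group. -/
def base : (Fin m → (U ≃ₗ[F] U)) →* ((Fin m → U) ≃ₗ[F] (Fin m → U)) where
  toFun A := LinearEquiv.piCongrRight A
  map_one' := by
    ext v i
    rfl
  map_mul' A B := by
    ext v i
    rfl

lemma base_apply (A : Fin m → (U ≃ₗ[F] U)) (v : Fin m → U) (i : Fin m) : base m A v i = A i (v i) := rfl

lemma base_inj : Function.Injective (base (F := F) (U := U) m) := by
  intro A B h
  funext i
  ext u
  have h1 := LinearEquiv.congr_fun h (fun _ => u)
  exact congrFun h1 i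

/-- The permutations. -/
def permA : Equiv.Perm (Fin m) →* ((Fin m → U) ≃ₗ[F] (Fin m → U)) where
  toFun σ := LinearEquiv.funCongrLeft F U (σ⁻¹ : Equiv.Perm (Fin m))
  map_one' := by
    ext v i
    rfl
  map_mul' σ τ := by
    ext v i
    rfl

lemma permA_apply (σ : Equiv.Perm (Fin m)) (v : Fin m → U) (i : Fin m) :
    permA (F := F) m σ v i = v (σ⁻¹ i) := rfl

/-- The action of the permutations on the base group. -/
def phi : Equiv.Perm (Fin m) →* MulAut (Fin m → (U ≃ₗ[F] U)) where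
  toFun σ :=
    { toFun := fun A i => A (σ⁻¹ i)
      invFun := fun A i => A (σ i)
      left_inv := fun A => by
        funext i
        simp
      right_inv := fun A => by
        funext i
        simp
      map_mul' := fun _ _ => rfl }
  map_one' := by
    ext A i
    rfl
  map_mul' σ τ := by
    ext A i
    rfl

lemma phi_apply (σ : Equiv.Perm (Fin m)) (A : Fin m → (U ≃ₗ[F] U)) (i : Fin m) :
    phi (F := F) (U := U) m σ A i = A (σ⁻¹ i) := rfl

lemma base_conj (σ : Equiv.Perm (Fin m)) (A : Fin m → (U ≃ₗ[F] U)) :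
    base m (phi m σ A) = permA m σ * base m A * (permA m σ)⁻¹ := by
  ext v i
  rw [← map_inv]
  show base m (phi m σ A) v i = permA (F := F) m σ (base m A (permA (F := F) m σ⁻¹ v)) i
  rw [base_apply, permA_apply, base_apply, permA_apply, phi_apply]
  simp

/-- The wreath product as a linear group. -/
def psi : (Fin m → (U ≃ₗ[F] U)) ⋊[phi m] Equiv.Perm (Fin m) →* ((Fin m → U) ≃ₗ[F] (Fin m → U)) :=
  SemidirectProduct.lift (base m) (permA m) (fun σ => by
    ext A v i
    exact congrFun (LinearEquiv.congr_fun (base_conj m σ A) v) i)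

lemma psi_apply (g : (Fin m → (U ≃ₗ[F] U)) ⋊[phi m] Equiv.Perm (Fin m)) :
    psi m g = base m g.left * permA m g.right := rfl

lemma psi_inj [Nontrivial U] : Function.Injective (psi (F := F) (U := U) m) := by
  classical
  rw [injective_iff_map_eq_one]
  rintro ⟨A, σ⟩ h
  rw [psi_apply] at h
  have h1 : ∀ (v : Fin m → U) (i : Fin m), A i (v (σ⁻¹ i)) = v i := fun v i =>
    congrFun (LinearEquiv.congr_fun h v) i
  obtain ⟨u, hu⟩ := exists_ne (0 : U)
  have hσ : ∀ i, σ⁻¹ i = i := by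
    intro i
    by_contra hne
    have h2 := h1 (Pi.single (σ⁻¹ i) u) i
    rw [Pi.single_eq_same, Pi.single_eq_of_ne (Ne.symm hne)] at h2
    exact hu ((A i).map_eq_zero_iff.1 h2)
  have hσ1 : σ = 1 := by
    refine Equiv.ext fun i => ?_
    have := hσ (σ i)
    have h0 : σ⁻¹ (σ i) = i := σ.symm_apply_apply i
    rw [h0] at this
    exact this.symm
  subst hσ1
  have hA : A = 1 := by
    funext i
    ext w
    have h2 := h1 (fun _ => w) i
    exact h2
  subst hA
  rfl

/-- The negation. -/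
def negA : U ≃ₗ[F] U := LinearEquiv.neg F

lemma negA_apply (u : U) : negA (F := F) u = -u := rfl

lemma negA_sq : negA (F := F) (U := U) * negA = 1 := by
  ext u
  show - - u = u
  simp

lemma negA_comm (h : U ≃ₗ[F] U) : h * negA = negA * h := by
  ext u
  show h (-u) = - h u
  simp

/-- The signs. -/
def Zs : Subgroup (U ≃ₗ[F] U) := Subgroup.zpowers negA

lemma Zs_sq {z : U ≃ₗ[F] U} (hz : z ∈ Zs (F := F) (U := U)) : z * z = 1 := by
  obtain ⟨k, rfl⟩ := hz
  have h1 : Commute (negA (F := F) (U := U)) negA := Commute.refl _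
  simp only
  rw [← zpow_add, ← two_mul, zpow_mul]
  have : (negA (F := F) (U := U)) ^ (2 : ℤ) = 1 := by
    rw [zpow_two]
    exact negA_sq
  rw [this, one_zpow]

lemma Zs_comm (h : U ≃ₗ[F] U) {z : U ≃ₗ[F] U} (hz : z ∈ Zs (F := F) (U := U)) : h * z = z * h := by
  obtain ⟨k, rfl⟩ := hz
  have h1 : Commute h (negA (F := F) (U := U)) := negA_comm h
  exact (h1.zpow_right k).eq

lemma card_Zs [Nontrivial U] (h2 : (2 : F) ≠ 0) : Nat.card ↥(Zs (F := F) (U := U)) = 2 := by
  rw [Zs, Nat.card_zpowers]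
  have : Fact (Nat.Prime 2) := ⟨Nat.prime_two⟩
  apply orderOf_eq_prime
  · rw [pow_two]
    exact negA_sq
  · intro h
    obtain ⟨u, hu⟩ := exists_ne (0 : U)
    have h3 : -u = u := LinearEquiv.congr_fun h u
    have h4 : (2 : F) • u = 0 := by
      rw [two_smul]
      nth_rewrite 1 [← h3]
      simp
    rcases smul_eq_zero.1 h4 with h5 | h5
    · exact h2 h5
    · exact hu h5

lemma good_Zs : Good (Zs (F := F) (U := U)) ⊤ := by
  refine ⟨fun e he => Zs_sq he, fun a _ b hb => Zs_comm a hb, fun x _ e he => ?_⟩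
  rw [Zs_comm x he]
  simpa using he

/-- The group of sign vectors. -/
def E₁ : Subgroup ((Fin m → U) ≃ₗ[F] (Fin m → U)) :=
  (Subgroup.pi Set.univ fun _ : Fin m => Zs (F := F) (U := U)).map (base m)

/-- The wreath product as a subgroup. -/
def M₀ : Subgroup ((Fin m → U) ≃ₗ[F] (Fin m → U)) := (psi (F := F) (U := U) m).range

lemma good_wreath : Good (E₁ (F := F) (U := U) m) (M₀ m) := by
  refine ⟨?_, ?_, ?_⟩
  · rintro _ ⟨A, hA, rfl⟩
    rw [← map_mul]
    have : A * A = 1 := by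
      funext i
      exact Zs_sq (hA i (Set.mem_univ i))
    rw [this, map_one]
  · rintro _ ⟨A, hA, rfl⟩ _ ⟨B, hB, rfl⟩
    rw [← map_mul, ← map_mul]
    have : A * B = B * A := by
      funext i
      exact Zs_comm _ (hB i (Set.mem_univ i))
    rw [this]
  · rintro _ ⟨g, rfl⟩ _ ⟨z, hz, rfl⟩
    rw [psi_apply]
    refine ⟨phi m g.right z, ?_, ?_⟩
    · intro i _
      exact hz _ (Set.mem_univ _)
    · have hc : base m g.left * base m (phi m g.right z) * (base m g.left)⁻¹ = base m (phi m g.right z) := by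
        rw [← map_inv, ← map_mul, ← map_mul]
        congr 1
        funext i
        show g.left i * z ((g.right)⁻¹ i) * (g.left i)⁻¹ = z ((g.right)⁻¹ i)
        rw [Zs_comm _ (hz _ (Set.mem_univ _)), mul_inv_cancel_right]
      have e1 : (base m g.left * permA m g.right) * base m z * (base m g.left * permA m g.right)⁻¹ =
          base m g.left * (permA m g.right * base m z * (permA m g.right)⁻¹) * (base m g.left)⁻¹ := by
        group
      rw [e1, ← base_conj, hc]

lemma card_M₀ [Nontrivial U] [Finite (U ≃ₗ[F] U)] :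
    Nat.card ↥(M₀ (F := F) (U := U) m) = Nat.card (U ≃ₗ[F] U) ^ m * m.factorial := by
  have h1 : Nat.card ↥(M₀ (F := F) (U := U) m) =
      Nat.card ((Fin m → (U ≃ₗ[F] U)) ⋊[phi m] Equiv.Perm (Fin m)) :=
    (Nat.card_congr (MonoidHom.ofInjective (psi_inj m)).toEquiv).symm
  have hm : Nat.card (Fin m) = m := by simp
  rw [h1, SemidirectProduct.card, Nat.card_fun, Nat.card_perm, hm]

lemma card_E₁ [Nontrivial U] (h2 : (2 : F) ≠ 0) : Nat.card ↥(E₁ (F := F) (U := U) m) = 2 ^ m := by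
  rw [E₁, Subgroup.card_map_of_injective (base_inj m)]
  have e : ↥(Subgroup.pi Set.univ fun _ : Fin m => Zs (F := F) (U := U)) ≃ (Fin m → ↥(Zs (F := F) (U := U))) :=
    { toFun := fun A i => ⟨A.1 i, A.2 i (Set.mem_univ i)⟩
      invFun := fun A => ⟨fun i => (A i).1, fun i _ => (A i).2⟩
      left_inv := fun A => rfl
      right_inv := fun A => rfl }
  rw [Nat.card_congr e]
  have : Finite ↥(Zs (F := F) (U := U)) := Nat.finite_of_card_ne_zero (by rw [card_Zs h2]; norm_num)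
  have hm : Nat.card (Fin m) = m := by simp
  rw [Nat.card_fun, card_Zs h2, hm]

end Wreath

end Cfsg.Agent.H24.NR2
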