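import Mathlib
import Cfsg.Agent.Lib.H24.NR2D

/-!
Normal 2-rank of `GL_n(q)`: the final statement.
-/

set_option autoImplicit false

namespace Cfsg.Agent.H24.NR2

open Module Matrix

variable {F : Type*} [Field F] [Fintype F] {q : ℕ}

lemma two_ne (hF : Fintype.card F = q) (hodd : Odd q) : (2 : F) ≠ 0 := by
  intro h
  have h1 : ((2 : ℕ) : F) = 0 := by exact_mod_cast h
  have h2 : ringChar F ∣ 2 := ringChar.dvd h1
  have h3 : ringChar F = 2 := by
    rcases (Nat.dvd_prime Nat.prime_two).1 h2 with h4 | h4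
    · exact absurd h4 (CharP.ringChar_ne_one)
    · exact h4
  have h5 := FiniteField.even_card_of_char_two h3
  rw [hF] at h5
  have := Nat.odd_iff.1 hodd
  omega

section Upper

variable {n : ℕ} (S : Sylow 2 (GL (Fin n) F)) (E : Subgroup ↥(S : Subgroup (GL (Fin n) F)))

/-- The isomorphism with the automorphism group. -/
noncomputable def phiV : GL (Fin n) F ≃* ((Fin n → F) ≃ₗ[F] (Fin n → F)) :=
  glIso (LinearEquiv.refl F (Fin n → F))

/-- The transported Sylow subgroup. -/
noncomputable def Tr : Subgroup ((Fin n → F) ≃ₗ[F] (Fin n → F)) :=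
  (S : Subgroup (GL (Fin n) F)).map (phiV (F := F) (n := n)).toMonoidHom

/-- The transported subgroup. -/
noncomputable def Er : Subgroup ((Fin n → F) ≃ₗ[F] (Fin n → F)) :=
  (E.map (S : Subgroup (GL (Fin n) F)).subtype).map (phiV (F := F) (n := n)).toMonoidHom

lemma card_Er : Nat.card ↥(Er S E) = Nat.card ↥E := by
  rw [Er, Subgroup.card_map_of_injective (phiV (F := F) (n := n)).injective,
    Subgroup.card_map_of_injective (Subgroup.subtype_injective _)]

lemma Er_inv (hF : Fintype.card F = q) (hodd : Odd q) (hE : Cfsg.IsElementaryAbelian 2 E) : Inv (Er S E) := by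
  refine ⟨two_ne hF hodd, ?_, ?_⟩
  · rintro _ ⟨_, ⟨a, ha, rfl⟩, rfl⟩
    have h1 := hE.2 a ha
    rw [pow_two] at h1
    have h2 : (a : GL (Fin n) F) * a = 1 := congrArg Subtype.val h1
    show phiV (F := F) (n := n) _ * phiV (F := F) (n := n) _ = 1
    rw [← map_mul]
    simp only [Subgroup.subtype_apply]
    rw [h2, map_one]
  · rintro _ ⟨_, ⟨a, ha, rfl⟩, rfl⟩ _ ⟨_, ⟨b, hb, rfl⟩, rfl⟩
    have h1 := hE.1.is_comm.comm ⟨a, ha⟩ ⟨b, hb⟩
    have h2 : a * b = b * a := congrArg Subtype.val h1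
    have h3 : (a : GL (Fin n) F) * b = b * a := congrArg Subtype.val h2
    show phiV (F := F) (n := n) (a : GL (Fin n) F) * phiV (F := F) (n := n) (b : GL (Fin n) F) =
      phiV (F := F) (n := n) (b : GL (Fin n) F) * phiV (F := F) (n := n) (a : GL (Fin n) F)
    rw [← map_mul, ← map_mul, h3]

lemma Tr_conj (hN : E.Normal) : ∀ g ∈ Tr S (F := F), ∀ e ∈ Er S E, g * e * g⁻¹ ∈ Er S E := by
  rintro _ ⟨s, hs, rfl⟩ _ ⟨_, ⟨a, ha, rfl⟩, rfl⟩
  refine ⟨_, ⟨⟨s, hs⟩ * a * (⟨s, hs⟩ : ↥(S : Subgroup (GL (Fin n) F)))⁻¹, hN.conj_mem a ha _, rfl⟩, ?_⟩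
  simp [map_mul, map_inv]

lemma Tr_isPGroup : IsPGroup 2 ↥(Tr S (F := F)) := S.isPGroup'.map _

lemma Tr_card (hF : Fintype.card F = q) (hodd : Odd q) :
    Nat.card ↥(Tr S (F := F)) = 2 ^ W q (finrank F (Fin n → F)) := by
  rw [Tr, Subgroup.card_map_of_injective (phiV (F := F) (n := n)).injective, S.card_eq_multiplicity,
    Nat.factorization_def _ Nat.prime_two, valGL hF hodd, Module.finrank_fin_fun]

theorem upper_all (hF : Fintype.card F = q) (hodd : Odd q) (hE : Cfsg.IsElementaryAbelian 2 E) :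
    Nat.card ↥E ≤ 2 ^ n := by
  rw [← card_Er S E]
  have := card_le_pow (Er_inv S E hF hodd hE)
  rwa [Module.finrank_fin_fun] at this

theorem upper_three (hF : Fintype.card F = q) (h3 : q % 4 = 3) (hN : E.Normal)
    (hE : Cfsg.IsElementaryAbelian 2 E) : Nat.card ↥E ≤ 2 ^ ((n + 1) / 2) := by
  have hodd : Odd q := Nat.odd_iff.2 (by omega)
  rw [← card_Er S E]
  have := card_le_half (Tr_conj S E hN) hF h3 (Er_inv S E hF hodd hE) (Tr_isPGroup S) (Tr_card S hF hodd)
  rwa [Module.finrank_fin_fun] at this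

end Upper

section Lower

variable {n : ℕ}

/-- Transfer of the lower bound. -/
theorem lower_transfer {V : Type*} [AddCommGroup V] [Module F V] (φ : GL (Fin n) F ≃* (V ≃ₗ[F] V))
    (hF : Fintype.card F = q) (hodd : Odd q) {E M : Subgroup (V ≃ₗ[F] V)} (h : Good E M)
    (hv : W q n ≤ padicValNat 2 (Nat.card ↥M)) (S : Sylow 2 (GL (Fin n) F)) :
    ∃ E' : Subgroup ↥(S : Subgroup (GL (Fin n) F)), E'.Normal ∧ Cfsg.IsElementaryAbelian 2 E' ∧
      Nat.card ↥E ≤ Nat.card ↥E' := by
  have h' := h.map φ.symm.toMonoidHom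
  have hc : ∀ X : Subgroup (V ≃ₗ[F] V), Nat.card ↥(X.map φ.symm.toMonoidHom) = Nat.card ↥X := fun X =>
    Subgroup.card_map_of_injective φ.symm.injective
  have := h'.exists_normal (by
    rw [hc, valGL hF hodd]
    exact hv) S
  rwa [hc] at this

lemma val_M₀ {U : Type*} [AddCommGroup U] [Module F U] [Module.Finite F U] [Nontrivial U] [Finite U]
    (hF : Fintype.card F = q) (hodd : Odd q) (m : ℕ) :
    padicValNat 2 (Nat.card ↥(M₀ (F := F) (U := U) m)) =
      m * W q (finrank F U) + padicValNat 2 m.factorial := by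
  have := finite_aut (F := F) (U := U)
  have h0 : Nat.card (U ≃ₗ[F] U) ≠ 0 := Nat.card_pos.ne'
  rw [card_M₀, padicValNat.mul (pow_ne_zero _ h0) (Nat.factorial_ne_zero _), padicValNat.pow, card_aut,
    valGL hF hodd]

lemma val_aut {U : Type*} [AddCommGroup U] [Module F U] [Module.Finite F U]
    (hF : Fintype.card F = q) (hodd : Odd q) :
    padicValNat 2 (Nat.card (U ≃ₗ[F] U)) = W q (finrank F U) := by
  rw [card_aut, valGL hF hodd]

/-- The case `q ≡ 1 (mod 4)`. -/
theorem lower_one (hF : Fintype.card F = q) (h1 : q % 4 = 1) (S : Sylow 2 (GL (Fin n) F)) :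
    ∃ E' : Subgroup ↥(S : Subgroup (GL (Fin n) F)), E'.Normal ∧ Cfsg.IsElementaryAbelian 2 E' ∧
      2 ^ n ≤ Nat.card ↥E' := by
  have hodd : Odd q := Nat.odd_iff.2 (by omega)
  have hq : 2 ≤ q := by
    rw [← hF]
    exact Fintype.one_lt_card
  have := lower_transfer (phiV (F := F) (n := n)) hF hodd (good_wreath (F := F) (U := F) n) (by
    rw [val_M₀ hF hodd, W_one h1 hq, Module.finrank_self]
    have : W q 1 = padicValNat 2 (q - 1) := by
      rw [show (1 : ℕ) = 0 + 1 from rfl, W_succ, W_zero, zero_add]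
      simp only [u, zero_add, pow_one]
    rw [this]) S
  rwa [card_E₁ _ (two_ne hF hodd)] at this

lemma finrank_blocks (m : ℕ) : finrank F (Fin m → Fin 2 → F) = m * 2 := by
  rw [Module.finrank_pi_fintype]
  simp

lemma card_prod' {A B : Type*} [Group A] [Group B] (H : Subgroup A) (K : Subgroup B) :
    Nat.card ↥(H.prod K) = Nat.card ↥H * Nat.card ↥K := by
  rw [Nat.card_congr (Subgroup.prodEquiv H K).toEquiv, Nat.card_prod]

/-- The case `q ≡ 3 (mod 4)`, even degree. -/
theorem lower_three_even (hF : Fintype.card F = q) (h3 : q % 4 = 3) (m : ℕ) (S : Sylow 2 (GL (Fin (2 * m)) F)) :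
    ∃ E' : Subgroup ↥(S : Subgroup (GL (Fin (2 * m)) F)), E'.Normal ∧ Cfsg.IsElementaryAbelian 2 E' ∧
      2 ^ m ≤ Nat.card ↥E' := by
  have hodd : Odd q := Nat.odd_iff.2 (by omega)
  have hq : 2 ≤ q := by
    rw [← hF]
    exact Fintype.one_lt_card
  have e : (Fin m → (Fin 2 → F)) ≃ₗ[F] (Fin (2 * m) → F) :=
    LinearEquiv.ofFinrankEq _ _ (by rw [finrank_blocks, Module.finrank_fin_fun, mul_comm])
  have := lower_transfer (glIso e) hF hodd (good_wreath (F := F) (U := Fin 2 → F) m) (by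
    rw [val_M₀ hF hodd, W_three h3 hq, Module.finrank_fin_fun]
    have h2 := W_three h3 hq 1
    rw [mul_one] at h2
    rw [h2]
    simp) S
  rwa [card_E₁ _ (two_ne hF hodd)] at this

/-- The product homomorphism. -/
def prodHom {A B : Type*} [AddCommGroup A] [Module F A] [AddCommGroup B] [Module F B] :
    (A ≃ₗ[F] A) × (B ≃ₗ[F] B) →* ((A × B) ≃ₗ[F] (A × B)) where
  toFun p := LinearEquiv.prodCongr p.1 p.2
  map_one' := by
    ext x
    · rfl
    · rfl
  map_mul' a b := by
    ext x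
    · rfl
    · rfl

lemma prodHom_inj {A B : Type*} [AddCommGroup A] [Module F A] [AddCommGroup B] [Module F B] :
    Function.Injective (prodHom (F := F) (A := A) (B := B)) := by
  intro a b h
  apply Prod.ext
  · ext x
    have := congrArg Prod.fst (LinearEquiv.congr_fun h (x, 0))
    exact this
  · ext x
    have := congrArg Prod.snd (LinearEquiv.congr_fun h (0, x))
    exact this

/-- The case `q ≡ 3 (mod 4)`, odd degree. -/
theorem lower_three_odd (hF : Fintype.card F = q) (h3 : q % 4 = 3) (m : ℕ) (S : Sylow 2 (GL (Fin (2 * m + 1)) F)) :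
    ∃ E' : Subgroup ↥(S : Subgroup (GL (Fin (2 * m + 1)) F)), E'.Normal ∧ Cfsg.IsElementaryAbelian 2 E' ∧
      2 ^ (m + 1) ≤ Nat.card ↥E' := by
  have hodd : Odd q := Nat.odd_iff.2 (by omega)
  have hq : 2 ≤ q := by
    rw [← hF]
    exact Fintype.one_lt_card
  have e : ((Fin m → (Fin 2 → F)) × F) ≃ₗ[F] (Fin (2 * m + 1) → F) :=
    LinearEquiv.ofFinrankEq _ _ (by
      rw [Module.finrank_prod, finrank_blocks, Module.finrank_self, Module.finrank_fin_fun, mul_comm])
  have hG := ((good_wreath (F := F) (U := Fin 2 → F) m).prod (good_Zs (F := F) (U := F))).map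
    (prodHom (F := F) (A := Fin m → (Fin 2 → F)) (B := F))
  have := lower_transfer (glIso e) hF hodd hG (by
    rw [Subgroup.card_map_of_injective prodHom_inj, card_prod', Subgroup.card_top]
    have := finite_aut (F := F) (U := Fin m → (Fin 2 → F))
    have := finite_aut (F := F) (U := F)
    have h0 : Nat.card ↥(M₀ (F := F) (U := Fin 2 → F) m) ≠ 0 := Nat.card_pos.ne'
    have h0' : Nat.card (F ≃ₗ[F] F) ≠ 0 := Nat.card_pos.ne'
    rw [padicValNat.mul h0 h0', val_M₀ hF hodd, val_aut hF hodd, W_three_odd h3 hq, W_three h3 hq,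
      Module.finrank_fin_fun, Module.finrank_self]
    have h2 := W_three h3 hq 1
    rw [mul_one] at h2
    rw [h2]
    have h4 : W q 1 = 1 := by
      rw [show (1 : ℕ) = 0 + 1 from rfl, W_succ, W_zero, zero_add]
      exact u_three_odd h3 hq (by decide)
    rw [h4]
    simp) S
  rw [Subgroup.card_map_of_injective prodHom_inj, card_prod', card_E₁ _ (two_ne hF hodd),
    card_Zs (two_ne hF hodd), ← pow_succ] at this
  exact this

end Lower

end Cfsg.Agent.H24.NR2
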