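import Mathlib
import Cfsg.Agent.Lib.H24.QdLocal4

/-!
`Qd(p)`-free systems: for odd `p`, the system of `G` is `Qd(p)`-free iff `G` does not involve `Qd(p)` (S5206).
-/

set_option autoImplicit false

namespace Cfsg.Agent.H24

open Cfsg Cfsg.FusionSystem Cfsg.Agent.H24.ModG Cfsg.Agent.H12.Qd Cfsg.Agent.H14

section Main

universe u

variable {p : ℕ} [Fact p.Prime]

/-- A normal subgroup meeting a Sylow subgroup trivially has no element of order `p`. -/
theorem false_of_normal_inf_sylow {G : Type*} [Group G] [Finite G] (K : Subgroup G) [hK : K.Normal] (T : Sylow p G) (hKT : K ⊓ (T : Subgroup G) = ⊥) {k : G} (hk : k ∈ K)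
    (hkp : orderOf k = p) : False := by
  have hp : p.Prime := Fact.out
  have hU : IsPGroup p (Subgroup.zpowers k) := by
    apply IsPGroup.of_card (n := 1)
    rw [Nat.card_zpowers, hkp, pow_one]
  obtain ⟨g, hg⟩ := exists_conj_le_sylow T hU
  have h1 : g * k * g⁻¹ ∈ (T : Subgroup G) := hg ⟨k, Subgroup.mem_zpowers k, rfl⟩
  have h2 : g * k * g⁻¹ ∈ K := hK.conj_mem k hk g
  have h3 : g * k * g⁻¹ ∈ K ⊓ (T : Subgroup G) := ⟨h2, h1⟩
  rw [hKT, Subgroup.mem_bot] at h3
  have h4 : k = 1 := by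
    have : k = g⁻¹ * (g * k * g⁻¹) * g := by group
    rw [this, h3]
    group
  rw [h4, orderOf_one] at hkp
  exact hp.one_lt.ne hkp

/-- Factoring a normal subgroup without elements of order `p` keeps `Qd(p)`. -/
theorem involves_qd_quotient {G₁ : Type*} [Group G₁] [Finite G₁] (K : Subgroup G₁) [hKn : K.Normal] (hK : ∀ k ∈ K, orderOf k ≠ p)
    (h : Involves (QdA p) G₁) : Involves (QdA p) (G₁ ⧸ K) := by
  have hp : p.Prime := Fact.out
  obtain ⟨H, θ, hθ⟩ := Cfsg.Agent.H09.exists_of_involves h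
  have htriv : ∀ h : H, (h : G₁) ∈ K → θ h = 1 := by
    by_contra hne
    push Not at hne
    obtain ⟨h₀, hh₀K, hh₀⟩ := hne
    let W : Subgroup (QdA p) := (K.subgroupOf H).map θ
    have hWn : W.Normal := Subgroup.Normal.map inferInstance θ hθ
    have hWne : W ≠ ⊥ := by
      intro e
      have h1 : θ h₀ ∈ W := ⟨h₀, Subgroup.mem_subgroupOf.2 hh₀K, rfl⟩
      rw [e] at h1
      exact hh₀ h1
    have hkW : qdKer p ≤ W := ker_le_of_normal hWn hWne
    let s : Multiplicative (Fin 2 → ZMod p) := Multiplicative.ofAdd ![1, 0]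
    have hs : translHom s ≠ 1 := by
      intro e
      have h1 : s = 1 := translHom_injective (e.trans (map_one _).symm)
      have h2 : (![1, 0] : Fin 2 → ZMod p) 0 = 0 := congrFun (Multiplicative.ofAdd.injective h1) 0
      simp at h2
    have hse : translHom s ∈ qdKer p := by
      have h1 : translHom s ∈ (translHom (p := p)).range := ⟨s, rfl⟩
      rwa [translHom_range] at h1
    obtain ⟨k, hkK, ek⟩ := hkW hse
    have hkK' : (k : G₁) ∈ K := Subgroup.mem_subgroupOf.1 hkK
    obtain ⟨n, hn⟩ := (isPGroup_ker_block p) ⟨translHom s, hse⟩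
    have hn' : (translHom s) ^ p ^ n = 1 := congrArg Subtype.val hn
    obtain ⟨m, -, hm⟩ := (Nat.dvd_prime_pow hp).1 (orderOf_dvd_of_pow_eq_one hn')
    have hm0 : m ≠ 0 := by
      rintro rfl
      rw [pow_zero, orderOf_eq_one_iff] at hm
      exact hs hm
    have hdvd : p ∣ orderOf (translHom s) := by
      rw [hm]
      exact dvd_pow_self p hm0
    have hdvd2 : orderOf (translHom s) ∣ orderOf k := by
      rw [← ek]
      exact orderOf_map_dvd θ k
    have hdvd3 : p ∣ orderOf (k : G₁) := by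
      rw [Subgroup.orderOf_coe]
      exact hdvd.trans hdvd2
    have hne0 : orderOf (k : G₁) ≠ 0 := (isOfFinOrder_of_finite _).orderOf_pos.ne'
    exact hK _ (K.pow_mem hkK' _) (orderOf_pow_orderOf_div hne0 hdvd3)
  let f : H →* H.map (QuotientGroup.mk' K) := (QuotientGroup.mk' K).subgroupMap H
  have hf : Function.Surjective f := (QuotientGroup.mk' K).subgroupMap_surjective H
  have hle : f.ker ≤ θ.ker := by
    intro h hh
    have h1 : QuotientGroup.mk' K (h : G₁) = 1 := congrArg Subtype.val (MonoidHom.mem_ker.1 hh)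
    exact htriv h ((QuotientGroup.eq_one_iff _).1 h1)
  let θ' : H.map (QuotientGroup.mk' K) →* QdA p := f.liftOfSurjective hf ⟨θ, hle⟩
  have hθ' : Function.Surjective θ' := by
    intro a
    obtain ⟨h, rfl⟩ := hθ a
    exact ⟨f h, MonoidHom.liftOfRightInverse_comp_apply _ _ _ _ h⟩
  exact Cfsg.Agent.H09.involves_of_surjective _ θ' hθ'

/-- Conjugation carries normalizers to normalizers. -/
theorem involves_normalizer_cj {G : Type*} [Group G] {A : Type*} [Group A] {R : Subgroup G} (h : Involves A ↥(Subgroup.normalizer (R : Set G))) (g : G) :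
    Involves A ↥(Subgroup.normalizer ((R.map (MulAut.conj g).toMonoidHom : Subgroup G) : Set G)) := by
  let j : ↥(Subgroup.normalizer (R : Set G)) →* ↥(Subgroup.normalizer ((R.map (MulAut.conj g).toMonoidHom : Subgroup G) : Set G)) :=
    ((MulAut.conj g).toMonoidHom.comp (Subgroup.normalizer (R : Set G)).subtype).codRestrict _ (fun x => mem_normalizer_cj x.2)
  refine involves_of_injective h j ?_
  intro a b hab
  have h1 : g * (a : G) * g⁻¹ = g * (b : G) * g⁻¹ := congrArg Subtype.val hab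
  exact Subtype.ext (mul_left_cancel (mul_right_cancel h1))

variable {G : Type u} [Group G] [Finite G]

/-- The model of the normalizer system of a fully normalized centric subgroup in a group. -/
theorem exists_normalizer_model (P : Sylow p G) {Q : Subgroup G} (hQn : (groupFusionSystem (P : Subgroup G)).IsFullyNormalized Q)
    (hQc : (groupFusionSystem (P : Subgroup G)).IsCentric Q) {N : FusionSystem (normalizerIn (P : Subgroup G) Q)}
    (hN : (groupFusionSystem (P : Subgroup G)).IsNormalizerSystem Q N) :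
    ∃ (K : Subgroup ↥(Subgroup.normalizer (Q : Set G))) (_ : K.Normal) (T : Sylow p ↥(Subgroup.normalizer (Q : Set G))),
      K ⊓ (T : Subgroup _) = ⊥ ∧ N.IsModel p (↥(Subgroup.normalizer (Q : Set G)) ⧸ K)
        ((QuotientGroup.mk' K).comp (Subgroup.inclusion (inf_le_right : normalizerIn (P : Subgroup G) Q ≤ Subgroup.normalizer (Q : Set G)))) := by
  obtain ⟨T, hT⟩ := (fullyNormalized_iff P hQn.1).1 hQn
  have hr := realized_normalizer hQn.1 hN
  have hT' : (T : Subgroup _) = (Subgroup.inclusion (inf_le_right : normalizerIn (P : Subgroup G) Q ≤ Subgroup.normalizer (Q : Set G))).range := by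
    rw [hT, Subgroup.inclusion_range]
    rfl
  obtain ⟨K, hKn, hM⟩ := exists_model_quotient hr T hT' (Q.subgroupOf (Subgroup.normalizer (Q : Set G))) Subgroup.normal_in_normalizer
    (by
      rw [hT]
      intro x hx
      exact Subgroup.mem_subgroupOf.2 ⟨hQn.1 (Subgroup.mem_subgroupOf.1 hx), x.2⟩)
    (by
      intro x hx hcen
      rw [hT] at hx
      have hx' : (x : G) ∈ centralizerIn (P : Subgroup G) Q := by
        refine ⟨(Subgroup.mem_subgroupOf.1 hx).1, ?_⟩
        refine Subgroup.mem_centralizer_iff.2 fun q hq => ?_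
        have h1 := hcen ⟨q, Subgroup.le_normalizer hq⟩ (Subgroup.mem_subgroupOf.2 hq)
        exact (congrArg Subtype.val h1).symm
      exact Subgroup.mem_subgroupOf.2 (hQc.2 Q (isConj_refl hQn.1) hx'))
  refine ⟨K, hKn, T, ?_, hM⟩
  rw [eq_bot_iff]
  rintro x ⟨hxK, hxT⟩
  have hxT' : x ∈ (T : Subgroup _) := hxT
  rw [hT'] at hxT'
  obtain ⟨y, rfl⟩ := hxT'
  have h1 : (QuotientGroup.mk' K).comp (Subgroup.inclusion (inf_le_right : normalizerIn (P : Subgroup G) Q ≤ Subgroup.normalizer (Q : Set G))) y = 1 :=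
    (QuotientGroup.eq_one_iff _).2 hxK
  have h2 : y = 1 := hM.2.1.1 (h1.trans (map_one _).symm)
  rw [h2, map_one]
  exact Subgroup.one_mem _

/-- The forward direction. -/
theorem not_involves_of_sectionFree (hp2 : p ≠ 2) (P : Sylow p G) (hfree : (groupFusionSystem (P : Subgroup G)).IsSectionFree p (QdA p)) :
    ¬ Involves (QdA p) G := by
  classical
  intro hinv
  have hp : p.Prime := Fact.out
  have hSp : IsPGroup p (P : Subgroup G) := P.isPGroup'
  let 𝒮 : Set (Subgroup G) := {Q₀ | IsPGroup p Q₀ ∧ Involves (QdA p) ↥(Subgroup.normalizer (Q₀ : Set G))}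
  have h𝒮 : 𝒮.Nonempty := by
    refine ⟨⊥, IsPGroup.of_bot, involves_of_injective hinv ((MonoidHom.id G).codRestrict _ (fun x => by
      rw [Subgroup.normalizer_eq_top]
      trivial)) ?_⟩
    intro a b hab
    exact congrArg Subtype.val hab
  obtain ⟨Q₀, hQ₀, hQ₀max⟩ := Set.exists_max_image 𝒮 (fun Q => Nat.card Q) (Set.toFinite _) h𝒮
  obtain ⟨g₀, hg₀⟩ := exists_conj_le_sylow P hQ₀.1
  obtain ⟨Q, hQ₁Q, hQn⟩ := exists_fullyNormalized_conj (F := groupFusionSystem (P : Subgroup G)) hg₀
  obtain ⟨g₁, hg₁⟩ := groupFusion_conj hQ₁Q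
  have hQe : Q = (Q₀.map (MulAut.conj g₀).toMonoidHom).map (MulAut.conj g₁).toMonoidHom := hg₁.symm
  have hQinv : Involves (QdA p) ↥(Subgroup.normalizer (Q : Set G)) := by
    rw [hQe]
    exact involves_normalizer_cj (involves_normalizer_cj hQ₀.2 g₀) g₁
  have hQcard : Nat.card Q = Nat.card Q₀ := by
    rw [hQe, card_cj, card_cj]
  have hQp : IsPGroup p Q := hSp.to_le hQn.1
  have hmaxQ : ∀ D : Subgroup G, IsPGroup p D → Nat.card Q < Nat.card D → ¬ Involves (QdA p) ↥(Subgroup.normalizer (D : Set G)) := by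
    intro D hD hcard hDi
    have : Nat.card D ≤ Nat.card Q₀ := hQ₀max D ⟨hD, hDi⟩
    omega
  let Q₁ : Subgroup ↥(Subgroup.normalizer (Q : Set G)) := Q.subgroupOf (Subgroup.normalizer (Q : Set G))
  haveI hQ₁n : Q₁.Normal := Subgroup.normal_in_normalizer
  have hQ₁p : IsPGroup p Q₁ := hQp.comap_of_injective _ (Subgroup.subtype_injective _)
  have hmax : ∀ D : Subgroup ↥(Subgroup.normalizer (Q : Set G)), IsPGroup p D → Q₁ < D → ¬ Involves (QdA p) ↥(Subgroup.normalizer (D : Set ↥(Subgroup.normalizer (Q : Set G)))) := by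
    intro D hDp hlt hD
    let D' : Subgroup G := D.map (Subgroup.normalizer (Q : Set G)).subtype
    have hD'p : IsPGroup p D' := hDp.map _
    have hcard : Nat.card Q < Nat.card D' := by
      have h1 : Nat.card D' = Nat.card D := Nat.card_congr (D.equivMapOfInjective _ (Subgroup.subtype_injective _)).toEquiv.symm
      have h2 : Nat.card Q₁ < Nat.card D := by
        by_contra hcon
        exact hlt.ne (Subgroup.eq_of_le_of_card_ge hlt.le (not_lt.mp hcon))
      have h3 : Nat.card Q₁ = Nat.card Q := Nat.card_congr (Subgroup.subgroupOfEquivOfLe Subgroup.le_normalizer).toEquiv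
      omega
    let j : ↥(Subgroup.normalizer (D : Set ↥(Subgroup.normalizer (Q : Set G)))) →* ↥(Subgroup.normalizer (D' : Set G)) :=
      ((Subgroup.normalizer (Q : Set G)).subtype.comp (Subgroup.normalizer (D : Set ↥(Subgroup.normalizer (Q : Set G)))).subtype).codRestrict _
        (fun x => Subgroup.le_normalizer_map _ ⟨x.1, x.2, rfl⟩)
    refine hmaxQ D' hD'p hcard (involves_of_injective hD j ?_)
    intro a b hab
    have h1 : ((j a : ↥(Subgroup.normalizer (D' : Set G))) : G) = ((j b : ↥(Subgroup.normalizer (D' : Set G))) : G) := by rw [hab]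
    exact Subtype.ext (Subtype.ext h1)
  obtain ⟨H, θ, hθ⟩ := Cfsg.Agent.H09.exists_of_involves hQinv
  have hpcen : ∀ x : G, (∃ n : ℕ, x ^ p ^ n = 1) → x ∈ Subgroup.centralizer (Q : Set G) → x ∈ Q := by
    intro x ⟨n, hn⟩ hx
    have hxn : x ∈ Subgroup.normalizer (Q : Set G) := by
      refine mem_normalizer_of_forall (fun y hy => ?_) (fun y hy => ?_)
      · have h1 : y * x = x * y := Subgroup.mem_centralizer_iff.1 hx y hy
        rw [← h1]
        simpa using hy
      · have h1 : y * x = x * y := Subgroup.mem_centralizer_iff.1 hx y hy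
        have e : x⁻¹ * y * x = y := by
          rw [mul_assoc, h1]
          group
        rw [e]
        exact hy
    let x₁ : ↥(Subgroup.normalizer (Q : Set G)) := ⟨x, hxn⟩
    have hx₁ : x₁ ∈ Subgroup.centralizer (Q₁ : Set ↥(Subgroup.normalizer (Q : Set G))) := by
      refine Subgroup.mem_centralizer_iff.2 fun q hq => Subtype.ext ?_
      exact Subgroup.mem_centralizer_iff.1 hx q.1 hq
    let x₂ : ↥(Subgroup.centralizer (Q₁ : Set ↥(Subgroup.normalizer (Q : Set G)))) := ⟨x₁, hx₁⟩
    have hx₂p : IsPGroup p (Subgroup.zpowers x₂) := by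
      have hn2 : x₂ ^ p ^ n = 1 := Subtype.ext (Subtype.ext hn)
      obtain ⟨m, -, hm⟩ := (Nat.dvd_prime_pow hp).1 (orderOf_dvd_of_pow_eq_one hn2)
      exact IsPGroup.of_card (n := m) (by rw [Nat.card_zpowers, hm])
    obtain ⟨T₀, hT₀⟩ := hx₂p.exists_le_sylow
    have h1 := sylow_centralizer_le_of_max hp2 hQ₁p hmax θ hθ T₀
    have h2 : x₁ ∈ Q₁ := h1 ⟨x₂, hT₀ (Subgroup.mem_zpowers _), rfl⟩
    exact Subgroup.mem_subgroupOf.1 h2
  have hQc : (groupFusionSystem (P : Subgroup G)).IsCentric Q := by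
    refine ⟨hQn.1, fun Q' hQ' => ?_⟩
    obtain ⟨g, rfl⟩ := groupFusion_conj hQ'
    rintro x ⟨hxS, hxC⟩
    obtain ⟨n, hn⟩ := hSp ⟨x, hxS⟩
    have hn' : x ^ p ^ n = 1 := congrArg Subtype.val hn
    refine (mem_cj).2 (hpcen _ ⟨n, ?_⟩ ?_)
    · have e : g⁻¹ * x * g = g⁻¹ * x * g⁻¹⁻¹ := by group
      rw [e, conj_pow, hn']
      group
    · refine Subgroup.mem_centralizer_iff.2 fun q hq => ?_
      have h1 : g * q * g⁻¹ ∈ Q.map (MulAut.conj g).toMonoidHom := ⟨q, hq, rfl⟩
      have h2 : g * q * g⁻¹ * x = x * (g * q * g⁻¹) := Subgroup.mem_centralizer_iff.1 hxC _ h1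
      calc q * (g⁻¹ * x * g) = g⁻¹ * (g * q * g⁻¹ * x) * g := by group
        _ = g⁻¹ * (x * (g * q * g⁻¹)) * g := by rw [h2]
        _ = (g⁻¹ * x * g) * q := by group
  obtain ⟨N, hN⟩ := Cfsg.Agent.H25.exists_isNormalizerSystem (F := groupFusionSystem (P : Subgroup G)) hQn.1
  obtain ⟨K, hKn, T, hKT, hM⟩ := exists_normalizer_model P hQn hQc hN
  exact hfree Q hQn hQc N hN _ _ hM (involves_qd_quotient K (fun k hk hkp => false_of_normal_inf_sylow K T hKT hk hkp) hQinv)

end Main

end Cfsg.Agent.H24
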