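import Mathlib
import Cfsg.Prelude.Def_FusionComponents
import Cfsg.Agent.Lib.H24.FusFactor
import Cfsg.Agent.Lib.H24.FusExt2
import Cfsg.Agent.Lib.H25.FusAb
import Cfsg.Agent.Lib.H25.FusInner
import Cfsg.Agent.Lib.H25.FusGrun

/-!
Quasisimple fusion systems are over nonabelian groups.
-/

set_option autoImplicit false

namespace Cfsg.Agent.H24

open Cfsg Cfsg.FusionSystem

variable {Ω : Type*} [Group Ω] {S : Subgroup Ω} {p : ℕ}

theorem hyperfocal_le_focal' [Finite S] [Fact p.Prime] (F : FusionSystem S) :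
    F.hyperfocalSubgroup p ≤ F.focalSubgroup := by
  refine (Subgroup.closure_le _).mpr ?_
  rintro y ⟨P, α, x, hPS, -, rfl⟩
  refine Subgroup.subset_closure ⟨P, P.subtype.comp ((α : MulAut P)).toMonoidHom, x, ?_, rfl⟩
  · obtain ⟨φ, hφ, hφf⟩ := (Cfsg.Agent.H25.Iso.of_mem_autGroup hPS α.2).mp
    have : φ = P.subtype.comp ((α : MulAut P)).toMonoidHom := by
      ext z
      rw [hφf, Cfsg.Agent.H25.toFun_aut]
      rfl
    rwa [← this]

/-- S5148. -/
theorem not_comm_of_quasisimple [Finite S] [Fact p.Prime] (hS : IsPGroup p S) (F : FusionSystem S)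
    (hq : F.Quasisimple p) : ¬ IsMulCommutative S := by
  classical
  intro hcomm
  have hab : ∀ x ∈ S, ∀ y ∈ S, x * y = y * x := fun x hx y hy =>
    congrArg Subtype.val (hcomm.is_comm.comm ⟨x, hx⟩ ⟨y, hy⟩)
  obtain ⟨hF, hhyp, hsimple⟩ := hq
  have hZc : F.IsCentral F.center := isCentral_center
  have hZsc := Cfsg.Agent.H25.central_stronglyClosed hZc
  obtain ⟨E, hE⟩ := exists_factorSystem_quotient hZsc
  obtain ⟨hEs, htop, hEn⟩ := hsimple E hE
  set Ω' := S ⧸ (F.center).subgroupOf S with hΩ'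
  have hpΩ : IsPGroup p ↥(⊤ : Subgroup Ω') := (hS.to_quotient _).to_subgroup _
  have hab' : ∀ x ∈ (⊤ : Subgroup Ω'), ∀ y ∈ (⊤ : Subgroup Ω'), x * y = y * x := by
    intro x _ y _
    obtain ⟨a, rfl⟩ := QuotientGroup.mk'_surjective _ x
    obtain ⟨b, rfl⟩ := QuotientGroup.mk'_surjective _ y
    rw [← map_mul, ← map_mul]
    congr 1
    exact Subtype.ext (hab a a.2 b b.2)
  let D : FusionSystem (⊤ : Subgroup Ω') := innerFusionSystem ⊤
  have hDtriv : ∀ (P : Subgroup Ω') (φ : P →* Ω'), φ ∈ D.Hom P → ∀ x : P, φ x = x := by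
    rintro P φ ⟨hP, g, hg, hφ⟩ x
    rw [hφ, hab' g trivial x trivial, mul_assoc, mul_inv_cancel, mul_one]
  have hDn : D.IsNormalIn E p := by
    refine ⟨⟨Cfsg.Agent.H25.inner_isSaturated hpΩ, hEs, Cfsg.Agent.H25.inner_le le_rfl,
      ⟨le_rfl, fun _ _ _ _ _ => trivial⟩, ?_, ?_⟩, ?_⟩
    · intro P hPT φ hφ α hα
      refine ⟨_, D.conj_mem le_top (Subgroup.one_mem _), ?_⟩
      intro x hφx hαx
      have e : (⟨φ x, hφx⟩ : ↥(⊤ : Subgroup Ω')) = ⟨x, hPT x.2⟩ := Subtype.ext (hDtriv P φ hφ x)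
      rw [e]
      change (1 : Ω') * _ * (1 : Ω')⁻¹ = _
      simp only [one_mul, inv_one, mul_one]
      rfl
    · intro P hP φ hφ
      obtain ⟨h, hh, hhφ⟩ := Cfsg.Agent.H25.ab_extends hpΩ hab' hEs (Cfsg.Agent.H25.mp_of_mem hφ)
      refine ⟨Cfsg.Agent.H25.autOfIso hh, Cfsg.Agent.H25.autOfIso_mem hh, conjHom P 1,
        D.conj_mem le_top (Subgroup.one_mem _), ?_⟩
      intro x hx
      have e1 : conjHom P (1 : Ω') x = x := by
        change (1 : Ω') * _ * (1 : Ω')⁻¹ = _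
        simp
      have e : (⟨conjHom P (1 : Ω') x, hx⟩ : ↥(⊤ : Subgroup Ω')) = ⟨x, hP x.2⟩ := Subtype.ext e1
      rw [e, Cfsg.Agent.H25.autOfIso_apply, hhφ x x.2, Cfsg.Agent.H25.toFun_coe]
    · intro α hα
      refine ⟨1, Subgroup.one_mem _, ?_, ?_⟩
      · intro x
        obtain ⟨φ, hφ, hφf⟩ := (Cfsg.Agent.H25.Iso.of_mem_autGroup le_rfl hα).mp
        have h1 := hDtriv _ φ hφ x
        rw [hφf, Cfsg.Agent.H25.toFun_aut] at h1
        exact h1.symm
      · intro c _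
        simp
  rcases hEn _ D hDn with hbot | ⟨-, heq⟩
  · exact htop hbot
  -- all maps of `E` are trivial, so the focal subgroup lies in the centre
  have hmor := factor_isSurjectiveMorphism hS hF hZsc _ E hE
  have hfoc : F.focalSubgroup ≤ F.center := by
    rw [Cfsg.Agent.H25.ab_focal_eq hS hab hF, Subgroup.map_le_iff_le_comap, Subgroup.closure_le]
    rintro y ⟨x, α, hα, rfl⟩
    obtain ⟨φ, hφ, hφf⟩ := (Cfsg.Agent.H25.Iso.of_mem_autGroup (le_refl S) hα).mp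
    obtain ⟨φ', hφ', hP, hv, hP', hind⟩ := hmor.1.2 S φ hφ
    have h1 := hDtriv _ φ' (by rw [heq]; exact hφ') ⟨_, hP' x⟩
    rw [hind x] at h1
    have h2 : ((α x : S) : Ω) = φ x := by rw [hφf, Cfsg.Agent.H25.toFun_aut]
    have h3 : (⟨φ x, hv x⟩ : S) = α x := Subtype.ext h2.symm
    have h4 : QuotientGroup.mk' ((F.center).subgroupOf S) (α x) =
        QuotientGroup.mk' ((F.center).subgroupOf S) (⟨x, hP x.2⟩ : S) := by
      rw [← h3]
      exact h1
    have h5 : x⁻¹ * α x ∈ (F.center).subgroupOf S := by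
      rw [← QuotientGroup.eq]
      exact h4.symm
    exact Subgroup.mem_subgroupOf.mp h5
  apply htop
  rw [eq_bot_iff]
  intro y _
  obtain ⟨a, rfl⟩ := QuotientGroup.mk'_surjective _ y
  rw [Subgroup.mem_bot, QuotientGroup.mk'_apply, QuotientGroup.eq_one_iff, Subgroup.mem_subgroupOf]
  apply hfoc
  apply hyperfocal_le_focal' (p := p)
  rw [hhyp]
  exact a.2

end Cfsg.Agent.H24
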