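import Mathlib
import Cfsg.Agent.Lib.H24.RSerC
import Cfsg.Agent.Lib.H24.PResD
import Cfsg.Agent.Lib.H24.LabN
import Cfsg.Agent.Lib.H25.InvC

/-!
The residual subsystems of a saturated system are invariant, and constrainedness passes up along them.
-/

set_option autoImplicit false
set_option linter.style.haveILetI false

namespace Cfsg.Agent.H24.RS

open Cfsg Cfsg.FusionSystem Cfsg.Agent.H25
open Cfsg.Agent.H24.PRes

section Inv

variable {Ω : Type*} [Group Ω] {S : Subgroup Ω} {F E : FusionSystem S} {p : ℕ} [Finite S] [Fact p.Prime]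
  {P R K : Subgroup Ω}

/-- The `p'`-residual is stable under automorphisms of `S`. -/
theorem residual_le_tr (hS : IsPGroup p S) (hF : F.IsSaturated p) (hE : F.IsPPrimeResidual p E) {a a' : Ω → Ω}
    (ha : AutS F a a') : E ≤ Tr E hE.2.1.1 ha := by
  have hEF : E ≤ F := hE.2.1.1
  have hD₀E : D₀ F p ≤ E := D₀_le_of hE.2.1
  have h1 : D₀ F p ≤ Tr E hEF ha := by
    intro Q φ hφ
    refine ⟨D₀_le Q hφ, ?_⟩
    exact (D₀_inv ha (mp_of_mem hφ)).mono hD₀E
  have h2 : ∀ {R K : Subgroup Ω} {ψ : Ω → Ω}, F.IsCentric R → R ≤ K → Mp F K ψ → Mp (Tr E hEF ha) R ψ → Mp (Tr E hEF ha) K ψ := by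
    intro R K ψ hc hRK hψ hψR
    obtain ⟨φ, hφ, e⟩ := hψR
    have hRS : R ≤ S := hc.1
    have hKS : K ≤ S := hψ.le
    have hRc : F.IsCentric (pre ha R) := IsCentric.of_conj hc (isConj_iff.mpr ⟨_, iso_pre' ha hRS⟩)
    have hR₁ : Mp E (pre ha R) (a' ∘ ψ ∘ a) := hφ.2.congr fun y hy => by
      simp only [Function.comp]
      rw [toFun_coe φ ⟨a y, hy.2⟩, e ⟨a y, hy.2⟩]
    have hKF : Mp F (pre ha K) (a' ∘ ψ ∘ a) := by
      have h1 := (iso_pre ha hKS).mp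
      have h3 := h1.comp (fun y hy => hy.2) hψ
      refine h3.comp (fun y hy => ?_) ha.iso'.mp
      exact hψ.mem hy.2
    have hle : pre ha R ≤ pre ha K := fun y hy => ⟨hy.1, hRK hy.2⟩
    have hK₁ : Mp E (pre ha K) (a' ∘ ψ ∘ a) := ext_from_centric hS hF hE.1 hEF _ _ hRc hle rfl hKF hR₁
    obtain ⟨φ', hφ', e'⟩ := hψ
    refine ⟨φ', ⟨hφ', ?_⟩, e'⟩
    refine hK₁.congr fun y hy => ?_
    simp only [Function.comp]
    rw [toFun_coe φ' ⟨a y, hy.2⟩, e' ⟨a y, hy.2⟩]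
  obtain ⟨hs, hidx⟩ := sat_EU hS hF h1 h2
  have h3 := hE.2.2 _ hs hidx
  exact fun Q => (h3 Q).trans (EU_le_U Q)

/-- An element of `Aut_F(S)` as a pair of mutually inverse functions. -/
theorem autS_of_mem {β : MulAut S} (hβ : β ∈ F.autGroup S) : AutS F (tf β⁻¹) (tf β) := by
  have h1 : Iso F S S (tf β) := Iso.of_mem_autGroup le_rfl hβ
  have h2 : Iso F S S (tf β⁻¹) := Iso.of_mem_autGroup le_rfl (inv_mem hβ)
  exact ⟨h2, h1, fun x hx => tf_inv hx, fun x hx => tf_inv' hx⟩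

/-- **The `p'`-residual subsystem is invariant.** -/
theorem residual_invariant (hS : IsPGroup p S) (hF : F.IsSaturated p) (hE : F.IsPPrimeResidual p E) : E.IsInvariantIn F := by
  have hEF : E ≤ F := hE.2.1.1
  have hD₀E : D₀ F p ≤ E := D₀_le_of hE.2.1
  refine ⟨hEF, ⟨le_rfl, fun R _ φ hφ x => (F.le_of_mem hφ).2 x⟩, ?_, ?_⟩
  · intro Q hQ φ hφ β hβ
    have ha := autS_of_mem hβ
    have h1 := (residual_le_tr hS hF hE ha Q hφ).2
    have hEq : pre ha Q = imT β Q := by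
      ext y
      rw [mem_imT hQ]
      constructor
      · rintro ⟨hy, hy'⟩
        exact ⟨_, hy', tf_inv hy⟩
      · rintro ⟨x, hx, rfl⟩
        refine ⟨tf_mem (hQ hx), ?_⟩
        rw [tf_inv' (hQ hx)]
        exact hx
    rw [hEq] at h1
    obtain ⟨χ, hχ, e⟩ := h1
    refine ⟨χ, hχ, fun x hφx hαx => ?_⟩
    have h2 := e ⟨_, hαx⟩
    rw [h2]
    simp only [Function.comp]
    have hx0 : tf β⁻¹ (((β ⟨x, hQ x.2⟩ : S) : Ω)) = x := by
      rw [← tf_apply β (hQ x.2), tf_inv' (hQ x.2)]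
    rw [hx0, toFun_coe φ x, tf_apply β hφx]
  · intro Q hQ φ hφ
    obtain ⟨δ, δ', ψ, hδ, hψ, hv⟩ := (claim hS hF Q hQ).1 _ (mp_of_mem hφ)
    obtain ⟨φ₀, hφ₀, e₀⟩ := hψ.mono hD₀E
    refine ⟨autOfIso hδ.iso, autOfIso_mem hδ.iso, φ₀, hφ₀, fun x hx => ?_⟩
    have h1 := hv x x.2
    rw [toFun_coe φ x] at h1
    rw [h1, autOfIso_apply]
    show δ (ψ x) = δ (φ₀ x)
    rw [e₀ x]

/-- **A system is constrained when its `p'`-residual is.** -/
theorem constrained_of_residual (hS : IsPGroup p S) (hF : F.IsSaturated p) (hE : F.IsPPrimeResidual p E)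
    (hEc : E.IsConstrained p) : F.IsConstrained p := by
  have hI := residual_invariant hS hF hE
  have hN : E.IsNormal E.core := Cfsg.Agent.H24.isNormal_core
  have hst : ∀ α ∈ F.autGroup S, ∀ h ∈ E.core, tf α h ∈ E.core := by
    intro α hα h hh
    have h1 := isNormal_transport hI hα hN
    have h2 : imT α E.core ≤ E.core := le_sSup h1
    exact h2 ((mem_imT hN.1).2 ⟨h, hh, rfl⟩)
  have hFN : F.IsNormal E.core := isNormal_of_inv hI hN hst hS hF
  refine ⟨hF, E.core, hFN, Cfsg.Agent.H24.centric_of_normal hFN ?_⟩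
  exact (Cfsg.Agent.H24.core_isCentric hEc).2 _ (isConj_refl hN.1)

end Inv

section Up

variable {Ω : Type*} [Group Ω] {S T : Subgroup Ω} {E : FusionSystem S} {D : FusionSystem T} {p : ℕ} [Finite S] [Fact p.Prime]
  {P Q H : Subgroup Ω}

/-- A criterion for a subgroup to lie in an essential subgroup. -/
theorem le_ess_of_pgroup (hS : IsPGroup p S) (hE : E.IsSaturated p) (hP : E.IsEssential p P) (hHS : H ≤ S)
    (hHn : ∀ s ∈ S, ∀ h ∈ H, s * h * s⁻¹ ∈ H) (L : Subgroup (MulAut P)) (hLp : IsPGroup p L)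
    (hLn : ∀ a ∈ E.autGroup P, ∀ c ∈ L, a * c * a⁻¹ ∈ L) (hc : ∀ x ∈ H, ∀ c : MulAut P, IsC x c → c ∈ L) : H ≤ P := by
  classical
  have hPS : P ≤ S := hP.1.1
  by_contra hne
  obtain ⟨x, hxH, hxN, hxP⟩ : ∃ x ∈ H, x ∈ Subgroup.normalizer (P : Set Ω) ∧ x ∉ P := by
    have hLS : P ⊔ H ≤ S := sup_le hPS hHS
    haveI : Finite ↥(P ⊔ H) := finite_of_le hLS
    have hne' : P ≠ P ⊔ H := fun h => hne (h ▸ le_sup_right)
    obtain ⟨g₁, hg₁, hg₁P⟩ := exists_normalizer_not_mem (hS.to_le hLS) le_sup_left hne'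
    have hA : P ≤ Subgroup.normalizer (H : Set Ω) := fun t ht =>
      mem_normalizer_of_conj (fun y hy => hHn t (hPS ht) y hy) (fun y hy => by
        have := hHn t⁻¹ (S.inv_mem (hPS ht)) y hy
        simpa using this)
    have hg₁' : g₁ ∈ H ⊔ P := by
      rw [sup_comm]
      exact hg₁.1
    obtain ⟨n, hn, a, ha, e⟩ := Cfsg.Agent.H01.exists_mul_of_mem_sup hA hg₁'
    have hna : n = g₁ * a⁻¹ := by
      rw [e]
      group
    have haN : a ∈ Subgroup.normalizer (P : Set Ω) := (le_normalizerIn hPS ha).2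
    refine ⟨n, hn, ?_, fun h => hg₁P ?_⟩
    · rw [hna]
      exact Subgroup.mul_mem _ hg₁.2 (Subgroup.inv_mem _ haN)
    · rw [e]
      exact P.mul_mem h ha
  have hxS : x ∈ S := hHS hxH
  obtain ⟨Γ, hΓle, hΓne, -, hΓ⟩ := ess_gamma hS hE hP
  obtain ⟨g₀, hg₀, hg₀Γ⟩ : ∃ a ∈ E.autGroup P, a ∉ Γ := by
    by_contra hcon
    push Not at hcon
    exact hΓne (le_antisymm hΓle hcon)
  obtain ⟨c, hcC, -⟩ := exists_isC (F := E) hPS hxS hxN
  have hcL := hc x hxH c hcC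
  apply hg₀Γ
  refine hΓ g₀ hg₀ x x c c hxS hxS hxP hxP hcC hcC (hLp.to_le ?_)
  rw [Subgroup.closure_le]
  rintro z (rfl | rfl)
  · exact hcL
  · exact hLn _ hg₀ _ hcL

/-- An automorphism of `P ≥ Q` trivial on the centric normal subgroup `Q` of an invariant subsystem of
`p`-power index has `p`-power order. -/
theorem pelt_of_trivial (hS : IsPGroup p S) (hE : E.IsSaturated p) (hI : D.IsInvariantIn E) (hDs : D.IsSaturated p)
    (hidx : D.HasPPowerIndexIn E p) (hQc : D.IsCentric Q) (hQn : S ≤ Subgroup.normalizer (Q : Set Ω)) (hQP : Q ≤ P) (hPS : P ≤ S)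
    {a : MulAut P} (ha : a ∈ E.autGroup P) (hat : ∀ q : P, (q : Ω) ∈ Q → a q = q) : ∃ k : ℕ, a ^ p ^ k = 1 := by
  classical
  have hp : p.Prime := Fact.out
  have hTS : T ≤ S := inv_le hI
  haveI hfT : Finite T := finite_of_le hTS
  have hTp : IsPGroup p T := hS.to_le hTS
  have hQT : Q ≤ T := hQc.1
  haveI hfP : Finite P := finite_of_le hPS
  have hFin : Finite (MulAut P) := inferInstance
  obtain ⟨k, m, hm, hmo⟩ := Nat.exists_eq_pow_mul_and_not_dvd (orderOf_pos a).ne' p hp.ne_one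
  have hcop : Nat.Coprime m p := ((Nat.Prime.coprime_iff_not_dvd hp).2 hm).symm
  refine ⟨k, ?_⟩
  obtain ⟨b, hb⟩ : ∃ b, b = a ^ p ^ k := ⟨_, rfl⟩
  rw [← hb]
  have hbE : b ∈ E.autGroup P := by
    rw [hb]
    exact Subgroup.pow_mem _ ha _
  have hbm : b ^ m = 1 := by
    rw [hb, ← pow_mul, ← hmo]
    exact pow_orderOf_eq_one a
  have hbt : ∀ q : P, (q : Ω) ∈ Q → b q = q := by
    intro q hq
    rw [hb]
    have : ∀ n : ℕ, (a ^ n) q = q := by
      intro n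
      induction n with
      | zero => simp
      | succ n ih =>
        rw [pow_succ]
        show (a ^ n) (a q) = q
        rw [hat q hq, ih]
    exact this _
  have hordb : Nat.Coprime (orderOf b) p := Nat.Coprime.coprime_dvd_left (orderOf_dvd_of_pow_eq_one hbm) hcop
  -- `[P, b] ≤ T`
  have hcomm : ∀ t : P, (t : Ω)⁻¹ * (b t : P) ∈ T := by
    intro t
    have h1 : (⟨b, hbE⟩ : E.autGroup P) ∈ pResidual p (E.autGroup P) := by
      refine Subgroup.subset_closure ?_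
      show Nat.Coprime (orderOf (⟨b, hbE⟩ : E.autGroup P)) p
      rw [Subgroup.orderOf_mk]
      exact hordb
    exact hidx.2.1 (Cfsg.Agent.H24.mem_hyperfocal_of_gen hPS _ h1 t)
  have hscT := hI.2.1
  -- `b` on `P ⊓ T`
  have hbm' : Mp E P (toFun (P.subtype.comp b.toMonoidHom)) := Mp.of_mem_autGroup hPS hbE
  have hP₁T : P ⊓ T ≤ T := inf_le_right
  have hmaps : ∀ x ∈ P ⊓ T, toFun (P.subtype.comp b.toMonoidHom) x ∈ P ⊓ T := by
    intro x hx
    rw [toFun_aut b ⟨x, hx.1⟩]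
    refine ⟨(b ⟨x, hx.1⟩).2, ?_⟩
    have h1 := hcomm ⟨x, hx.1⟩
    have e : ((b ⟨x, hx.1⟩ : P) : Ω) = x * ((x : Ω)⁻¹ * (b ⟨x, hx.1⟩ : P)) := by group
    rw [e]
    exact T.mul_mem hx.2 h1
  haveI hfP₁ : Finite ↥(P ⊓ T) := finite_of_le hP₁T
  have hI₁ : Iso E (P ⊓ T) (P ⊓ T) (toFun (P.subtype.comp b.toMonoidHom)) := Iso.of_maps (hbm'.restrict inf_le_left) hmaps
  let b₁ : MulAut ↥(P ⊓ T) := autOfIso hI₁
  have hb₁E : b₁ ∈ E.autGroup (P ⊓ T) := autOfIso_mem hI₁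
  have hb₁v : ∀ x : ↥(P ⊓ T), ((b₁ x : ↥(P ⊓ T)) : Ω) = (b ⟨x, x.2.1⟩ : P) := fun x => by
    rw [autOfIso_apply, toFun_aut b ⟨x, x.2.1⟩]
  have hb₁pow : ∀ (n : ℕ) (x : ↥(P ⊓ T)), (((b₁ ^ n) x : ↥(P ⊓ T)) : Ω) = ((b ^ n) ⟨x, x.2.1⟩ : P) := by
    intro n
    induction n with
    | zero => intro x; rfl
    | succ n ih =>
      intro x
      rw [pow_succ, pow_succ]
      show (((b₁ ^ n) (b₁ x) : ↥(P ⊓ T)) : Ω) = ((b ^ n) (b ⟨x, x.2.1⟩) : P)
      have e : (⟨(b₁ x : ↥(P ⊓ T)), (b₁ x).2.1⟩ : P) = b ⟨x, x.2.1⟩ := Subtype.ext (hb₁v x)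
      rw [ih, e]
  have hb₁m : b₁ ^ m = 1 := by
    ext x
    rw [hb₁pow, hbm]
    rfl
  have hordb₁ : Nat.Coprime (orderOf b₁) p := Nat.Coprime.coprime_dvd_left (orderOf_dvd_of_pow_eq_one hb₁m) hcop
  have hb₁D : b₁ ∈ D.autGroup (P ⊓ T) := by
    refine hidx.2.2 (P ⊓ T) hP₁T ⟨⟨b₁, hb₁E⟩, Subgroup.subset_closure ?_, rfl⟩
    show Nat.Coprime (orderOf (⟨b₁, hb₁E⟩ : E.autGroup (P ⊓ T))) p
    rw [Subgroup.orderOf_mk]
    exact hordb₁
  have hb₁M : Mp D (P ⊓ T) (toFun ((P ⊓ T).subtype.comp b₁.toMonoidHom)) := Mp.of_mem_autGroup hP₁T hb₁D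
  have hQP₁ : Q ≤ P ⊓ T := le_inf hQP hQT
  obtain ⟨z, hzQ, -, hz⟩ := conj_of_trivial_on_centric hTp hDs hQc hQP₁
    (fun x hx => hQn (hPS hx.1)) hb₁M (fun x hx => by
      rw [toFun_aut b₁ ⟨x, hQP₁ hx⟩, hb₁v ⟨x, hQP₁ hx⟩]
      exact congrArg Subtype.val (hbt ⟨x, hQP hx⟩ hx))
  have hzv : ∀ x : ↥(P ⊓ T), ((b₁ x : ↥(P ⊓ T)) : Ω) = z * x * z⁻¹ := fun x => by
    rw [← hz x x.2, toFun_aut]
  obtain ⟨t, ht⟩ := hTp ⟨z, hQT hzQ⟩
  have ht' : z ^ p ^ t = 1 := congrArg Subtype.val ht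
  have hzpow : ∀ (n : ℕ) (x : ↥(P ⊓ T)), (((b₁ ^ n) x : ↥(P ⊓ T)) : Ω) = z ^ n * x * (z ^ n)⁻¹ := by
    intro n
    induction n with
    | zero => intro x; simp
    | succ n ih =>
      intro x
      rw [pow_succ, pow_succ]
      show (((b₁ ^ n) (b₁ x) : ↥(P ⊓ T)) : Ω) = _
      rw [ih, hzv]
      group
  have hb₁1 : b₁ = 1 := by
    have h1 : b₁ ^ p ^ t = 1 := by
      ext x
      rw [hzpow, ht']
      simp
    exact eq_one_of_coprime (hcop.pow_right t) hb₁m h1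
  -- `b` is trivial on `P ⊓ T`, and `[P, b] ≤ P ⊓ T`.
  have hst : b ∈ stabCh P (P ⊓ T) := by
    refine mem_stabCh.2 ⟨fun x hx => ?_, fun x => ⟨?_, hcomm x⟩⟩
    · have h1 := hb₁v ⟨x, hx⟩
      rw [hb₁1] at h1
      exact Subtype.ext h1.symm
    · exact P.mul_mem (P.inv_mem x.2) (b x).2
  obtain ⟨s, hs⟩ := (stabCh_isPGroup (Q := P) (hTp.to_le hP₁T : IsPGroup p ↥(P ⊓ T))) ⟨b, hst⟩
  have hs' : b ^ p ^ s = 1 := congrArg Subtype.val hs
  exact eq_one_of_coprime (hcop.pow_right s) hbm hs'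

/-- **A saturated system is constrained when its subsystem of `p`-power index over an invariant... is.** -/
theorem constrained_of_ppower (hS : IsPGroup p S) (hE : E.IsSaturated p) (hI : D.IsInvariantIn E) (hidx' : D.IsSaturated p)
    (hidx : D.HasPPowerIndexIn E p) (hDc : D.IsConstrained p) : E.IsConstrained p := by
  classical
  have hTS : T ≤ S := inv_le hI
  haveI hfT : Finite T := finite_of_le hTS
  obtain ⟨Q, hQdef⟩ : ∃ Q, Q = D.core := ⟨_, rfl⟩
  have hQD : D.IsNormal Q := by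
    rw [hQdef]
    exact Cfsg.Agent.H24.isNormal_core
  have hQc : D.IsCentric Q := by
    rw [hQdef]
    exact Cfsg.Agent.H24.core_isCentric hDc
  have hst : ∀ α ∈ E.autGroup T, ∀ h ∈ Q, tf α h ∈ Q := by
    intro α hα h hh
    have h1 := isNormal_transport hI hα hQD
    have h2 : imT α Q ≤ Q := by
      rw [hQdef] at h1 ⊢
      exact le_sSup h1
    exact h2 ((mem_imT hQD.1).2 ⟨h, hh, rfl⟩)
  have hQE : E.IsNormal Q := isNormal_of_inv hI hQD hst hS hE
  have hQS : Q ≤ S := hQE.1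
  have hSN : S ≤ Subgroup.normalizer (Q : Set Ω) := Cfsg.Agent.H24.normalizer_of_isNormal hQE
  -- `R = C_S(Q)`
  obtain ⟨R, hRdef⟩ : ∃ R, R = centralizerIn S Q := ⟨_, rfl⟩
  have hRS : R ≤ S := by
    rw [hRdef]
    exact inf_le_left
  have hRmem : ∀ {x : Ω}, x ∈ R ↔ x ∈ S ∧ ∀ y ∈ Q, y * x = x * y := by
    intro x
    rw [hRdef]
    exact mem_centralizerIn
  have hRn : ∀ s ∈ S, ∀ h ∈ R, s * h * s⁻¹ ∈ R := by
    intro s hs h hh
    refine hRmem.2 ⟨S.mul_mem (S.mul_mem hs (hRS hh)) (S.inv_mem hs), fun y hy => ?_⟩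
    have hy' : s⁻¹ * y * s ∈ Q := by
      have := conj_mem_of_normalizer (hSN (S.inv_mem hs)) hy
      rwa [inv_inv] at this
    have h1 := (hRmem.1 hh).2 _ hy'
    calc y * (s * h * s⁻¹) = s * ((s⁻¹ * y * s) * h) * s⁻¹ := by group
      _ = s * (h * (s⁻¹ * y * s)) * s⁻¹ := by rw [h1]
      _ = s * h * s⁻¹ * y := by group
  -- automorphisms stabilize `Q`
  have hstP : ∀ P, Q ≤ P → P ≤ S → ∀ a ∈ E.autGroup P, ∀ y : P, (y : Ω) ∈ Q → ((a y : P) : Ω) ∈ Q := by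
    intro P hQP hPS a ha y hy
    obtain ⟨ĥ, hĥ, hĥe, hĥg⟩ := normal_ext hQE (Mp.of_mem_autGroup hPS ha)
    have h1 := hĥg.1 y hy
    rw [hĥe y y.2, toFun_aut] at h1
    exact h1
  -- automorphisms stabilize `R`
  have hstR : ∀ P, Q ≤ P → P ≤ S → ∀ a ∈ E.autGroup P, ∀ y : P, (y : Ω) ∈ R → ((a y : P) : Ω) ∈ R := by
    intro P hQP hPS a ha y hy
    refine hRmem.2 ⟨hPS (a y).2, fun q hq => ?_⟩
    have h1 := hstP P hQP hPS a⁻¹ (inv_mem ha) ⟨q, hQP hq⟩ hq
    have h2 : a (a⁻¹ ⟨q, hQP hq⟩) = ⟨q, hQP hq⟩ := by simp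
    have h3 := (hRmem.1 hy).2 _ h1
    have h4 : (a⁻¹ ⟨q, hQP hq⟩) * y = y * (a⁻¹ ⟨q, hQP hq⟩) := Subtype.ext h3
    have h5 := congrArg (fun w : P => (((a w : P)) : Ω)) h4
    simp only [map_mul, h2] at h5
    exact h5
  -- the subgroup of `Aut_E(P)` acting trivially on `Q`
  have hRP : ∀ P, E.IsEssential p P → R ≤ P := by
    intro P hP
    have hPS : P ≤ S := hP.1.1
    have hQP : Q ≤ P := inv_le_ess hI hQD hst hS hE hP
    have hfP : Finite P := finite_of_le hPS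
    let L : Subgroup (MulAut P) := E.autGroup P ⊓
      { carrier := {a | ∀ q : P, (q : Ω) ∈ Q → a q = q}
        mul_mem' := by
          intro a b ha hb q hq
          show a (b q) = q
          rw [hb q hq, ha q hq]
        one_mem' := fun q _ => rfl
        inv_mem' := by
          intro a ha q hq
          have h1 := ha q hq
          show a⁻¹ q = q
          conv_lhs => rw [← h1]
          simp }
    refine le_ess_of_pgroup hS hE hP hRS hRn L ?_ ?_ ?_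
    · rintro ⟨a, ha1, ha2⟩
      obtain ⟨k, hk⟩ := pelt_of_trivial hS hE hI hidx' hidx hQc hSN hQP hPS ha1 ha2
      exact ⟨k, Subtype.ext hk⟩
    · rintro a ha c ⟨hc1, hc2⟩
      refine ⟨Subgroup.mul_mem _ (Subgroup.mul_mem _ ha hc1) (Subgroup.inv_mem _ ha), fun q hq => ?_⟩
      have h1 := hstP P hQP hPS a⁻¹ (inv_mem ha) q hq
      have h2 := hc2 _ h1
      show a (c (a⁻¹ q)) = q
      rw [h2]
      simp
    · intro x hx c hc
      have hcE : c ∈ E.autGroup P := by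
        have hxN : x ∈ Subgroup.normalizer (P : Set Ω) := IsC.mem_normalizer hc
        exact conj_mem_autGroup hPS (hRS hx) hc
      refine ⟨hcE, fun q hq => Subtype.ext ?_⟩
      rw [hc q]
      have h1 := (hRmem.1 hx).2 _ hq
      rw [← h1]
      group
  -- normality of `Q R`
  have hQR : E.IsNormal (Q ⊔ R) := by
    refine Cfsg.Agent.H24.isNormal_of_aut hS hE (sup_le hQS hRS) ?_
    have hstQR : ∀ P, Q ⊔ R ≤ P → P ≤ S → ∀ a ∈ E.autGroup P, ∀ y : P, (y : Ω) ∈ Q ⊔ R → ((a y : P) : Ω) ∈ Q ⊔ R := by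
      intro P hle hPS a ha y hy
      have hQP : Q ≤ P := le_sup_left.trans hle
      have hRP' : R ≤ P := le_sup_right.trans hle
      let W : Subgroup Ω := ((Q ⊔ R).subgroupOf P).comap a.toMonoidHom |>.map P.subtype
      have hle' : Q ⊔ R ≤ W := by
        refine sup_le (fun q hq => ⟨⟨q, hQP hq⟩, ?_, rfl⟩) (fun r hr => ⟨⟨r, hRP' hr⟩, ?_, rfl⟩)
        · exact Subgroup.mem_subgroupOf.2 (Subgroup.mem_sup_left (hstP P hQP hPS a ha ⟨q, hQP hq⟩ hq))
        · exact Subgroup.mem_subgroupOf.2 (Subgroup.mem_sup_right (hstR P hQP hPS a ha ⟨r, hRP' hr⟩ hr))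
      obtain ⟨s, hs, hsy⟩ := hle' hy
      have e : s = y := Subtype.ext hsy
      rw [← e]
      exact Subgroup.mem_subgroupOf.1 hs
    rintro P (rfl | hP)
    · have hle := sup_le hQS hRS
      exact ⟨hle, fun a ha => map_eq_of_stable (hstQR _ hle le_rfl a ha) (hstQR _ hle le_rfl a⁻¹ (inv_mem ha))⟩
    · have hle : Q ⊔ R ≤ P := sup_le (inv_le_ess hI hQD hst hS hE hP) (hRP P hP)
      exact ⟨hle, fun a ha => map_eq_of_stable (hstQR _ hle hP.1.1 a ha) (hstQR _ hle hP.1.1 a⁻¹ (inv_mem ha))⟩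
  refine ⟨hE, Q ⊔ R, hQR, Cfsg.Agent.H24.centric_of_normal hQR ?_⟩
  intro x hx
  obtain ⟨hxS, hxC⟩ := mem_centralizerIn.1 hx
  exact Subgroup.mem_sup_right (hRmem.2 ⟨hxS, fun y hy => hxC y (Subgroup.mem_sup_left hy)⟩)

end Up

section Main

universe u

/-- A terminating residual series forces constrainedness and `p`-solvability of the models. -/
theorem forward {Ω : Type u} [Group Ω] {S : Subgroup Ω} {F : FusionSystem S} {q : ℕ} (h : F.HasTerminatingResidualSeries q) :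
    ∀ [Fact q.Prime] [Finite S], IsPGroup q S → F.IsSaturated q →
      (F.IsConstrained q ∧ ∀ (G : Type u) [Group G] (ι : S →* G), F.IsModel q G ι → IsPSolvable q G) := by
  induction h with
  | @trivial S F p hS1 =>
    intro _ _ hS hF
    subst hS1
    refine ⟨⟨hF, ⊥, Cfsg.Agent.H24.isNormal_bot, Cfsg.Agent.H24.centric_of_normal Cfsg.Agent.H24.isNormal_bot inf_le_left⟩, ?_⟩
    intro G _ ι hG
    obtain ⟨hfG, hr, ⟨T, hT⟩, hcen⟩ := hG
    have hOT : pCore p G ≤ ι.range := by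
      rw [← hT]
      exact Cfsg.Agent.H01.pCore_le_sylow p T
    have hbot : ∀ x : ↥(⊥ : Subgroup Ω), x = 1 := fun x => Subtype.ext (Subgroup.mem_bot.1 x.2)
    have hO : pCore p G = ⊥ := by
      rw [eq_bot_iff]
      intro x hx
      obtain ⟨s, rfl⟩ := hOT hx
      rw [hbot s, map_one]
      exact Subgroup.one_mem _
    rw [hO] at hcen
    haveI : Subsingleton G := by
      refine ⟨fun a b => ?_⟩
      have h1 : ∀ x : G, x = 1 := fun x => by
        have h2 : x ∈ Subgroup.centralizer (((⊥ : Subgroup G) : Subgroup G) : Set G) := by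
          rw [Subgroup.mem_centralizer_iff]
          intro y hy
          have hy1 : y = 1 := hy
          rw [hy1]
          group
        exact Subgroup.mem_bot.1 (hcen h2)
      rw [h1 a, h1 b]
    exact psolv_of_subsingleton
  | @step S F E p D hE hD _ ih =>
    intro _ _ hS hF
    have hTS : E.hyperfocalSubgroup p ≤ S := Cfsg.Agent.H24.hyperfocal_le
    haveI : Finite (E.hyperfocalSubgroup p) := finite_of_le hTS
    obtain ⟨hDc, hDm⟩ := ih (hS.to_le hTS) hD.1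
    have hsc := Cfsg.Agent.H24.hyperfocal_stronglyClosed hS hE.1
    have hTn : ((E.hyperfocalSubgroup p).subgroupOf S).Normal := by
      refine ⟨fun n hn g => Subgroup.mem_subgroupOf.2 ?_⟩
      have h1 := hsc.2 (E.hyperfocalSubgroup p) le_rfl (conjHom _ (g : Ω)) (E.conj_mem hTS g.2) ⟨n, Subgroup.mem_subgroupOf.1 hn⟩
      exact h1
    have hN := Cfsg.Agent.H24.ppower_isNormal hS hE.1 hTS hTn le_rfl D hD.1 hD.2
    have hEc : E.IsConstrained p := constrained_of_ppower hS hE.1 hN.1.2.2 hD.1 hD.2 hDc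
    refine ⟨constrained_of_residual hS hF hE hEc, ?_⟩
    intro G _ ι hG
    haveI hfG : Finite G := hG.1
    obtain ⟨ι₁, hG₁⟩ := model_residual hS hG hE
    obtain ⟨ι₂, hG₂⟩ := model_presidual hS hG₁ hD
    have hs₂ := hDm _ ι₂ hG₂
    haveI hK₁ : (pResidual p (oP p G)).Normal := Cfsg.Agent.H24.pResidual_normal'
    haveI hK : (oP p G).Normal := oP_normal
    have hs₁ : IsPSolvable p (oP p G) := by
      refine psolv_ext _ (oP p G) (pResidual p (oP p G)) rfl hs₂ (Or.inl ?_)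
      have h1 := Cfsg.Agent.H05.isPGroup_quotient_pResidual (G := oP p G) (p := p) Fact.out
      obtain ⟨m, hm⟩ := IsPGroup.iff_card.1 h1
      exact ⟨m, hm⟩
    refine psolv_ext _ G (oP p G) rfl hs₁ (Or.inr ?_)
    obtain ⟨T⟩ : Nonempty (Sylow p G) := inferInstance
    exact ((Nat.Prime.coprime_iff_not_dvd Fact.out).2 (not_dvd_index_oP T)).symm

end Main

end Cfsg.Agent.H24.RS
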