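import Mathlib
import Cfsg.Agent.Lib.H24.ModBasic
import Cfsg.Agent.Lib.H24.FusAG3
import Cfsg.Agent.Lib.H24.BisetTh2
import Cfsg.Agent.Lib.H01.Basic

/-!
The fusion system of `P ⋊ ⟨α⟩` for an automorphism `α` of order prime to `p`, and extremely sparse systems.
-/

set_option autoImplicit false
set_option linter.style.haveILetI false

namespace Cfsg.Agent.H24

open Cfsg Cfsg.FusionSystem

universe u

variable {Ω : Type u} [Group Ω]

section AutSys

variable {P : Subgroup Ω}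

/-- The fusion system on `P` given by restrictions of a group of automorphisms containing the inner ones. -/
def autSys (A : Subgroup (MulAut P)) (hA : ∀ u : P, MulAut.conj u ∈ A) : FusionSystem P where
  Hom Q := {φ | ∃ hQ : Q ≤ P, ∃ a ∈ A, ∀ x : Q, φ x = ((a ⟨x, hQ x.2⟩ : P) : Ω)}
  le_of_mem := by
    rintro Q φ ⟨hQ, a, -, h⟩
    refine ⟨hQ, fun x => ?_⟩
    rw [h]
    exact (a _).2
  injective_of_mem := by
    rintro Q φ ⟨hQ, a, -, h⟩ x y hxy
    rw [h, h] at hxy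
    have h1 := a.injective (Subtype.ext hxy)
    have h2 := congrArg Subtype.val h1
    exact Subtype.ext h2
  conj_mem := by
    intro Q g hQ hg
    exact ⟨hQ, MulAut.conj ⟨g, hg⟩, hA _, fun x => rfl⟩
  comp_mem := by
    rintro Q R φ ψ ⟨hQ, a, ha, h1⟩ ⟨hR, b, hb, h2⟩ h
    refine ⟨hQ, b * a, Subgroup.mul_mem _ hb ha, fun x => ?_⟩
    show ψ ⟨φ x, h x⟩ = _
    rw [h2]
    have e : (⟨φ x, hR (h x)⟩ : P) = a ⟨x, hQ x.2⟩ := Subtype.ext (h1 x)
    rw [e]
    rfl
  inv_mem := by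
    rintro Q φ ⟨hQ, a, ha, h1⟩
    have hr : φ.range ≤ P := by
      rintro _ ⟨x, rfl⟩
      rw [h1]
      exact (a _).2
    refine ⟨(P.subtype.comp (a⁻¹ : MulAut P).toMonoidHom).comp (Subgroup.inclusion hr),
      ⟨hr, a⁻¹, Subgroup.inv_mem _ ha, fun x => rfl⟩, fun x => ?_⟩
    show (((a⁻¹ : MulAut P) ⟨φ x, hr ⟨x, rfl⟩⟩ : P) : Ω) = x
    have e : (⟨φ x, hr ⟨x, rfl⟩⟩ : P) = a ⟨x, hQ x.2⟩ := Subtype.ext (h1 x)
    rw [e]
    simp

/-- The conjugation action of `P ⋊ ⟨α⟩` on `P`. -/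
def thetaHom (α : MulAut P) :
    (SemidirectProduct P (Subgroup.zpowers α) (Subgroup.zpowers α).subtype) →* MulAut P :=
  SemidirectProduct.lift MulAut.conj (Subgroup.zpowers α).subtype (by
    intro g
    ext x y
    show (((g : MulAut P) x * y * ((g : MulAut P) x)⁻¹ : P) : Ω) = (((g : MulAut P) (x * ((g : MulAut P)⁻¹ y) * x⁻¹) : P) : Ω)
    simp [map_mul])

theorem thetaHom_inl (α : MulAut P) (u : P) : thetaHom α (SemidirectProduct.inl u) = MulAut.conj u := by
  simp [thetaHom]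

theorem thetaHom_inr (α : MulAut P) (r : Subgroup.zpowers α) : thetaHom α (SemidirectProduct.inr r) = r := by
  simp [thetaHom]

theorem theta_conj (α : MulAut P) (g : SemidirectProduct P (Subgroup.zpowers α) (Subgroup.zpowers α).subtype) (x : P) :
    g * SemidirectProduct.inl x * g⁻¹ = SemidirectProduct.inl (thetaHom α g x) := by
  obtain ⟨u, r⟩ := g
  have e : (⟨u, r⟩ : SemidirectProduct P (Subgroup.zpowers α) (Subgroup.zpowers α).subtype) =
    SemidirectProduct.inl u * SemidirectProduct.inr r := SemidirectProduct.mk_eq_inl_mul_inr r u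
  rw [e, map_mul, thetaHom_inl, thetaHom_inr]
  have e2 := SemidirectProduct.inl_aut (φ := (Subgroup.zpowers α).subtype) r x
  have e3 : SemidirectProduct.inl ((MulAut.conj u * (r : MulAut P)) x) =
      (SemidirectProduct.inl u : SemidirectProduct P (Subgroup.zpowers α) (Subgroup.zpowers α).subtype) *
        SemidirectProduct.inl ((Subgroup.zpowers α).subtype r x) * (SemidirectProduct.inl u)⁻¹ := by
    rw [← map_inv, ← map_mul, ← map_mul]
    rfl
  rw [e3, e2, map_inv]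
  group

/-- The system of `P ⋊ ⟨α⟩`. -/
noncomputable def coSys (α : MulAut P) : FusionSystem P :=
  autSys (thetaHom α).range (fun u => ⟨SemidirectProduct.inl u, thetaHom_inl α u⟩)

theorem coSys_realized (α : MulAut P) :
    (coSys α).IsRealizedBy (SemidirectProduct.inl : P →* SemidirectProduct P (Subgroup.zpowers α) (Subgroup.zpowers α).subtype) := by
  refine ⟨SemidirectProduct.inl_injective, fun Q hQ φ hφ => ⟨?_, ?_⟩⟩
  · rintro ⟨_, _, ⟨g, rfl⟩, h⟩
    refine ⟨g, fun x => ?_⟩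
    have e : (⟨φ x, hφ x⟩ : P) = thetaHom α g ⟨x, hQ x.2⟩ := Subtype.ext (h x)
    rw [e, theta_conj]
  · rintro ⟨g, h⟩
    refine ⟨hQ, thetaHom α g, ⟨g, rfl⟩, fun x => ?_⟩
    have h1 := h x
    rw [theta_conj] at h1
    have h2 := SemidirectProduct.inl_injective h1
    exact congrArg Subtype.val h2

theorem coSys_saturated {p : ℕ} [Fact p.Prime] [Finite P] (hP : IsPGroup p P) (α : MulAut P) (hα : Nat.Coprime (orderOf α) p) :
    (coSys α).IsSaturated p := by
  have hp : p.Prime := Fact.out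
  haveI hfM : Finite (MulAut P) := finiteMulAut_H24 P
  haveI hfG : Finite (SemidirectProduct P (Subgroup.zpowers α) (Subgroup.zpowers α).subtype) :=
    Finite.of_equiv _ SemidirectProduct.equivProd.symm
  let ι : P →* SemidirectProduct P (Subgroup.zpowers α) (Subgroup.zpowers α).subtype := SemidirectProduct.inl
  have h1 : IsPGroup p ι.range := IsPGroup.of_surjective hP ι.rangeRestrict ι.rangeRestrict_surjective
  have h2 : ι.range.index = orderOf α := by
    have e1 : ι.range = (SemidirectProduct.rightHom : SemidirectProduct P (Subgroup.zpowers α) (Subgroup.zpowers α).subtype →* _).ker :=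
      SemidirectProduct.range_inl_eq_ker_rightHom
    rw [e1, Subgroup.index_ker, MonoidHom.range_eq_top.2 SemidirectProduct.rightHom_surjective]
    rw [Nat.card_congr Subgroup.topEquiv.toEquiv, Nat.card_zpowers]
  have h3 : ¬ p ∣ ι.range.index := by
    rw [h2]
    exact fun h => (Nat.Prime.coprime_iff_not_dvd hp).1 hα.symm h
  exact saturated_of_realized (coSys_realized α) (h1.toSylow h3) (h1.toSylow_coe h3)

theorem coSys_subsystem {S : Subgroup Ω} {F : FusionSystem S} (hPS : P ≤ S) {α : MulAut P} (hα : α ∈ F.autGroup P) :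
    (coSys α).IsSubsystemOf F := by
  have hle : (thetaHom α).range ≤ F.autGroup P := by
    rintro _ ⟨⟨u, r⟩, rfl⟩
    have e : (⟨u, r⟩ : SemidirectProduct P (Subgroup.zpowers α) (Subgroup.zpowers α).subtype) =
      SemidirectProduct.inl u * SemidirectProduct.inr r := SemidirectProduct.mk_eq_inl_mul_inr r u
    rw [e, map_mul, thetaHom_inl, thetaHom_inr]
    refine Subgroup.mul_mem _ (inn_le_autGroup hPS ⟨u, rfl⟩) ?_
    exact ((Subgroup.zpowers_le).2 hα) r.2
  rintro Q φ ⟨hQ, a, ha, h⟩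
  exact hom_of_agree hQ ((mem_autGroup_iff hPS a).1 (hle ha)) φ h

theorem mem_coSys_auto (α : MulAut P) : α ∈ (coSys α).autGroup P := by
  apply Subgroup.subset_closure
  exact ⟨le_rfl, α, ⟨SemidirectProduct.inr ⟨α, Subgroup.mem_zpowers α⟩, thetaHom_inr α _⟩, fun x => rfl⟩

theorem thetaHom_range_le {S : Subgroup Ω} {F : FusionSystem S} (hPS : P ≤ S) {α : MulAut P} (hα : α ∈ F.autGroup P) :
    (thetaHom α).range ≤ F.autGroup P := by
  rintro _ ⟨⟨u, r⟩, rfl⟩
  have e : (⟨u, r⟩ : SemidirectProduct P (Subgroup.zpowers α) (Subgroup.zpowers α).subtype) =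
    SemidirectProduct.inl u * SemidirectProduct.inr r := SemidirectProduct.mk_eq_inl_mul_inr r u
  rw [e, map_mul, thetaHom_inl, thetaHom_inr]
  refine Subgroup.mul_mem _ (inn_le_autGroup hPS ⟨u, rfl⟩) ?_
  exact ((Subgroup.zpowers_le).2 hα) r.2

end AutSys

section Restrict

variable {S : Subgroup Ω} {F : FusionSystem S} {p : ℕ}

/-- Restriction of an automorphism to an invariant subgroup. -/
theorem exists_restrict_aut [Finite S] {Q Q₀ : Subgroup Ω} (hQS : Q ≤ S) (hQ₀ : Q₀ ≤ Q) {α : MulAut Q} (hα : α ∈ F.autGroup Q)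
    (hinv : ∀ x : Q, (x : Ω) ∈ Q₀ → ((α x : Q) : Ω) ∈ Q₀) :
    ∃ β₀ ∈ F.autGroup Q₀, (∀ r : Q₀, ((β₀ r : Q₀) : Ω) = ((α ⟨r, hQ₀ r.2⟩ : Q) : Ω)) ∧
      ∀ n : ℕ, α ^ n = 1 → β₀ ^ n = 1 := by
  haveI hfQ₀ : Finite Q₀ := Cfsg.Agent.H25.finite_of_le (hQ₀.trans hQS)
  have hm : Cfsg.Agent.H25.Mp F Q₀ (Cfsg.Agent.H25.toFun (Q.subtype.comp α.toMonoidHom)) :=
    (Cfsg.Agent.H25.Mp.of_mem_autGroup hQS hα).restrict hQ₀
  have hval : ∀ y : Q, Cfsg.Agent.H25.toFun (Q.subtype.comp α.toMonoidHom) y = ((α y : Q) : Ω) := fun y => Cfsg.Agent.H25.toFun_aut α y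
  have hI : Cfsg.Agent.H25.Iso F Q₀ Q₀ (Cfsg.Agent.H25.toFun (Q.subtype.comp α.toMonoidHom)) :=
    Cfsg.Agent.H25.Iso.of_maps hm (fun x hx => by
      rw [hval ⟨x, hQ₀ hx⟩]
      exact hinv ⟨x, hQ₀ hx⟩ hx)
  refine ⟨Cfsg.Agent.H25.autOfIso hI, Cfsg.Agent.H25.autOfIso_mem hI, fun r => hval ⟨r, hQ₀ r.2⟩, ?_⟩
  set β₀ := Cfsg.Agent.H25.autOfIso hI with hβ₀
  have hβ₀v : ∀ r : Q₀, ((β₀ r : Q₀) : Ω) = ((α ⟨r, hQ₀ r.2⟩ : Q) : Ω) := fun r => hval ⟨r, hQ₀ r.2⟩
  have hpow : ∀ (n : ℕ) (r : Q₀), (((β₀ ^ n) r : Q₀) : Ω) = (((α ^ n) ⟨r, hQ₀ r.2⟩ : Q) : Ω) := by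
    intro n
    induction n with
    | zero => intro r; rfl
    | succ n ih =>
      intro r
      rw [pow_succ, pow_succ]
      show (((β₀ ^ n) (β₀ r) : Q₀) : Ω) = (((α ^ n) (α ⟨r, hQ₀ r.2⟩) : Q) : Ω)
      have e : (⟨((β₀ r : Q₀) : Ω), hQ₀ (β₀ r).2⟩ : Q) = α ⟨r, hQ₀ r.2⟩ := Subtype.ext (hβ₀v r)
      rw [ih, e]
  intro n hn
  ext r
  rw [hpow, hn]
  rfl

end Restrict

section Sparse

variable {S : Subgroup Ω} [Finite S] {p : ℕ} [Fact p.Prime] {F : FusionSystem S}

theorem sparse_star (hS : IsPGroup p S)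
    (hdich : ∀ (T : Subgroup Ω) (E : FusionSystem T), E.IsSaturated p → E.IsSubsystemOf F →
      (T = S ∧ ∀ P : Subgroup Ω, E.Hom P = F.Hom P) ∨ (∀ P : Subgroup Ω, E.Hom P = (innerFusionSystem T).Hom P))
    {P : Subgroup Ω} (hPS : P ≤ S) {α : MulAut P} (hα : α ∈ F.autGroup P) (hc : Nat.Coprime (orderOf α) p) (hne : α ≠ 1) :
    P = S ∧ ∀ Q : Subgroup Ω, (coSys α).Hom Q = F.Hom Q := by
  have hp : p.Prime := Fact.out
  haveI hfP : Finite P := Cfsg.Agent.H25.finite_of_le hPS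
  have hPp : IsPGroup p P := hS.of_injective (Subgroup.inclusion hPS) (Subgroup.inclusion_injective _)
  rcases hdich P (coSys α) (coSys_saturated hPp α hc) (coSys_subsystem hPS hα) with h | h
  · exact h
  · exfalso
    have h1 := mem_coSys_auto α
    have h2 : P.subtype.comp α.toMonoidHom ∈ (innerFusionSystem P).Hom P := by
      rw [← h]
      exact (mem_autGroup_iff le_rfl α).1 h1
    obtain ⟨-, g, hg, hgv⟩ := h2
    have h3 : α = MulAut.conj (⟨g, hg⟩ : P) := by
      ext x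
      exact hgv x
    obtain ⟨k, hk⟩ := hPp ⟨g, hg⟩
    have h4 : α ^ p ^ k = 1 := by rw [h3, ← map_pow, hk, map_one]
    have h5 := orderOf_dvd_of_pow_eq_one h4
    have h6 : Nat.Coprime (orderOf α) (p ^ k) := Nat.Coprime.pow_right k hc
    have h7 : orderOf α = 1 := Nat.eq_one_of_dvd_coprimes h6 dvd_rfl h5
    exact hne (orderOf_eq_one_iff.1 h7)

/-- The structure of extremely sparse systems. -/
theorem sparse_main (hS : IsPGroup p S) (hF : F.IsSaturated p)
    (hxs : ¬ (∀ P : Subgroup Ω, F.Hom P = (innerFusionSystem S).Hom P) ∧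
      ∀ (T : Subgroup Ω) (E : FusionSystem T), E.IsSaturated p → E.IsSubsystemOf F →
      (T = S ∧ ∀ P : Subgroup Ω, E.Hom P = F.Hom P) ∨ (∀ P : Subgroup Ω, E.Hom P = (innerFusionSystem T).Hom P)) :
    F.IsNormal S ∧ F.focalSubgroup = S ∧ F.hyperfocalSubgroup p = S ∧ ∃ (q : ℕ) (β : MulAut ↥S), q.Prime ∧ q ≠ p ∧
      β ∈ F.autGroup S ∧ orderOf β = q ∧ (F.autGroup S : Subgroup (MulAut ↥S)) = Inn ↥S ⊔ Subgroup.zpowers β := by
  have hp : p.Prime := Fact.out
  obtain ⟨hne, hdich⟩ := hxs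
  haveI hfM : Finite (MulAut S) := finiteMulAut_H24 S
  have hex : ∃ P : Subgroup Ω, P ≤ S ∧ ∃ α ∈ F.autGroup P, Nat.Coprime (orderOf α) p ∧ α ≠ 1 := by
    by_contra hcon
    push Not at hcon
    apply hne
    have h1 := eq_inner_of_pGroup hS hF (fun P hP => by
      haveI : Finite P := Cfsg.Agent.H25.finite_of_le hP
      haveI : Finite (MulAut P) := finiteMulAut_H24 P
      exact isPGroup_of_coprime_one _ (fun b hb hc => hcon P hP b hb hc))
    intro P
    rw [← h1]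
  obtain ⟨P, hPS, α₁, hα₁, hc₁, hne₁⟩ := hex
  have hPeq : P = S := (sparse_star hS hdich hPS hα₁ hc₁ hne₁).1
  subst hPeq
  have hn1 : orderOf α₁ ≠ 1 := fun h => hne₁ (orderOf_eq_one_iff.1 h)
  obtain ⟨q, hq, hqd⟩ := Nat.exists_prime_and_dvd hn1
  set β := α₁ ^ (orderOf α₁ / q) with hβd
  have hord : orderOf β = q := orderOf_pow_orderOf_div (orderOf_pos α₁).ne' hqd
  have hqc : Nat.Coprime q p := Nat.Coprime.coprime_dvd_left hqd hc₁
  have hqp : q ≠ p := by
    rintro rfl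
    exact hq.one_lt.ne' (Nat.coprime_self q |>.1 hqc)
  have hβ : β ∈ F.autGroup P := Subgroup.pow_mem _ hα₁ _
  have hcβ : Nat.Coprime (orderOf β) p := by rwa [hord]
  have hneβ : β ≠ 1 := by
    intro h
    rw [h, orderOf_one] at hord
    exact hq.one_lt.ne hord
  have hsame := (sparse_star hS hdich le_rfl hβ hcβ hneβ).2
  have hmaps : ∀ (Q : Subgroup Ω) (φ : Q →* Ω), φ ∈ F.Hom Q → ∃ hQ : Q ≤ P, ∃ a ∈ (thetaHom β).range, ∀ x : Q, φ x = ((a ⟨x, hQ x.2⟩ : P) : Ω) := by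
    intro Q φ hφ
    rw [← hsame] at hφ
    exact hφ
  have hrange : (thetaHom β).range ≤ F.autGroup P := thetaHom_range_le le_rfl hβ
  -- the hyperfocal subgroup
  have hhyp : F.hyperfocalSubgroup p = P := by
    by_contra hcon
    have hH : F.hyperfocalSubgroup p ≤ P := hyperfocal_le
    have hT₀ : (F.hyperfocalSubgroup p).subgroupOf P ≠ ⊤ := by
      intro h
      apply hcon
      apply le_antisymm hH
      intro x hx
      have : (⟨x, hx⟩ : ↥P) ∈ (F.hyperfocalSubgroup p).subgroupOf P := by rw [h]; trivial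
      exact this
    obtain ⟨M, hM, hTM⟩ := (eq_top_or_exists_le_coatom ((F.hyperfocalSubgroup p).subgroupOf P)).resolve_left hT₀
    have hTP : M.map P.subtype ≤ P := by
      rintro _ ⟨a, -, rfl⟩
      exact a.2
    have hgen : ∀ x : P, (x : Ω)⁻¹ * ((β x : P) : Ω) ∈ F.hyperfocalSubgroup p := by
      intro x
      refine mem_hyperfocal_of_gen (F := F) (p := p) le_rfl ⟨β, hβ⟩ (Subgroup.subset_closure ?_) x
      show Nat.Coprime (orderOf (⟨β, hβ⟩ : F.autGroup P)) p
      rw [Subgroup.orderOf_mk]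
      exact hcβ
    have hgenM : ∀ x : P, x⁻¹ * β x ∈ M := fun x => hTM (hgen x)
    have hinv : ∀ x : P, (x : Ω) ∈ M.map P.subtype → ((β x : P) : Ω) ∈ M.map P.subtype := by
      intro x hx
      have hxM : x ∈ M := by
        obtain ⟨a, ha, h⟩ := hx
        have : a = x := Subtype.ext h
        rwa [← this]
      have h2 : β x ∈ M := by
        have : β x = x * (x⁻¹ * β x) := by group
        rw [this]
        exact M.mul_mem hxM (hgenM x)
      exact ⟨_, h2, rfl⟩
    obtain ⟨β₀, hβ₀, hβ₀v, hβ₀p⟩ := exists_restrict_aut (F := F) le_rfl hTP hβ hinv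
    have hβ₀c : Nat.Coprime (orderOf β₀) p :=
      Nat.Coprime.coprime_dvd_left (orderOf_dvd_of_pow_eq_one (hβ₀p _ (pow_orderOf_eq_one β))) hcβ
    have hβ₀1 : β₀ = 1 := by
      by_contra h
      have h1 := (sparse_star hS hdich hTP hβ₀ hβ₀c h).1
      have h2 : M = ⊤ := by
        rw [eq_top_iff]
        intro x _
        have : (x : Ω) ∈ M.map P.subtype := by rw [h1]; exact x.2
        obtain ⟨a, ha, h3⟩ := this
        have : a = x := Subtype.ext h3
        rwa [← this]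
      exact hM.1 h2
    have hfixM : ∀ t ∈ M, β t = t := by
      intro t ht
      have h1 := hβ₀v ⟨t, ⟨t, ht, rfl⟩⟩
      rw [hβ₀1] at h1
      exact Subtype.ext h1.symm
    have hfix : ∀ x : P, β x = x := by
      intro x
      set t := x⁻¹ * β x with ht
      have hβt : β t = t := hfixM t (hgenM x)
      have hβx : β x = x * t := by rw [ht]; group
      have hpow : ∀ k : ℕ, (β ^ k) x = x * t ^ k := by
        intro k
        induction k with
        | zero => simp
        | succ k ih =>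
          rw [pow_succ', MulAut.mul_apply, ih, map_mul, hβx, map_pow, hβt, pow_succ', mul_assoc]
      have h1 := hpow q
      rw [← hord, pow_orderOf_eq_one] at h1
      have h2 : t ^ orderOf β = 1 := by
        have h3 : x = x * t ^ orderOf β := h1
        exact (mul_eq_left.1 h3.symm)
      obtain ⟨k, hk⟩ := hS t
      have h4 : Nat.Coprime (orderOf β) (p ^ k) := Nat.Coprime.pow_right k hcβ
      have h5 : t = 1 := orderOf_eq_one_iff.1
        (Nat.eq_one_of_dvd_coprimes h4 (orderOf_dvd_of_pow_eq_one h2) (orderOf_dvd_of_pow_eq_one hk))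
      rw [hβx, h5, mul_one]
    exact hneβ (MulEquiv.ext hfix)
  refine ⟨⟨le_rfl, fun Q φ hφ => ?_⟩, ?_, hhyp, q, β, hq, hqp, hβ, hord, ?_⟩
  · obtain ⟨hQ, a, ha, hv⟩ := hmaps Q φ hφ
    have hsup : Q ⊔ P = P := sup_eq_right.2 hQ
    have hmem := (mem_autGroup_iff le_rfl a).1 (hrange ha)
    refine ⟨(P.subtype.comp a.toMonoidHom).comp (Subgroup.inclusion hsup.le),
      hom_of_agree hsup.le hmem _ (fun x => rfl), fun x => ?_, ?_⟩
    · exact (hv x).symm
    · ext y
      constructor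
      · rintro ⟨w, -, rfl⟩
        exact (a _).2
      · intro hy
        refine ⟨⟨((a⁻¹ ⟨y, hy⟩ : P) : Ω), (le_sup_right : P ≤ Q ⊔ P) (a⁻¹ ⟨y, hy⟩).2⟩, (a⁻¹ ⟨y, hy⟩).2, ?_⟩
        show ((a ⟨((a⁻¹ ⟨y, hy⟩ : P) : Ω), _⟩ : P) : Ω) = y
        simp
  · apply le_antisymm
    · refine (Subgroup.closure_le _).2 ?_
      rintro _ ⟨Q, φ, x, hφ, rfl⟩
      exact P.mul_mem (P.inv_mem ((F.le_of_mem hφ).1 x.2)) ((F.le_of_mem hφ).2 x)
    · exact hhyp.ge.trans (hyp_le_foc F p)
  · apply le_antisymm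
    · intro a ha
      obtain ⟨_, b, ⟨⟨u, r⟩, rfl⟩, hv⟩ := hmaps P _ ((mem_autGroup_iff le_rfl a).1 ha)
      have e : (⟨u, r⟩ : SemidirectProduct P (Subgroup.zpowers β) (Subgroup.zpowers β).subtype) =
        SemidirectProduct.inl u * SemidirectProduct.inr r := SemidirectProduct.mk_eq_inl_mul_inr r u
      have hab : a = MulAut.conj u * (r : MulAut P) := by
        ext x
        have h1 := hv x
        rw [e, map_mul, thetaHom_inl, thetaHom_inr] at h1
        exact h1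
      rw [hab]
      exact Subgroup.mul_mem_sup ⟨u, rfl⟩ r.2
    · exact sup_le (inn_le_autGroup le_rfl) ((Subgroup.zpowers_le).2 hβ)

end Sparse

end Cfsg.Agent.H24
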