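import Mathlib

/-! Chains with cyclic factors: automorphisms preserving them. -/

set_option autoImplicit false

namespace Cfsg.Agent.H24.Sup

variable {X : Type*} [Group X] {p : ℕ}

/-- `γ` acts trivially on the factor `T'/T`. -/
def Triv (T T' : Subgroup X) (γ : MulAut X) : Prop := ∀ x ∈ T', γ x * x⁻¹ ∈ T

section Factor

variable (T T' : Subgroup X) [hN : (T.subgroupOf T').Normal]

/-- The restriction to `T'`. -/
def resM (α : MulAut X) (h : ∀ x ∈ T', α x ∈ T') : T' →* T' :=
  (α.toMonoidHom.comp T'.subtype).codRestrict T' (fun x => h x x.2)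

/-- The induced map on the quotient. -/
def qMap (α : MulAut X) (h : ∀ x ∈ T', α x ∈ T') (h₀ : ∀ x ∈ T, α x ∈ T) :
    (T' ⧸ T.subgroupOf T') →* (T' ⧸ T.subgroupOf T') :=
  QuotientGroup.map _ _ (resM T' α h) (by
    intro x hx
    exact h₀ _ hx)

theorem qMap_mk (α : MulAut X) (h : ∀ x ∈ T', α x ∈ T') (h₀ : ∀ x ∈ T, α x ∈ T) (x : T') :
    qMap T T' α h h₀ (x : T' ⧸ T.subgroupOf T') = ((⟨α x, h x x.2⟩ : T') : T' ⧸ T.subgroupOf T') := rfl

variable (A : Subgroup (MulAut X))

/-- The action of an invariance group on the factor. -/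
def qAct (h : ∀ α ∈ A, ∀ x ∈ T', α x ∈ T') (h₀ : ∀ α ∈ A, ∀ x ∈ T, α x ∈ T) :
    A →* MulAut (T' ⧸ T.subgroupOf T') where
  toFun α :=
    { toFun := qMap T T' α (h α α.2) (h₀ α α.2)
      invFun := qMap T T' (α⁻¹ : A) (h _ (α⁻¹).2) (h₀ _ (α⁻¹).2)
      left_inv := by
        intro q
        induction q using QuotientGroup.induction_on with
        | H x =>
          rw [qMap_mk, qMap_mk]
          congr 1
          apply Subtype.ext
          show ((α⁻¹ : A) : MulAut X) ((α : MulAut X) (x : X)) = x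
          simp
      right_inv := by
        intro q
        induction q using QuotientGroup.induction_on with
        | H x =>
          rw [qMap_mk, qMap_mk]
          congr 1
          apply Subtype.ext
          show (α : MulAut X) (((α⁻¹ : A) : MulAut X) (x : X)) = x
          simp
      map_mul' := map_mul _ }
  map_one' := by
    ext q
    induction q using QuotientGroup.induction_on with
    | H x => rfl
  map_mul' a b := by
    ext q
    induction q using QuotientGroup.induction_on with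
    | H x => rfl

theorem qAct_mk (h : ∀ α ∈ A, ∀ x ∈ T', α x ∈ T') (h₀ : ∀ α ∈ A, ∀ x ∈ T, α x ∈ T) (α : A) (x : T') :
    qAct T T' A h h₀ α (x : T' ⧸ T.subgroupOf T') = ((⟨(α : MulAut X) x, h α α.2 x x.2⟩ : T') : T' ⧸ T.subgroupOf T') := rfl

theorem qAct_eq_one_iff (hTT' : T ≤ T') (h : ∀ α ∈ A, ∀ x ∈ T', α x ∈ T') (h₀ : ∀ α ∈ A, ∀ x ∈ T, α x ∈ T) (γ : A) :
    qAct T T' A h h₀ γ = 1 ↔ Triv T T' (γ : MulAut X) := by
  constructor
  · intro he x hx
    have h1 := DFunLike.congr_fun he ((⟨x, hx⟩ : T') : T' ⧸ T.subgroupOf T')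
    rw [qAct_mk] at h1
    have h2 : ((⟨(γ : MulAut X) x, h γ γ.2 x hx⟩ : T') : T' ⧸ T.subgroupOf T') = ((⟨x, hx⟩ : T') : T' ⧸ T.subgroupOf T') := h1
    rw [QuotientGroup.eq] at h2
    have h4 : ((γ : MulAut X) x)⁻¹ * x ∈ T := h2
    have h5 : x⁻¹ * (γ : MulAut X) x ∈ T := by
      have := T.inv_mem h4
      simpa using this
    have h6 := hN.conj_mem ⟨x⁻¹ * (γ : MulAut X) x, h5 |> hTT'⟩ h5 ⟨x, hx⟩
    have h7 : x * (x⁻¹ * (γ : MulAut X) x) * x⁻¹ ∈ T := h6
    simpa [mul_assoc] using h7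
  · intro he
    ext q
    induction q using QuotientGroup.induction_on with
    | H x =>
      rw [qAct_mk]
      show ((⟨(γ : MulAut X) x, h γ γ.2 x x.2⟩ : T') : T' ⧸ T.subgroupOf T') = (x : T' ⧸ T.subgroupOf T')
      rw [QuotientGroup.eq]
      have h1 := he x x.2
      have h2 : ((γ : MulAut X) x)⁻¹ * x ∈ T := by
        have h3 := T.inv_mem h1
        have h4 : x * ((γ : MulAut X) (x : X))⁻¹ ∈ T := by simpa using h3
        have h5 := hN.conj_mem ⟨x * ((γ : MulAut X) (x : X))⁻¹, h4 |> hTT'⟩ h4 (x⁻¹)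
        have h7 : (x : X)⁻¹ * (x * ((γ : MulAut X) (x : X))⁻¹) * x = ((γ : MulAut X) (x : X))⁻¹ * x := by group
        have h8 : ((x⁻¹ : T') : X) * (x * ((γ : MulAut X) (x : X))⁻¹) * ((x⁻¹ : T') : X)⁻¹ ∈ T := h5
        simp only [Subgroup.coe_inv, inv_inv] at h8
        rwa [h7] at h8
      exact h2

/-- The factor's action lands in a commutative group whose `p`-prime elements have order dividing `p - 1`. -/
theorem exists_comm [Finite X] [Fact p.Prime] (hX : IsPGroup p X) (hTT' : T ≤ T')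
    [hc : IsCyclic (T' ⧸ T.subgroupOf T')]
    (h : ∀ α ∈ A, ∀ x ∈ T', α x ∈ T') (h₀ : ∀ α ∈ A, ∀ x ∈ T, α x ∈ T) :
    ∃ (B : Type) (_ : CommGroup B) (_ : Finite B) (Φ : A →* B), (∀ γ : A, Φ γ = 1 ↔ Triv T T' (γ : MulAut X)) ∧
      ∀ u : B, (orderOf u).Coprime p → u ^ (p - 1) = 1 := by
  classical
  set Q := T' ⧸ T.subgroupOf T' with hQ
  have hfQ : Finite Q := inferInstance
  have hpQ : IsPGroup p Q := by
    have h1 : IsPGroup p T' := hX.to_subgroup T'
    exact h1.to_quotient _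
  obtain ⟨e, he⟩ := (IsPGroup.iff_card).1 hpQ
  let ψ := IsCyclic.mulAutMulEquiv Q
  refine ⟨(ZMod (Nat.card Q))ˣ, inferInstance, ?_, ψ.toMonoidHom.comp (qAct T T' A h h₀), ?_, ?_⟩
  · have : NeZero (Nat.card Q) := ⟨Nat.card_pos.ne'⟩
    infer_instance
  · intro γ
    rw [← qAct_eq_one_iff T T' A hTT' h h₀ γ]
    constructor
    · intro h1
      apply ψ.injective
      rw [map_one]
      exact h1
    · intro h1
      show ψ (qAct T T' A h h₀ γ) = 1
      rw [h1, map_one]
  · intro u hu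
    have : NeZero (Nat.card Q) := ⟨Nat.card_pos.ne'⟩
    have h1 : orderOf u ∣ Nat.totient (Nat.card Q) := by
      have := orderOf_dvd_card (x := u)
      rwa [ZMod.card_units_eq_totient] at this
    rw [← orderOf_dvd_iff_pow_eq_one]
    have h1' : orderOf u ∣ Nat.totient (p ^ e) := by rw [← he]; exact h1
    by_cases he0 : e = 0
    · rw [he0] at h1'
      simp at h1'
      rw [h1', orderOf_one]
      exact one_dvd (p - 1)
    · rw [Nat.totient_prime_pow (Fact.out) (Nat.pos_of_ne_zero he0)] at h1'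
      exact (Nat.Coprime.pow_right _ hu).dvd_of_dvd_mul_left h1'

end Factor

/-- A chain of subgroups with cyclic factors, invariant under `A`. -/
structure IsChain (A : Subgroup (MulAut X)) (c : ℕ → Subgroup X) (m : ℕ) : Prop where
  zero : c 0 = ⊥
  top : c m = ⊤
  mono : ∀ i < m, c i ≤ c (i + 1)
  nor : ∀ i < m, ((c i).subgroupOf (c (i + 1))).Normal
  cyc : ∀ i < m, ∃ _ : ((c i).subgroupOf (c (i + 1))).Normal, IsCyclic (c (i + 1) ⧸ (c i).subgroupOf (c (i + 1)))
  inv : ∀ α ∈ A, ∀ i ≤ m, ∀ x ∈ c i, α x ∈ c i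

variable {A : Subgroup (MulAut X)} {c : ℕ → Subgroup X} {m : ℕ}

/-- A `p`-prime automorphism stabilizing the chain is trivial. -/
theorem IsChain.stab [Finite X] [Fact p.Prime] (hX : IsPGroup p X) (hc : c 0 = ⊥) (ht : c m = ⊤)
    (γ : MulAut X) (hγ : (orderOf γ).Coprime p) (htr : ∀ i < m, Triv (c i) (c (i + 1)) γ) : γ = 1 := by
  have key : ∀ i ≤ m, ∀ x ∈ c i, γ x = x := by
    intro i
    induction i with
    | zero =>
      intro _ x hx
      rw [hc, Subgroup.mem_bot] at hx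
      rw [hx, map_one]
    | succ i ih =>
      intro hi x hx
      have hv := htr i (by omega) x hx
      set v := γ x * x⁻¹ with hvd
      have hγv : γ v = v := ih (by omega) v hv
      have hpow : ∀ k : ℕ, (γ ^ k) x = v ^ k * x := by
        intro k
        induction k with
        | zero => simp
        | succ k ihk =>
          rw [pow_succ', MulAut.mul_apply, ihk, map_mul, map_pow, hγv, pow_succ]
          have : γ x = v * x := by rw [hvd]; group
          rw [this]
          group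
      have h1 := hpow (orderOf γ)
      rw [pow_orderOf_eq_one] at h1
      have h2 : v ^ orderOf γ = 1 := by
        have : x = v ^ orderOf γ * x := h1
        exact (mul_eq_right.1 this.symm)
      obtain ⟨a, ha⟩ := (IsPGroup.iff_orderOf.1 hX) v
      have h3 : orderOf v ∣ orderOf γ := orderOf_dvd_of_pow_eq_one h2
      have h4 : orderOf v = 1 := by
        rw [ha] at h3 ⊢
        have h5 : (p ^ a).Coprime (orderOf γ) := (Nat.Coprime.pow_left a hγ.symm)
        exact Nat.Coprime.eq_one_of_dvd h5 h3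
      rw [orderOf_eq_one_iff] at h4
      have : γ x * x⁻¹ = 1 := h4
      exact mul_inv_eq_one.1 this
  ext x
  have hx : x ∈ c m := by rw [ht]; trivial
  simpa using key m le_rfl x hx

/-- The package of factor actions. -/
theorem IsChain.exists_hom [Finite X] [Fact p.Prime] (hch : IsChain A c m) (hX : IsPGroup p X) :
    ∃ (B : Type) (_ : CommGroup B) (_ : Finite B) (Φ : A →* B), (∀ γ : A, Φ γ = 1 ↔ ∀ i < m, Triv (c i) (c (i + 1)) (γ : MulAut X)) ∧
      ∀ u : B, (orderOf u).Coprime p → u ^ (p - 1) = 1 := by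
  classical
  have key : ∀ i : Fin m, ∃ (B : Type) (_ : CommGroup B) (_ : Finite B) (Φ : A →* B),
      (∀ γ : A, Φ γ = 1 ↔ Triv (c i) (c (i + 1)) (γ : MulAut X)) ∧
      ∀ u : B, (orderOf u).Coprime p → u ^ (p - 1) = 1 := by
    intro i
    obtain ⟨hn, hcy⟩ := hch.cyc i i.2
    exact exists_comm (c i) (c (i + 1)) A hX (hch.mono i i.2)
      (fun α hα => hch.inv α hα (i + 1) i.2) (fun α hα => hch.inv α hα i i.2.le)
  choose B hB hBf Φ hΦ hu using key
  letI : ∀ i, CommGroup (B i) := hB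
  haveI : ∀ i, Finite (B i) := hBf
  refine ⟨(i : Fin m) → B i, inferInstance, inferInstance, MonoidHom.pi Φ, ?_, ?_⟩
  · intro γ
    constructor
    · intro h i hi
      have := congrFun h ⟨i, hi⟩
      exact (hΦ ⟨i, hi⟩ γ).1 this
    · intro h
      funext i
      exact (hΦ i γ).2 (h i i.2)
  · intro u hu'
    funext i
    apply hu i (u i)
    have h1 : orderOf (u i) ∣ orderOf u := by
      apply orderOf_dvd_of_pow_eq_one
      have := congrFun (pow_orderOf_eq_one u) i
      simpa using this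
    exact Nat.Coprime.coprime_dvd_left h1 hu'

/-- Commutators stabilize the chain. -/
theorem IsChain.comm_eq_one [Finite X] [Fact p.Prime] (hch : IsChain A c m) (hX : IsPGroup p X) (α β : A)
    (hcop : (orderOf ((α * β * α⁻¹ * β⁻¹ : A) : MulAut X)).Coprime p) : (α : MulAut X) * β = β * α := by
  obtain ⟨B, _, _, Φ, h1, -⟩ := hch.exists_hom hX
  have h2 : Φ (α * β * α⁻¹ * β⁻¹) = 1 := by
    rw [map_mul, map_mul, map_mul, map_inv, map_inv, mul_comm (Φ α), mul_assoc, mul_assoc]
    simp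
  have h3 := (h1 _).1 h2
  have h4 := IsChain.stab hX hch.zero hch.top _ hcop h3
  have h5 : ((α * β * α⁻¹ * β⁻¹ : A) : MulAut X) = (α : MulAut X) * β * (α : MulAut X)⁻¹ * (β : MulAut X)⁻¹ := rfl
  rw [h5] at h4
  have h6 : (α : MulAut X) * β * (α : MulAut X)⁻¹ = β := by
    exact mul_inv_eq_one.1 h4
  exact mul_inv_eq_iff_eq_mul.1 h6

/-- `(p-1)`-st powers of `p`-prime elements stabilize the chain. -/
theorem IsChain.pow_eq_one [Finite X] [Fact p.Prime] (hch : IsChain A c m) (hX : IsPGroup p X) (α : A)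
    (hcop : (orderOf (α : MulAut X)).Coprime p) : (α : MulAut X) ^ (p - 1) = 1 := by
  obtain ⟨B, _, _, Φ, h1, h2⟩ := hch.exists_hom hX
  have h3 : orderOf (Φ α) ∣ orderOf (α : MulAut X) := by
    have h4 : orderOf α = orderOf (α : MulAut X) := Subgroup.orderOf_coe α |>.symm
    rw [← h4]
    exact orderOf_map_dvd Φ α
  have h5 := h2 (Φ α) (Nat.Coprime.coprime_dvd_left h3 hcop)
  have h6 : Φ (α ^ (p - 1)) = 1 := by rw [map_pow, h5]
  have h7 := (h1 _).1 h6
  have h8 : orderOf ((α ^ (p - 1) : A) : MulAut X) ∣ orderOf (α : MulAut X) := by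
    apply orderOf_dvd_of_pow_eq_one
    have : ((α ^ (p - 1) : A) : MulAut X) = (α : MulAut X) ^ (p - 1) := rfl
    rw [this, ← pow_mul, mul_comm, pow_mul, pow_orderOf_eq_one, one_pow]
  have h9 := IsChain.stab hX hch.zero hch.top _ (Nat.Coprime.coprime_dvd_left h8 hcop) h7
  exact h9

/-- `A` has a normal `p`-subgroup containing all of its `p`-elements. -/
theorem IsChain.exists_normal [Finite X] [Fact p.Prime] (hch : IsChain A c m) (hX : IsPGroup p X) :
    ∃ R : Subgroup A, R.Normal ∧ IsPGroup p R ∧ ∀ γ : A, (∃ k : ℕ, γ ^ (p ^ k) = 1) → γ ∈ R := by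
  classical
  obtain ⟨B, _, _, Φ, h1, -⟩ := hch.exists_hom hX
  haveI : Finite (MulAut X) := inferInstance
  let P : Subgroup B := CommGroup.primaryComponent B p
  refine ⟨P.comap Φ, inferInstance, ?_, ?_⟩
  · -- `p`-group
    intro γ
    obtain ⟨k, hk⟩ := (CommMonoid.primaryComponent.exists_orderOf_eq_prime_pow (⟨Φ γ, γ.2⟩ : P))
    have hk' : orderOf (Φ (γ : A)) = p ^ k := (Subgroup.orderOf_coe (⟨Φ γ, γ.2⟩ : P)).trans hk
    have h2 : Φ ((γ : A) ^ (p ^ k)) = 1 := by rw [map_pow, ← hk', pow_orderOf_eq_one]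
    have h3 := (h1 _).1 h2
    -- split the order of the power
    set δ : A := (γ : A) ^ (p ^ k) with hδ
    set n := orderOf (δ : MulAut X) with hn
    have hn0 : n ≠ 0 := (orderOf_pos _).ne'
    obtain ⟨a, q, hq, hnq⟩ := Nat.exists_eq_pow_mul_and_not_dvd hn0 p (Fact.out : p.Prime).ne_one
    have h4 : Φ (δ ^ (p ^ a)) = 1 := by rw [map_pow, h2, one_pow]
    have h5 := (h1 _).1 h4
    have h6 : orderOf ((δ ^ (p ^ a) : A) : MulAut X) ∣ q := by
      apply orderOf_dvd_of_pow_eq_one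
      have : ((δ ^ (p ^ a) : A) : MulAut X) = (δ : MulAut X) ^ (p ^ a) := rfl
      rw [this, ← pow_mul, ← hnq, hn, pow_orderOf_eq_one]
    have hqc : q.Coprime p := ((Nat.Prime.coprime_iff_not_dvd Fact.out).2 hq).symm
    have h7 := IsChain.stab hX hch.zero hch.top _ (Nat.Coprime.coprime_dvd_left h6 hqc) h5
    refine ⟨a + k, ?_⟩
    apply Subtype.ext
    apply Subtype.ext
    have h8 : ((δ ^ (p ^ a) : A) : MulAut X) = 1 := h7
    have h9 : ((((γ : A) ^ (p ^ (a + k)) : A)) : MulAut X) = ((δ ^ (p ^ a) : A) : MulAut X) := by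
      rw [hδ, ← pow_mul, pow_add, mul_comm]
    show (((γ ^ (p ^ (a + k)) : (P.comap Φ)) : A) : MulAut X) = 1
    rw [← h8, ← h9]
    rfl
  · rintro γ ⟨k, hk⟩
    show Φ γ ∈ P
    have h2 : (Φ γ) ^ (p ^ k) = 1 := by rw [← map_pow, hk, map_one]
    exact ⟨k, h2⟩

/-- Cyclic factors from a generator. -/
theorem cyc_of_sup (T T' : Subgroup X) [hN : (T.subgroupOf T').Normal] (y : X) (h : T' = T ⊔ Subgroup.zpowers y) :
    IsCyclic (T' ⧸ T.subgroupOf T') := by
  have hy : y ∈ T' := by rw [h]; exact Subgroup.mem_sup_right (Subgroup.mem_zpowers y)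
  refine ⟨⟨((⟨y, hy⟩ : T') : T' ⧸ T.subgroupOf T'), ?_⟩⟩
  intro q
  induction q using QuotientGroup.induction_on with
  | H x =>
    let Z : Subgroup (T' ⧸ T.subgroupOf T') := Subgroup.zpowers ((⟨y, hy⟩ : T') : T' ⧸ T.subgroupOf T')
    let W : Subgroup X := (Z.comap (QuotientGroup.mk' (T.subgroupOf T'))).map T'.subtype
    have hTW : T ≤ W := by
      intro t ht
      have htT' : t ∈ T' := by rw [h]; exact Subgroup.mem_sup_left ht
      refine ⟨⟨t, htT'⟩, ?_, rfl⟩
      have : ((⟨t, htT'⟩ : T') : T' ⧸ T.subgroupOf T') = 1 := by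
        rw [QuotientGroup.eq_one_iff]
        exact ht
      show ((⟨t, htT'⟩ : T') : T' ⧸ T.subgroupOf T') ∈ Z
      rw [this]
      exact Z.one_mem
    have hyW : Subgroup.zpowers y ≤ W := by
      rw [Subgroup.zpowers_le]
      exact ⟨⟨y, hy⟩, Subgroup.mem_zpowers _, rfl⟩
    have hle : T' ≤ W := by
      rw [h]
      exact sup_le hTW hyW
    obtain ⟨x', hx', hxx⟩ := hle x.2
    have : x' = x := Subtype.ext hxx
    rw [this] at hx'
    exact hx'

end Cfsg.Agent.H24.Sup
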