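import Mathlib
import Cfsg.Agent.Lib.H24.SupA
import Cfsg.Agent.Lib.H24.FusAG3
import Cfsg.Agent.Lib.H24.FusEss
import Cfsg.Agent.Lib.H24.RSerA
import Cfsg.Agent.Lib.H24.ModBasic
import Cfsg.Agent.Lib.H24.FusAlperin

/-! Supersoluble fusion systems, forward direction. -/

set_option autoImplicit false

namespace Cfsg.Agent.H24.Sup

open Cfsg Cfsg.FusionSystem Cfsg.Agent.H24

variable {Ω : Type*} [Group Ω] {S : Subgroup Ω} {p : ℕ}

/-- The chain condition. -/
def SC (F : FusionSystem S) : Prop :=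
  ∃ (m : ℕ) (c : Fin (m + 1) → Subgroup Ω), c 0 = ⊥ ∧ c (Fin.last m) = S ∧ (∀ i : Fin (m + 1), F.StronglyClosed (c i)) ∧ ∀ i : Fin m, c i.castSucc ≤ c i.succ ∧ ∃ x ∈ S, c i.succ = c i.castSucc ⊔ Subgroup.zpowers x

variable {F : FusionSystem S}

theorem sc_conj {U : Subgroup Ω} (hU : F.StronglyClosed U) {g x : Ω} (hg : g ∈ S) (hx : x ∈ U) : g * x * g⁻¹ ∈ U :=
  hU.2 U le_rfl (conjHom U g) (F.conj_mem hU.1 hg) ⟨x, hx⟩

theorem sc_aut {U : Subgroup Ω} (hU : F.StronglyClosed U) {E : Subgroup Ω} (hE : E ≤ S) {α : MulAut E}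
    (hα : α ∈ F.autGroup E) {x : E} (hx : (x : Ω) ∈ U) : ((α x : E) : Ω) ∈ U := by
  have h1 := (mem_autGroup_iff hE α).1 hα
  obtain ⟨χ, hχ, hv⟩ := exists_restrict (P := U ⊓ E) inf_le_right h1
  have h2 := hU.2 (U ⊓ E) inf_le_left χ hχ ⟨x, hx, x.2⟩
  rw [hv] at h2
  exact h2

theorem chain_of_sc {E : Subgroup Ω} (hE : E ≤ S) (h : SC F) :
    ∃ (c : ℕ → Subgroup E) (m : ℕ), IsChain (F.autGroup E) c m := by
  obtain ⟨m, c, h0, hl, hsc, hst⟩ := h
  let d : ℕ → Subgroup Ω := fun n => c ⟨min n m, by omega⟩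
  have hd : ∀ i (hi : i < m), d i = c (⟨i, hi⟩ : Fin m).castSucc := by
    intro i hi
    show c _ = c _
    congr 1
    ext
    simp only [Fin.val_castSucc]
    omega
  have hd' : ∀ i (hi : i < m), d (i + 1) = c (⟨i, hi⟩ : Fin m).succ := by
    intro i hi
    show c _ = c _
    congr 1
    ext
    simp only [Fin.val_succ]
    omega
  have hdsc : ∀ n, F.StronglyClosed (d n) := fun n => hsc _
  have hd0 : d 0 = ⊥ := by
    rw [← h0]
    show c _ = c _
    congr 1
  have hdm : d m = S := by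
    rw [← hl]
    show c _ = c _
    congr 1
    ext
    simp
  refine ⟨fun n => (d n).subgroupOf E, m, ?_, ?_, ?_, ?_, ?_, ?_⟩
  · show (d 0).subgroupOf E = ⊥
    rw [hd0, Subgroup.bot_subgroupOf]
  · show (d m).subgroupOf E = ⊤
    rw [hdm, Subgroup.subgroupOf_eq_top]
    exact hE
  · intro i hi
    apply Subgroup.comap_mono
    rw [hd i hi, hd' i hi]
    exact (hst ⟨i, hi⟩).1
  · intro i hi
    refine ⟨fun n hn g => ?_⟩
    exact sc_conj (hdsc i) (hE g.1.2) hn
  · intro i hi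
    have hnor : (((d i).subgroupOf E).subgroupOf ((d (i + 1)).subgroupOf E)).Normal := by
      refine ⟨fun n hn g => ?_⟩
      exact sc_conj (hdsc i) (hE g.1.2) hn
    refine ⟨hnor, ?_⟩
    have hU : ((d i).subgroupOf (d (i + 1))).Normal := by
      refine ⟨fun n hn g => ?_⟩
      exact sc_conj (hdsc i) ((hdsc (i + 1)).1 g.2) hn
    obtain ⟨x, -, hx⟩ := (hst ⟨i, hi⟩).2
    have hcy : IsCyclic (d (i + 1) ⧸ (d i).subgroupOf (d (i + 1))) :=
      cyc_of_sup (d i) (d (i + 1)) x (by rw [hd i hi, hd' i hi]; exact hx)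
    let f₀ : ↥((d (i + 1)).subgroupOf E) →* d (i + 1) :=
      { toFun := fun t => ⟨((t : E) : Ω), t.2⟩
        map_one' := rfl
        map_mul' := fun _ _ => rfl }
    let f₁ := (QuotientGroup.mk' ((d i).subgroupOf (d (i + 1)))).comp f₀
    have hker : ∀ t ∈ ((d i).subgroupOf E).subgroupOf ((d (i + 1)).subgroupOf E), f₁ t = 1 := by
      intro t ht
      show ((f₀ t : d (i + 1)) : d (i + 1) ⧸ (d i).subgroupOf (d (i + 1))) = 1
      rw [QuotientGroup.eq_one_iff]
      exact ht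
    let f₂ := QuotientGroup.lift _ f₁ hker
    have hinj : Function.Injective f₂ := by
      rw [injective_iff_map_eq_one]
      intro q
      induction q using QuotientGroup.induction_on with
      | H t =>
        intro h1
        have h2 : ((f₀ t : d (i + 1)) : d (i + 1) ⧸ (d i).subgroupOf (d (i + 1))) = 1 := h1
        rw [QuotientGroup.eq_one_iff] at h2
        rw [QuotientGroup.eq_one_iff]
        exact h2
    exact isCyclic_of_injective f₂ hinj
  · intro α hα i _ x hx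
    exact sc_aut (hdsc i) hE hα hx

theorem isNormal_of_sc [Finite S] [Fact p.Prime] (hS : IsPGroup p S) (hF : F.IsSaturated p) (h : SC F) :
    F.IsNormal S := by
  refine isNormal_of_aut hS hF le_rfl ?_
  intro P hP
  have hPS : P = S := by
    rcases hP with rfl | hP
    · rfl
    have hPS' : P ≤ S := hP.1.1
    haveI : Finite P := finite_of_le hPS'
    by_contra hne
    obtain ⟨c, m, hch⟩ := chain_of_sc hPS' h
    have hPp : IsPGroup p P := hS.to_le hPS'
    obtain ⟨R, hRn, hRp, hRm⟩ := hch.exists_normal hPp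
    have hR := isRadical_of_isEssential hS hP
    obtain ⟨g, hg, hgP⟩ := exists_mem_normalizerIn hS (lt_of_le_of_ne hPS' hne)
    have hαI : autOfNormalizer P hg.2 ∈ autInducedBy S P := autOfNormalizer_mem hg.2 hg.1
    have hαA := autInducedBy_le_autGroup (F := F) hPS' hαI
    obtain ⟨k, hk⟩ := hS ⟨g, hg.1⟩
    have hgk : g ^ (p ^ k) = 1 := congrArg Subtype.val hk
    have hγ : (⟨_, hαA⟩ : F.autGroup P) ∈ R := by
      apply hRm
      refine ⟨k, Subtype.ext ?_⟩
      show autOfNormalizer P hg.2 ^ (p ^ k) = 1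
      have : (⟨g, hg.2⟩ : Subgroup.normalizer (P : Set Ω)) ^ (p ^ k) = 1 := Subtype.ext hgk
      show (P.normalizerMonoidHom ⟨g, hg.2⟩) ^ (p ^ k) = 1
      rw [← map_pow, this, map_one]
    have hγ' : (⟨_, hαA⟩ : F.autGroup P) ∈ pCore p (F.autGroup P) :=
      Cfsg.Agent.H01.le_pCore hRn hRp hγ
    have hinn : autOfNormalizer P hg.2 ∈ Inn P := by
      rw [← hR.2]
      exact ⟨_, hγ', rfl⟩
    obtain ⟨x, hx⟩ := hinn
    have hc : (x : Ω)⁻¹ * g ∈ centralizerIn S P := by
      refine ⟨S.mul_mem (S.inv_mem (hPS' x.2)) hg.1, ?_⟩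
      show _ ∈ Subgroup.centralizer (P : Set Ω)
      rw [Subgroup.mem_centralizer_iff]
      intro y hy
      have h1 := congrArg Subtype.val (DFunLike.congr_fun hx ⟨y, hy⟩)
      have h2 : (x : Ω) * y * (x : Ω)⁻¹ = g * y * g⁻¹ := h1
      have h3 : g * y = (x : Ω) * y * (x : Ω)⁻¹ * g := by rw [h2]; group
      calc y * ((x : Ω)⁻¹ * g) = (x : Ω)⁻¹ * ((x : Ω) * y * (x : Ω)⁻¹ * g) := by group
        _ = (x : Ω)⁻¹ * g * y := by rw [← h3]; group
    have hc2 := hP.1.2 P (isConj_refl hPS') hc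
    apply hgP
    have : g = (x : Ω) * ((x : Ω)⁻¹ * g) := by group
    rw [this]
    exact P.mul_mem x.2 hc2
  obtain rfl := hPS
  refine ⟨le_rfl, fun α _ => ?_⟩
  rw [Subgroup.subgroupOf_self]
  exact Subgroup.map_top_of_surjective _ α.surjective

/-- The system of `S ⋊ H`. -/
theorem exists_sys_of_aut [Finite S] [Fact p.Prime] (hS : IsPGroup p S) (H : Subgroup (MulAut S))
    (hH : (Nat.card H).Coprime p) :
    ∃ F : FusionSystem S, F.IsSaturated p ∧ ∀ α ∈ H, α ∈ F.autGroup S := by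
  let G := SemidirectProduct S H H.subtype
  let ι : S →* G := SemidirectProduct.inl
  have hι : Function.Injective ι := SemidirectProduct.inl_injective
  have hr := RS.realFus_realized ι hι
  haveI : Finite H := inferInstance
  haveI : Finite G := by
    have e := SemidirectProduct.equivProd (N := S) (G := H) (φ := H.subtype)
    exact Finite.of_equiv _ e.symm
  have hp : IsPGroup p ι.range := IsPGroup.of_equiv hS (MonoidHom.ofInjective hι)
  have hcard : Nat.card G = Nat.card S * Nat.card H := SemidirectProduct.card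
  have hr2 : Nat.card ι.range = Nat.card S := Nat.card_congr (MonoidHom.ofInjective hι).symm.toEquiv
  have hidx : ι.range.index = Nat.card H := by
    have h1 := Subgroup.card_mul_index ι.range
    rw [hcard, hr2] at h1
    exact Nat.eq_of_mul_eq_mul_left Nat.card_pos h1
  have hnd : ¬ p ∣ ι.range.index := by
    rw [hidx]
    intro h1
    exact (Fact.out : p.Prime).one_lt.ne' (Nat.Coprime.eq_one_of_dvd hH.symm h1)
  refine ⟨RS.realFus ι hι, saturated_of_realized hr (hp.toSylow hnd) rfl, ?_⟩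
  intro α hα
  have hv : ∀ x : S, (S.subtype.comp α.toMonoidHom) x ∈ S := fun x => (α x).2
  have h1 : S.subtype.comp α.toMonoidHom ∈ (RS.realFus ι hι).Hom S := by
    refine (hr.2 S le_rfl _ hv).2 ⟨SemidirectProduct.inr ⟨α, hα⟩, fun x => ?_⟩
    have := SemidirectProduct.inl_aut (φ := H.subtype) (⟨α, hα⟩ : H) x
    have h2 : (SemidirectProduct.inr (⟨α, hα⟩ : H) : G)⁻¹ = SemidirectProduct.inr ((⟨α, hα⟩ : H)⁻¹) :=
      (map_inv (SemidirectProduct.inr : H →* G) _).symm
    show (SemidirectProduct.inl (α x) : G) = SemidirectProduct.inr (⟨α, hα⟩ : H) * SemidirectProduct.inl x * (SemidirectProduct.inr (⟨α, hα⟩ : H) : G)⁻¹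
    rw [h2]
    exact this
  exact mem_autGroup_of_agree le_rfl α h1 (fun _ => rfl)

theorem forward [Finite S] [Fact p.Prime] (hS : IsPGroup p S)
    (h : ∀ F : FusionSystem S, F.IsSaturated p → SC F) :
    (∀ F : FusionSystem S, F.IsSaturated p → F.IsNormal S) ∧
      ∀ H : Subgroup (MulAut S), (Nat.card H).Coprime p → IsMulCommutative H ∧ ∀ a ∈ H, a ^ (p - 1) = 1 := by
  refine ⟨fun F hF => isNormal_of_sc hS hF (h F hF), fun H hH => ?_⟩
  obtain ⟨F, hF, hHA⟩ := exists_sys_of_aut hS H hH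
  obtain ⟨c, m, hch⟩ := chain_of_sc (F := F) le_rfl (h F hF)
  have hord : ∀ a ∈ H, (orderOf a).Coprime p := by
    intro a ha
    have h1 : orderOf a = orderOf (⟨a, ha⟩ : H) := (Subgroup.orderOf_mk a ha).symm
    rw [h1]
    exact Nat.Coprime.coprime_dvd_left (orderOf_dvd_natCard _) hH
  constructor
  · refine ⟨⟨fun a b => Subtype.ext ?_⟩⟩
    have := hch.comm_eq_one hS ⟨a, hHA a a.2⟩ ⟨b, hHA b b.2⟩ (by
      apply hord
      exact H.mul_mem (H.mul_mem (H.mul_mem a.2 b.2) (H.inv_mem a.2)) (H.inv_mem b.2))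
    exact this
  · intro a ha
    exact hch.pow_eq_one hS ⟨a, hHA a ha⟩ (hord a ha)

end Cfsg.Agent.H24.Sup
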