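import Mathlib
import Cfsg.Agent.Lib.H24.SupB

/-! Supersoluble fusion systems, backward direction. -/

set_option autoImplicit false

namespace Cfsg.Agent.H24.Sup

open Cfsg Cfsg.FusionSystem Cfsg.Agent.H24 Polynomial

variable {p : ℕ}

/-- An eigenvector over `ZMod p`. -/
theorem eig_mod {V : Type*} [AddCommGroup V] [Module (ZMod p) V] [Finite V] [Nontrivial V] [hpp : Fact p.Prime]
    (T : V →ₗ[ZMod p] V) (hT1 : T ^ (p - 1) = 1) : ∃ (μ : ZMod p) (v : V), v ≠ 0 ∧ T v = μ • v := by
  classical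
  have hp2 := (Fact.out : p.Prime).two_le
  let f : (ZMod p)[X] := X ^ (p - 1) - C 1
  have hfm : f.Monic := monic_X_pow_sub_C (1 : ZMod p) (by omega)
  have hae : aeval T f = 0 := by
    simp only [f, map_sub, map_pow, aeval_X, aeval_C, hT1, map_one, sub_self]
  have hint : IsIntegral (ZMod p) T := ⟨f, hfm, by rw [← aeval_def]; exact hae⟩
  have hm : minpoly (ZMod p) T ∣ f := minpoly.dvd _ _ hae
  have hmdeg : 0 < (minpoly (ZMod p) T).natDegree := minpoly.natDegree_pos hint
  have hroot : ∃ a, (minpoly (ZMod p) T).IsRoot a := by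
    by_contra hno
    push Not at hno
    obtain ⟨g, hg⟩ := hm
    have hg0 : g ≠ 0 := by
      rintro rfl
      rw [mul_zero] at hg
      exact hfm.ne_zero hg
    have hroots : ∀ a : ZMod p, a ≠ 0 → g.IsRoot a := by
      intro a ha
      have h1 : f.eval a = 0 := by
        simp only [f, eval_sub, eval_pow, eval_X, eval_C]
        rw [ZMod.pow_card_sub_one_eq_one ha, sub_self]
      rw [hg, eval_mul] at h1
      exact (mul_eq_zero.1 h1).resolve_left (hno a)
    let Z : Finset (ZMod p) := Finset.univ.erase 0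
    have hZ : Z.card = p - 1 := by
      rw [Finset.card_erase_of_mem (Finset.mem_univ _), Finset.card_univ, ZMod.card]
    have h2 : Z.card ≤ g.natDegree := by
      apply card_le_degree_of_subset_roots
      intro a ha
      have ha' : a ∈ Z := ha
      rw [mem_roots hg0]
      exact hroots a (Finset.ne_of_mem_erase ha')
    have h3 : f.natDegree = p - 1 := natDegree_X_pow_sub_C
    have hm0 : minpoly (ZMod p) T ≠ 0 := minpoly.ne_zero hint
    rw [hg, natDegree_mul hm0 hg0] at h3
    omega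
  obtain ⟨μ, hμ⟩ := hroot
  have hev := Module.End.hasEigenvalue_of_isRoot hμ
  obtain ⟨v, hv⟩ := hev.exists_hasEigenvector
  exact ⟨μ, v, hv.2, hv.apply_eq_smul⟩

theorem eig_aux {K : Type*} [CommGroup K] [Finite K] [Nontrivial K] [hpp : Fact p.Prime]
    [M : Module (ZMod p) (Additive K)]
    (h : K →* K) (hh : ∀ x, (h^[p - 1]) x = x) : ∃ (l : ℕ) (v : K), v ≠ 1 ∧ h v = v ^ l := by
  classical
  have hTk : ∀ (k : ℕ) (v : Additive K), ((MonoidHom.toAdditive h).toZModLinearMap p ^ k) v = Additive.ofMul (h^[k] v.toMul) := by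
    intro k
    induction k with
    | zero => intro v; rfl
    | succ k ih =>
      intro v
      rw [pow_succ', Module.End.mul_apply, ih, Function.iterate_succ_apply']
      rfl
  have hT1 : (MonoidHom.toAdditive h).toZModLinearMap p ^ (p - 1) = 1 := by
    ext v
    rw [hTk, hh]
    rfl
  obtain ⟨μ, v, hv0, hv⟩ := eig_mod _ hT1
  refine ⟨μ.val, v.toMul, ?_, ?_⟩
  · intro h0
    apply hv0
    exact congrArg Additive.ofMul h0
  · have h2 : μ • v = μ.val • v := by
      conv_lhs => rw [← ZMod.natCast_zmod_val μ]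
      exact Nat.cast_smul_eq_nsmul (ZMod p) μ.val v
    rw [h2] at hv
    exact congrArg Additive.toMul hv

/-- An eigenvector for an endomorphism of an elementary abelian group whose `(p-1)`-st iterate is trivial. -/
theorem eig_core {K : Type*} [CommGroup K] [Finite K] [Nontrivial K] [hpp : Fact p.Prime] (hp : ∀ x : K, x ^ p = 1)
    (h : K →* K) (hh : ∀ x, (h^[p - 1]) x = x) : ∃ (l : ℕ) (v : K), v ≠ 1 ∧ h v = v ^ l := by
  letI M : Module (ZMod p) (Additive K) := AddCommGroup.zmodModule (n := p) (by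
    intro x
    exact congrArg Additive.ofMul (hp x.toMul))
  exact eig_aux h hh

theorem eig_core' {K : Type*} [Group K] [Finite K] [Nontrivial K] [Fact p.Prime] (hc : ∀ x y : K, x * y = y * x)
    (hp : ∀ x : K, x ^ p = 1) (h : K →* K) (hh : ∀ x, (h^[p - 1]) x = x) :
    ∃ (l : ℕ) (v : K), v ≠ 1 ∧ h v = v ^ l := by
  letI : CommGroup K := { (inferInstance : Group K) with mul_comm := hc }
  exact eig_core hp h hh

/-- A common eigenvector. -/
theorem exists_common {Y : Type*} [Group Y] [Finite Y] [Fact p.Prime] (D : Set (MulAut Y))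
    (hcomm : ∀ a ∈ D, ∀ b ∈ D, a * b = b * a) (hpow : ∀ a ∈ D, a ^ (p - 1) = 1)
    (E : Subgroup Y) (hEc : ∀ x ∈ E, ∀ y ∈ E, x * y = y * x) (hEp : ∀ x ∈ E, x ^ p = 1)
    (hinv : ∀ a ∈ D, ∀ x ∈ E, a x ∈ E) (hne : E ≠ ⊥) :
    ∃ v ∈ E, v ≠ 1 ∧ ∀ a ∈ D, a v ∈ Subgroup.zpowers v := by
  induction' hn : Nat.card E using Nat.strong_induction_on with n ih generalizing E
  rcases E.bot_or_exists_ne_one with h0 | ⟨w, hwE, hw1⟩
  · exact absurd h0 hne
  by_cases hall : ∀ a ∈ D, a w ∈ Subgroup.zpowers w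
  · exact ⟨w, hwE, hw1, hall⟩
  push Not at hall
  obtain ⟨a, haD, haw⟩ := hall
  -- eigenvector of `a` on `E`
  let h : E →* E := (a.toMonoidHom.comp E.subtype).codRestrict E (fun x => hinv a haD x x.2)
  have hhk : ∀ (k : ℕ) (x : E), ((h^[k] x : E) : Y) = (a ^ k) (x : Y) := by
    intro k
    induction k with
    | zero => intro x; rfl
    | succ k ihk =>
      intro x
      rw [Function.iterate_succ_apply', pow_succ']
      show a ((h^[k] x : E) : Y) = _
      rw [ihk]
      rfl
  haveI : Nontrivial E := (Subgroup.nontrivial_iff_ne_bot E).2 hne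
  obtain ⟨l, v, hv1, hvl⟩ := eig_core' (K := E) (fun x y => Subtype.ext (hEc x x.2 y y.2))
    (fun x => Subtype.ext (hEp x x.2)) h (fun x => by
      apply Subtype.ext
      rw [hhk, hpow a haD]
      rfl)
  have hvl' : a (v : Y) = (v : Y) ^ l := congrArg Subtype.val hvl
  let E' : Subgroup Y :=
    { carrier := {x | x ∈ E ∧ a x = x ^ l}
      one_mem' := ⟨E.one_mem, by simp⟩
      mul_mem' := by
        rintro x y ⟨hx, hxa⟩ ⟨hy, hya⟩
        refine ⟨E.mul_mem hx hy, ?_⟩
        rw [map_mul, hxa, hya]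
        exact ((show Commute x y from hEc x hx y hy).mul_pow l).symm
      inv_mem' := by
        rintro x ⟨hx, hxa⟩
        refine ⟨E.inv_mem hx, ?_⟩
        rw [map_inv, hxa, inv_pow] }
  have hE'E : E' ≤ E := fun x hx => hx.1
  have hwE' : w ∉ E' := by
    intro hw
    apply haw
    rw [hw.2]
    exact Subgroup.npow_mem_zpowers w l
  have hlt : Nat.card E' < n := by
    rw [← hn]
    have h1 : (E' : Set Y) ⊂ (E : Set Y) := by
      refine ⟨hE'E, fun h2 => hwE' (h2 hwE)⟩
    have h2 := Set.ncard_lt_ncard h1 (Set.toFinite _)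
    exact h2
  have hvE' : (v : Y) ∈ E' := ⟨v.2, hvl'⟩
  obtain ⟨u, huE', hu1, hu⟩ := ih _ hlt E' (fun x hx y hy => hEc x hx.1 y hy.1) (fun x hx => hEp x hx.1)
    (fun b hb x hx => by
      refine ⟨hinv b hb x hx.1, ?_⟩
      have h1 : a (b x) = b (a x) := by
        have := hcomm a haD b hb
        exact DFunLike.congr_fun this x
      rw [h1, hx.2, map_pow])
    (by
      intro h0
      rw [h0, Subgroup.mem_bot] at hvE'
      exact hv1 (Subtype.ext hvE')) rfl
  exact ⟨u, huE'.1, hu1, hu⟩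

section Step

variable {X : Type*} [Group X] [Finite X] [Fact p.Prime]

/-- The inductive step. -/
theorem step (hX : IsPGroup p X) (H : Subgroup (MulAut X))
    (hab : ∀ a ∈ H, ∀ b ∈ H, a * b = b * a) (hpow : ∀ a ∈ H, a ^ (p - 1) = 1)
    (T : Subgroup X) [hT : T.Normal] (hinv : ∀ a ∈ H, ∀ x ∈ T, a x ∈ T) (hne : T ≠ ⊤) :
    ∃ x : X, x ∉ T ∧ (∀ g : X, ∀ y ∈ T ⊔ Subgroup.zpowers x, g * y * g⁻¹ ∈ T ⊔ Subgroup.zpowers x) ∧
      ∀ a ∈ H, ∀ y ∈ T ⊔ Subgroup.zpowers x, a y ∈ T ⊔ Subgroup.zpowers x := by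
  classical
  let Q := X ⧸ T
  have hQp : IsPGroup p Q := hX.to_quotient T
  haveI hQn : Nontrivial Q := by
    obtain ⟨x, hx⟩ : ∃ x : X, x ∉ T := by
      by_contra hall
      push Not at hall
      exact hne (eq_top_iff.2 fun x _ => hall x)
    refine ⟨(x : Q), 1, ?_⟩
    intro h0
    exact hx ((QuotientGroup.eq_one_iff x).1 h0)
  have hmap : ∀ a ∈ H, T.map a.toMonoidHom = T := by
    intro a ha
    apply le_antisymm
    · rintro _ ⟨x, hx, rfl⟩
      exact hinv a ha x hx
    · intro x hx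
      refine ⟨a⁻¹ x, hinv _ (H.inv_mem ha) x hx, ?_⟩
      show a (a⁻¹ x) = x
      simp
  let bar : H → MulAut Q := fun a => QuotientGroup.congr T T a.1 (hmap a.1 a.2)
  have hbar : ∀ (a : H) (x : X), bar a (x : Q) = ((a : MulAut X) x : X) := fun a x => rfl
  have hbark : ∀ (a : H) (k : ℕ) (x : X), ((bar a) ^ k) (x : Q) = (((a : MulAut X) ^ k) x : X) := by
    intro a k
    induction k with
    | zero => intro x; rfl
    | succ k ih =>
      intro x
      rw [pow_succ', pow_succ', MulAut.mul_apply, ih, hbar]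
      rfl
  let D : Set (MulAut Q) := Set.range bar
  have hDc : ∀ a ∈ D, ∀ b ∈ D, a * b = b * a := by
    rintro _ ⟨a, rfl⟩ _ ⟨b, rfl⟩
    ext q
    induction q using QuotientGroup.induction_on with
    | H x =>
      show bar a (bar b (x : Q)) = bar b (bar a (x : Q))
      rw [hbar, hbar, hbar, hbar]
      have := DFunLike.congr_fun (hab a a.2 b b.2) x
      exact congrArg _ this
  have hDp : ∀ a ∈ D, a ^ (p - 1) = 1 := by
    rintro _ ⟨a, rfl⟩
    ext q
    induction q using QuotientGroup.induction_on with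
    | H x =>
      rw [hbark, hpow a a.2]
      rfl
  let W : Subgroup Q :=
    { carrier := {v | v ∈ Subgroup.center Q ∧ v ^ p = 1}
      one_mem' := ⟨Subgroup.one_mem _, one_pow _⟩
      mul_mem' := by
        rintro x y ⟨hx, hxp⟩ ⟨hy, hyp⟩
        refine ⟨Subgroup.mul_mem _ hx hy, ?_⟩
        have hc : Commute x y := (Subgroup.mem_center_iff.1 hx y).symm
        rw [hc.mul_pow, hxp, hyp, one_mul]
      inv_mem' := by
        rintro x ⟨hx, hxp⟩
        exact ⟨Subgroup.inv_mem _ hx, by rw [inv_pow, hxp, inv_one]⟩ }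
  have hWne : W ≠ ⊥ := by
    haveI hcn : Nontrivial (Subgroup.center Q) := hQp.center_nontrivial
    have hd : p ∣ Nat.card (Subgroup.center Q) := by
      have h1 := (hQp.to_subgroup (Subgroup.center Q)).card_eq_or_dvd
      refine h1.resolve_left ?_
      intro h2
      exact not_nontrivial_iff_subsingleton.2 ((Nat.card_eq_one_iff_unique.1 h2).1) hcn
    obtain ⟨z, hz⟩ := exists_prime_orderOf_dvd_card' p hd
    intro h0
    have hzW : (z : Q) ∈ W := by
      refine ⟨z.2, ?_⟩
      have := pow_orderOf_eq_one z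
      rw [hz] at this
      exact congrArg Subtype.val this
    rw [h0, Subgroup.mem_bot] at hzW
    have : z = 1 := Subtype.ext hzW
    rw [this, orderOf_one] at hz
    exact (Fact.out : p.Prime).one_lt.ne hz
  obtain ⟨v, hvW, hv1, hvD⟩ := exists_common D hDc hDp W
    (fun x hx y hy => (Subgroup.mem_center_iff.1 hx.1 y).symm)
    (fun x hx => hx.2)
    (by
      rintro _ ⟨a, rfl⟩ x ⟨hx, hxp⟩
      refine ⟨?_, by rw [← map_pow, hxp, map_one]⟩
      rw [Subgroup.mem_center_iff]
      intro q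
      obtain ⟨q', rfl⟩ := (bar a).surjective q
      rw [← map_mul, ← map_mul, (Subgroup.mem_center_iff.1 hx q')])
    hWne
  obtain ⟨x, rfl⟩ := QuotientGroup.mk_surjective v
  have hmem : ∀ y : X, y ∈ T ⊔ Subgroup.zpowers x ↔ (y : Q) ∈ Subgroup.zpowers (x : Q) := by
    intro y
    constructor
    · intro hy
      have hle : T ⊔ Subgroup.zpowers x ≤ (Subgroup.zpowers (x : Q)).comap (QuotientGroup.mk' T) := by
        refine sup_le ?_ ?_
        · intro t ht
          show ((t : X) : Q) ∈ Subgroup.zpowers (x : Q)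
          rw [(QuotientGroup.eq_one_iff t).2 ht]
          exact Subgroup.one_mem _
        · rw [Subgroup.zpowers_le]
          exact Subgroup.mem_zpowers _
      exact hle hy
    · rintro ⟨j, hj⟩
      have h1 : ((x ^ j)⁻¹ * y : X) ∈ T := by
        rw [← QuotientGroup.eq]
        show ((x ^ j : X) : Q) = y
        rw [QuotientGroup.mk_zpow]
        exact hj
      have h2 : y = x ^ j * ((x ^ j)⁻¹ * y) := by group
      rw [h2]
      exact Subgroup.mul_mem _ (Subgroup.mem_sup_right (Subgroup.zpow_mem_zpowers x j)) (Subgroup.mem_sup_left h1)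
  refine ⟨x, fun hxT => hv1 ((QuotientGroup.eq_one_iff x).2 hxT), ?_, ?_⟩
  · intro g y hy
    rw [hmem] at hy ⊢
    have hc : (y : Q) ∈ Subgroup.center Q := by
      obtain ⟨j, hj⟩ := hy
      rw [← hj]
      exact Subgroup.zpow_mem _ hvW.1 j
    have h1 : ((g * y * g⁻¹ : X) : Q) = y := by
      rw [QuotientGroup.mk_mul, QuotientGroup.mk_mul, QuotientGroup.mk_inv, (Subgroup.mem_center_iff.1 hc) (g : Q)]
      group
    rw [h1]
    exact hy
  · intro a ha y hy
    rw [hmem] at hy ⊢
    obtain ⟨j, hj⟩ := hy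
    have h1 : ((a y : X) : Q) = bar ⟨a, ha⟩ (y : Q) := rfl
    rw [h1, ← hj]
    show bar ⟨a, ha⟩ (((x : Q)) ^ j) ∈ _
    rw [map_zpow]
    exact Subgroup.zpow_mem _ (hvD _ ⟨⟨a, ha⟩, rfl⟩) j

/-- The chain exists. -/
theorem chain_exists (hX : IsPGroup p X) (H : Subgroup (MulAut X))
    (hab : ∀ a ∈ H, ∀ b ∈ H, a * b = b * a) (hpow : ∀ a ∈ H, a ^ (p - 1) = 1) :
    ∀ T : Subgroup X, T.Normal → (∀ a ∈ H, ∀ x ∈ T, a x ∈ T) →
      ∃ (m : ℕ) (d : ℕ → Subgroup X), d 0 = T ∧ d m = ⊤ ∧
        (∀ i ≤ m, (d i).Normal ∧ ∀ a ∈ H, ∀ x ∈ d i, a x ∈ d i) ∧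
        ∀ i < m, ∃ x : X, d (i + 1) = d i ⊔ Subgroup.zpowers x := by
  intro T
  induction' hn : Nat.card X - Nat.card T using Nat.strong_induction_on with n ih generalizing T
  intro hTn hTi
  by_cases hTt : T = ⊤
  · exact ⟨0, fun _ => T, rfl, hTt, fun _ _ => ⟨hTn, hTi⟩, fun i hi => absurd hi (Nat.not_lt_zero _)⟩
  obtain ⟨x, hxT, hc, ha⟩ := step hX H hab hpow T hTi hTt
  set T' := T ⊔ Subgroup.zpowers x with hT'
  have hTT' : T < T' := by
    refine lt_of_le_of_ne le_sup_left ?_
    intro h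
    apply hxT
    rw [h]
    exact Subgroup.mem_sup_right (Subgroup.mem_zpowers x)
  have hcard : Nat.card T < Nat.card T' := by
    have h1 : (T : Set X) ⊂ (T' : Set X) := hTT'
    have h2 := Set.ncard_lt_ncard h1 (Set.toFinite _)
    exact h2
  have hle : Nat.card T' ≤ Nat.card X := Subgroup.card_le_card_group T'
  obtain ⟨m, d, hd0, hdm, hdi, hds⟩ := ih (Nat.card X - Nat.card T') (by omega) T' rfl
    ⟨fun y hy g => hc g y hy⟩ ha
  refine ⟨m + 1, fun i => Nat.casesOn i T d, rfl, hdm, ?_, ?_⟩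
  · intro i hi
    cases i with
    | zero => exact ⟨hTn, hTi⟩
    | succ i => exact hdi i (by omega)
  · intro i hi
    cases i with
    | zero =>
      refine ⟨x, ?_⟩
      show d 0 = T ⊔ _
      rw [hd0]
    | succ i => exact hds i (by omega)

end Step

end Cfsg.Agent.H24.Sup
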