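import Mathlib
import Cfsg.Agent.Lib.H24.SupC

/-! Supersoluble fusion systems, backward direction: the fusion system layer. -/

set_option autoImplicit false

namespace Cfsg.Agent.H24.Sup

open Cfsg Cfsg.FusionSystem Cfsg.Agent.H24

variable {Ω : Type*} [Group Ω] {S : Subgroup Ω} {p : ℕ}

theorem fullyNormalized_top [Finite S] (F : FusionSystem S) : F.IsFullyNormalized S := by
  refine ⟨le_rfl, fun Q _ => ?_⟩
  have h1 : normalizerIn S S = S := le_antisymm inf_le_left (le_normalizerIn le_rfl)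
  rw [h1]
  exact card_le_of_le inf_le_left le_rfl

theorem backward [Finite S] [Fact p.Prime] (hS : IsPGroup p S)
    (hres : ∀ F : FusionSystem S, F.IsSaturated p → F.IsNormal S)
    (hsec : ∀ H : Subgroup (MulAut S), (Nat.card H).Coprime p → IsMulCommutative H ∧ ∀ a ∈ H, a ^ (p - 1) = 1)
    (F : FusionSystem S) (hF : F.IsSaturated p) : SC F := by
  classical
  have hN := hres F hF
  obtain ⟨-, R, hR⟩ := (fullyNormalized_props hS hF (fullyNormalized_top F)).1
  let A := F.autGroup S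
  let N : Subgroup A := (autInducedBy S S).subgroupOf A
  have hNR : (R : Subgroup A) = N := hR
  haveI hNn : N.Normal := by
    refine ⟨fun ρ hρ α => ?_⟩
    obtain ⟨g, hg, hρg⟩ := (mem_autInducedBy_iff S S (ρ : MulAut S)).1 hρ
    show ((α * ρ * α⁻¹ : A) : MulAut S) ∈ autInducedBy S S
    refine (mem_autInducedBy_iff S S _).2 ⟨((α : MulAut S) ⟨g, hg⟩ : S), ((α : MulAut S) ⟨g, hg⟩).2, fun x => ?_⟩
    set y := (α : MulAut S)⁻¹ x with hy
    have h1 : (ρ : MulAut S) y = ⟨g, hg⟩ * y * (⟨g, hg⟩ : S)⁻¹ := Subtype.ext (hρg y)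
    have h2 : ((α * ρ * α⁻¹ : A) : MulAut S) x = (α : MulAut S) ((ρ : MulAut S) y) := rfl
    have h3 : (α : MulAut S) y = x := by rw [hy]; simp
    rw [h2, h1, map_mul, map_mul, map_inv, h3]
    rfl
  have hp : p.Prime := Fact.out
  have hcop : (Nat.card N).Coprime N.index := by
    have h1 : IsPGroup p (R : Subgroup A) := R.isPGroup'
    rw [hNR] at h1
    obtain ⟨k, hk⟩ := IsPGroup.iff_card.1 h1
    rw [hk]
    apply Nat.Coprime.pow_left
    rw [Nat.Prime.coprime_iff_not_dvd hp, ← hNR]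
    exact R.not_dvd_index
  obtain ⟨H₀, hH₀⟩ := Subgroup.exists_right_complement'_of_coprime hcop
  let H : Subgroup (MulAut S) := H₀.map A.subtype
  have hc : (Nat.card H).Coprime p := by
    have h1 : Nat.card H = Nat.card H₀ :=
      Nat.card_congr (Subgroup.equivMapOfInjective H₀ A.subtype Subtype.val_injective).toEquiv.symm
    rw [h1, ← hH₀.symm.index_eq_card]
    apply Nat.Coprime.symm
    rw [Nat.Prime.coprime_iff_not_dvd hp, ← hNR]
    exact R.not_dvd_index
  obtain ⟨hcomm, hpow⟩ := hsec H hc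
  have hab : ∀ a ∈ H, ∀ b ∈ H, a * b = b * a := fun a ha b hb =>
    congrArg Subtype.val (hcomm.is_comm.comm (⟨a, ha⟩ : H) ⟨b, hb⟩)
  have hfac : ∀ α ∈ A, ∃ g : S, ∃ a ∈ H, ∀ x : S, α x = g * a x * g⁻¹ := by
    intro α hα
    obtain ⟨⟨ρ, h⟩, he⟩ := hH₀.2 ⟨α, hα⟩
    obtain ⟨g, hg, hρg⟩ := (mem_autInducedBy_iff S S ((ρ : A) : MulAut S)).1 ρ.2
    refine ⟨⟨g, hg⟩, ((h : A) : MulAut S), ⟨h, h.2, rfl⟩, fun x => ?_⟩
    have h1 : α = ((ρ : A) : MulAut S) * ((h : A) : MulAut S) := (congrArg Subtype.val he).symm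
    rw [h1]
    exact Subtype.ext (hρg _)
  obtain ⟨m, d, hd0, hdm, hdi, hds⟩ := chain_exists hS H hab hpow ⊥ inferInstance (by
    intro a _ x hx
    rw [Subgroup.mem_bot] at hx ⊢
    rw [hx, map_one])
  have hInv : ∀ i ≤ m, ∀ α ∈ A, ∀ x ∈ d i, α x ∈ d i := by
    intro i hi α hα x hx
    obtain ⟨g, a, ha, h⟩ := hfac α hα
    rw [h]
    obtain ⟨hn, hin⟩ := hdi i hi
    exact hn.conj_mem _ (hin a ha x hx) g
  refine ⟨m, fun i => (d i.val).map S.subtype, ?_, ?_, ?_, ?_⟩
  · show (d 0).map S.subtype = ⊥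
    rw [hd0, Subgroup.map_bot]
  · show (d m).map S.subtype = S
    rw [hdm, ← MonoidHom.range_eq_map, Subgroup.range_subtype]
  · intro i
    refine ⟨Subgroup.map_subtype_le _, fun P hPc φ hφ x => ?_⟩
    have hPS : P ≤ S := hPc.trans (Subgroup.map_subtype_le _)
    obtain ⟨ψ, hψ, hag, hmap⟩ := hN.2 P φ hφ
    let ψ' : S →* Ω := ψ.comp (Subgroup.inclusion (le_sup_right : S ≤ P ⊔ S))
    have hψ' : ψ' ∈ F.Hom S := hom_of_agree le_sup_right hψ ψ' (fun _ => rfl)
    have hrange : ψ'.range = S := by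
      apply le_antisymm
      · rintro _ ⟨y, rfl⟩
        exact hom_val hψ' y
      · intro y hy
        rw [← hmap] at hy
        obtain ⟨t, ht, rfl⟩ := hy
        exact ⟨⟨t, ht⟩, rfl⟩
    have hα := autOfHom_mem hψ' hrange
    obtain ⟨x', hx', hxe⟩ := hPc x.2
    have h1 : φ x = ψ' x' := by
      rw [← hag x]
      show ψ _ = ψ _
      congr 1
      apply Subtype.ext
      exact hxe.symm
    have h2 := hInv i.val (by omega) _ hα x' hx'
    rw [h1]
    exact ⟨_, h2, rfl⟩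
  · intro i
    obtain ⟨x, hx⟩ := hds i i.2
    have hc : (i.castSucc : Fin (m + 1)).val = i.val := rfl
    have hs : (i.succ : Fin (m + 1)).val = i.val + 1 := rfl
    show (d (i.castSucc : Fin (m + 1)).val).map S.subtype ≤ (d (i.succ : Fin (m + 1)).val).map S.subtype ∧
      ∃ y ∈ S, (d (i.succ : Fin (m + 1)).val).map S.subtype = (d (i.castSucc : Fin (m + 1)).val).map S.subtype ⊔ Subgroup.zpowers y
    rw [hc, hs, hx]
    refine ⟨Subgroup.map_mono le_sup_left, (x : Ω), x.2, ?_⟩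
    rw [Subgroup.map_sup, MonoidHom.map_zpowers]
    rfl

/-- The main equivalence. -/
theorem supersoluble_iff [Finite S] [Fact p.Prime] (hS : IsPGroup p S) :
    (∀ F : FusionSystem S, F.IsSaturated p → SC F) ↔
      (∀ F : FusionSystem S, F.IsSaturated p → F.IsNormal S) ∧
      ∀ H : Subgroup (MulAut S), (Nat.card H).Coprime p → IsMulCommutative H ∧ ∀ a ∈ H, a ^ (p - 1) = 1 :=
  ⟨forward hS, fun h F hF => backward hS h.1 h.2 F hF⟩

end Cfsg.Agent.H24.Sup
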