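import Mathlib
import Cfsg.Agent.Lib.H24.SupA

/-! Abelian `p`-groups with pairwise distinct invariants: `p`-prime automorphism groups are diagonal. -/

set_option autoImplicit false

namespace Cfsg.Agent.H24.Sup

variable {X : Type*} [CommGroup X] {p : ℕ}

variable (p) in
/-- `Ω_t(X) X^p`. -/
def UU (t : ℕ) : Subgroup X := (powMonoidHom (p ^ t) : X →* X).ker ⊔ (powMonoidHom p : X →* X).range

variable (p) in
/-- `X^{p^k}`. -/
def DD (k : ℕ) : Subgroup X := (powMonoidHom (p ^ k) : X →* X).range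

theorem UU_inv (α : MulAut X) (t : ℕ) (x : X) (hx : x ∈ UU p t) : α x ∈ UU (X := X) p t := by
  have h : (UU p t : Subgroup X) ≤ (UU p t : Subgroup X).comap α.toMonoidHom := by
    refine sup_le ?_ ?_
    · intro y hy
      have hy' : y ^ (p ^ t) = 1 := hy
      apply Subgroup.mem_sup_left
      show (α y) ^ (p ^ t) = 1
      rw [← map_pow, hy', map_one]
    · rintro _ ⟨z, rfl⟩
      apply Subgroup.mem_sup_right
      exact ⟨α z, (map_pow α z p).symm⟩
  exact h hx

theorem mem_DD_pow (y : X) (k : ℕ) : y ^ (p ^ k) ∈ DD (X := X) p k := ⟨y, rfl⟩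

/-- Relative stability, first layer. -/
theorem stage1 [Finite X] [Fact p.Prime] (hX : IsPGroup p X) (γ : MulAut X) (hγ : (orderOf γ).Coprime p)
    (T₀ : Subgroup X) (hT₀ : ∀ x ∈ T₀, γ x ∈ T₀) (c : ℕ → Subgroup X) (hc0 : c 0 = T₀)
    (htr : ∀ t, Triv (c t) (c (t + 1)) γ) : ∀ t, ∀ x ∈ c t, γ x * x⁻¹ ∈ T₀ := by
  intro t
  induction t with
  | zero =>
    intro x hx
    rw [hc0] at hx
    exact T₀.mul_mem (hT₀ x hx) (T₀.inv_mem hx)
  | succ t ih =>
    intro x hx
    have hv := htr t x hx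
    set v := γ x * x⁻¹ with hvd
    have hs := ih v hv
    set s := γ v * v⁻¹ with hsd
    have hγx : γ x = v * x := by rw [hvd]; simp
    have hγv : γ v = v * s := by rw [hsd]; simp
    have hpow : ∀ k : ℕ, ∃ w ∈ T₀, (γ ^ k) x = v ^ k * x * w := by
      intro k
      induction k with
      | zero => exact ⟨1, T₀.one_mem, by simp⟩
      | succ k ihk =>
        obtain ⟨w, hw, he⟩ := ihk
        refine ⟨s ^ k * γ w, T₀.mul_mem (T₀.pow_mem hs k) (hT₀ w hw), ?_⟩
        rw [pow_succ', MulAut.mul_apply, he, map_mul, map_mul, map_pow, hγv, hγx, mul_pow, pow_succ]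
        simp only [mul_assoc, mul_comm, mul_left_comm]
    obtain ⟨w, hw, he⟩ := hpow (orderOf γ)
    rw [pow_orderOf_eq_one] at he
    have h1 : v ^ orderOf γ ∈ T₀ := by
      have h2 : x = v ^ orderOf γ * x * w := he
      have h3 : v ^ orderOf γ = w⁻¹ := by
        have h4 : v ^ orderOf γ * w = 1 := by
          have h5 : (v ^ orderOf γ * w) * x = 1 * x := by
            rw [one_mul]
            calc (v ^ orderOf γ * w) * x = v ^ orderOf γ * x * w := by
                  simp only [mul_assoc, mul_comm, mul_left_comm]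
              _ = x := h2.symm
          exact mul_right_cancel h5
        exact eq_inv_of_mul_eq_one_left h4
      rw [h3]
      exact T₀.inv_mem hw
    obtain ⟨a, ha⟩ := (IsPGroup.iff_orderOf.1 hX) v
    by_cases ha0 : a = 0
    · rw [ha0, pow_zero, orderOf_eq_one_iff] at ha
      rw [ha]
      exact T₀.one_mem
    have hcop : (orderOf γ).Coprime (orderOf v) := by
      rw [ha]
      exact Nat.Coprime.pow_right a hγ
    have hord : 1 < orderOf v := by
      rw [ha]
      exact Nat.one_lt_pow ha0 (Fact.out : p.Prime).one_lt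
    obtain ⟨m, hm⟩ := Nat.exists_mul_mod_eq_one_of_coprime hcop hord
    have h2 : v = (v ^ orderOf γ) ^ m := by
      rw [← pow_mul, ← pow_mod_orderOf, hm.2, pow_one]
    rw [h2]
    exact T₀.pow_mem h1 m

/-- A `p`-prime automorphism stabilizing the flag is trivial. -/
theorem coprime_triv [Finite X] [Fact p.Prime] (hX : IsPGroup p X) (γ : MulAut X) (hγ : (orderOf γ).Coprime p)
    (htop : ∃ T, (UU p T : Subgroup X) = ⊤) (htr : ∀ t, Triv (UU p t) (UU p (t + 1)) γ) : γ = 1 := by
  obtain ⟨T, hT⟩ := htop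
  have hp : p.Prime := Fact.out
  have hU0 : (UU p 0 : Subgroup X) = DD p 1 := by
    apply le_antisymm
    · refine sup_le ?_ ?_
      · intro y hy
        have : y ^ (p ^ 0) = 1 := hy
        rw [pow_zero, pow_one] at this
        rw [this]
        exact Subgroup.one_mem _
      · rw [DD, pow_one]
    · rw [DD, pow_one]
      exact le_sup_right
  have h1 := stage1 hX γ hγ (UU p 0) (fun x hx => UU_inv γ 0 x hx) (fun t => UU p t) rfl htr
  have h2 : ∀ y : X, γ y * y⁻¹ ∈ DD (X := X) p 1 := by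
    intro y
    rw [← hU0]
    apply h1 T
    show y ∈ (UU p T : Subgroup X)
    rw [hT]
    trivial
  obtain ⟨N, hN⟩ := IsPGroup.iff_card.1 hX
  have hbot : (DD p N : Subgroup X) = ⊥ := by
    rw [eq_bot_iff]
    rintro _ ⟨y, rfl⟩
    rw [Subgroup.mem_bot]
    show y ^ (p ^ N) = 1
    rw [← hN, pow_card_eq_one']
  have htop0 : (DD p 0 : Subgroup X) = ⊤ := by
    rw [eq_top_iff]
    intro y _
    exact ⟨y, by simp⟩
  refine IsChain.stab (c := fun i => DD p (N - i)) (m := N) hX ?_ ?_ γ hγ ?_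
  · show (DD p (N - 0) : Subgroup X) = ⊥
    rw [Nat.sub_zero, hbot]
  · show (DD p (N - N) : Subgroup X) = ⊤
    rw [Nat.sub_self, htop0]
  · intro i hi
    show Triv (DD p (N - i)) (DD p (N - (i + 1))) γ
    have hk : N - i = (N - (i + 1)) + 1 := by omega
    rw [hk]
    generalize N - (i + 1) = k
    rintro _ ⟨y, rfl⟩
    obtain ⟨z, hz⟩ := h2 y
    refine ⟨z, ?_⟩
    show z ^ (p ^ (k + 1)) = γ (y ^ (p ^ k)) * (y ^ (p ^ k))⁻¹
    have hz' : z ^ (p ^ 1) = γ y * y⁻¹ := hz
    rw [map_pow, ← inv_pow, ← mul_pow, ← hz', ← pow_mul, ← pow_add, add_comm]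

/-- The abstract conclusion from flags. -/
theorem sec_of_flags [Finite X] [Fact p.Prime] (hX : IsPGroup p X)
    (hfl : ∀ t, ∃ g : X, (UU p (t + 1) : Subgroup X) = UU p t ⊔ Subgroup.zpowers g)
    (htop : ∃ T, (UU p T : Subgroup X) = ⊤) (H : Subgroup (MulAut X)) (hH : (Nat.card H).Coprime p) :
    IsMulCommutative H ∧ ∀ a ∈ H, a ^ (p - 1) = 1 := by
  have hord : ∀ a ∈ H, (orderOf a).Coprime p := by
    intro a ha
    have h1 : orderOf a = orderOf (⟨a, ha⟩ : H) := (Subgroup.orderOf_mk a ha).symm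
    rw [h1]
    exact Nat.Coprime.coprime_dvd_left (orderOf_dvd_natCard _) hH
  have key : ∀ t, ∃ (B : Type) (_ : CommGroup B) (_ : Finite B) (Φ : H →* B),
      (∀ γ : H, Φ γ = 1 ↔ Triv (UU p t) (UU p (t + 1)) (γ : MulAut X)) ∧
      ∀ u : B, (orderOf u).Coprime p → u ^ (p - 1) = 1 := by
    intro t
    obtain ⟨g, hg⟩ := hfl t
    haveI hn : (((UU p t : Subgroup X)).subgroupOf (UU p (t + 1))).Normal := by
      refine ⟨fun n hn a => ?_⟩
      have : a * n * a⁻¹ = n := by
        apply Subtype.ext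
        show (a : X) * n * (a : X)⁻¹ = n
        rw [mul_comm (a : X) n, mul_assoc, mul_inv_cancel, mul_one]
      rw [this]
      exact hn
    haveI hcy := cyc_of_sup (UU p t : Subgroup X) (UU p (t + 1)) g hg
    have hle : (UU p t : Subgroup X) ≤ UU p (t + 1) := by
      rw [hg]
      exact le_sup_left
    exact exists_comm _ _ H hX hle (fun α _ x hx => UU_inv α _ x hx) (fun α _ x hx => UU_inv α _ x hx)
  constructor
  · refine ⟨⟨fun a b => Subtype.ext ?_⟩⟩
    have hγ : (a : MulAut X) * b * (a : MulAut X)⁻¹ * (b : MulAut X)⁻¹ = 1 := by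
      apply coprime_triv hX _ _ htop
      · intro t
        obtain ⟨B, _, _, Φ, h1, -⟩ := key t
        have h2 : Φ (a * b * a⁻¹ * b⁻¹) = 1 := by
          rw [map_mul, map_mul, map_mul, map_inv, map_inv, mul_comm (Φ a), mul_assoc, mul_assoc]
          simp
        exact (h1 _).1 h2
      · exact hord _ (H.mul_mem (H.mul_mem (H.mul_mem a.2 b.2) (H.inv_mem a.2)) (H.inv_mem b.2))
    have h6 : (a : MulAut X) * b * (a : MulAut X)⁻¹ = b := mul_inv_eq_one.1 hγ
    exact mul_inv_eq_iff_eq_mul.1 h6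
  · intro a ha
    apply coprime_triv hX _ _ htop
    · intro t
      obtain ⟨B, _, _, Φ, h1, h2⟩ := key t
      have h3 : orderOf (Φ ⟨a, ha⟩) ∣ orderOf a := by
        have h4 : orderOf a = orderOf (⟨a, ha⟩ : H) := (Subgroup.orderOf_mk a ha).symm
        rw [h4]
        exact orderOf_map_dvd Φ _
      have h5 := h2 (Φ ⟨a, ha⟩) (Nat.Coprime.coprime_dvd_left h3 (hord a ha))
      have h6 : Φ ((⟨a, ha⟩ : H) ^ (p - 1)) = 1 := by rw [map_pow, h5]
      exact (h1 _).1 h6
    · have h8 : orderOf (a ^ (p - 1)) ∣ orderOf a := by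
        apply orderOf_dvd_of_pow_eq_one
        rw [← pow_mul, mul_comm, pow_mul, pow_orderOf_eq_one, one_pow]
      exact Nat.Coprime.coprime_dvd_left h8 (hord a ha)

end Cfsg.Agent.H24.Sup
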