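import Mathlib
import Cfsg.Agent.Lib.H24.SupE

/-! Coordinates for abelian `p`-groups. -/

set_option autoImplicit false

namespace Cfsg.Agent.H24.Sup

section Z

variable {p : ℕ} [hp : Fact p.Prime]

theorem zmod_pth_root {e t : ℕ} (ht : t < e) (a : Multiplicative (ZMod (p ^ e))) (ha : a ^ (p ^ t) = 1) :
    ∃ w : Multiplicative (ZMod (p ^ e)), a = w ^ p := by
  haveI : NeZero (p ^ e) := ⟨pow_ne_zero _ hp.out.ne_zero⟩
  set c : ZMod (p ^ e) := a.toAdd with hc
  have h1 : (p ^ t) • c = 0 := congrArg Multiplicative.toAdd ha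
  have h2 : ((p ^ t * c.val : ℕ) : ZMod (p ^ e)) = 0 := by
    have h3 : ((c.val : ℕ) : ZMod (p ^ e)) = c := ZMod.natCast_zmod_val c
    rw [Nat.cast_mul, h3]
    rw [nsmul_eq_mul] at h1
    exact_mod_cast h1
  rw [ZMod.natCast_eq_zero_iff] at h2
  have h4 : p ^ (t + 1) ∣ p ^ t * c.val := (pow_dvd_pow p (by omega)).trans h2
  rw [pow_succ] at h4
  have h5 : p ∣ c.val := Nat.dvd_of_mul_dvd_mul_left (pow_pos hp.out.pos t) h4
  obtain ⟨d, hd⟩ := h5
  refine ⟨Multiplicative.ofAdd (d : ZMod (p ^ e)), ?_⟩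
  apply Multiplicative.toAdd.injective
  show c = p • (d : ZMod (p ^ e))
  rw [nsmul_eq_mul]
  have h6 : ((c.val : ℕ) : ZMod (p ^ e)) = c := ZMod.natCast_zmod_val c
  rw [← h6, hd]
  push_cast
  rfl

theorem zmod_pow_eq_one {e t : ℕ} (ht : e ≤ t) (a : Multiplicative (ZMod (p ^ e))) : a ^ (p ^ t) = 1 := by
  apply Multiplicative.toAdd.injective
  show (p ^ t) • a.toAdd = 0
  rw [nsmul_eq_mul]
  have : ((p ^ t : ℕ) : ZMod (p ^ e)) = 0 := by
    rw [ZMod.natCast_eq_zero_iff]
    exact pow_dvd_pow p ht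
  rw [this, zero_mul]

end Z

section Coord

variable {X : Type*} [CommGroup X] {p : ℕ} [hp : Fact p.Prime] {ι : Type*} {e : ι → ℕ}
  (φ : X ≃* ((i : ι) → Multiplicative (ZMod (p ^ e i))))

include φ in
theorem mem_UU_iff (t : ℕ) (x : X) : x ∈ (UU p t : Subgroup X) ↔ ∀ i, t < e i → ∃ w, φ x i = w ^ p := by
  classical
  constructor
  · intro hx i hi
    obtain ⟨y, hy, z, hz, rfl⟩ := Subgroup.mem_sup.1 hx
    obtain ⟨u, rfl⟩ := hz
    have hy' : y ^ (p ^ t) = 1 := hy
    have h1 : (φ y i) ^ (p ^ t) = 1 := by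
      have := congrFun (congrArg φ hy') i
      simpa using this
    obtain ⟨b, hb⟩ := zmod_pth_root hi _ h1
    refine ⟨b * φ u i, ?_⟩
    have h2 : φ (y * (powMonoidHom p) u) i = φ y i * (φ u i) ^ p := by
      show φ (y * u ^ p) i = _
      rw [map_mul, map_pow]
      rfl
    rw [h2, hb, mul_pow]
  · intro hx
    choose! W hW using hx
    let Y : (i : ι) → Multiplicative (ZMod (p ^ e i)) := fun i => if t < e i then 1 else φ x i
    let V : (i : ι) → Multiplicative (ZMod (p ^ e i)) := fun i => if t < e i then W i else 1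
    have h1 : φ x = Y * V ^ p := by
      funext i
      show φ x i = Y i * (V i) ^ p
      by_cases hi : t < e i
      · simp only [Y, V, hi, if_true, one_mul]
        exact hW i hi
      · simp only [Y, V, hi, if_false, one_pow, mul_one]
    have h2 : x = φ.symm Y * (φ.symm V) ^ p := by
      apply φ.injective
      rw [map_mul, map_pow, MulEquiv.apply_symm_apply, MulEquiv.apply_symm_apply, h1]
    rw [h2]
    refine Subgroup.mul_mem _ (Subgroup.mem_sup_left ?_) (Subgroup.mem_sup_right ⟨φ.symm V, rfl⟩)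
    show (φ.symm Y) ^ (p ^ t) = 1
    rw [← map_pow]
    have h3 : Y ^ (p ^ t) = 1 := by
      funext i
      show (Y i) ^ (p ^ t) = 1
      by_cases hi : t < e i
      · simp only [Y, hi, if_true, one_pow]
      · simp only [Y, hi, if_false]
        exact zmod_pow_eq_one (not_lt.1 hi) _
    rw [h3, map_one]

include φ in
theorem UU_top [Fintype ι] : ∃ T, (UU p T : Subgroup X) = ⊤ := by
  refine ⟨Finset.univ.sup e, ?_⟩
  rw [eq_top_iff]
  intro x _
  rw [mem_UU_iff φ]
  intro i hi
  exact absurd (Finset.le_sup (f := e) (Finset.mem_univ i)) (not_le.2 hi)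

include φ in
theorem UU_flag (he : Function.Injective e) (t : ℕ) :
    ∃ g : X, (UU p (t + 1) : Subgroup X) = UU p t ⊔ Subgroup.zpowers g := by
  classical
  have hle : (UU p t : Subgroup X) ≤ UU p (t + 1) := by
    intro x hx
    rw [mem_UU_iff φ] at hx ⊢
    intro i hi
    exact hx i (by omega)
  by_cases hex : ∃ i₀, e i₀ = t + 1
  · obtain ⟨i₀, hi₀⟩ := hex
    let a₀ : Multiplicative (ZMod (p ^ e i₀)) := Multiplicative.ofAdd 1
    let G : (i : ι) → Multiplicative (ZMod (p ^ e i)) := Pi.mulSingle i₀ a₀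
    refine ⟨φ.symm G, le_antisymm ?_ (sup_le hle ?_)⟩
    · intro x hx
      haveI : NeZero (p ^ e i₀) := ⟨pow_ne_zero _ hp.out.ne_zero⟩
      let n : ℕ := (φ x i₀).toAdd.val
      have hpow : a₀ ^ n = φ x i₀ := by
        apply Multiplicative.toAdd.injective
        show n • (1 : ZMod (p ^ e i₀)) = (φ x i₀).toAdd
        rw [nsmul_eq_mul, mul_one]
        exact ZMod.natCast_zmod_val _
      have hsplit : x = (x * ((φ.symm G) ^ n)⁻¹) * (φ.symm G) ^ n := by group
      rw [hsplit]
      refine Subgroup.mul_mem _ (Subgroup.mem_sup_left ?_) (Subgroup.mem_sup_right (Subgroup.npow_mem_zpowers _ n))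
      rw [mem_UU_iff φ]
      intro i hi
      have hcoord : φ (x * ((φ.symm G) ^ n)⁻¹) i = φ x i * ((G i) ^ n)⁻¹ := by
        rw [map_mul, map_inv, map_pow, MulEquiv.apply_symm_apply]
        rfl
      rw [hcoord]
      by_cases hii : i = i₀
      · subst hii
        refine ⟨1, ?_⟩
        have hG : G i = a₀ := Pi.mulSingle_eq_same _ _
        rw [hG, hpow, mul_inv_cancel, one_pow]
      · have hG : G i = 1 := Pi.mulSingle_eq_of_ne hii _
        rw [hG, one_pow, inv_one, mul_one]
        rw [mem_UU_iff φ] at hx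
        apply hx i
        have : e i ≠ t + 1 := fun h => hii (he (h.trans hi₀.symm))
        omega
    · rw [Subgroup.zpowers_le, mem_UU_iff φ]
      intro i hi
      have hii : i ≠ i₀ := by
        rintro rfl
        omega
      have hG : G i = 1 := Pi.mulSingle_eq_of_ne hii _
      refine ⟨1, ?_⟩
      rw [MulEquiv.apply_symm_apply, hG, one_pow]
  · refine ⟨1, ?_⟩
    rw [Subgroup.zpowers_one_eq_bot, sup_bot_eq]
    refine le_antisymm ?_ hle
    intro x hx
    rw [mem_UU_iff φ] at hx ⊢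
    intro i hi
    apply hx i
    have : e i ≠ t + 1 := fun h => hex ⟨i, h⟩
    omega

end Coord

/-- Splitting off two coordinates. -/
def splitEquiv {ι : Type*} [DecidableEq ι] {Z : ι → Type*} [∀ k, Group (Z k)] {C : Type*} [Group C] {i j : ι}
    (hij : i ≠ j) (fi : Z i ≃* C) (fj : Z j ≃* C) :
    ((k : ι) → Z k) ≃* (C × C) × ((k : {k // k ≠ i ∧ k ≠ j}) → Z k) where
  toFun g := ((fi (g i), fj (g j)), fun k => g k)
  invFun q := fun k => if h1 : k = i then h1 ▸ fi.symm q.1.1 else
    if h2 : k = j then h2 ▸ fj.symm q.1.2 else q.2 ⟨k, h1, h2⟩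
  left_inv g := by
    funext k
    by_cases h1 : k = i
    · subst h1
      simp
    · by_cases h2 : k = j
      · subst h2
        simp [h1]
      · simp [h1, h2]
  right_inv q := by
    obtain ⟨⟨a, b⟩, h⟩ := q
    refine Prod.ext (Prod.ext ?_ ?_) ?_
    · simp
    · simp [hij.symm]
    · funext k
      simp [k.2.1, k.2.2]
  map_mul' x y := by
    refine Prod.ext (Prod.ext ?_ ?_) ?_
    · simp
    · simp
    · funext k
      rfl

end Cfsg.Agent.H24.Sup
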