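import Mathlib
import Cfsg.Agent.Lib.H24.SupF
import Cfsg.Agent.Lib.H24.SupD

/-! Abelian `p`-groups: automorphisms of `p`-prime order and homocyclic factors. -/

set_option autoImplicit false

namespace Cfsg.Agent.H24.Sup

open Cfsg Cfsg.FusionSystem Cfsg.Agent.H24

section Aut

variable {C H' : Type*} [CommGroup C] [Group H']

/-- Order three. -/
def rhoA : MulAut ((C × C) × H') where
  toFun q := ((q.1.2, (q.1.1 * q.1.2)⁻¹), q.2)
  invFun q := (((q.1.1 * q.1.2)⁻¹, q.1.1), q.2)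
  left_inv := by
    rintro ⟨⟨a, b⟩, h⟩
    refine Prod.ext (Prod.ext ?_ rfl) rfl
    show (b * (a * b)⁻¹)⁻¹ = a
    rw [mul_inv_rev, inv_inv, mul_inv_cancel_right]
  right_inv := by
    rintro ⟨⟨a, b⟩, h⟩
    refine Prod.ext (Prod.ext rfl ?_) rfl
    show ((a * b)⁻¹ * a)⁻¹ = b
    rw [mul_inv_rev, inv_inv, inv_mul_cancel_left]
  map_mul' := by
    rintro ⟨⟨a, b⟩, h⟩ ⟨⟨c, d⟩, k⟩
    refine Prod.ext (Prod.ext rfl ?_) rfl
    show (a * c * (b * d))⁻¹ = (a * b)⁻¹ * (c * d)⁻¹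
    rw [← mul_inv]
    congr 1
    simp only [mul_assoc, mul_comm, mul_left_comm]

theorem rhoA_apply (a b : C) (h : H') : rhoA ((a, b), h) = ((b, (a * b)⁻¹), h) := rfl

theorem rhoA_pow_three : (rhoA : MulAut ((C × C) × H')) ^ 3 = 1 := by
  ext1 ⟨⟨a, b⟩, h⟩
  show rhoA (rhoA (rhoA ((a, b), h))) = ((a, b), h)
  rw [rhoA_apply, rhoA_apply, rhoA_apply]
  refine Prod.ext (Prod.ext ?_ ?_) rfl
  · show (b * (a * b)⁻¹)⁻¹ = a
    rw [mul_inv_rev, inv_inv, mul_inv_cancel_right]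
  · show ((a * b)⁻¹ * (b * (a * b)⁻¹)⁻¹)⁻¹ = b
    have h0 : (b * (a * b)⁻¹)⁻¹ = a := by rw [mul_inv_rev, inv_inv, mul_inv_cancel_right]
    rw [h0, mul_inv_rev, inv_inv, inv_mul_cancel_left]

/-- The coordinate swap. -/
def sigA : MulAut ((C × C) × H') where
  toFun q := ((q.1.2, q.1.1), q.2)
  invFun q := ((q.1.2, q.1.1), q.2)
  left_inv _ := rfl
  right_inv _ := rfl
  map_mul' _ _ := rfl

/-- Order four. -/
def tauA : MulAut ((C × C) × H') where
  toFun q := ((q.1.2⁻¹, q.1.1), q.2)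
  invFun q := ((q.1.2, q.1.1⁻¹), q.2)
  left_inv := by
    rintro ⟨⟨a, b⟩, h⟩
    refine Prod.ext (Prod.ext rfl ?_) rfl
    exact inv_inv b
  right_inv := by
    rintro ⟨⟨a, b⟩, h⟩
    refine Prod.ext (Prod.ext ?_ rfl) rfl
    exact inv_inv a
  map_mul' := by
    rintro ⟨⟨a, b⟩, h⟩ ⟨⟨c, d⟩, k⟩
    refine Prod.ext (Prod.ext ?_ rfl) rfl
    exact mul_inv b d

theorem sigA_apply (a b : C) (h : H') : sigA ((a, b), h) = ((b, a), h) := rfl
theorem tauA_apply (a b : C) (h : H') : tauA ((a, b), h) = ((b⁻¹, a), h) := rfl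

theorem sigA_sq : (sigA : MulAut ((C × C) × H')) ^ 2 = 1 := by
  ext1 ⟨⟨a, b⟩, h⟩
  rfl

theorem tauA_pow_four : (tauA : MulAut ((C × C) × H')) ^ 4 = 1 := by
  ext1 ⟨⟨a, b⟩, h⟩
  show tauA (tauA (tauA (tauA ((a, b), h)))) = ((a, b), h)
  rw [tauA_apply, tauA_apply, tauA_apply, tauA_apply]
  simp only [inv_inv]

theorem sig_tau : (sigA : MulAut ((C × C) × H')) * tauA * sigA * tauA = 1 := by
  ext1 ⟨⟨a, b⟩, h⟩
  show sigA (tauA (sigA (tauA ((a, b), h)))) = ((a, b), h)
  rw [tauA_apply, sigA_apply, tauA_apply, sigA_apply]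
  simp only [inv_inv]

end Aut

section Sec

variable {X : Type*} [CommGroup X] [Finite X] {p : ℕ} [hp : Fact p.Prime]

/-- Coordinates of a finite abelian `p`-group. -/
theorem exists_coord (hX : IsPGroup p X) :
    ∃ (ι : Type) (_ : Fintype ι) (e : ι → ℕ), (∀ i, 0 < e i) ∧
      Nonempty (X ≃* ((i : ι) → Multiplicative (ZMod (p ^ e i)))) := by
  classical
  obtain ⟨ι, hι, n, hn, ⟨φ⟩⟩ := CommGroup.equiv_prod_multiplicative_zmod_of_finite X
  have key : ∀ i, ∃ b, 0 < b ∧ n i = p ^ b := by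
    intro i
    let a₀ : Multiplicative (ZMod (n i)) := Multiplicative.ofAdd 1
    obtain ⟨k, hk⟩ := hX (φ.symm (Pi.mulSingle i a₀))
    have h1 : (Pi.mulSingle i a₀ : (i : ι) → Multiplicative (ZMod (n i))) ^ (p ^ k) = 1 := by
      rw [← map_pow φ.symm] at hk
      exact φ.symm.injective (by rw [hk, map_one])
    have h2 := congrFun h1 i
    have h3 : a₀ ^ (p ^ k) = 1 := by
      simpa using h2
    have h4 : ((p ^ k : ℕ) : ZMod (n i)) = 0 := by
      have := congrArg Multiplicative.toAdd h3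
      have h5 : (p ^ k) • (1 : ZMod (n i)) = 0 := this
      rw [nsmul_eq_mul, mul_one] at h5
      exact h5
    rw [ZMod.natCast_eq_zero_iff] at h4
    obtain ⟨b, -, hb⟩ := (Nat.dvd_prime_pow hp.out).1 h4
    refine ⟨b, ?_, hb⟩
    rcases Nat.eq_zero_or_pos b with rfl | h
    · have := hn i
      rw [hb, pow_zero] at this
      exact absurd this (lt_irrefl _)
    · exact h
  choose e he hne using key
  have hcast : ∀ i, Multiplicative (ZMod (n i)) ≃* Multiplicative (ZMod (p ^ e i)) := fun i =>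
    (ZMod.ringEquivCongr (hne i)).toAddEquiv.toMultiplicative
  exact ⟨ι, hι, e, he, ⟨φ.trans (MulEquiv.piCongrRight hcast)⟩⟩

/-- Equal invariants give a homocyclic factor. -/
theorem sec_of_no_factor (hX : IsPGroup p X)
    (hno : ¬ ∃ (n : ℕ) (H : Type) (_ : CommGroup H), 0 < n ∧
      Nonempty (X ≃* (Multiplicative (ZMod (p ^ n)) × Multiplicative (ZMod (p ^ n))) × H))
    (H : Subgroup (MulAut X)) (hH : (Nat.card H).Coprime p) :
    IsMulCommutative H ∧ ∀ a ∈ H, a ^ (p - 1) = 1 := by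
  classical
  obtain ⟨ι, hι, e, he, ⟨φ⟩⟩ := exists_coord hX
  have hinj : Function.Injective e := by
    intro i j hij
    by_contra hne
    apply hno
    have hcg : ∀ a b : ℕ, a = b → Nonempty (Multiplicative (ZMod (p ^ a)) ≃* Multiplicative (ZMod (p ^ b))) := by
      rintro a _ rfl
      exact ⟨MulEquiv.refl _⟩
    obtain ⟨fj⟩ := hcg (e j) (e i) hij.symm
    exact ⟨e i, _, inferInstance, he i, ⟨φ.trans (splitEquiv (Z := fun k => Multiplicative (ZMod (p ^ e k))) hne (MulEquiv.refl _) fj)⟩⟩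
  exact sec_of_flags hX (UU_flag φ hinj) (UU_top φ) H hH

omit [Finite X] hp in
theorem _root_.Cfsg.Agent.H24.Sup.pgroup_zpowers {G : Type*} [Group G] (g : G) (k : ℕ) (h : g ^ (2 ^ k) = 1) :
    IsPGroup 2 (Subgroup.zpowers g) := by
  rintro ⟨_, j, rfl⟩
  refine ⟨k, Subtype.ext ?_⟩
  show (g ^ j) ^ (2 ^ k) = 1
  rw [← zpow_natCast, ← zpow_mul, mul_comm, zpow_mul, zpow_natCast, h, one_zpow]

/-- The automorphisms of a group with a homocyclic factor. -/
theorem no_factor_of_sec (hsec : ∀ H : Subgroup (MulAut X), (Nat.card H).Coprime p →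
      IsMulCommutative H ∧ ∀ a ∈ H, a ^ (p - 1) = 1) :
    ¬ ∃ (n : ℕ) (H : Type) (_ : CommGroup H), 0 < n ∧
      Nonempty (X ≃* (Multiplicative (ZMod (p ^ n)) × Multiplicative (ZMod (p ^ n))) × H) := by
  rintro ⟨n, H', _, hn, ⟨e⟩⟩
  have hpn : 1 < p ^ n := Nat.one_lt_pow hn.ne' hp.out.one_lt
  haveI : Fact (1 < p ^ n) := ⟨hpn⟩
  let a₀ : Multiplicative (ZMod (p ^ n)) := Multiplicative.ofAdd 1
  have ha₀ : a₀ ≠ 1 := by
    intro h
    have : (1 : ZMod (p ^ n)) = 0 := congrArg Multiplicative.toAdd h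
    exact one_ne_zero this
  let q₀ : (Multiplicative (ZMod (p ^ n)) × Multiplicative (ZMod (p ^ n))) × H' := ((a₀, 1), 1)
  let Ψ : MulAut ((Multiplicative (ZMod (p ^ n)) × Multiplicative (ZMod (p ^ n))) × H') ≃* MulAut X :=
    MulAut.congr e.symm
  by_cases hp2 : p = 2
  · subst hp2
    let r := Ψ rhoA
    have hr3 : r ^ 3 = 1 := by
      show Ψ rhoA ^ 3 = 1
      rw [← map_pow, rhoA_pow_three, map_one]
    have hcop : (Nat.card (Subgroup.zpowers r)).Coprime 2 := by
      rw [Nat.card_zpowers]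
      exact Nat.Coprime.coprime_dvd_left (orderOf_dvd_of_pow_eq_one hr3) (by norm_num)
    have h1 := (hsec _ hcop).2 r (Subgroup.mem_zpowers r)
    rw [show 2 - 1 = 1 from rfl, pow_one] at h1
    have h2 : rhoA (C := Multiplicative (ZMod (2 ^ n))) (H' := H') = 1 := Ψ.injective (by rw [map_one]; exact h1)
    have h3 := congrArg (fun f => (f q₀).1.1) h2
    exact ha₀ h3.symm
  · let s := Ψ sigA
    let t := Ψ tauA
    have hs2 : s ^ 2 = 1 := by
      show Ψ sigA ^ 2 = 1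
      rw [← map_pow, sigA_sq, map_one]
    have ht4 : t ^ 4 = 1 := by
      show Ψ tauA ^ 4 = 1
      rw [← map_pow, tauA_pow_four, map_one]
    have hst : s * t * s * t = 1 := by
      show Ψ sigA * Ψ tauA * Ψ sigA * Ψ tauA = 1
      rw [← map_mul, ← map_mul, ← map_mul, sig_tau, map_one]
    have hsi : s⁻¹ = s := by
      rw [inv_eq_iff_mul_eq_one, ← pow_two, hs2]
    have hsts : s * t * s⁻¹ = t⁻¹ := by
      rw [hsi]
      exact eq_inv_of_mul_eq_one_left hst
    have hconj : ∀ y ∈ Subgroup.zpowers t, s * y * s⁻¹ ∈ Subgroup.zpowers t := by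
      rintro _ ⟨j, rfl⟩
      rw [← conj_zpow, hsts]
      exact Subgroup.zpow_mem _ (Subgroup.inv_mem _ (Subgroup.mem_zpowers t)) j
    have hnorm : Subgroup.zpowers s ≤ Subgroup.normalizer (Subgroup.zpowers t : Set (MulAut X)) := by
      rw [Subgroup.zpowers_le, Subgroup.mem_normalizer_iff]
      intro y
      constructor
      · exact hconj y
      · intro hy
        have := hconj _ hy
        have h2 : s * (s * y * s⁻¹) * s⁻¹ = y := by
          rw [hsi]
          calc s * (s * y * s) * s = (s ^ 2) * y * (s ^ 2) := by simp only [pow_two, mul_assoc]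
            _ = y := by rw [hs2]; group
        rwa [h2] at this
    have hpg : IsPGroup 2 (Subgroup.zpowers s ⊔ Subgroup.zpowers t : Subgroup (MulAut X)) :=
      IsPGroup.to_sup_of_normal_right' (pgroup_zpowers s 1 hs2) (pgroup_zpowers t 2 ht4) hnorm
    obtain ⟨k, hk⟩ := IsPGroup.iff_card.1 hpg
    have hcop : (Nat.card (Subgroup.zpowers s ⊔ Subgroup.zpowers t : Subgroup (MulAut X))).Coprime p := by
      rw [hk]
      exact Nat.Coprime.pow_left k ((Nat.coprime_primes Nat.prime_two hp.out).2 (Ne.symm hp2))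
    have hcm := (hsec _ hcop).1
    have h1 := hcm.is_comm.comm (⟨s, Subgroup.mem_sup_left (Subgroup.mem_zpowers s)⟩ : (Subgroup.zpowers s ⊔ Subgroup.zpowers t : Subgroup (MulAut X)))
      ⟨t, Subgroup.mem_sup_right (Subgroup.mem_zpowers t)⟩
    have h2 : s * t = t * s := congrArg Subtype.val h1
    have h3 : sigA * tauA = tauA * sigA (C := Multiplicative (ZMod (p ^ n))) (H' := H') :=
      Ψ.injective (by rw [map_mul, map_mul]; exact h2)
    have h4 := congrArg (fun f => (f q₀).1.1) h3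
    have h5 : a₀ = a₀⁻¹ := h4
    have h6 : a₀ * a₀ = 1 := by
      nth_rewrite 1 [h5]
      exact inv_mul_cancel a₀
    have h7 : ((2 : ℕ) : ZMod (p ^ n)) = 0 := by
      have := congrArg Multiplicative.toAdd h6
      have h8 : (1 : ZMod (p ^ n)) + 1 = 0 := this
      push_cast
      rw [← h8]
      norm_num
    rw [ZMod.natCast_eq_zero_iff] at h7
    have h9 : p ∣ 2 := (dvd_pow_self p hn.ne').trans h7
    exact hp2 ((Nat.prime_dvd_prime_iff_eq hp.out Nat.prime_two).1 h9)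

theorem sec_iff (hX : IsPGroup p X) :
    (∀ H : Subgroup (MulAut X), (Nat.card H).Coprime p → IsMulCommutative H ∧ ∀ a ∈ H, a ^ (p - 1) = 1) ↔
    ¬ ∃ (n : ℕ) (H : Type) (_ : CommGroup H), 0 < n ∧
      Nonempty (X ≃* (Multiplicative (ZMod (p ^ n)) × Multiplicative (ZMod (p ^ n))) × H) :=
  ⟨no_factor_of_sec, fun h H hH => sec_of_no_factor hX h H hH⟩

end Sec

variable {Ω : Type*} [Group Ω] {S : Subgroup Ω} {p : ℕ}

theorem resistant_of_comm [Finite S] [Fact p.Prime] (hS : IsPGroup p S) (hab : IsMulCommutative S)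
    (F : FusionSystem S) (hF : F.IsSaturated p) : F.IsNormal S := by
  refine isNormal_of_aut hS hF le_rfl ?_
  intro P hP
  have hPS : P = S := by
    rcases hP with rfl | hP
    · rfl
    have hPS' : P ≤ S := hP.1.1
    apply le_antisymm hPS'
    intro g hg
    apply hP.1.2 P (isConj_refl hPS')
    refine ⟨hg, ?_⟩
    show _ ∈ Subgroup.centralizer (P : Set Ω)
    rw [Subgroup.mem_centralizer_iff]
    intro y hy
    exact congrArg Subtype.val (hab.is_comm.comm (⟨y, hPS' hy⟩ : S) ⟨g, hg⟩)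
  obtain rfl := hPS
  refine ⟨le_rfl, fun α _ => ?_⟩
  rw [Subgroup.subgroupOf_self]
  exact Subgroup.map_top_of_surjective _ α.surjective

theorem abelian_iff [Finite S] [Fact p.Prime] (hS : IsPGroup p S) (hab : IsMulCommutative S) :
    (∀ F : FusionSystem S, F.IsSaturated p → SC F) ↔
      ¬ ∃ (n : ℕ) (H : Type) (_ : CommGroup H), 0 < n ∧
        Nonempty (↥S ≃* (Multiplicative (ZMod (p ^ n)) × Multiplicative (ZMod (p ^ n))) × H) := by
  letI : CommGroup S := { (inferInstance : Group S) with mul_comm := hab.is_comm.comm }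
  have h1 := sec_iff (X := S) hS
  rw [supersoluble_iff hS]
  constructor
  · intro h
    exact h1.1 h.2
  · intro h
    exact ⟨resistant_of_comm hS hab, h1.2 h⟩

end Cfsg.Agent.H24.Sup
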