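import Mathlib

/-!
Two abstract lemmas on a cyclic group of automorphisms acting regularly:
a double count for equivariant pairings (`cl`) and the existence of a regular invariant subgroup
(`exists_regular`).
-/

set_option autoImplicit false

namespace Cfsg.Agent.H24.Suz

open scoped Classical

section CL

variable {X W : Type*} [CommGroup X] [CommGroup W] [Finite X] [Finite W]

theorem pair_pow (τ : MulAut X) (ζ : MulAut W) (D : X →* (W →* W))
    (hD : ∀ x w, D (τ x) (ζ w) = ζ (D x w)) (j : ℕ) (x : X) (w : W) :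
    D ((τ ^ j) x) ((ζ ^ j) w) = (ζ ^ j) (D x w) := by
  induction j generalizing x w with
  | zero => simp
  | succ j ih =>
    rw [pow_succ', pow_succ', MulAut.mul_apply, MulAut.mul_apply, hD, ih, MulAut.mul_apply]

/-- The double count. -/
theorem cl (hX : IsPGroup 2 X) (hW : IsPGroup 2 W) (hcard : Nat.card X = Nat.card W)
    (τ : MulAut X) (ζ : MulAut W)
    (hτ : ∀ x y : X, x ≠ 1 → y ≠ 1 → ∃ j : ℕ, (τ ^ j) x = y)
    (hζ : ∀ x y : W, x ≠ 1 → y ≠ 1 → ∃ j : ℕ, (ζ ^ j) x = y)
    (D : X →* (W →* W)) (hD : ∀ x w, D (τ x) (ζ w) = ζ (D x w))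
    (i : ℕ) (x₀ : X) (w₀ : W) (hx₀ : x₀ ≠ 1) (hw₀ : w₀ ≠ 1) (h0 : D x₀ w₀ = (ζ ^ i) w₀) :
    (∀ x w, x ≠ 1 → w ≠ 1 → D x w ≠ 1) ∧
      ∀ x w w', x ≠ 1 → w ≠ 1 → w' ≠ 1 → D x w = (ζ ^ i) w → D x w' = (ζ ^ i) w' → w = w' := by
  have : Fact (Nat.Prime 2) := ⟨Nat.prime_two⟩
  have : Fintype X := Fintype.ofFinite X
  have : Fintype W := Fintype.ofFinite W
  -- the relation
  let r : X → W → Prop := fun x w => D x w = (ζ ^ i) w
  let sX : Finset X := Finset.univ.filter (· ≠ 1)
  let sW : Finset W := Finset.univ.filter (· ≠ 1)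
  have hcomm : ∀ j, ∀ w, (ζ ^ j) ((ζ ^ i) w) = (ζ ^ i) ((ζ ^ j) w) := by
    intro j w
    rw [← MulAut.mul_apply, ← MulAut.mul_apply, ← pow_add, ← pow_add, add_comm]
  -- transport of the relation
  have hr : ∀ j x w, r x w → r ((τ ^ j) x) ((ζ ^ j) w) := by
    intro j x w h
    show D _ _ = _
    rw [pair_pow τ ζ D hD, show D x w = (ζ ^ i) w from h, hcomm]
  have hr' : ∀ j x w, r ((τ ^ j) x) ((ζ ^ j) w) → r x w := by
    intro j x w h
    have h1 : D ((τ ^ j) x) ((ζ ^ j) w) = (ζ ^ i) ((ζ ^ j) w) := h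
    rw [pair_pow τ ζ D hD, ← hcomm] at h1
    exact (ζ ^ j).injective h1
  -- the fibres over `x`
  let fx : X → Finset W := fun x => sW.filter (r x)
  let fw : W → Finset X := fun w => sX.filter (fun x => r x w)
  have hfx : ∀ x, x ≠ 1 → (fx x).card = (fx x₀).card := by
    intro x hx
    obtain ⟨j, rfl⟩ := hτ x₀ x hx₀ hx
    symm
    refine Finset.card_bij (fun w _ => (ζ ^ j) w) ?_ ?_ ?_
    · intro w hw
      obtain ⟨h1, h2⟩ := Finset.mem_filter.mp hw
      refine Finset.mem_filter.mpr ⟨Finset.mem_filter.mpr ⟨Finset.mem_univ _, ?_⟩, hr j _ _ h2⟩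
      have := (Finset.mem_filter.mp h1).2
      simpa using this
    · intro a _ b _ hab
      exact (ζ ^ j).injective hab
    · intro b hb
      obtain ⟨h1, h2⟩ := Finset.mem_filter.mp hb
      refine ⟨(ζ ^ j).symm b, ?_, by simp⟩
      refine Finset.mem_filter.mpr ⟨Finset.mem_filter.mpr ⟨Finset.mem_univ _, ?_⟩, ?_⟩
      · have := (Finset.mem_filter.mp h1).2
        intro h
        apply this
        have h3 := congrArg (ζ ^ j) h
        simpa using h3
      · refine hr' j _ _ ?_
        simpa using h2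
  have hfw : ∀ w, w ≠ 1 → (fw w).card = (fw w₀).card := by
    intro w hw
    obtain ⟨j, rfl⟩ := hζ w₀ w hw₀ hw
    symm
    refine Finset.card_bij (fun x _ => (τ ^ j) x) ?_ ?_ ?_
    · intro x hx
      obtain ⟨h1, h2⟩ := Finset.mem_filter.mp hx
      refine Finset.mem_filter.mpr ⟨Finset.mem_filter.mpr ⟨Finset.mem_univ _, ?_⟩, hr j _ _ h2⟩
      have := (Finset.mem_filter.mp h1).2
      simpa using this
    · intro a _ b _ hab
      exact (τ ^ j).injective hab
    · intro b hb
      obtain ⟨h1, h2⟩ := Finset.mem_filter.mp hb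
      refine ⟨(τ ^ j).symm b, ?_, by simp⟩
      refine Finset.mem_filter.mpr ⟨Finset.mem_filter.mpr ⟨Finset.mem_univ _, ?_⟩, ?_⟩
      · have := (Finset.mem_filter.mp h1).2
        intro h
        apply this
        have h3 := congrArg (τ ^ j) h
        simpa using h3
      · refine hr' j _ _ ?_
        simpa using h2
  -- the double count
  have hcnt : ∑ x ∈ sX, (fx x).card = ∑ w ∈ sW, (fw w).card := by
    have := Finset.sum_card_bipartiteAbove_eq_sum_card_bipartiteBelow r (s := sX) (t := sW)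
    exact this
  have hsX : sX.card = Nat.card X - 1 := by
    have h : sX = Finset.univ.erase 1 := Finset.filter_ne' _ _
    rw [h, Finset.card_erase_of_mem (Finset.mem_univ _), Finset.card_univ, Nat.card_eq_fintype_card]
  have hsW : sW.card = Nat.card W - 1 := by
    have h : sW = Finset.univ.erase 1 := Finset.filter_ne' _ _
    rw [h, Finset.card_erase_of_mem (Finset.mem_univ _), Finset.card_univ, Nat.card_eq_fintype_card]
  have h1 : ∑ x ∈ sX, (fx x).card = sX.card * (fx x₀).card := by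
    rw [Finset.sum_congr rfl (fun x hx => hfx x (Finset.mem_filter.mp hx).2), Finset.sum_const, smul_eq_mul]
  have h2 : ∑ w ∈ sW, (fw w).card = sW.card * (fw w₀).card := by
    rw [Finset.sum_congr rfl (fun w hw => hfw w (Finset.mem_filter.mp hw).2), Finset.sum_const, smul_eq_mul]
  have hpos : 0 < sX.card := Finset.card_pos.mpr ⟨x₀, Finset.mem_filter.mpr ⟨Finset.mem_univ _, hx₀⟩⟩
  have hac : (fx x₀).card = (fw w₀).card := by
    have h3 := hcnt
    rw [h1, h2, hsW, ← hcard, ← hsX] at h3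
    exact Nat.eq_of_mul_eq_mul_left hpos h3
  -- the fibre over `x` is a subgroup minus the identity
  have hfxs : ∀ x : X, ∃ s, (fx x).card + 1 = 2 ^ s := by
    intro x
    let f : W →* W := D x * ((ζ ^ i).toMonoidHom)⁻¹
    have hmem : ∀ w, w ∈ f.ker ↔ r x w := by
      intro w
      rw [MonoidHom.mem_ker]
      show D x w * ((ζ ^ i) w)⁻¹ = 1 ↔ _
      rw [mul_inv_eq_one]
    have : Finite f.ker := inferInstance
    have hk : IsPGroup 2 f.ker := hW.to_subgroup _
    obtain ⟨s, hs⟩ := IsPGroup.iff_card.mp hk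
    refine ⟨s, ?_⟩
    rw [← hs]
    have : Fintype f.ker := Fintype.ofFinite _
    rw [Nat.card_eq_fintype_card]
    have e : (fx x).card + 1 = (Finset.univ.filter (fun w => w ∈ f.ker)).card := by
      have e1 : Finset.univ.filter (fun w => w ∈ f.ker) = insert 1 (fx x) := by
        ext w
        simp only [Finset.mem_filter, Finset.mem_univ, true_and, Finset.mem_insert]
        constructor
        · intro hw
          by_cases hw1 : w = 1
          · exact Or.inl hw1
          · exact Or.inr (Finset.mem_filter.mpr ⟨Finset.mem_filter.mpr ⟨Finset.mem_univ _, hw1⟩, (hmem w).1 hw⟩)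
        · rintro (rfl | hw)
          · exact f.ker.one_mem
          · exact (hmem w).2 (Finset.mem_filter.mp hw).2
      rw [e1, Finset.card_insert_of_notMem]
      intro h1
      exact (Finset.mem_filter.mp (Finset.mem_filter.mp h1).1).2 rfl
    rw [e]
    exact (Fintype.card_subtype _).symm
  -- the fibre over `w` is a coset of a subgroup
  have hfwk : ∀ w, w ≠ 1 → ∀ x₁ ∈ fw w, ∀ x, D x w = 1 → x₁ * x ∈ fw w := by
    intro w hw x₁ hx₁ x hx
    obtain ⟨-, h2⟩ := Finset.mem_filter.mp hx₁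
    have h3 : D (x₁ * x) w = (ζ ^ i) w := by
      rw [map_mul, MonoidHom.mul_apply, hx, mul_one]
      exact h2
    refine Finset.mem_filter.mpr ⟨Finset.mem_filter.mpr ⟨Finset.mem_univ _, ?_⟩, h3⟩
    intro h4
    rw [h4, map_one, MonoidHom.one_apply] at h3
    exact hw ((ζ ^ i).injective (h3.symm.trans (map_one _).symm))
  have hx₀mem : x₀ ∈ fw w₀ := Finset.mem_filter.mpr ⟨Finset.mem_filter.mpr ⟨Finset.mem_univ _, hx₀⟩, h0⟩
  have hcoset : ∃ t, (fw w₀).card = 2 ^ t := by
    let g : X →* W := (MonoidHom.eval w₀).comp D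
    have hg : ∀ x, g x = D x w₀ := fun x => rfl
    have : Finite g.ker := inferInstance
    have hk : IsPGroup 2 g.ker := hX.to_subgroup _
    obtain ⟨t, ht⟩ := IsPGroup.iff_card.mp hk
    refine ⟨t, ?_⟩
    rw [← ht]
    have : Fintype g.ker := Fintype.ofFinite _
    rw [Nat.card_eq_fintype_card, Fintype.card_subtype]
    refine Finset.card_bij (fun x _ => x₀⁻¹ * x) ?_ ?_ ?_
    · intro x hx
      obtain ⟨-, h2⟩ := Finset.mem_filter.mp hx
      refine Finset.mem_filter.mpr ⟨Finset.mem_univ _, ?_⟩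
      rw [MonoidHom.mem_ker, map_mul, map_inv, hg, hg]
      have h3 : D x w₀ = (ζ ^ i) w₀ := h2
      rw [h0, h3, inv_mul_cancel]
    · intro a _ b _ hab
      exact mul_left_cancel hab
    · intro k hk
      have hk' : D k w₀ = 1 := MonoidHom.mem_ker.mp (Finset.mem_filter.mp hk).2
      exact ⟨x₀ * k, hfwk w₀ hw₀ x₀ hx₀mem k hk', by simp⟩
  obtain ⟨t, ht⟩ := hcoset
  obtain ⟨s, hs⟩ := hfxs x₀
  have hc1 : (fw w₀).card = 1 := by
    rw [hac] at hs
    rw [ht] at hs ⊢
    rcases Nat.eq_zero_or_pos t with rfl | ht0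
    · simp
    · exfalso
      rcases Nat.eq_zero_or_pos s with rfl | hs0
      · simp at hs
      · have h2t : 2 ∣ 2 ^ t := dvd_pow_self 2 ht0.ne'
        have h2s : 2 ∣ 2 ^ s := dvd_pow_self 2 hs0.ne'
        rw [← hs] at h2s
        omega
  have ha1 : (fx x₀).card = 1 := hac.trans hc1
  refine ⟨?_, ?_⟩
  · intro x w hx hw h
    have h3 : (fw w).card = 1 := (hfw w hw).trans hc1
    obtain ⟨x₁, hx₁⟩ := Finset.card_pos.mp (by omega : 0 < (fw w).card)
    have h4 := hfwk w hw x₁ hx₁ x h
    have h5 := Finset.card_le_one.mp h3.le _ h4 _ hx₁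
    exact hx (by simpa using h5)
  · intro x w w' hx hw hw' h h'
    have h3 : (fx x).card = 1 := (hfx x hx).trans ha1
    have m1 : w ∈ fx x := Finset.mem_filter.mpr ⟨Finset.mem_filter.mpr ⟨Finset.mem_univ _, hw⟩, h⟩
    have m2 : w' ∈ fx x := Finset.mem_filter.mpr ⟨Finset.mem_filter.mpr ⟨Finset.mem_univ _, hw'⟩, h'⟩
    exact Finset.card_le_one.mp h3.le _ m1 _ m2

end CL

section Regular

theorem frob_add {R : Type*} [CommRing R] (h : ∀ a : R, a + a = 0) (a b : R) (k : ℕ) :
    (a + b) ^ (2 ^ k) = a ^ (2 ^ k) + b ^ (2 ^ k) := by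
  induction k with
  | zero => simp
  | succ k ih =>
    rw [pow_succ 2 k, pow_mul, ih, pow_mul, pow_mul]
    generalize a ^ 2 ^ k = A
    generalize b ^ 2 ^ k = B
    have := h (A * B)
    linear_combination this

theorem card_le_of_pow_eq_self {R : Type*} [CommRing R] [IsDomain R] [Finite R] (q : ℕ) (hq : 1 < q)
    (h : ∀ y : R, y ^ q = y) : Nat.card R ≤ q := by
  have : Fintype R := Fintype.ofFinite R
  classical
  have hdeg : (Polynomial.X ^ q - Polynomial.X : Polynomial R).natDegree = q := by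
    rw [Polynomial.natDegree_sub_eq_left_of_natDegree_lt, Polynomial.natDegree_X_pow]
    rw [Polynomial.natDegree_X_pow, Polynomial.natDegree_X]
    exact hq
  have hP : (Polynomial.X ^ q - Polynomial.X : Polynomial R) ≠ 0 := by
    intro h0
    rw [h0, Polynomial.natDegree_zero] at hdeg
    omega
  have h1 : (Finset.univ : Finset R) ⊆ (Polynomial.X ^ q - Polynomial.X : Polynomial R).roots.toFinset := by
    intro y _
    rw [Multiset.mem_toFinset, Polynomial.mem_roots hP]
    simp [Polynomial.IsRoot, h y]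
  have h2 := Finset.card_le_card h1
  have h3 := (Multiset.toFinset_card_le (Polynomial.X ^ q - Polynomial.X : Polynomial R).roots).trans
    (Polynomial.card_roots' (Polynomial.X ^ q - Polynomial.X : Polynomial R))
  rw [Finset.card_univ] at h2
  rw [Nat.card_eq_fintype_card]
  omega

theorem core {A : Type*} [AddCommGroup A] [Finite A] [Nontrivial A] (h2 : ∀ a : A, a + a = 0)
    (t : AddMonoid.End A)
    (hmin : ∀ B : AddSubgroup A, (∀ b ∈ B, t b ∈ B) → B = ⊥ ∨ B = ⊤)
    (n : ℕ) (hn : 0 < n) (ht : t ^ (2 ^ n) = t) : Nat.card A ≤ 2 ^ n := by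
  let S : Subring (AddMonoid.End A) := Subring.closure {t}
  have hcomm : ∀ x ∈ ({t} : Set (AddMonoid.End A)), ∀ y ∈ ({t} : Set (AddMonoid.End A)), x * y = y * x := by
    rintro x rfl y rfl
    rfl
  let cr : CommRing S := Subring.closureCommRingOfComm hcomm
  have htS : t ∈ S := Subring.subset_closure rfl
  let T : S := ⟨t, htS⟩
  have hcommT : ∀ a : S, (a : AddMonoid.End A) * t = t * a := by
    intro a
    have := mul_comm a T
    exact congrArg Subtype.val this
  have hmulapply : ∀ (a b : S) (x : A), ((a * b : S) : AddMonoid.End A) x = (a : AddMonoid.End A) ((b : AddMonoid.End A) x) :=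
    fun a b x => rfl
  have hadd : ∀ a : S, a + a = 0 := by
    intro a
    apply Subtype.ext
    apply AddMonoidHom.ext
    intro x
    exact h2 _
  -- kernels
  have hker : ∀ a : S, a ≠ 0 → ∀ x : A, (a : AddMonoid.End A) x = 0 → x = 0 := by
    intro a ha x hx
    let f : A →+ A := (a : AddMonoid.End A)
    have hf : ∀ y, f y = (a : AddMonoid.End A) y := fun _ => rfl
    rcases hmin f.ker (fun b hb => by
      rw [AddMonoidHom.mem_ker] at hb ⊢
      have h3 := DFunLike.congr_fun (hcommT a) b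
      have h4 : f (t b) = t (f b) := h3
      rw [h4, hb, map_zero]) with h | h
    · have : x ∈ f.ker := AddMonoidHom.mem_ker.mpr hx
      rw [h] at this
      exact (AddSubgroup.mem_bot).mp this
    · exfalso
      apply ha
      apply Subtype.ext
      apply AddMonoidHom.ext
      intro y
      have : y ∈ f.ker := by rw [h]; trivial
      exact AddMonoidHom.mem_ker.mp this
  have hnt : Nontrivial S := by
    obtain ⟨x, hx⟩ := exists_ne (0 : A)
    refine ⟨⟨1, 0, fun h => hx ?_⟩⟩
    have := DFunLike.congr_fun (congrArg Subtype.val h) x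
    exact this
  have hnzd : NoZeroDivisors S := by
    refine ⟨fun {a b} hab => ?_⟩
    by_contra hcon
    push Not at hcon
    obtain ⟨ha, hb⟩ := hcon
    apply hb
    apply Subtype.ext
    apply AddMonoidHom.ext
    intro x
    apply hker a ha
    have := DFunLike.congr_fun (congrArg Subtype.val hab) x
    exact this
  have hdom : IsDomain S := NoZeroDivisors.to_isDomain S
  obtain ⟨x₀, hx₀⟩ := exists_ne (0 : A)
  let ev : S → A := fun a => (a : AddMonoid.End A) x₀
  have hevi : Function.Injective ev := by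
    intro a b hab
    by_contra hne
    have h3 : a + b ≠ 0 := by
      intro h4
      apply hne
      have h5 := hadd b
      have h6 : a = -b := eq_neg_of_add_eq_zero_left h4
      have h7 : b = -b := eq_neg_of_add_eq_zero_left h5
      rw [h6, ← h7]
    apply hx₀
    apply hker _ h3
    have h5 : ((a + b : S) : AddMonoid.End A) x₀ = ev a + ev b := rfl
    rw [h5, hab]
    exact h2 _
  let I : AddSubgroup A :=
    { carrier := Set.range ev
      zero_mem' := ⟨0, rfl⟩
      add_mem' := by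
        rintro _ _ ⟨a, rfl⟩ ⟨b, rfl⟩
        exact ⟨a + b, rfl⟩
      neg_mem' := by
        rintro _ ⟨a, rfl⟩
        exact ⟨-a, rfl⟩ }
  have hevs : Function.Surjective ev := by
    rcases hmin I (by
      rintro _ ⟨a, rfl⟩
      exact ⟨T * a, rfl⟩) with h | h
    · exfalso
      have h3 : x₀ ∈ I := ⟨1, rfl⟩
      rw [h] at h3
      exact hx₀ (AddSubgroup.mem_bot.mp h3)
    · intro y
      have : y ∈ I := by rw [h]; trivial
      exact this
  have hfin : Finite S := Finite.of_injective ev hevi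
  have hcard : Nat.card A = Nat.card S := (Nat.card_congr (Equiv.ofBijective ev ⟨hevi, hevs⟩)).symm
  rw [hcard]
  have hq : 1 < 2 ^ n := Nat.one_lt_two_pow hn.ne'
  refine card_le_of_pow_eq_self (2 ^ n) hq ?_
  rintro ⟨y, hy⟩
  have hpow : ∀ (a : S) (k : ℕ), ((a ^ k : S) : AddMonoid.End A) = (a : AddMonoid.End A) ^ k := fun a k => rfl
  induction hy using Subring.closure_induction with
  | mem x hx =>
    rw [Set.mem_singleton_iff] at hx
    subst hx
    apply Subtype.ext
    rw [hpow]
    exact ht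
  | zero =>
    apply Subtype.ext
    rw [hpow]
    exact zero_pow (by positivity)
  | one =>
    apply Subtype.ext
    rw [hpow]
    exact one_pow _
  | add a b ha hb iha ihb =>
    have := frob_add hadd ⟨a, ha⟩ ⟨b, hb⟩ n
    have h5 : (⟨a + b, Subring.add_mem _ ha hb⟩ : S) = ⟨a, ha⟩ + ⟨b, hb⟩ := rfl
    rw [h5, this, iha, ihb]
  | neg a ha iha =>
    have h5 : (⟨-a, Subring.neg_mem _ ha⟩ : S) = ⟨a, ha⟩ := by
      have h6 := hadd ⟨a, ha⟩
      exact (eq_neg_of_add_eq_zero_left h6).symm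
    rw [h5]
    exact iha
  | mul a b ha hb iha ihb =>
    have h5 : (⟨a * b, Subring.mul_mem _ ha hb⟩ : S) = ⟨a, ha⟩ * ⟨b, hb⟩ := rfl
    rw [h5, mul_pow, iha, ihb]

theorem exists_regular {V : Type*} [CommGroup V] [Finite V] [Nontrivial V] (h2 : ∀ v : V, v * v = 1)
    (τ : MulAut V) (n m : ℕ) (hn : 0 < n) (hq : 2 ^ n = m + 1) (hτm : τ ^ m = 1)
    (hfree : ∀ (i : ℕ) (v : V), v ≠ 1 → (τ ^ i) v = v → m ∣ i) :
    ∃ X : Subgroup V, X ≠ ⊥ ∧ (∀ x ∈ X, τ x ∈ X) ∧
      (∀ x ∈ X, ∀ y ∈ X, x ≠ 1 → y ≠ 1 → ∃ i, (τ ^ i) x = y) ∧ Nat.card X = m + 1 := by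
  obtain ⟨X, ⟨hX1, hX2⟩, hXmin⟩ := (wellFounded_lt (α := Subgroup V)).has_min
    {X : Subgroup V | X ≠ ⊥ ∧ ∀ x ∈ X, τ x ∈ X} ⟨⊤, top_ne_bot, fun _ _ => trivial⟩
  have hXnt : Nontrivial X := by
    rw [Subgroup.nontrivial_iff_ne_bot]
    exact hX1
  -- the upper bound
  have hupper : Nat.card X ≤ m + 1 := by
    let A := Additive X
    let t0 : X →* X :=
      { toFun := fun x => ⟨τ x, hX2 x x.2⟩
        map_one' := by ext; simp
        map_mul' := by intro a b; ext; simp }
    let t : AddMonoid.End A := MonoidHom.toAdditive t0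
    have htv : ∀ (x : X) , ((Additive.toMul (t (Additive.ofMul x)) : X) : V) = τ x := fun _ => rfl
    have hA : ∀ a : A, a + a = 0 := by
      intro a
      apply Additive.toMul.injective
      apply Subtype.ext
      exact h2 _
    have htpow : ∀ (k : ℕ) (x : X), ((Additive.toMul ((t ^ k) (Additive.ofMul x)) : X) : V) = (τ ^ k) x := by
      intro k
      induction k with
      | zero => intro x; simp
      | succ k ih =>
        intro x
        rw [pow_succ', pow_succ', MulAut.mul_apply, ← ih]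
        rfl
    have hNT : Nontrivial A := inferInstanceAs (Nontrivial (Additive X))
    have hFin : Finite A := inferInstanceAs (Finite (Additive X))
    have := core (A := A) hA t ?_ n hn ?_
    · rw [← hq]
      exact this
    · intro B hB
      let B' : Subgroup V := (AddSubgroup.toSubgroup' B).map X.subtype
      have hB'mem : ∀ v, v ∈ B' ↔ ∃ h : v ∈ X, (Additive.ofMul (⟨v, h⟩ : X)) ∈ B := by
        intro v
        constructor
        · rintro ⟨u, hu, rfl⟩
          exact ⟨u.2, hu⟩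
        · rintro ⟨h, hh⟩
          exact ⟨⟨v, h⟩, hh, rfl⟩
      have hB'le : B' ≤ X := fun v hv => ((hB'mem v).1 hv).1
      by_cases hbot : B' = ⊥
      · left
        rw [eq_bot_iff]
        intro a ha
        have h3 : ((Additive.toMul a : X) : V) ∈ B' := (hB'mem _).2 ⟨(Additive.toMul a : X).2, ha⟩
        rw [hbot, Subgroup.mem_bot] at h3
        rw [AddSubgroup.mem_bot]
        apply Additive.toMul.injective
        exact Subtype.ext h3
      · right
        have h4 : B' = X := by
          by_contra hne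
          exact hXmin B' ⟨hbot, fun v hv => by
            obtain ⟨h, hh⟩ := (hB'mem v).1 hv
            exact (hB'mem _).2 ⟨hX2 v h, hB _ hh⟩⟩ (lt_of_le_of_ne hB'le hne)
        rw [eq_top_iff]
        intro a _
        have h3 : ((Additive.toMul a : X) : V) ∈ B' := by rw [h4]; exact (Additive.toMul a : X).2
        exact ((hB'mem _).1 h3).2
    · apply AddMonoidHom.ext
      intro a
      apply Additive.toMul.injective
      apply Subtype.ext
      have h5 := htpow (2 ^ n) (Additive.toMul a)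
      have h6 : (τ ^ (2 ^ n)) = τ := by
        rw [hq, pow_succ, hτm, one_mul]
      rw [h6] at h5
      exact h5
  -- the orbit
  have : Fintype V := Fintype.ofFinite V
  classical
  have hm0 : 0 < m := by
    have : 1 < 2 ^ n := Nat.one_lt_two_pow hn.ne'
    omega
  let T : Finset V := (Finset.univ.filter (· ∈ X)).erase 1
  have hTcard : T.card = Nat.card X - 1 := by
    rw [Finset.card_erase_of_mem (by simp [X.one_mem]), Nat.card_eq_fintype_card, Fintype.card_subtype]
  have hinv : ∀ (i : ℕ) (x : V), x ∈ X → (τ ^ i) x ∈ X := by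
    intro i x hx
    induction i with
    | zero => simpa using hx
    | succ i ih =>
      rw [pow_succ', MulAut.mul_apply]
      exact hX2 _ ih
  have horb : ∀ x ∈ X, x ≠ 1 → T = (Finset.range m).image (fun i => (τ ^ i) x) := by
    intro x hx hx1
    have hsub : (Finset.range m).image (fun i => (τ ^ i) x) ⊆ T := by
      intro y hy
      obtain ⟨i, -, rfl⟩ := Finset.mem_image.mp hy
      refine Finset.mem_erase.mpr ⟨?_, by simpa [hinv i x hx] using hinv i x hx⟩
      intro h
      exact hx1 (by simpa using h)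
    have hinj : Set.InjOn (fun i => (τ ^ i) x) (Finset.range m : Set ℕ) := by
      have hkey : ∀ i j, i ≤ j → j < m → (τ ^ i) x = (τ ^ j) x → i = j := by
        intro i j hij hj h
        obtain ⟨k, rfl⟩ := Nat.exists_eq_add_of_le hij
        have h3 : (τ ^ k) x = x := by
          apply (τ ^ i).injective
          rw [← MulAut.mul_apply, ← pow_add]
          exact h.symm
        have h4 := hfree k x hx1 h3
        have h5 : k = 0 := Nat.eq_zero_of_dvd_of_lt h4 (by omega)
        omega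
      intro i hi j hj h
      have hi' : i < m := by simpa using hi
      have hj' : j < m := by simpa using hj
      rcases le_total i j with hij | hij
      · exact hkey i j hij hj' h
      · exact (hkey j i hij hi' h.symm).symm
    have hcardim : ((Finset.range m).image (fun i => (τ ^ i) x)).card = m := by
      rw [Finset.card_image_of_injOn hinj, Finset.card_range]
    exact (Finset.eq_of_subset_of_card_le hsub (by rw [hTcard, hcardim]; omega)).symm
  obtain ⟨x₀, hx₀, hx₀1⟩ := X.ne_bot_iff_exists_ne_one.mp hX1 |>.imp (fun x h => h) |> fun ⟨x, h⟩ => (⟨x.1, x.2, fun h' => h (Subtype.ext h')⟩ : ∃ x ∈ X, x ≠ 1)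
  have hcardlow : m + 1 ≤ Nat.card X := by
    have hsub := horb x₀ hx₀ hx₀1
    have hinj : ((Finset.range m).image (fun i => (τ ^ i) x₀)).card = m := by
      refine (Finset.card_image_of_injOn ?_).trans (Finset.card_range m)
      intro i hi j hj h
      have hi' : i < m := by simpa using hi
      have hj' : j < m := by simpa using hj
      have hkey : ∀ i j, i ≤ j → j < m → (τ ^ i) x₀ = (τ ^ j) x₀ → i = j := by
        intro i j hij hj h
        obtain ⟨k, rfl⟩ := Nat.exists_eq_add_of_le hij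
        have h3 : (τ ^ k) x₀ = x₀ := by
          apply (τ ^ i).injective
          rw [← MulAut.mul_apply, ← pow_add]
          exact h.symm
        have h4 := hfree k x₀ hx₀1 h3
        have h5 : k = 0 := Nat.eq_zero_of_dvd_of_lt h4 (by omega)
        omega
      rcases le_total i j with hij | hij
      · exact hkey i j hij hj' h
      · exact (hkey j i hij hi' h.symm).symm
    rw [← hsub, hTcard] at hinj
    omega
  refine ⟨X, hX1, hX2, ?_, le_antisymm hupper hcardlow⟩
  intro x hx y hy hx1 hy1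
  have : y ∈ T := Finset.mem_erase.mpr ⟨hy1, by simpa using hy⟩
  rw [horb x hx hx1] at this
  obtain ⟨i, -, hi⟩ := Finset.mem_image.mp this
  exact ⟨i, hi⟩

end Regular

section Abs

/-- Restriction of an automorphism to an invariant subgroup of a finite group. -/
noncomputable def resAut {V : Type*} [Group V] [Finite V] (τ : MulAut V) (X : Subgroup V)
    (h : ∀ x ∈ X, τ x ∈ X) : MulAut X :=
  MulEquiv.ofBijective
    ({ toFun := fun x => ⟨τ x, h x x.2⟩
       map_one' := by ext; simp
       map_mul' := by intro a b; ext; simp } : X →* X)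
    (by
      apply (Finite.injective_iff_bijective).mp
      intro a b hab
      apply Subtype.ext
      exact τ.injective (congrArg Subtype.val hab))

theorem resAut_coe {V : Type*} [Group V] [Finite V] (τ : MulAut V) (X : Subgroup V)
    (h : ∀ x ∈ X, τ x ∈ X) (x : X) : ((resAut τ X h x : X) : V) = τ x := rfl

theorem resAut_pow_coe {V : Type*} [Group V] [Finite V] (τ : MulAut V) (X : Subgroup V)
    (h : ∀ x ∈ X, τ x ∈ X) (i : ℕ) (x : X) : (((resAut τ X h ^ i) x : X) : V) = (τ ^ i) x := by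
  induction i with
  | zero => simp
  | succ i ih =>
    rw [pow_succ', pow_succ', MulAut.mul_apply, MulAut.mul_apply, resAut_coe, ih]

variable {W : Type*} [CommGroup W]

/-- Conjugation of endomorphisms by an automorphism. -/
def adE (ζ : MulAut W) : (W →* W) →* (W →* W) where
  toFun d := ζ.toMonoidHom.comp (d.comp ζ.symm.toMonoidHom)
  map_one' := by ext w; simp
  map_mul' a b := by ext w; simp

theorem adE_apply (ζ : MulAut W) (d : W →* W) (w : W) : adE ζ d w = ζ (d (ζ.symm w)) := rfl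

theorem adE_pair (ζ : MulAut W) (d : W →* W) (w : W) : adE ζ d (ζ w) = ζ (d w) := by
  simp [adE_apply]

def adA (ζ : MulAut W) : MulAut (W →* W) where
  toFun := adE ζ
  invFun := adE ζ.symm
  left_inv d := by ext w; simp [adE_apply]
  right_inv d := by ext w; simp [adE_apply]
  map_mul' a b := map_mul _ a b

theorem adA_coe (ζ : MulAut W) (d : W →* W) : adA ζ d = adE ζ d := rfl

theorem adA_pow (ζ : MulAut W) (i : ℕ) (d : W →* W) : (adA ζ ^ i) d = adE (ζ ^ i) d := by
  induction i with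
  | zero =>
    ext w
    simp [adE_apply]
    rfl
  | succ i ih =>
    rw [pow_succ', MulAut.mul_apply, ih, adA_coe]
    ext w
    rw [pow_succ']
    rfl

theorem machine_abs [Finite W] (h2W : ∀ w : W, w * w = 1) (ζ : MulAut W) (n m : ℕ) (hn : 0 < n)
    (hq : 2 ^ n = m + 1) (hm : 2 ≤ m) (hcardW : Nat.card W = m + 1) (hζm : ζ ^ m = 1)
    (hζ : ∀ x y : W, x ≠ 1 → y ≠ 1 → ∃ j : ℕ, (ζ ^ j) x = y)
    (D₀ : Subgroup (W →* W)) (hinv : ∀ d ∈ D₀, adE ζ d ∈ D₀) (hne : D₀ ≠ ⊥)
    (hfree : ∀ (i : ℕ) (d : W →* W), d ∈ D₀ → d ≠ 1 → adE (ζ ^ i) d = d → m ∣ i) :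
    ∃ X : Subgroup (W →* W), X ≤ D₀ ∧ (∀ d ∈ X, adE ζ d ∈ X) ∧ X ≠ ⊥ ∧
      (∀ d ∈ X, d ≠ 1 → ∀ w, w ≠ 1 → d w ≠ 1) ∧
      (∀ d ∈ X, d ≠ 1 → ∀ w w', w ≠ 1 → w' ≠ 1 → d w = w → d w' = w' → w = w') ∧
      (∃ d ∈ X, ∃ d' ∈ X, d ≠ 1 ∧ d' ≠ 1 ∧ d * d' ≠ 1) := by
  have hE2 : ∀ d : W →* W, d * d = 1 := by
    intro d
    ext w
    exact h2W _
  have hFinE : Finite (W →* W) := Finite.of_injective (fun f => (f : W → W)) DFunLike.coe_injective
  have hinv' : ∀ d ∈ D₀, adA ζ d ∈ D₀ := hinv
  let τ : MulAut D₀ := resAut (adA ζ) D₀ hinv'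
  have hnt : Nontrivial D₀ := by
    rw [Subgroup.nontrivial_iff_ne_bot]
    exact hne
  have hτpow : ∀ (i : ℕ) (v : D₀), (((τ ^ i) v : D₀) : W →* W) = adE (ζ ^ i) v := by
    intro i v
    rw [← adA_pow]
    exact resAut_pow_coe _ _ _ _ _
  have hτm : τ ^ m = 1 := by
    apply MulEquiv.ext
    intro v
    apply Subtype.ext
    rw [hτpow, hζm]
    ext w
    simp [adE_apply]
    rfl
  obtain ⟨X, hX1, hX2, hX3, hX4⟩ := exists_regular (V := D₀)
    (fun v => Subtype.ext (hE2 v)) τ n m hn hq hτm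
    (fun i v hv h => hfree i v v.2 (fun h1 => hv (Subtype.ext h1)) (by
      rw [← hτpow, h]))
  let τ' : MulAut X := resAut τ X hX2
  have hτ'pow : ∀ (i : ℕ) (v : X), ((((τ' ^ i) v : X) : D₀) : W →* W) = adE (ζ ^ i) (v : D₀) := by
    intro i v
    have := resAut_pow_coe τ X hX2 i v
    rw [← hτpow, ← this]
  let Dm : X →* (W →* W) := D₀.subtype.comp X.subtype
  have hDm : ∀ x, Dm x = ((x : D₀) : W →* W) := fun _ => rfl
  have hDminj : ∀ x, Dm x = 1 → x = 1 := by
    intro x hx
    apply Subtype.ext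
    apply Subtype.ext
    exact hx
  have hD : ∀ x w, Dm (τ' x) (ζ w) = ζ (Dm x w) := by
    intro x w
    have h1 := hτ'pow 1 x
    rw [pow_one, pow_one] at h1
    rw [hDm, h1, adE_pair]
    rfl
  have hXp : IsPGroup 2 X := fun x => ⟨1, by
    apply Subtype.ext
    apply Subtype.ext
    rw [pow_one, pow_two]
    exact hE2 _⟩
  have hWp : IsPGroup 2 W := fun x => ⟨1, by rw [pow_one, pow_two]; exact h2W _⟩
  have hτ' : ∀ x y : X, x ≠ 1 → y ≠ 1 → ∃ j : ℕ, (τ' ^ j) x = y := by
    intro x y hx hy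
    obtain ⟨j, hj⟩ := hX3 x x.2 y y.2 (fun h => hx (Subtype.ext h)) (fun h => hy (Subtype.ext h))
    refine ⟨j, ?_⟩
    apply Subtype.ext
    exact (resAut_pow_coe τ X hX2 j x).trans hj
  have hcard : Nat.card X = Nat.card W := by rw [hX4, hcardW]
  have key := fun i x₀ w₀ h1 h2 h3 => cl hXp hWp hcard τ' ζ hτ' hζ Dm hD i x₀ w₀ h1 h2 h3
  -- a nontrivial element
  obtain ⟨x₀, hx₀⟩ : ∃ x₀ : X, x₀ ≠ 1 := by
    have : Nontrivial X := by
      rw [Subgroup.nontrivial_iff_ne_bot]
      exact hX1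
    exact exists_ne 1
  obtain ⟨w₀, hw₀⟩ : ∃ w₀ : W, Dm x₀ w₀ ≠ 1 := by
    by_contra hcon
    push Not at hcon
    apply hx₀
    apply hDminj
    ext w
    exact hcon w
  have hw₀1 : w₀ ≠ 1 := by
    rintro rfl
    exact hw₀ (map_one _)
  obtain ⟨i₀, hi₀⟩ := hζ w₀ (Dm x₀ w₀) hw₀1 hw₀
  have hkey1 := (key i₀ x₀ w₀ hx₀ hw₀1 hi₀.symm).1
  have hmemX : ∀ d, d ∈ X.map D₀.subtype ↔ ∃ x : X, Dm x = d := by
    intro d
    constructor
    · rintro ⟨v, hv, rfl⟩
      exact ⟨⟨v, hv⟩, rfl⟩
    · rintro ⟨x, rfl⟩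
      exact ⟨x, x.2, rfl⟩
  have hDm1 : ∀ x : X, Dm x ≠ 1 → x ≠ 1 := by
    rintro x hx rfl
    exact hx (map_one _)
  refine ⟨X.map D₀.subtype, ?_, ?_, ?_, ?_, ?_, ?_⟩
  · rintro _ ⟨v, -, rfl⟩
    exact v.2
  · rintro _ ⟨v, hv, rfl⟩
    refine ⟨τ v, hX2 v hv, ?_⟩
    exact hτpow 1 v |>.trans (by rw [pow_one]; rfl)
  · intro h
    apply hx₀
    have : Dm x₀ ∈ X.map D₀.subtype := (hmemX _).2 ⟨x₀, rfl⟩
    rw [h, Subgroup.mem_bot] at this
    exact hDminj _ this
  · intro d hd hd1 w hw
    obtain ⟨x, rfl⟩ := (hmemX d).1 hd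
    exact hkey1 x w (hDm1 x hd1) hw
  · intro d hd hd1 w w' hw hw' h1 h2
    obtain ⟨x, rfl⟩ := (hmemX d).1 hd
    have hk := (key 0 x w (hDm1 x hd1) hw (by simpa using h1)).2
    exact hk x w w' (hDm1 x hd1) hw hw' (by simpa using h1) (by simpa using h2)
  · have hne' : τ' x₀ ≠ x₀ := by
      intro h
      have h1 := hτ'pow 1 x₀
      rw [pow_one, pow_one, h] at h1
      have h3 := hfree 1 ((x₀ : D₀) : W →* W) (x₀ : D₀).2 (fun h4 => hx₀ (hDminj _ h4)) (by
        rw [pow_one]
        exact h1.symm)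
      have h5 := Nat.le_of_dvd one_pos h3
      omega
    refine ⟨Dm x₀, (hmemX _).2 ⟨x₀, rfl⟩, Dm (τ' x₀), (hmemX _).2 ⟨_, rfl⟩, ?_, ?_, ?_⟩
    · intro h
      exact hx₀ (hDminj _ h)
    · intro h
      have h6 := hDminj _ h
      have h7 : τ' x₀ = 1 := h6
      rw [h7] at hne'
      have h8 : (τ' : MulAut X) 1 = 1 := map_one _
      have h9 := (τ').injective (h8.trans (h7.symm))
      exact hx₀ h9.symm
    · intro h
      apply hne'
      have h10 : Dm x₀ * Dm x₀ = 1 := hE2 _
      have h11 : Dm (τ' x₀) = Dm x₀ := by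
        have := mul_left_cancel (h.trans h10.symm)
        exact this
      apply Subtype.ext
      apply Subtype.ext
      exact h11

end Abs

end Cfsg.Agent.H24.Suz
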