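import Mathlib
import Cfsg.Agent.Lib.H24.SuzA
import Cfsg.Agent.Lib.H09.KSeq2

/-!
The set-up for Higman's theorem on Suzuki 2-groups: a finite 2-group with a group of automorphisms
acting regularly on the involutions.
-/

set_option autoImplicit false

namespace Cfsg.Agent.H24.Suz

open scoped Classical commutatorElement

variable {G : Type*} [Group G]

theorem c_mul_left (a b g : G) : ⁅a * b, g⁆ = a * ⁅b, g⁆ * a⁻¹ * ⁅a, g⁆ := by
  simp only [commutatorElement_def]; group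

theorem c_mul_right (y g₁ g₂ : G) : ⁅y, g₁ * g₂⁆ = ⁅y, g₁⁆ * (g₁ * ⁅y, g₂⁆ * g₁⁻¹) := by
  simp only [commutatorElement_def]; group

theorem exists_pow_inv [Finite G] (hp : IsPGroup 2 G) (g : G) (hg : g ≠ 1) :
    ∃ k : ℕ, g ^ k ≠ 1 ∧ g ^ k * g ^ k = 1 := by
  have : Fact (Nat.Prime 2) := ⟨Nat.prime_two⟩
  obtain ⟨s, hs⟩ := IsPGroup.iff_orderOf.mp hp g
  rcases s with _ | t
  · exact absurd (orderOf_eq_one_iff.mp (by simpa using hs)) hg
  · refine ⟨2 ^ t, ?_, ?_⟩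
    · apply pow_ne_one_of_lt_orderOf (by positivity)
      rw [hs, pow_succ]
      have : 0 < 2 ^ t := by positivity
      omega
    · rw [← pow_add, ← two_mul, ← pow_succ', ← hs, pow_orderOf_eq_one]

structure Ctx (ξ : MulAut G) : Prop where
  pg : IsPGroup 2 G
  trans : ∀ x y : G, x ≠ 1 → x * x = 1 → y ≠ 1 → y * y = 1 → ∃ j : ℕ, (ξ ^ j) x = y
  free : ∀ (j : ℕ) (x : G), x ≠ 1 → x * x = 1 → (ξ ^ j) x = x → ξ ^ j = 1
  two : ∃ x y : G, x ≠ y ∧ x ≠ 1 ∧ x * x = 1 ∧ y ≠ 1 ∧ y * y = 1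

variable [Finite G] {ξ : MulAut G}

theorem Ctx.central (hc : Ctx ξ) (x : G) (hx : x * x = 1) (g : G) : g * x = x * g := by
  by_cases hx1 : x = 1
  · simp [hx1]
  have hnt : Nontrivial G := ⟨⟨x, 1, hx1⟩⟩
  have := hc.pg.center_nontrivial
  obtain ⟨z, hz⟩ := exists_ne (1 : Subgroup.center G)
  have hz' : (z : G) ≠ 1 := fun h => hz (Subtype.ext h)
  obtain ⟨k, hk1, hk2⟩ := exists_pow_inv hc.pg (z : G) hz'
  obtain ⟨j, hj⟩ := hc.trans _ x hk1 hk2 hx1 hx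
  have hu : ∀ h : G, h * (z : G) ^ k = (z : G) ^ k * h := by
    intro h
    have : (z : G) ^ k ∈ Subgroup.center G := Subgroup.pow_mem _ z.2 k
    exact (Subgroup.mem_center_iff.mp this h)
  have h1 := hu ((ξ ^ j).symm g)
  have h2 := congrArg (ξ ^ j) h1
  rw [map_mul, map_mul, hj] at h2
  simpa using h2

/-- The subgroup of elements of order at most two. -/
def Om (hc : Ctx ξ) : Subgroup G where
  carrier := {x | x * x = 1}
  one_mem' := by simp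
  mul_mem' := by
    intro a b ha hb
    have ha' : a * a = 1 := ha
    have hb' : b * b = 1 := hb
    show a * b * (a * b) = 1
    calc a * b * (a * b) = a * (b * a) * b := by group
      _ = a * (a * b) * b := by rw [hc.central a ha' b]
      _ = a * a * (b * b) := by group
      _ = 1 := by rw [ha', hb', one_mul]
  inv_mem' := by
    intro a ha
    have ha' : a * a = 1 := ha
    show a⁻¹ * a⁻¹ = 1
    rw [← mul_inv_rev, ha', inv_one]

theorem mem_Om (hc : Ctx ξ) {x : G} : x ∈ Om hc ↔ x * x = 1 := Iff.rfl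

theorem Ctx.conj (hc : Ctx ξ) {x : G} (hx : x ∈ Om hc) (a : G) : a * x * a⁻¹ = x := by
  rw [hc.central x hx a, mul_inv_cancel_right]

theorem Ctx.conj' (hc : Ctx ξ) {x : G} (hx : x ∈ Om hc) (a : G) : a⁻¹ * x * a = x := by
  have := hc.conj hx a⁻¹
  rwa [inv_inv] at this

theorem Ctx.comm (hc : Ctx ξ) {x : G} (hx : x ∈ Om hc) (a : G) : a * x = x * a :=
  hc.central x hx a

theorem Ctx.invOm (hc : Ctx ξ) : ∀ x ∈ Om hc, ξ x ∈ Om hc := by
  intro x hx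
  show ξ x * ξ x = 1
  rw [← map_mul, (mem_Om hc).1 hx, map_one]

theorem inv_pow_mem {N : Subgroup G} (hN : ∀ x ∈ N, ξ x ∈ N) (j : ℕ) {x : G} (hx : x ∈ N) :
    (ξ ^ j) x ∈ N := by
  induction j with
  | zero => simpa using hx
  | succ j ih =>
    rw [pow_succ', MulAut.mul_apply]
    exact hN _ ih

theorem inv_symm_mem {N : Subgroup G} (hN : ∀ x ∈ N, ξ x ∈ N) {x : G} (hx : x ∈ N) :
    ξ.symm x ∈ N := by
  have hpos : 0 < orderOf ξ := orderOf_pos ξ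
  obtain ⟨t, ht⟩ : ∃ t, orderOf ξ = t + 1 := ⟨orderOf ξ - 1, by omega⟩
  have h1 : (ξ ^ t) * ξ = 1 := by
    rw [← pow_succ, ← ht, pow_orderOf_eq_one]
  have h2 : ξ.symm x = (ξ ^ t) x := by
    apply ξ.injective
    rw [MulEquiv.apply_symm_apply, ← MulAut.mul_apply]
    have h3 : ξ * ξ ^ t = 1 := by
      rw [← pow_succ', ← ht, pow_orderOf_eq_one]
    rw [h3]
    rfl
  rw [h2]
  exact inv_pow_mem hN t hx

theorem Ctx.fpf (hc : Ctx ξ) (j : ℕ) (g : G) (hg : g ≠ 1) (h : (ξ ^ j) g = g) : ξ ^ j = 1 := by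
  obtain ⟨k, hk1, hk2⟩ := exists_pow_inv hc.pg g hg
  exact hc.free j _ hk1 hk2 (by rw [map_pow, h])

theorem Ctx.fpf_eq (hc : Ctx ξ) (j : ℕ) (hj : ξ ^ j ≠ 1) (x y : G)
    (h : x⁻¹ * (ξ ^ j) x = y⁻¹ * (ξ ^ j) y) : x = y := by
  by_contra hne
  apply hj
  apply hc.fpf j (y * x⁻¹)
  · intro h1
    exact hne (mul_inv_eq_one.mp h1).symm
  · rw [map_mul, map_inv]
    have h2 : (ξ ^ j) x = x * (y⁻¹ * (ξ ^ j) y) := by rw [← h]; group
    rw [h2]
    group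

theorem Ctx.fix_sub (hc : Ctx ξ) {N : Subgroup G} (hN : ∀ x ∈ N, ξ x ∈ N) (j : ℕ) (hj : ξ ^ j ≠ 1)
    (g : G) (hg : g⁻¹ * (ξ ^ j) g ∈ N) : g ∈ N := by
  let f : N → N := fun n => ⟨(n : G)⁻¹ * (ξ ^ j) n, N.mul_mem (N.inv_mem n.2) (inv_pow_mem hN j n.2)⟩
  have hf : Function.Injective f := by
    intro a b hab
    apply Subtype.ext
    exact hc.fpf_eq j hj _ _ (congrArg Subtype.val hab)
  obtain ⟨n, hn⟩ := (Finite.injective_iff_surjective.mp hf) ⟨_, hg⟩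
  have h1 := hc.fpf_eq j hj _ _ (congrArg Subtype.val hn)
  rw [← h1]
  exact n.2

theorem Ctx.om_le (hc : Ctx ξ) {H : Subgroup G} (hH : ∀ x ∈ H, ξ x ∈ H) (hne : H ≠ ⊥) :
    Om hc ≤ H := by
  obtain ⟨h, hh, hh1⟩ := (Subgroup.ne_bot_iff_exists_ne_one.mp hne).imp (fun _ h => h) |>
    fun ⟨x, hx⟩ => (⟨x.1, x.2, fun h' => hx (Subtype.ext h')⟩ : ∃ x ∈ H, x ≠ 1)
  obtain ⟨k, hk1, hk2⟩ := exists_pow_inv hc.pg h hh1
  intro w hw
  by_cases hw1 : w = 1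
  · rw [hw1]; exact H.one_mem
  obtain ⟨j, rfl⟩ := hc.trans _ w hk1 hk2 hw1 hw
  exact inv_pow_mem hH j (H.pow_mem hh k)

theorem Ctx.card_Om (hc : Ctx ξ) : Nat.card (Om hc) = orderOf ξ + 1 := by
  obtain ⟨x₀, y₀, -, hx1, hx2, -, -⟩ := hc.two
  have : Fintype G := Fintype.ofFinite G
  let m := orderOf ξ
  have hm : 0 < m := orderOf_pos ξ
  let T : Finset G := (Finset.univ.filter (· ∈ Om hc)).erase 1
  have hTcard : T.card = Nat.card (Om hc) - 1 := by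
    rw [Finset.card_erase_of_mem (by simp [(Om hc).one_mem]), Nat.card_eq_fintype_card,
      Fintype.card_subtype]
  have hT : T = (Finset.range m).image (fun i => (ξ ^ i) x₀) := by
    ext w
    simp only [T, Finset.mem_erase, Finset.mem_filter, Finset.mem_univ, true_and, Finset.mem_image,
      Finset.mem_range]
    constructor
    · rintro ⟨h1, h2⟩
      obtain ⟨j, hj⟩ := hc.trans x₀ w hx1 hx2 h1 h2
      refine ⟨j % m, Nat.mod_lt _ hm, ?_⟩
      rw [pow_mod_orderOf]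
      exact hj
    · rintro ⟨i, -, rfl⟩
      refine ⟨?_, inv_pow_mem hc.invOm i hx2⟩
      intro h
      exact hx1 (by simpa using h)
  have hinj : Set.InjOn (fun i => (ξ ^ i) x₀) (Finset.range m : Set ℕ) := by
    have hkey : ∀ i j, i ≤ j → j < m → (ξ ^ i) x₀ = (ξ ^ j) x₀ → i = j := by
      intro i j hij hj h
      obtain ⟨k, rfl⟩ := Nat.exists_eq_add_of_le hij
      have h3 : (ξ ^ k) x₀ = x₀ := by
        apply (ξ ^ i).injective
        rw [← MulAut.mul_apply, ← pow_add]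
        exact h.symm
      have h4 := hc.free k x₀ hx1 hx2 h3
      have h5 : k = 0 := Nat.eq_zero_of_dvd_of_lt (orderOf_dvd_of_pow_eq_one h4) (by omega)
      omega
    intro i hi j hj h
    have hi' : i < m := by simpa using hi
    have hj' : j < m := by simpa using hj
    rcases le_total i j with hij | hij
    · exact hkey i j hij hj' h
    · exact (hkey j i hij hi' h.symm).symm
  have h1 : T.card = m := by
    rw [hT, Finset.card_image_of_injOn hinj, Finset.card_range]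
  have h2 : 0 < Nat.card (Om hc) := Nat.card_pos
  rw [hTcard] at h1
  show Nat.card (Om hc) = m + 1
  omega

theorem Ctx.data (hc : Ctx ξ) : ∃ n, 0 < n ∧ 2 ^ n = orderOf ξ + 1 ∧ 2 ≤ orderOf ξ := by
  have : Fact (Nat.Prime 2) := ⟨Nat.prime_two⟩
  have hp : IsPGroup 2 (Om hc) := hc.pg.to_subgroup _
  obtain ⟨n, hn⟩ := IsPGroup.iff_card.mp hp
  rw [hc.card_Om] at hn
  obtain ⟨x₀, y₀, hne, hx1, hx2, hy1, hy2⟩ := hc.two
  have h3 : 2 ≤ orderOf ξ := by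
    by_contra hcon
    have hm : orderOf ξ ≤ 1 := by omega
    have h1 : orderOf ξ = 1 := le_antisymm hm (orderOf_pos ξ)
    have h4 : ξ = 1 := orderOf_eq_one_iff.mp h1
    have : Nat.card (Om hc) = 2 := by rw [hc.card_Om, h1]
    have h5 : (⟨x₀, hx2⟩ : Om hc) = ⟨y₀, hy2⟩ := by
      obtain ⟨j, hj⟩ := hc.trans x₀ y₀ hx1 hx2 hy1 hy2
      rw [h4, one_pow] at hj
      exact Subtype.ext hj
    exact hne (congrArg Subtype.val h5)
  refine ⟨n, ?_, hn.symm, h3⟩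
  rcases Nat.eq_zero_or_pos n with rfl | h
  · rw [pow_zero] at hn
    omega
  · exact h

theorem Ctx.xi_ne_one (hc : Ctx ξ) : ξ ^ 1 ≠ 1 := by
  obtain ⟨n, -, -, h⟩ := hc.data
  rw [pow_one]
  intro h1
  rw [h1, orderOf_one] at h
  omega

/-- Going up the central series, inside a finite 2-group. -/
theorem up (hp : IsPGroup 2 G) (H L C : Subgroup G) (hLC : L ≤ C) (hCH : C ≤ H)
    (hLn : ∀ h ∈ H, ∀ l ∈ L, h * l * h⁻¹ ∈ L) (hCn : ∀ h ∈ H, ∀ c ∈ C, h * c * h⁻¹ ∈ C)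
    (hne : L ≠ C) : ∃ c ∈ C, c ∉ L ∧ c * c ∈ L ∧ ∀ h ∈ H, ⁅c, h⁆ ∈ L := by
  have : Fact (Nat.Prime 2) := ⟨Nat.prime_two⟩
  let B : Subgroup H := L.subgroupOf H
  have hBn : B.Normal := ⟨fun n hn g => by
    rw [Subgroup.mem_subgroupOf] at hn ⊢
    exact hLn g g.2 n hn⟩
  let A : Subgroup H := C.subgroupOf H
  have hAn : A.Normal := ⟨fun n hn g => by
    rw [Subgroup.mem_subgroupOf] at hn ⊢
    exact hCn g g.2 n hn⟩
  have hpH : IsPGroup 2 H := hp.to_subgroup _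
  have hpQ : IsPGroup 2 (H ⧸ B) := hpH.to_quotient _
  let mk : H →* H ⧸ B := QuotientGroup.mk' B
  have hmk : Function.Surjective mk := QuotientGroup.mk'_surjective B
  have hmk1 : ∀ a : H, mk a = 1 ↔ (a : G) ∈ L := by
    intro a
    rw [show mk a = ((a : H) : H ⧸ B) from rfl, QuotientGroup.eq_one_iff]
    exact Subgroup.mem_subgroupOf
  let M : Subgroup (H ⧸ B) := A.map mk
  have hMn : M.Normal := hAn.map mk hmk
  have hMne : M ≠ ⊥ := by
    obtain ⟨c, hc, hcL⟩ : ∃ c ∈ C, c ∉ L := by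
      by_contra hcon
      push Not at hcon
      exact hne (le_antisymm hLC hcon)
    intro h
    have h1 : mk ⟨c, hCH hc⟩ ∈ M := ⟨⟨c, hCH hc⟩, hc, rfl⟩
    rw [h, Subgroup.mem_bot, hmk1] at h1
    exact hcL h1
  have h2 := Cfsg.Agent.H09.normal_inf_center_ne_bot hpQ M hMne
  obtain ⟨q, hq, hq1⟩ := (Subgroup.ne_bot_iff_exists_ne_one.mp h2).imp (fun _ h => h) |>
    fun ⟨x, hx⟩ => (⟨x.1, x.2, fun h' => hx (Subtype.ext h')⟩ : ∃ x ∈ M ⊓ Subgroup.center (H ⧸ B), x ≠ 1)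
  obtain ⟨hqM, hqZ⟩ := hq
  obtain ⟨k, hk1, hk2⟩ := exists_pow_inv hpQ q hq1
  obtain ⟨a, ha, rfl⟩ := hqM
  have hcoe : ∀ x y : H, ((x * y : H) : G) = x * y := fun _ _ => rfl
  refine ⟨((a ^ k : H) : G), ?_, ?_, ?_, ?_⟩
  · exact A.pow_mem ha k
  · intro h
    apply hk1
    rw [← map_pow]
    exact (hmk1 _).2 h
  · have : mk (a ^ k * a ^ k) = 1 := by rw [map_mul, map_pow]; exact hk2
    exact (hmk1 _).1 this
  · intro h hh
    have h3 : mk ⁅a ^ k, (⟨h, hh⟩ : H)⁆ = 1 := by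
      rw [map_commutatorElement, commutatorElement_eq_one_iff_mul_comm, map_pow]
      have h4 : mk a ^ k ∈ Subgroup.center (H ⧸ B) := Subgroup.pow_mem _ hqZ k
      exact (Subgroup.mem_center_iff.mp h4 _).symm
    exact (hmk1 _).1 h3

/-- The centre of `H`. -/
def zc (H : Subgroup G) : Subgroup G := Subgroup.centralizer (H : Set G) ⊓ H

theorem mem_zc {H : Subgroup G} {z : G} : z ∈ zc H ↔ z ∈ H ∧ ∀ h ∈ H, h * z = z * h := by
  rw [zc, Subgroup.mem_inf, Subgroup.mem_centralizer_iff, and_comm]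
  rfl

/-- The centralizer of `Y` in `H`. -/
def cz (H Y : Subgroup G) : Subgroup G := Subgroup.centralizer (Y : Set G) ⊓ H

theorem mem_cz {H Y : Subgroup G} {c : G} : c ∈ cz H Y ↔ c ∈ H ∧ ∀ y ∈ Y, y * c = c * y := by
  rw [cz, Subgroup.mem_inf, Subgroup.mem_centralizer_iff, and_comm]
  rfl

theorem inv_zc {H : Subgroup G} (hH : ∀ x ∈ H, ξ x ∈ H) : ∀ x ∈ zc H, ξ x ∈ zc H := by
  intro x hx
  obtain ⟨h1, h2⟩ := mem_zc.1 hx
  refine mem_zc.2 ⟨hH x h1, fun h hh => ?_⟩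
  have h3 := h2 _ (inv_symm_mem hH hh)
  have h4 := congrArg ξ h3
  simpa using h4

theorem inv_cz {H Y : Subgroup G} (hH : ∀ x ∈ H, ξ x ∈ H) (hY : ∀ x ∈ Y, ξ x ∈ Y) :
    ∀ x ∈ cz H Y, ξ x ∈ cz H Y := by
  intro x hx
  obtain ⟨h1, h2⟩ := mem_cz.1 hx
  refine mem_cz.2 ⟨hH x h1, fun h hh => ?_⟩
  have h3 := h2 _ (inv_symm_mem hY hh)
  have h4 := congrArg ξ h3
  simpa using h4

/-- The second centre, relative to a central subgroup `L` of `H`. -/
def Vv (H L : Subgroup G) (hL : ∀ l ∈ L, l ∈ zc H) : Subgroup G where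
  carrier := {v | v ∈ H ∧ v * v ∈ L ∧ ∀ h ∈ H, ⁅v, h⁆ ∈ L}
  one_mem' := ⟨H.one_mem, by simp [L.one_mem], fun h _ => by simp [L.one_mem]⟩
  mul_mem' := by
    rintro a b ⟨ha, ha2, ha3⟩ ⟨hb, hb2, hb3⟩
    have hcent : ∀ l ∈ L, ∀ h ∈ H, h * l * h⁻¹ = l := by
      intro l hl h hh
      rw [(mem_zc.1 (hL l hl)).2 h hh, mul_inv_cancel_right]
    refine ⟨H.mul_mem ha hb, ?_, fun h hh => ?_⟩
    · have h1 : a * b * (a * b) = a * (⁅b, a⁆ * a * b) * b := by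
        simp only [commutatorElement_def]; group
      have h2 : a * ⁅b, a⁆ = ⁅b, a⁆ * a := (mem_zc.1 (hL _ (hb3 a ha))).2 a ha
      have h3 : a * (⁅b, a⁆ * a * b) * b = ⁅b, a⁆ * (a * a) * (b * b) := by
        calc a * (⁅b, a⁆ * a * b) * b = (a * ⁅b, a⁆) * a * b * b := by group
          _ = _ := by rw [h2]; group
      rw [h1, h3]
      exact L.mul_mem (L.mul_mem (hb3 a ha) ha2) hb2
    · rw [c_mul_left, hcent _ (hb3 h hh) a ha]
      exact L.mul_mem (hb3 h hh) (ha3 h hh)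
  inv_mem' := by
    rintro a ⟨ha, ha2, ha3⟩
    have hcent : ∀ l ∈ L, ∀ h ∈ H, h * l * h⁻¹ = l := by
      intro l hl h hh
      rw [(mem_zc.1 (hL l hl)).2 h hh, mul_inv_cancel_right]
    refine ⟨H.inv_mem ha, ?_, fun h hh => ?_⟩
    · rw [← mul_inv_rev]
      exact L.inv_mem ha2
    · have h1 : ⁅a⁻¹, h⁆ = a⁻¹ * ⁅a, h⁆⁻¹ * a⁻¹⁻¹ := by
        simp only [commutatorElement_def]; group
      rw [h1, hcent _ (L.inv_mem (ha3 h hh)) _ (H.inv_mem ha)]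
      exact L.inv_mem (ha3 h hh)

theorem mem_Vv {H L : Subgroup G} {hL : ∀ l ∈ L, l ∈ zc H} {v : G} :
    v ∈ Vv H L hL ↔ v ∈ H ∧ v * v ∈ L ∧ ∀ h ∈ H, ⁅v, h⁆ ∈ L := Iff.rfl

end Cfsg.Agent.H24.Suz
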