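import Mathlib
import Cfsg.Agent.Lib.H24.SuzB

/-!
The package of data used in the proof of Higman's theorem, and the regular family of commutator
maps it carries.
-/

set_option autoImplicit false

namespace Cfsg.Agent.H24.Suz

open scoped Classical commutatorElement

variable {G : Type*} [Group G] [Finite G] {ξ : MulAut G}

structure Pkg (hc : Ctx ξ) (H Y : Subgroup G) (e : ℕ) : Prop where
  invH : ∀ x ∈ H, ξ x ∈ H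
  invY : ∀ y ∈ Y, ξ y ∈ Y
  le : Y ≤ H
  hZ : zc H ≤ Y
  omZ : Om hc ≤ zc H
  comm : ∀ y ∈ Y, ∀ h ∈ H, ⁅y, h⁆ ∈ Om hc
  powOm : ∀ y ∈ Y, y ^ e ∈ Om hc
  powMul : ∀ a ∈ Y, ∀ b ∈ Y, (a * b) ^ e = a ^ e * b ^ e
  ker : ∀ y ∈ Y, y ^ e = 1 ↔ y ∈ zc H
  surj : ∀ w ∈ Om hc, ∃ y ∈ Y, y ^ e = w
  hsq : ∀ z ∈ zc H, ∃ y ∈ Y, y * y = z

variable {hc : Ctx ξ} {H Y : Subgroup G} {e : ℕ}

theorem Pkg.bil1 (P : Pkg hc H Y e) {a b g : G} (hb : b ∈ Y) (hg : g ∈ H) :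
    ⁅a * b, g⁆ = ⁅b, g⁆ * ⁅a, g⁆ := by
  rw [c_mul_left, hc.conj (P.comm b hb g hg)]

theorem Pkg.bil1' (P : Pkg hc H Y e) {a b g : G} (ha : a ∈ Y) (hb : b ∈ Y) (hg : g ∈ H) :
    ⁅a * b, g⁆ = ⁅a, g⁆ * ⁅b, g⁆ := by
  rw [P.bil1 hb hg, (hc.comm (P.comm a ha g hg) _)]

theorem Pkg.bil2 (P : Pkg hc H Y e) {y g₁ g₂ : G} (hy : y ∈ Y) (h₂ : g₂ ∈ H) :
    ⁅y, g₁ * g₂⁆ = ⁅y, g₁⁆ * ⁅y, g₂⁆ := by
  rw [c_mul_right, hc.conj (P.comm y hy g₂ h₂)]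

theorem Pkg.sq (P : Pkg hc H Y e) {y g : G} (hy : y ∈ Y) (hg : g ∈ H) : ⁅y, g⁆ * ⁅y, g⁆ = 1 :=
  P.comm y hy g hg

theorem Pkg.zcomm {z g : G} (hz : z ∈ zc H) (hg : g ∈ H) : ⁅z, g⁆ = 1 := by
  rw [commutatorElement_eq_one_iff_mul_comm]
  exact ((mem_zc.1 hz).2 g hg).symm

theorem Pkg.inv_pow (P : Pkg hc H Y e) {a b : G} (ha : a ∈ Y) (hb : b ∈ Y) (h : a ^ e = b ^ e) :
    a⁻¹ * b ∈ zc H := by
  rw [← P.ker _ (Y.mul_mem (Y.inv_mem ha) hb), P.powMul _ (Y.inv_mem ha) _ hb, _root_.inv_pow, h,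
    inv_mul_cancel]

theorem Pkg.resp (P : Pkg hc H Y e) {a b g : G} (ha : a ∈ Y) (hb : b ∈ Y) (h : a ^ e = b ^ e)
    (hg : g ∈ H) : ⁅a, g⁆ = ⁅b, g⁆ := by
  have h1 := P.inv_pow ha hb h
  have h2 : b = a * (a⁻¹ * b) := by group
  rw [h2, P.bil1 (P.hZ h1) hg, Pkg.zcomm h1 hg, one_mul]

/-- `Om` as a commutative group. -/
@[reducible] def omCG (hc : Ctx ξ) : CommGroup (Om hc) :=
  { (inferInstance : Group (Om hc)) with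
    mul_comm := fun a b => Subtype.ext (hc.comm a.2 (b : G)).symm }

theorem Pkg.machine (P : Pkg hc H Y e) (M : Subgroup G) (hMH : M ≤ H) (hM : ∀ x ∈ M, ξ x ∈ M)
    (hne : ∃ g ∈ M, g ∉ cz H Y) :
    ∃ K : Subgroup G, K ≤ M ∧ (∀ x ∈ K, ξ x ∈ K) ∧ (∃ k ∈ K, k ∉ cz H Y) ∧
      (∀ k ∈ K, k ∉ cz H Y → ∀ y ∈ Y, ⁅y, k⁆ = 1 → y ∈ zc H) ∧
      (∃ k ∈ K, ∃ k' ∈ K, k ∉ cz H Y ∧ k' ∉ cz H Y ∧ k * k' ∉ cz H Y) ∧
      (∀ k ∈ K, k ∉ cz H Y → ∀ y ∈ Y, ∀ y' ∈ Y, y ∉ zc H → y' ∉ zc H → ⁅y, k⁆ = y ^ e →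
        ⁅y', k⁆ = y' ^ e → y ^ e = y' ^ e) := by
  let _ : CommGroup (Om hc) := omCG hc
  have hsec : ∀ w : Om hc, ∃ y, y ∈ Y ∧ y ^ e = w := fun w => P.surj w w.2
  choose s hsY hse using hsec
  let ζ : MulAut (Om hc) := resAut ξ (Om hc) hc.invOm
  have hζpow : ∀ (i : ℕ) (w : Om hc), (((ζ ^ i) w : Om hc) : G) = (ξ ^ i) w :=
    fun i w => resAut_pow_coe ξ (Om hc) hc.invOm i w
  let dl0 : H → Om hc → Om hc := fun g w => ⟨⁅s w, (g : G)⁆, P.comm _ (hsY w) g g.2⟩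
  have hdl0 : ∀ (g : H) (w : Om hc), ((dl0 g w : Om hc) : G) = ⁅s w, (g : G)⁆ := fun _ _ => rfl
  have hdlmul : ∀ (g : H) (a b : Om hc), dl0 g (a * b) = dl0 g a * dl0 g b := by
    intro g a b
    apply Subtype.ext
    show ⁅s (a * b), (g : G)⁆ = ⁅s a, (g : G)⁆ * ⁅s b, (g : G)⁆
    rw [← P.bil1' (hsY a) (hsY b) g.2]
    apply P.resp (hsY _) (Y.mul_mem (hsY a) (hsY b)) _ g.2
    rw [P.powMul _ (hsY a) _ (hsY b), hse, hse, hse]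
    rfl
  let dl1 : H → (Om hc →* Om hc) := fun g => MonoidHom.mk' (dl0 g) (hdlmul g)
  have hdl1 : ∀ (g : H) (w : Om hc), ((dl1 g w : Om hc) : G) = ⁅s w, (g : G)⁆ := fun _ _ => rfl
  have hkey : ∀ (g : H) (y : G) (hy : y ∈ Y), ((dl1 g ⟨y ^ e, P.powOm y hy⟩ : Om hc) : G) = ⁅y, (g : G)⁆ := by
    intro g y hy
    rw [hdl1]
    apply P.resp (hsY _) hy _ g.2
    rw [hse]
  have hdlhom : ∀ a b : H, dl1 (a * b) = dl1 a * dl1 b := by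
    intro a b
    ext w
    show ⁅s w, (a : G) * b⁆ = ⁅s w, (a : G)⁆ * ⁅s w, (b : G)⁆
    exact P.bil2 (hsY w) b.2
  let Dl : H →* (Om hc →* Om hc) := MonoidHom.mk' dl1 hdlhom
  have hDl : ∀ (g : H) (w : Om hc), ((Dl g w : Om hc) : G) = ⁅s w, (g : G)⁆ := fun _ _ => rfl
  have hDlkey : ∀ (g : H) (y : G) (hy : y ∈ Y), ((Dl g ⟨y ^ e, P.powOm y hy⟩ : Om hc) : G) = ⁅y, (g : G)⁆ := hkey
  have hDl1 : ∀ g : H, Dl g = 1 ↔ (g : G) ∈ cz H Y := by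
    intro g
    constructor
    · intro h
      refine mem_cz.2 ⟨g.2, fun y hy => ?_⟩
      have h1 := hDlkey g y hy
      rw [h] at h1
      have h2 : ⁅y, (g : G)⁆ = 1 := h1.symm
      exact commutatorElement_eq_one_iff_mul_comm.mp h2
    · intro h
      ext w
      rw [hDl]
      have h1 := (mem_cz.1 h).2 _ (hsY w)
      exact commutatorElement_eq_one_iff_mul_comm.mpr h1
  have hpowH : ∀ (i : ℕ) (g : H), (ξ ^ i) g ∈ H := fun i g => inv_pow_mem P.invH i g.2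
  have hDlad : ∀ (i : ℕ) (g : H), adE (ζ ^ i) (Dl g) = Dl ⟨(ξ ^ i) g, hpowH i g⟩ := by
    intro i g
    ext w
    rw [adE_apply, hζpow, hDl, hDl, map_commutatorElement]
    set u := (ζ ^ i).symm w with hu
    have hu' : (ξ ^ i) (u : G) = w := by
      rw [← hζpow, hu]
      simp
    apply P.resp (inv_pow_mem P.invY i (hsY u)) (hsY w) _ (hpowH i g)
    rw [← map_pow, hse, hse, hu']
  -- the numerical data
  obtain ⟨n, hn, hq, hm⟩ := hc.data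
  have hζm : ζ ^ orderOf ξ = 1 := by
    apply MulEquiv.ext
    intro w
    apply Subtype.ext
    rw [hζpow, pow_orderOf_eq_one]
    rfl
  have hζt : ∀ x y : Om hc, x ≠ 1 → y ≠ 1 → ∃ j : ℕ, (ζ ^ j) x = y := by
    intro x y hx hy
    obtain ⟨j, hj⟩ := hc.trans x y (fun h => hx (Subtype.ext h)) x.2 (fun h => hy (Subtype.ext h)) y.2
    exact ⟨j, Subtype.ext ((hζpow j x).trans hj)⟩
  let D₀ : Subgroup (Om hc →* Om hc) := (M.subgroupOf H).map Dl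
  have hD₀mem : ∀ d, d ∈ D₀ ↔ ∃ g : H, (g : G) ∈ M ∧ Dl g = d := by
    intro d
    constructor
    · rintro ⟨g, hg, rfl⟩
      exact ⟨g, hg, rfl⟩
    · rintro ⟨g, hg, rfl⟩
      exact ⟨g, hg, rfl⟩
  have hD₀inv : ∀ d ∈ D₀, adE ζ d ∈ D₀ := by
    intro d hd
    obtain ⟨g, hg, rfl⟩ := (hD₀mem d).1 hd
    have h1 := hDlad 1 g
    rw [pow_one] at h1
    rw [h1]
    refine (hD₀mem _).2 ⟨⟨(ξ ^ 1) g, hpowH 1 g⟩, ?_, rfl⟩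
    show (ξ ^ 1) (g : G) ∈ M
    rw [pow_one]
    exact hM _ hg
  have hD₀ne : D₀ ≠ ⊥ := by
    obtain ⟨g, hg, hgc⟩ := hne
    intro h
    have h1 : Dl ⟨g, hMH hg⟩ ∈ D₀ := (hD₀mem _).2 ⟨⟨g, hMH hg⟩, hg, rfl⟩
    rw [h, Subgroup.mem_bot, hDl1] at h1
    exact hgc h1
  have hD₀free : ∀ (i : ℕ) (d : Om hc →* Om hc), d ∈ D₀ → d ≠ 1 → adE (ζ ^ i) d = d →
      orderOf ξ ∣ i := by
    intro i d hd hd1 h
    obtain ⟨g, hg, rfl⟩ := (hD₀mem d).1 hd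
    by_contra hcon
    have hi : ξ ^ i ≠ 1 := fun h1 => hcon (orderOf_dvd_of_pow_eq_one h1)
    apply hd1
    rw [hDl1]
    apply hc.fix_sub (inv_cz P.invH P.invY) i hi
    rw [hDlad] at h
    have h2 : Dl (g⁻¹ * ⟨(ξ ^ i) g, hpowH i g⟩) = 1 := by
      rw [map_mul, h, map_inv, inv_mul_cancel]
    exact (hDl1 _).1 h2
  obtain ⟨X, hX0, hX1, hX2, hX3, hX4, hX5⟩ := machine_abs (W := Om hc) (fun w => Subtype.ext w.2) ζ n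
    (orderOf ξ) hn hq hm hc.card_Om hζm hζt D₀ hD₀inv hD₀ne hD₀free
  -- the subgroup
  let K : Subgroup G := M ⊓ (X.comap Dl).map H.subtype
  have hKmem : ∀ k, k ∈ K ↔ k ∈ M ∧ ∃ hk : k ∈ H, Dl ⟨k, hk⟩ ∈ X := by
    intro k
    constructor
    · rintro ⟨h1, ⟨g, hg, rfl⟩⟩
      exact ⟨h1, g.2, hg⟩
    · rintro ⟨h1, h2, h3⟩
      exact ⟨h1, ⟨⟨k, h2⟩, h3, rfl⟩⟩
  -- from elements of `X`
  have hXK : ∀ d ∈ X, ∃ k ∈ K, ∃ hk : k ∈ H, Dl ⟨k, hk⟩ = d := by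
    intro d hd
    obtain ⟨g, hg, rfl⟩ := (hD₀mem d).1 (hX0 hd)
    exact ⟨g, (hKmem _).2 ⟨hg, g.2, hd⟩, g.2, rfl⟩
  have hn1 : ∀ (k : G) (hk : k ∈ H), Dl ⟨k, hk⟩ ≠ 1 ↔ k ∉ cz H Y := by
    intro k hk
    rw [Ne, hDl1]
  refine ⟨K, fun k hk => ((hKmem k).1 hk).1, ?_, ?_, ?_, ?_, ?_⟩
  · intro x hx
    obtain ⟨h1, h2, h3⟩ := (hKmem x).1 hx
    refine (hKmem _).2 ⟨hM x h1, P.invH x h2, ?_⟩
    have h4 := hDlad 1 ⟨x, h2⟩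
    rw [pow_one] at h4
    have h5 := hX1 _ h3
    rw [h4] at h5
    exact h5
  · obtain ⟨d, hd, hd1⟩ := (Subgroup.ne_bot_iff_exists_ne_one.mp hX2).imp (fun _ h => h) |>
      fun ⟨x, hx⟩ => (⟨x.1, x.2, fun h' => hx (Subtype.ext h')⟩ : ∃ x ∈ X, x ≠ 1)
    obtain ⟨k, hk, hk2, rfl⟩ := hXK d hd
    exact ⟨k, hk, (hn1 k hk2).1 hd1⟩
  · intro k hk hkc y hy h
    obtain ⟨-, h2, h3⟩ := (hKmem k).1 hk
    rw [← P.ker y hy]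
    by_contra hy1
    have h4 := hX3 _ h3 ((hn1 k h2).2 hkc) ⟨y ^ e, P.powOm y hy⟩ (fun h5 => hy1 (congrArg Subtype.val h5))
    apply h4
    apply Subtype.ext
    rw [hDlkey ⟨k, h2⟩ y hy]
    exact h
  · obtain ⟨d, hd, d', hd', h1, h2, h3⟩ := hX5
    obtain ⟨k, hk, hk2, rfl⟩ := hXK d hd
    obtain ⟨k', hk', hk2', rfl⟩ := hXK d' hd'
    refine ⟨k, hk, k', hk', (hn1 k hk2).1 h1, (hn1 k' hk2').1 h2, ?_⟩
    rw [← hn1 _ (H.mul_mem hk2 hk2')]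
    rw [← map_mul] at h3
    exact h3
  · intro k hk hkc y hy y' hy' hyz hyz' h h'
    obtain ⟨-, h2, h3⟩ := (hKmem k).1 hk
    have hy1 : y ^ e ≠ 1 := fun h4 => hyz ((P.ker y hy).1 h4)
    have hy1' : y' ^ e ≠ 1 := fun h4 => hyz' ((P.ker y' hy').1 h4)
    have h5 := hX4 _ h3 ((hn1 k h2).2 hkc) ⟨y ^ e, P.powOm y hy⟩ ⟨y' ^ e, P.powOm y' hy'⟩
      (fun h6 => hy1 (congrArg Subtype.val h6)) (fun h6 => hy1' (congrArg Subtype.val h6))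
      (Subtype.ext ((hDlkey ⟨k, h2⟩ y hy).trans h)) (Subtype.ext ((hDlkey ⟨k, h2⟩ y' hy').trans h'))
    exact congrArg Subtype.val h5

end Cfsg.Agent.H24.Suz
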