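import Mathlib
import Cfsg.Agent.Lib.H24.SuzC

/-!
The core of the proof of Higman's theorem: a package cannot exist.
-/

set_option autoImplicit false

namespace Cfsg.Agent.H24.Suz

open scoped Classical commutatorElement

variable {G : Type*} [Group G]

theorem comm_id (c k : G) (h1 : c * (k * k) = (k * k) * c) (h2 : c * (k * c * k⁻¹) = (k * c * k⁻¹) * c) :
    ⁅⁅c, k⁆, k⁆ = ⁅c, k⁆ * ⁅c, k⁆ ∧ ⁅c * c, k⁆ = ⁅c, k⁆ * ⁅c, k⁆ := by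
  obtain ⟨d, hd⟩ : ∃ d, d = k * c * k⁻¹ := ⟨_, rfl⟩
  rw [← hd] at h2
  have hρ : ⁅c, k⁆ = c * d⁻¹ := by
    simp only [commutatorElement_def, hd]; group
  have hdc : d⁻¹ * c = c * d⁻¹ := by
    calc d⁻¹ * c = d⁻¹ * (c * d) * d⁻¹ := by group
      _ = d⁻¹ * (d * c) * d⁻¹ := by rw [h2]
      _ = c * d⁻¹ := by group
  constructor
  · rw [hρ]
    have h3 : k * (c * d⁻¹)⁻¹ * k⁻¹ = c * d⁻¹ := by
      have h4 : k * k * c * k⁻¹ * k⁻¹ = c := by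
        have h5 : k * k * c = c * (k * k) := h1.symm
        rw [h5]; group
      calc k * (c * d⁻¹)⁻¹ * k⁻¹ = (k * k * c * k⁻¹ * k⁻¹) * d⁻¹ := by
            simp only [hd]; group
        _ = c * d⁻¹ := by rw [h4]
    rw [commutatorElement_def]
    calc c * d⁻¹ * k * (c * d⁻¹)⁻¹ * k⁻¹ = (c * d⁻¹) * (k * (c * d⁻¹)⁻¹ * k⁻¹) := by group
      _ = _ := by rw [h3]
  · have h5 : ⁅c * c, k⁆ = c * c * (d⁻¹ * d⁻¹) := by
      simp only [commutatorElement_def, hd]; group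
    rw [h5, hρ]
    calc c * c * (d⁻¹ * d⁻¹) = c * (c * d⁻¹) * d⁻¹ := by group
      _ = c * (d⁻¹ * c) * d⁻¹ := by rw [hdc]
      _ = c * d⁻¹ * (c * d⁻¹) := by group

theorem fix_comm (k g : G) (h : (k * k) * g = g * (k * k)) : ⁅⁅k, g⁆, k⁆ = ⁅k, g⁆ * ⁅k, g⁆ := by
  obtain ⟨d, hd⟩ : ∃ d, d = g * k * g⁻¹ := ⟨_, rfl⟩
  have hdd : k * k = d * d := by
    have h1 : d * d = g * (k * k) * g⁻¹ := by rw [hd]; group
    rw [h1, ← h]; group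
  have hρ : ⁅k, g⁆ = k * d⁻¹ := by
    simp only [commutatorElement_def, hd]; group
  rw [hρ, commutatorElement_def]
  calc k * d⁻¹ * k * (k * d⁻¹)⁻¹ * k⁻¹ = k * d⁻¹ * k * (d * (k * k)⁻¹) := by group
    _ = k * d⁻¹ * k * (d * (d * d)⁻¹) := by rw [hdd]
    _ = k * d⁻¹ * (k * d⁻¹) := by group

variable [Finite G] {ξ : MulAut G} {hc : Ctx ξ} {H Y : Subgroup G} {e : ℕ}

theorem Pkg.omY (P : Pkg hc H Y e) : Om hc ≤ Y := P.omZ.trans P.hZ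

theorem Pkg.norm (P : Pkg hc H Y e) {h y : G} (hh : h ∈ H) (hy : y ∈ Y) : h * y * h⁻¹ ∈ Y := by
  have h1 : h * y * h⁻¹ = ⁅y, h⁆⁻¹ * y := by
    simp only [commutatorElement_def]; group
  rw [h1]
  exact Y.mul_mem (Y.inv_mem (P.omY (P.comm y hy h hh))) hy

theorem Pkg.cz_norm (P : Pkg hc H Y e) {h c : G} (hh : h ∈ H) (hcz : c ∈ cz H Y) :
    h * c * h⁻¹ ∈ cz H Y := by
  obtain ⟨h1, h2⟩ := mem_cz.1 hcz
  refine mem_cz.2 ⟨H.mul_mem (H.mul_mem hh h1) (H.inv_mem hh), fun y hy => ?_⟩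
  have hy' := P.norm (H.inv_mem hh) hy
  rw [inv_inv] at hy'
  have h3 := h2 _ hy'
  calc y * (h * c * h⁻¹) = h * ((h⁻¹ * y * h) * c) * h⁻¹ := by group
    _ = h * (c * (h⁻¹ * y * h)) * h⁻¹ := by rw [h3]
    _ = (h * c * h⁻¹) * y := by group

theorem Pkg.sq_cz (P : Pkg hc H Y e) {g : G} (hg : g ∈ H) : g * g ∈ cz H Y := by
  refine mem_cz.2 ⟨H.mul_mem hg hg, fun y hy => ?_⟩
  apply commutatorElement_eq_one_iff_mul_comm.mp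
  rw [P.bil2 hy hg]
  exact P.sq hy hg

theorem Pkg.bil_inv (P : Pkg hc H Y e) {y g : G} (hy : y ∈ Y) (hg : g ∈ H) : ⁅y, g⁻¹⁆ = ⁅y, g⁆ := by
  have h1 := P.bil2 hy (g₁ := g) (H.inv_mem hg)
  rw [mul_inv_cancel, commutatorElement_one_right] at h1
  have h2 := P.sq hy hg
  exact (mul_left_cancel (h1.symm.trans h2.symm))

theorem Pkg.comm_cz (P : Pkg hc H Y e) {g₁ g₂ : G} (h₁ : g₁ ∈ H) (h₂ : g₂ ∈ H) : ⁅g₁, g₂⁆ ∈ cz H Y := by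
  refine mem_cz.2 ⟨?_, fun y hy => ?_⟩
  · rw [commutatorElement_def]
    exact H.mul_mem (H.mul_mem (H.mul_mem h₁ h₂) (H.inv_mem h₁)) (H.inv_mem h₂)
  apply commutatorElement_eq_one_iff_mul_comm.mp
  rw [commutatorElement_def g₁ g₂, P.bil2 hy (H.inv_mem h₂), P.bil2 hy (H.inv_mem h₁), P.bil2 hy h₂,
    P.bil_inv hy h₁, P.bil_inv hy h₂]
  have ha := P.sq hy h₁
  have hb := P.sq hy h₂
  have hcomm := hc.comm (P.comm y hy g₁ h₁) ⁅y, g₂⁆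
  calc ⁅y, g₁⁆ * ⁅y, g₂⁆ * ⁅y, g₁⁆ * ⁅y, g₂⁆ = ⁅y, g₁⁆ * (⁅y, g₂⁆ * ⁅y, g₁⁆) * ⁅y, g₂⁆ := by group
    _ = ⁅y, g₁⁆ * (⁅y, g₁⁆ * ⁅y, g₂⁆) * ⁅y, g₂⁆ := by rw [hcomm]
    _ = (⁅y, g₁⁆ * ⁅y, g₁⁆) * (⁅y, g₂⁆ * ⁅y, g₂⁆) := by group
    _ = 1 := by rw [ha, hb, one_mul]

theorem Pkg.T2 (P : Pkg hc H Y e) {c : G} (hcz : c ∈ cz H Y) (hcc : c * c ∈ zc H) : c ∈ Y := by
  obtain ⟨y, hy, hyy⟩ := P.hsq _ hcc
  have h1 := (mem_cz.1 hcz).2 y hy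
  have h2 : y⁻¹ * c = c * y⁻¹ := by
    calc y⁻¹ * c = y⁻¹ * (c * y) * y⁻¹ := by group
      _ = y⁻¹ * (y * c) * y⁻¹ := by rw [h1]
      _ = c * y⁻¹ := by group
  have h3 : c * y⁻¹ ∈ Om hc := by
    rw [mem_Om]
    calc c * y⁻¹ * (c * y⁻¹) = c * (y⁻¹ * c) * y⁻¹ := by group
      _ = c * (c * y⁻¹) * y⁻¹ := by rw [h2]
      _ = (c * c) * (y * y)⁻¹ := by group
      _ = 1 := by rw [hyy, mul_inv_cancel]
  have h4 : c = c * y⁻¹ * y := by group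
  rw [h4]
  exact Y.mul_mem (P.omY h3) hy

theorem Pkg.exists_nonz (P : Pkg hc H Y e) : ∃ y ∈ Y, y ∉ zc H := by
  obtain ⟨x, -, -, hx1, hx2, -, -⟩ := hc.two
  obtain ⟨y, hy, hye⟩ := P.surj x hx2
  refine ⟨y, hy, fun h => hx1 ?_⟩
  rw [← hye]
  exact (P.ker y hy).2 h

theorem Pkg.cz_ne (P : Pkg hc H Y e) : ∃ g ∈ H, g ∉ cz H Y := by
  obtain ⟨y, hy, hyz⟩ := P.exists_nonz
  by_contra hcon
  push Not at hcon
  apply hyz
  refine mem_zc.2 ⟨P.le hy, fun h hh => ?_⟩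
  exact ((mem_cz.1 (hcon h hh)).2 y hy).symm

theorem Pkg.zc_cz (P : Pkg hc H Y e) {k : G} (hk : k ∈ zc H) : k ∈ cz H Y := by
  obtain ⟨h1, h2⟩ := mem_zc.1 hk
  exact mem_cz.2 ⟨h1, fun y hy => h2 y (P.le hy)⟩

theorem Pkg.abelian (P : Pkg hc H Y e) : ∀ a ∈ Y, ∀ b ∈ Y, a * b = b * a := by
  by_contra hcon
  push Not at hcon
  obtain ⟨a, ha, b, hb, hab⟩ := hcon
  obtain ⟨K, hKY, -, ⟨k, hk, hkc⟩, hK2, -, -⟩ := P.machine Y P.le P.invY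
    ⟨b, hb, fun h => hab ((mem_cz.1 h).2 a ha)⟩
  have h1 := hK2 k hk hkc k (hKY hk) (commutatorElement_self k)
  exact hkc (P.zc_cz h1)

theorem Pkg.cz_abelian (P : Pkg hc H Y e)
    (hIH : ∀ H' : Subgroup G, (∀ x ∈ H', ξ x ∈ H') → Nat.card H' < Nat.card H →
      (∃ a ∈ H', ∃ b ∈ H', a * b ≠ b * a) → ∀ h ∈ H', h * h ∈ Om hc) :
    ∀ a ∈ cz H Y, ∀ b ∈ cz H Y, a * b = b * a := by
  by_contra hcon
  push Not at hcon
  obtain ⟨a, ha, b, hb, hab⟩ := hcon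
  have hlt : Nat.card (cz H Y) < Nat.card H := by
    by_contra hge
    push Not at hge
    have h1 : cz H Y = H := Subgroup.eq_of_le_of_card_ge (inf_le_right : cz H Y ≤ H) hge
    obtain ⟨g, hg, hgc⟩ := P.cz_ne
    exact hgc (by rw [h1]; exact hg)
  have h2 := hIH (cz H Y) (inv_cz P.invH P.invY) hlt ⟨a, ha, b, hb, hab⟩
  have h3 : ∀ c ∈ cz H Y, c ∈ Y := fun c hc' => P.T2 hc' (P.omZ (h2 c hc'))
  exact hab (P.abelian a (h3 a ha) b (h3 b hb))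

/-- The first half of the main argument: `C_H(Y) = Y`. -/
theorem Pkg.cz_le (P : Pkg hc H Y e) (hcz : ∀ a ∈ cz H Y, ∀ b ∈ cz H Y, a * b = b * a)
    (hcase : (∀ g ∈ H, g * g ∈ Om hc → g ∈ zc H) ∨ e = 2) : cz H Y ≤ Y := by
  by_contra hle
  have hab := P.abelian
  have hYcz : Y ≤ cz H Y := fun y hy => mem_cz.2 ⟨P.le hy, fun y' hy' => hab y' hy' y hy⟩
  have hne : Y ≠ cz H Y := fun h => hle (h ▸ le_rfl)
  obtain ⟨c, hcc, hcY, hc2, hch⟩ := up hc.pg H Y (cz H Y) hYcz inf_le_right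
    (fun h hh l hl => P.norm hh hl) (fun h hh c hc => P.cz_norm hh hc) hne
  obtain ⟨K, hKH, hK1, hK2, hK3, hK4, hK5⟩ := P.machine H le_rfl P.invH P.cz_ne
  have hcsq : c * c ∉ zc H := fun h => hcY (P.T2 hcc h)
  have key : ∀ k ∈ K, k ∉ cz H Y → ⁅⁅c, k⁆, k⁆ = ⁅c, k⁆ * ⁅c, k⁆ ∧ ⁅c * c, k⁆ = ⁅c, k⁆ * ⁅c, k⁆ ∧
      ⁅c, k⁆ ^ e = (c * c) ^ e ∧ ⁅c, k⁆ ∉ zc H ∧ ⁅c, k⁆ * ⁅c, k⁆ ≠ 1 := by
    intro k hk hkc
    have hkH := hKH hk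
    obtain ⟨e1, e2⟩ := comm_id c k (hcz c hcc _ (P.sq_cz hkH)) (hcz c hcc _ (P.cz_norm hkH hcc))
    have hρY : ⁅c, k⁆ ∈ Y := hch k hkH
    have h3 : ⁅⁅c, k⁆⁻¹ * (c * c), k⁆ = 1 := by
      have h4 := P.bil1' (Y.inv_mem hρY) hc2 hkH
      have h5 := P.bil1' (Y.inv_mem hρY) hρY hkH
      rw [inv_mul_cancel, commutatorElement_one_left] at h5
      rw [h4, e2, ← e1]
      exact h5.symm
    have h6 := hK3 k hk hkc _ (Y.mul_mem (Y.inv_mem hρY) hc2) h3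
    have h7 := (P.ker _ (Y.mul_mem (Y.inv_mem hρY) hc2)).2 h6
    rw [P.powMul _ (Y.inv_mem hρY) _ hc2, _root_.inv_pow] at h7
    have h8 : ⁅c, k⁆ ^ e = (c * c) ^ e := by
      have := inv_mul_eq_one.mp h7
      exact this
    have h9 : ⁅c, k⁆ ∉ zc H := by
      intro h
      have h10 := (P.ker _ hρY).2 h
      rw [h8] at h10
      exact hcsq ((P.ker _ hc2).1 h10)
    refine ⟨e1, e2, h8, h9, ?_⟩
    intro h11
    rw [← e1] at h11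
    exact h9 (hK3 k hk hkc _ hρY h11)
  rcases hcase with hT | rfl
  · obtain ⟨k, hk, hkc⟩ := hK2
    obtain ⟨e1, -, -, h9, -⟩ := key k hk hkc
    apply h9
    apply hT _ (P.le (hch k (hKH hk)))
    rw [← e1]
    exact P.comm _ (hch k (hKH hk)) k (hKH hk)
  · obtain ⟨k, hk, k', hk', h1, h2, h3⟩ := hK4
    have hu : ∀ k ∈ K, k ∉ cz H Y → ⁅c * c, k⁆ = (c * c) ^ 2 := by
      intro k hk hkc
      obtain ⟨-, e2, h8, -, -⟩ := key k hk hkc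
      rw [← h8, pow_two, e2]
    have h4 := P.bil2 hc2 (g₁ := k) (hKH hk')
    rw [hu _ (K.mul_mem hk hk') h3, hu k hk h1, hu k' hk' h2] at h4
    have h5 : (c * c) ^ 2 * (c * c) ^ 2 = 1 := P.powOm _ hc2
    rw [h5] at h4
    exact hcsq ((P.ker _ hc2).1 h4)

/-- The square of a commutator. -/
def sqc (k g : G) : G := ⁅k, g⁆ * ⁅k, g⁆

theorem sqc_conj (k g : G) : sqc (ξ k) (ξ g) = ξ (sqc k g) := by
  simp only [sqc, map_mul, map_commutatorElement]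

section Two

variable (P : Pkg hc H Y 2) (hle : cz H Y ≤ Y)
include P hle

theorem Pkg.comm_Y {k g : G} (hk : k ∈ H) (hg : g ∈ H) : ⁅k, g⁆ ∈ Y := hle (P.comm_cz hk hg)

theorem Pkg.sq_Y {y : G} (hy : y ∈ Y) : y * y ∈ Om hc := by
  have := P.powOm y hy
  rwa [pow_two] at this

theorem Pkg.sqc_Om {k g : G} (hk : k ∈ H) (hg : g ∈ H) : sqc k g ∈ Om hc :=
  P.sq_Y hle (P.comm_Y hle hk hg)

theorem Pkg.sq4 {a b ω : G} (ha : a ∈ Y) (hb : b ∈ Y) (hω : ω ∈ Om hc) :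
    (a * (ω * b)) * (a * (ω * b)) = (a * a) * (b * b) := by
  have hab := P.abelian a ha b hb
  have h1 : ω * ω = 1 := hω
  have h2 : ∀ x : G, x * ω = ω * x := fun x => hc.comm hω x
  calc (a * (ω * b)) * (a * (ω * b)) = a * (ω * b) * a * (ω * b) := by group
    _ = a * (ω * b * a) * (ω * b) := by group
    _ = a * (ω * (b * a)) * (ω * b) := by group
    _ = a * (ω * (a * b)) * (ω * b) := by rw [hab]
    _ = (a * ω) * (a * b) * ω * b := by group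
    _ = (ω * a) * (a * b) * ω * b := by rw [h2 a]
    _ = ω * (a * (a * b) * ω) * b := by group
    _ = ω * (ω * (a * (a * b))) * b := by rw [h2]
    _ = (ω * ω) * (a * a * b * b) := by group
    _ = (a * a) * (b * b) := by rw [h1]; group

theorem Pkg.sqc_g {k g₁ g₂ : G} (hk : k ∈ H) (h₁ : g₁ ∈ H) (h₂ : g₂ ∈ H) :
    sqc k (g₁ * g₂) = sqc k g₁ * sqc k g₂ := by
  have hr₁ := P.comm_Y hle hk h₁
  have hr₂ := P.comm_Y hle hk h₂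
  have hω : ⁅⁅k, g₂⁆, g₁⁆⁻¹ ∈ Om hc := (Om hc).inv_mem (P.comm _ hr₂ g₁ h₁)
  have h1 : g₁ * ⁅k, g₂⁆ * g₁⁻¹ = ⁅⁅k, g₂⁆, g₁⁆⁻¹ * ⁅k, g₂⁆ := by
    generalize ⁅k, g₂⁆ = r
    simp only [commutatorElement_def]; group
  unfold sqc
  rw [c_mul_right, h1, P.sq4 hle hr₁ hr₂ hω]

theorem Pkg.sqc_k {k₁ k₂ g : G} (h₁ : k₁ ∈ H) (h₂ : k₂ ∈ H) (hg : g ∈ H) :
    sqc (k₁ * k₂) g = sqc k₁ g * sqc k₂ g := by
  have hr₁ := P.comm_Y hle h₁ hg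
  have hr₂ := P.comm_Y hle h₂ hg
  have hω : ⁅⁅k₂, g⁆, k₁⁆⁻¹ ∈ Om hc := (Om hc).inv_mem (P.comm _ hr₂ k₁ h₁)
  have h1 : k₁ * ⁅k₂, g⁆ * k₁⁻¹ = ⁅⁅k₂, g⁆, k₁⁆⁻¹ * ⁅k₂, g⁆ := by
    generalize ⁅k₂, g⁆ = r
    simp only [commutatorElement_def]; group
  have h2 : ⁅k₁, g⁆ * (⁅⁅k₂, g⁆, k₁⁆⁻¹ * ⁅k₂, g⁆) = ⁅⁅k₂, g⁆, k₁⁆⁻¹ * ⁅k₂, g⁆ * ⁅k₁, g⁆ := by
    have h3 := P.abelian _ hr₁ _ hr₂
    have h4 := hc.comm hω ⁅k₁, g⁆
    calc ⁅k₁, g⁆ * (⁅⁅k₂, g⁆, k₁⁆⁻¹ * ⁅k₂, g⁆) = (⁅k₁, g⁆ * ⁅⁅k₂, g⁆, k₁⁆⁻¹) * ⁅k₂, g⁆ := by group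
      _ = (⁅⁅k₂, g⁆, k₁⁆⁻¹ * ⁅k₁, g⁆) * ⁅k₂, g⁆ := by rw [h4]
      _ = ⁅⁅k₂, g⁆, k₁⁆⁻¹ * (⁅k₁, g⁆ * ⁅k₂, g⁆) := by group
      _ = ⁅⁅k₂, g⁆, k₁⁆⁻¹ * (⁅k₂, g⁆ * ⁅k₁, g⁆) := by rw [h3]
      _ = _ := by group
  unfold sqc
  rw [c_mul_left, h1, ← h2, P.sq4 hle hr₁ hr₂ hω]

theorem Pkg.sqc_cz {k g : G} (hk : k ∈ cz H Y) (hg : g ∈ H) : sqc k g = 1 :=
  P.comm k (hle hk) g hg

end Two

/-- The second half of the main argument. -/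
theorem Pkg.false (P : Pkg hc H Y e) (hle : cz H Y ≤ Y)
    (hcase : (∀ g ∈ H, g * g ∈ Om hc → g ∈ zc H) ∨
      (e = 2 ∧ zc H ≤ Om hc ∧ ∀ v ∈ H, v * v ∈ Om hc → (∀ h ∈ H, ⁅v, h⁆ ∈ Om hc) →
        ∀ y ∈ Y, y * v = v * y)) : False := by
  have hab := P.abelian
  have hYcz : Y ≤ cz H Y := fun y hy => mem_cz.2 ⟨P.le hy, fun y' hy' => hab y' hy' y hy⟩
  obtain ⟨K, hKH, hK1, hK2, hK3, hK4, hK5⟩ := P.machine H le_rfl P.invH P.cz_ne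
  have hkk : ∀ k ∈ K, k ∉ cz H Y → k * k ∈ zc H := by
    intro k hk hkc
    apply hK3 k hk hkc _ (hle (P.sq_cz (hKH hk)))
    rw [commutatorElement_eq_one_iff_mul_comm]
    group
  rcases hcase with hT | ⟨rfl, hZO, hV⟩
  · obtain ⟨k, hk, hkc⟩ := hK2
    have hkH := hKH hk
    obtain ⟨y, hy, hyy⟩ := P.hsq _ (hkk k hk hkc)
    have h1 : (k * y⁻¹) * (k * y⁻¹) = ⁅y, k⁻¹⁆ := by
      have hω := P.comm y hy k⁻¹ (H.inv_mem hkH)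
      have h2 : y⁻¹ * k = k * y⁻¹ * ⁅y, k⁻¹⁆ := by
        simp only [commutatorElement_def]; group
      have h3 : y⁻¹ * ⁅y, k⁻¹⁆ = ⁅y, k⁻¹⁆ * y⁻¹ := hc.comm hω _
      calc (k * y⁻¹) * (k * y⁻¹) = k * (y⁻¹ * k) * y⁻¹ := by group
        _ = k * (k * y⁻¹ * ⁅y, k⁻¹⁆) * y⁻¹ := by rw [h2]
        _ = k * k * (y⁻¹ * ⁅y, k⁻¹⁆) * y⁻¹ := by group
        _ = k * k * (⁅y, k⁻¹⁆ * y⁻¹) * y⁻¹ := by rw [h3]
        _ = (k * k) * ⁅y, k⁻¹⁆ * (y * y)⁻¹ := by group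
        _ = (y * y) * ⁅y, k⁻¹⁆ * (y * y)⁻¹ := by rw [hyy]
        _ = _ := by
          rw [hc.conj (P.comm y hy k⁻¹ (H.inv_mem hkH))]
    have h2 : k * y⁻¹ ∈ H := H.mul_mem hkH (H.inv_mem (P.le hy))
    have h3 := hT _ h2 (by rw [h1]; exact P.comm y hy k⁻¹ (H.inv_mem hkH))
    have h4 : k = k * y⁻¹ * y := by group
    apply hkc
    rw [h4]
    exact hYcz (Y.mul_mem (P.hZ h3) hy)
  · -- the case of squaring
    have hA : ∀ k ∈ K, k ∉ cz H Y → ∀ g ∈ H, ⁅⁅k, g⁆, k⁆ = sqc k g := by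
      intro k hk hkc g hg
      exact fix_comm k g ((mem_zc.1 (hkk k hk hkc)).2 g hg).symm
    have hsqc1 : ∀ {k g : G}, k ∈ H → g ∈ H → sqc k g * sqc k g = 1 := fun hk hg =>
      P.sqc_Om hle hk hg
    -- the key: a non-vanishing `g` is non-vanishing everywhere
    have hS1 : ∀ g ∈ H, ∀ k₀ ∈ K, sqc k₀ g ≠ 1 → ∀ k ∈ K, k ∉ cz H Y → sqc k g ≠ 1 := by
      intro g hg k₀ hk₀ hw k hk hkc hk1
      have hk₀H := hKH hk₀
      have hkH := hKH hk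
      have hk₀c : k₀ ∉ cz H Y := fun h => hw (P.sqc_cz hle h hg)
      have h1 : sqc (k₀ * k) g = sqc k₀ g := by
        rw [P.sqc_k hle hk₀H hkH hg, hk1, mul_one]
      by_cases hkk' : k₀ * k ∈ cz H Y
      · exact hw (by rw [← h1]; exact P.sqc_cz hle hkk' hg)
      · have hρ₀ := P.comm_Y hle hk₀H hg
        have hρ₁ := P.comm_Y hle (H.mul_mem hk₀H hkH) hg
        have e1 := hA _ (K.mul_mem hk₀ hk) hkk' g hg
        have e2 := hA k₀ hk₀ hk₀c g hg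
        have e3 : ⁅⁅k₀, g⁆, k₀ * k⁆ = ⁅⁅k₀ * k, g⁆, k₀ * k⁆ := by
          apply P.resp hρ₀ hρ₁ _ (H.mul_mem hk₀H hkH)
          rw [pow_two, pow_two]
          exact h1.symm
        have e4 := P.bil2 hρ₀ (g₁ := k₀) hkH
        rw [e3, e1, e2, h1] at e4
        have e5 : ⁅⁅k₀, g⁆, k⁆ = 1 := by
          have := mul_left_cancel (a := sqc k₀ g) (b := 1) (c := ⁅⁅k₀, g⁆, k⁆) (by rw [mul_one]; exact e4)
          exact this.symm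
        have e6 := hK3 k hk hkc _ hρ₀ e5
        exact hw (hZO e6)
    let H₀ : Subgroup G :=
      { carrier := {g | g ∈ H ∧ ∀ k ∈ K, sqc k g = 1}
        one_mem' := ⟨H.one_mem, fun k _ => by simp [sqc]⟩
        mul_mem' := by
          rintro a b ⟨ha, ha2⟩ ⟨hb, hb2⟩
          refine ⟨H.mul_mem ha hb, fun k hk => ?_⟩
          rw [P.sqc_g hle (hKH hk) ha hb, ha2 k hk, hb2 k hk, one_mul]
        inv_mem' := by
          rintro a ⟨ha, ha2⟩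
          refine ⟨H.inv_mem ha, fun k hk => ?_⟩
          have h1 := P.sqc_g hle (hKH hk) ha (H.inv_mem ha)
          rw [mul_inv_cancel, ha2 k hk, one_mul] at h1
          rw [← h1]
          simp [sqc] }
    have hH₀mem : ∀ g, g ∈ H₀ ↔ g ∈ H ∧ ∀ k ∈ K, sqc k g = 1 := fun _ => Iff.rfl
    have hH₀inv : ∀ x ∈ H₀, ξ x ∈ H₀ := by
      rintro g ⟨hg, hg2⟩
      refine ⟨P.invH g hg, fun k hk => ?_⟩
      have h1 := hg2 _ (inv_symm_mem hK1 hk)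
      have h2 := sqc_conj (ξ := ξ) (ξ.symm k) g
      rw [h1, map_one] at h2
      simpa using h2
    have hall : ∀ g ∈ H, g ∈ H₀ := by
      intro g hg
      apply hc.fix_sub hH₀inv 1 hc.xi_ne_one
      rw [pow_one]
      by_contra hcon
      have hgH₀ : g ∉ H₀ := by
        intro hg0
        exact hcon (H₀.mul_mem (H₀.inv_mem hg0) (hH₀inv g hg0))
      have hnon : ∃ k₀ ∈ K, sqc k₀ g ≠ 1 := by
        by_contra h
        push Not at h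
        exact hgH₀ ⟨hg, h⟩
      obtain ⟨k₀, hk₀, hw⟩ := hnon
      have hξg := P.invH g hg
      have hw' : sqc (ξ k₀) (ξ g) ≠ 1 := by
        rw [sqc_conj]
        intro h
        exact hw (by simpa using h)
      have hS := hS1 g hg k₀ hk₀ hw
      have hS' := hS1 (ξ g) hξg (ξ k₀) (hK1 _ hk₀) hw'
      apply hcon
      refine ⟨H.mul_mem (H.inv_mem hg) hξg, fun k hk => ?_⟩
      have hkH := hKH hk
      have h2 : sqc k g⁻¹ = sqc k g := by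
        have h1 := P.sqc_g hle hkH hg (H.inv_mem hg)
        rw [mul_inv_cancel] at h1
        have h3 : sqc k (1 : G) = 1 := by simp [sqc]
        rw [h3] at h1
        have h4 := hsqc1 hkH hg
        exact (mul_left_cancel (h1.symm.trans h4.symm))
      rw [P.sqc_g hle hkH (H.inv_mem hg) hξg, h2]
      by_cases hkc : k ∈ cz H Y
      · rw [P.sqc_cz hle hkc hg, P.sqc_cz hle hkc hξg, one_mul]
      · have h5 := hK5 k hk hkc _ (P.comm_Y hle hkH hg) _ (P.comm_Y hle hkH hξg)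
          (fun h => hS k hk hkc (hZO h)) (fun h => hS' k hk hkc (hZO h))
          (by rw [hA k hk hkc g hg, pow_two]; rfl)
          (by rw [hA k hk hkc _ hξg, pow_two]; rfl)
        rw [pow_two, pow_two] at h5
        have h6 : sqc k g = sqc k (ξ g) := h5
        rw [← h6]
        exact hsqc1 hkH hg
    obtain ⟨k, hk, hkc⟩ := hK2
    apply hkc
    refine mem_cz.2 ⟨hKH hk, fun y hy => ?_⟩
    exact hV k (hKH hk) (hZO (hkk k hk hkc)) (fun h hh => (hall h hh).2 k hk) y hy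

end Cfsg.Agent.H24.Suz
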