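import Mathlib
import Cfsg.Agent.Lib.H24.SuzD

/-!
Higman's theorem: in a Suzuki 2-group all squares are involutions or trivial.
-/

set_option autoImplicit false

namespace Cfsg.Agent.H24.Suz

open scoped Classical commutatorElement

variable {G : Type*} [Group G] [Finite G] {ξ : MulAut G} {hc : Ctx ξ}

theorem inv_Vv {H L : Subgroup G} (hL : ∀ l ∈ L, l ∈ zc H) (hH : ∀ x ∈ H, ξ x ∈ H)
    (hLi : ∀ x ∈ L, ξ x ∈ L) : ∀ x ∈ Vv H L hL, ξ x ∈ Vv H L hL := by
  rintro v ⟨h1, h2, h3⟩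
  refine ⟨hH v h1, ?_, fun h hh => ?_⟩
  · rw [← map_mul]
    exact hLi _ h2
  · have h4 := hLi _ (h3 _ (inv_symm_mem hH hh))
    rw [map_commutatorElement] at h4
    simpa using h4

/-- The package when the centre of `H` is the set of elements of order at most two. -/
theorem pkg_one (hc : Ctx ξ) {H : Subgroup G} (hH : ∀ x ∈ H, ξ x ∈ H) (hOZ : Om hc ≤ zc H)
    (hZO : zc H ≤ Om hc) (hR : ¬ zc (Vv H (Om hc) hOZ) ≤ Om hc) :
    Pkg hc H (zc (Vv H (Om hc) hOZ)) 2 := by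
  set V := Vv H (Om hc) hOZ with hVdef
  have hVi : ∀ x ∈ V, ξ x ∈ V := inv_Vv hOZ hH hc.invOm
  have hRi : ∀ x ∈ zc V, ξ x ∈ zc V := inv_zc hVi
  have hRV : ∀ {y}, y ∈ zc V → y ∈ V := fun hy => (mem_zc.1 hy).1
  have hsurj : ∀ w ∈ Om hc, ∃ y ∈ zc V, y ^ 2 = w := by
    intro w hw
    by_cases hw1 : w = 1
    · exact ⟨1, (zc V).one_mem, by simp [hw1]⟩
    obtain ⟨r, hr, hrO⟩ := SetLike.not_le_iff_exists.mp hR
    have hr2 : r * r ≠ 1 := fun h => hrO h
    have hr3 : (r * r) * (r * r) = 1 := by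
      have : r * r ∈ Om hc := (hRV hr).2.1
      exact this
    obtain ⟨j, hj⟩ := hc.trans _ w hr2 hr3 hw1 hw
    refine ⟨(ξ ^ j) r, inv_pow_mem hRi j hr, ?_⟩
    rw [pow_two, ← map_mul, hj]
  refine
    { invH := hH
      invY := hRi
      le := fun y hy => (hRV hy).1
      hZ := ?_
      omZ := hOZ
      comm := fun y hy h hh => (hRV hy).2.2 h hh
      powOm := fun y hy => by rw [pow_two]; exact (hRV hy).2.1
      powMul := ?_
      ker := ?_
      surj := hsurj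
      hsq := ?_ }
  · intro z hz
    have hzO := hZO hz
    obtain ⟨h1, h2⟩ := mem_zc.1 hz
    refine mem_zc.2 ⟨⟨h1, ?_, fun h hh => ?_⟩, fun v _ => hc.comm hzO v⟩
    · exact (Om hc).mul_mem hzO hzO
    · rw [show ⁅z, h⁆ = 1 from commutatorElement_eq_one_iff_mul_comm.mpr (h2 h hh).symm]
      exact (Om hc).one_mem
  · intro a ha b hb
    have h1 : a * b = b * a := (mem_zc.1 hb).2 a (hRV ha)
    exact (show Commute a b from h1).mul_pow 2
  · intro y hy
    rw [pow_two]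
    constructor
    · intro h
      exact hOZ h
    · intro h
      exact hZO h
  · intro z hz
    obtain ⟨y, hy, hy2⟩ := hsurj z (hZO hz)
    exact ⟨y, hy, by rw [← pow_two]; exact hy2⟩

/-- The kernel of a power map on an abelian subgroup. -/
theorem ker_pow_eq_sq (hc : Ctx ξ) {Z : Subgroup G} (hZab : ∀ a ∈ Z, ∀ b ∈ Z, a * b = b * a)
    (hOZ : Om hc ≤ Z) (a : ℕ) (h2a : ∀ z ∈ Z, z ^ (2 * a) = 1)
    (hsurj : ∀ w ∈ Om hc, ∃ z ∈ Z, z ^ a = w) (z : G) (hz : z ∈ Z) (hza : z ^ a = 1) :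
    ∃ t ∈ Z, t * t = z := by
  letI : CommGroup Z := { (inferInstance : Group Z) with
    mul_comm := fun x y => Subtype.ext (hZab x x.2 y y.2) }
  let sq : Z →* Z := powMonoidHom 2
  let ψ : Z →* Z := powMonoidHom a
  have hcoe : ∀ (x : Z) (n : ℕ), ((x ^ n : Z) : G) = (x : G) ^ n := fun _ _ => rfl
  have hle : sq.range ≤ ψ.ker := by
    rintro _ ⟨t, rfl⟩
    rw [MonoidHom.mem_ker]
    apply Subtype.ext
    show ((t ^ 2 : Z) : G) ^ a = 1
    rw [hcoe, ← pow_mul]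
    exact h2a _ t.2
  have hRK : ψ.range = sq.ker := by
    ext x
    constructor
    · rintro ⟨t, rfl⟩
      rw [MonoidHom.mem_ker]
      apply Subtype.ext
      show ((t ^ a : Z) : G) ^ 2 = 1
      rw [hcoe, ← pow_mul, mul_comm]
      exact h2a _ t.2
    · intro hx
      rw [MonoidHom.mem_ker] at hx
      have hx2 : (x : G) * x = 1 := by
        have := congrArg Subtype.val hx
        rw [← pow_two]
        exact this
      obtain ⟨t, ht, hta⟩ := hsurj x hx2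
      exact ⟨⟨t, ht⟩, Subtype.ext hta⟩
  have hcardeq : sq.range = ψ.ker := by
    apply Subgroup.eq_of_le_of_card_ge hle
    have h1 := Subgroup.card_mul_index ψ.ker
    have h2 := Subgroup.card_mul_index sq.ker
    rw [Subgroup.index_ker] at h1 h2
    rw [hRK] at h1
    have hpos : 0 < Nat.card sq.ker := Nat.card_pos
    have h3 : Nat.card ψ.ker * Nat.card sq.ker = Nat.card sq.range * Nat.card sq.ker := by
      rw [h1, mul_comm (Nat.card sq.range), h2]
    exact (Nat.eq_of_mul_eq_mul_right hpos h3).le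
  have h4 : (⟨z, hz⟩ : Z) ∈ ψ.ker := by
    rw [MonoidHom.mem_ker]
    exact Subtype.ext hza
  rw [← hcardeq] at h4
  obtain ⟨t, ht⟩ := h4
  refine ⟨t, t.2, ?_⟩
  have := congrArg Subtype.val ht
  rw [← pow_two]
  exact this

/-- The package when the centre of `H` is larger. -/
theorem pkg_two (hc : Ctx ξ) {H : Subgroup G} (hH : ∀ x ∈ H, ξ x ∈ H) (hOZ : Om hc ≤ zc H)
    (hnon : ∃ a ∈ H, ∃ b ∈ H, a * b ≠ b * a) (hZO : ¬ zc H ≤ Om hc) :
    ∃ (e : ℕ) (Y : Subgroup G), Pkg hc H Y e ∧ ∀ g ∈ H, g * g ∈ Om hc → g ∈ zc H := by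
  have hZi : ∀ x ∈ zc H, ξ x ∈ zc H := inv_zc hH
  have hZab : ∀ a ∈ zc H, ∀ b ∈ zc H, a * b = b * a := fun a ha b hb =>
    (mem_zc.1 hb).2 a (mem_zc.1 ha).1
  have hex : ∃ k : ℕ, ∀ z ∈ zc H, z ^ (2 ^ k) = 1 := by
    have hfact : Fact (Nat.Prime 2) := ⟨Nat.prime_two⟩
    obtain ⟨s, hs⟩ := IsPGroup.iff_card.mp hc.pg
    exact ⟨s, fun z _ => by rw [← hs]; exact pow_card_eq_one'⟩
  obtain ⟨r, hr, hrO⟩ := SetLike.not_le_iff_exists.mp hZO
  have hr2 : r * r ≠ 1 := fun h => hrO h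
  have hk0 : Nat.find hex ≠ 0 := by
    intro h
    have := Nat.find_spec hex r hr
    rw [h, pow_zero, pow_one] at this
    apply hr2
    rw [this, one_mul]
  have hk1 : Nat.find hex ≠ 1 := by
    intro h
    have := Nat.find_spec hex r hr
    rw [h, pow_one, pow_two] at this
    exact hr2 this
  obtain ⟨b, hb⟩ : ∃ b, Nat.find hex = b + 2 := ⟨Nat.find hex - 2, by omega⟩
  have hmin : ¬ ∀ z ∈ zc H, z ^ (2 ^ (b + 1)) = 1 := Nat.find_min hex (by omega)
  push Not at hmin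
  obtain ⟨z₀, hz₀, hz₀1⟩ := hmin
  have hexp : ∀ z ∈ zc H, z ^ (2 * 2 ^ (b + 1)) = 1 := by
    intro z hz
    have := Nat.find_spec hex z hz
    rw [hb] at this
    rw [← this]
    congr 1
    rw [pow_succ' 2 (b + 1)]
  obtain ⟨a, ha⟩ : ∃ a, a = 2 ^ (b + 1) := ⟨_, rfl⟩
  rw [← ha] at hz₀1 hexp
  have hpsi : ∀ z ∈ zc H, z ^ a * z ^ a = 1 := by
    intro z hz
    rw [← pow_add, ← two_mul]
    exact hexp z hz
  have hsurjψ : ∀ w ∈ Om hc, ∃ z ∈ zc H, z ^ a = w := by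
    intro w hw
    by_cases hw1 : w = 1
    · exact ⟨1, (zc H).one_mem, by simp [hw1]⟩
    obtain ⟨j, hj⟩ := hc.trans _ w hz₀1 (hpsi z₀ hz₀) hw1 hw
    exact ⟨(ξ ^ j) z₀, inv_pow_mem hZi j hz₀, by rw [← map_pow, hj]⟩
  have hsq := ker_pow_eq_sq hc hZab hOZ a hexp hsurjψ
  set Y := Vv H (zc H) (fun _ h => h) with hYdef
  have hYi : ∀ x ∈ Y, ξ x ∈ Y := inv_Vv _ hH hZi
  have hYH : ∀ {y}, y ∈ Y → y ∈ H := fun hy => hy.1
  have hYsq : ∀ {y}, y ∈ Y → y * y ∈ zc H := fun hy => hy.2.1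
  have hZY : zc H ≤ Y := by
    intro z hz
    obtain ⟨h1, h2⟩ := mem_zc.1 hz
    refine ⟨h1, (zc H).mul_mem hz hz, fun h hh => ?_⟩
    rw [show ⁅z, h⁆ = 1 from commutatorElement_eq_one_iff_mul_comm.mpr (h2 h hh).symm]
    exact (zc H).one_mem
  have hcomm : ∀ y ∈ Y, ∀ h ∈ H, ⁅y, h⁆ ∈ Om hc := by
    intro y hy h hh
    have h1 : ⁅y, h⁆ ∈ zc H := hy.2.2 h hh
    have h2 := c_mul_left y y h
    have h3 : y * ⁅y, h⁆ * y⁻¹ = ⁅y, h⁆ := by
      rw [(mem_zc.1 h1).2 y (hYH hy), mul_inv_cancel_right]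
    rw [h3] at h2
    have h4 : ⁅y * y, h⁆ = 1 :=
      commutatorElement_eq_one_iff_mul_comm.mpr ((mem_zc.1 (hYsq hy)).2 h hh).symm
    rw [h4] at h2
    exact h2.symm
  have hpoweq : ∀ y : G, y ^ (2 * a) = (y * y) ^ a := by
    intro y
    rw [pow_mul, pow_two]
  have ha2 : ∀ w ∈ Om hc, w ^ a = 1 := by
    intro w hw
    rw [ha, pow_succ', pow_mul, pow_two, show w * w = 1 from hw, one_pow]
  have hker : ∀ y ∈ Y, y ^ (2 * a) = 1 ↔ y ∈ zc H := by
    intro y hy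
    constructor
    · intro h
      rw [hpoweq] at h
      obtain ⟨t, ht, htt⟩ := hsq _ (hYsq hy) h
      have hty : t * y = y * t := ((mem_zc.1 ht).2 y (hYH hy)).symm
      have hu : y * t⁻¹ ∈ Om hc := by
        rw [mem_Om]
        have h1 : t⁻¹ * y = y * t⁻¹ := by
          calc t⁻¹ * y = t⁻¹ * (y * t) * t⁻¹ := by group
            _ = t⁻¹ * (t * y) * t⁻¹ := by rw [hty]
            _ = y * t⁻¹ := by group
        calc y * t⁻¹ * (y * t⁻¹) = y * (t⁻¹ * y) * t⁻¹ := by group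
          _ = y * (y * t⁻¹) * t⁻¹ := by rw [h1]
          _ = (y * y) * (t * t)⁻¹ := by group
          _ = 1 := by rw [htt, mul_inv_cancel]
      have h2 : y = y * t⁻¹ * t := by group
      rw [h2]
      exact (zc H).mul_mem (hOZ hu) ht
    · intro h
      exact hexp y h
  have hpowOm : ∀ y ∈ Y, y ^ (2 * a) ∈ Om hc := by
    intro y hy
    rw [hpoweq]
    exact hpsi _ (hYsq hy)
  -- an element outside the centre
  have hZne : zc H ≠ H := by
    intro h
    obtain ⟨x, hx, y, hy, hxy⟩ := hnon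
    rw [← h] at hx
    exact hxy ((mem_zc.1 hx).2 y hy).symm
  obtain ⟨c, hcH, hcZ, hc2, hch⟩ := up hc.pg H (zc H) H inf_le_right le_rfl
    (fun h hh l hl => by rw [(mem_zc.1 hl).2 h hh, mul_inv_cancel_right]; exact hl)
    (fun h hh c hc => H.mul_mem (H.mul_mem hh hc) (H.inv_mem hh)) hZne
  have hcY : c ∈ Y := ⟨hcH, hc2, hch⟩
  have hsurj : ∀ w ∈ Om hc, ∃ y ∈ Y, y ^ (2 * a) = w := by
    intro w hw
    by_cases hw1 : w = 1
    · exact ⟨1, Y.one_mem, by simp [hw1]⟩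
    have hc1 : c ^ (2 * a) ≠ 1 := fun h => hcZ ((hker c hcY).1 h)
    obtain ⟨j, hj⟩ := hc.trans _ w hc1 (hpowOm c hcY) hw1 hw
    exact ⟨(ξ ^ j) c, inv_pow_mem hYi j hcY, by rw [← map_pow, hj]⟩
  refine ⟨2 * a, Y,
    { invH := hH
      invY := hYi
      le := fun y hy => hYH hy
      hZ := hZY
      omZ := hOZ
      comm := hcomm
      powOm := hpowOm
      powMul := ?_
      ker := hker
      surj := hsurj
      hsq := ?_ }, ?_⟩
  · intro x hx y hy
    rw [hpoweq, hpoweq, hpoweq]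
    have hω : ⁅y, x⁆ ∈ Om hc := hcomm y hy x (hYH hx)
    have h1 : x * y * (x * y) = ⁅y, x⁆ * ((x * x) * (y * y)) := by
      have h2 : y * x = ⁅y, x⁆ * (x * y) := by
        simp only [commutatorElement_def]; group
      calc x * y * (x * y) = x * (y * x) * y := by group
        _ = x * (⁅y, x⁆ * (x * y)) * y := by rw [h2]
        _ = (x * ⁅y, x⁆) * (x * y) * y := by group
        _ = (⁅y, x⁆ * x) * (x * y) * y := by rw [hc.comm hω x]
        _ = _ := by group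
    rw [h1]
    have h3 : Commute (⁅y, x⁆) ((x * x) * (y * y)) := (hc.comm hω _).symm
    rw [h3.mul_pow, ha2 _ hω, one_mul]
    have h4 : Commute (x * x) (y * y) := hZab _ (hYsq hx) _ (hYsq hy)
    rw [h4.mul_pow]
  · intro z hz
    have hw : z ^ a ∈ Om hc := hpsi z hz
    obtain ⟨y₀, hy₀, hy₀e⟩ := hsurj _ hw
    rw [hpoweq] at hy₀e
    have hm : z⁻¹ * (y₀ * y₀) ∈ zc H := (zc H).mul_mem ((zc H).inv_mem hz) (hYsq hy₀)
    have hm1 : (z⁻¹ * (y₀ * y₀)) ^ a = 1 := by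
      have h4 : Commute z⁻¹ (y₀ * y₀) := hZab _ ((zc H).inv_mem hz) _ (hYsq hy₀)
      rw [h4.mul_pow, hy₀e, _root_.inv_pow, inv_mul_cancel]
    obtain ⟨t, ht, htt⟩ := hsq _ hm hm1
    refine ⟨y₀ * t⁻¹, Y.mul_mem hy₀ (Y.inv_mem (hZY ht)), ?_⟩
    have hty : t⁻¹ * y₀ = y₀ * t⁻¹ := (mem_zc.1 ((zc H).inv_mem ht)).2 y₀ (hYH hy₀) |>.symm
    have h5 : y₀ * y₀ = z * (t * t) := by
      rw [htt]; group
    calc y₀ * t⁻¹ * (y₀ * t⁻¹) = y₀ * (t⁻¹ * y₀) * t⁻¹ := by group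
      _ = y₀ * (y₀ * t⁻¹) * t⁻¹ := by rw [hty]
      _ = (y₀ * y₀) * (t * t)⁻¹ := by group
      _ = z := by rw [h5]; group
  · intro g hg hgg
    obtain ⟨z, hz, hza⟩ := hsurjψ _ hgg
    obtain ⟨t, ht, htt⟩ : ∃ t ∈ zc H, t * t = g * g := by
      refine ⟨z ^ (2 ^ b), (zc H).pow_mem hz _, ?_⟩
      rw [← pow_add, ← two_mul, ← pow_succ', ← ha, hza]
    have hty : t⁻¹ * g = g * t⁻¹ := (mem_zc.1 ((zc H).inv_mem ht)).2 g hg |>.symm
    have hu : g * t⁻¹ ∈ Om hc := by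
      rw [mem_Om]
      calc g * t⁻¹ * (g * t⁻¹) = g * (t⁻¹ * g) * t⁻¹ := by group
        _ = g * (g * t⁻¹) * t⁻¹ := by rw [hty]
        _ = (g * g) * (t * t)⁻¹ := by group
        _ = 1 := by rw [htt, mul_inv_cancel]
    have h2 : g = g * t⁻¹ * t := by group
    rw [h2]
    exact (zc H).mul_mem (hOZ hu) ht

/-- **Higman's theorem**, for invariant nonabelian subgroups. -/
theorem higman (hc : Ctx ξ) : ∀ (n : ℕ) (H : Subgroup G), Nat.card H = n → (∀ x ∈ H, ξ x ∈ H) →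
    (∃ a ∈ H, ∃ b ∈ H, a * b ≠ b * a) → ∀ h ∈ H, h * h ∈ Om hc := by
  intro n
  induction n using Nat.strong_induction_on with
  | _ n ih =>
    intro H hn hH hnon
    have hIH : ∀ H' : Subgroup G, (∀ x ∈ H', ξ x ∈ H') → Nat.card H' < Nat.card H →
        (∃ a ∈ H', ∃ b ∈ H', a * b ≠ b * a) → ∀ h ∈ H', h * h ∈ Om hc := by
      intro H' h1 h2 h3
      exact ih _ (hn ▸ h2) H' rfl h1 h3
    have hne : H ≠ ⊥ := by
      rintro rfl
      obtain ⟨a, ha, b, hb, hab⟩ := hnon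
      rw [Subgroup.mem_bot] at ha hb
      rw [ha, hb] at hab
      exact hab rfl
    have hOH := hc.om_le hH hne
    have hOZ : Om hc ≤ zc H := fun w hw => mem_zc.2 ⟨hOH hw, fun h _ => hc.comm hw h⟩
    by_cases hZO : zc H ≤ Om hc
    · set V := Vv H (Om hc) hOZ with hVdef
      by_cases hR : zc V ≤ Om hc
      · -- the good case
        intro g hg
        have hVH : ∀ {v}, v ∈ V → v ∈ H := fun hv => hv.1
        have hVn : ∀ {h v : G}, h ∈ H → v ∈ V → h * v * h⁻¹ ∈ V := by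
          intro h v hh hv
          have h1 : h * v * h⁻¹ = ⁅v, h⁆⁻¹ * v := by
            simp only [commutatorElement_def]; group
          rw [h1]
          refine V.mul_mem (V.inv_mem ?_) hv
          have h2 : ⁅v, h⁆ ∈ Om hc := hv.2.2 h hh
          exact ⟨hOH h2, (Om hc).mul_mem h2 h2, fun h' _ => by
            rw [show ⁅⁅v, h⁆, h'⁆ = 1 from commutatorElement_eq_one_iff_mul_comm.mpr (hc.comm h2 h').symm]
            exact (Om hc).one_mem⟩
        have hle : cz H V ≤ Om hc := by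
          by_contra hcon
          have hne' : Om hc ≠ cz H V := fun h => hcon (h ▸ le_rfl)
          obtain ⟨c, hcc, hcO, hc2, hch⟩ := up hc.pg H (Om hc) (cz H V)
            (fun w hw => mem_cz.2 ⟨hOH hw, fun v _ => hc.comm hw v⟩) inf_le_right
            (fun h _ l hl => by rw [hc.conj hl]; exact hl)
            (fun h hh c' hc' => by
              obtain ⟨h1, h2⟩ := mem_cz.1 hc'
              refine mem_cz.2 ⟨H.mul_mem (H.mul_mem hh h1) (H.inv_mem hh), fun y hy => ?_⟩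
              have hy' := hVn (H.inv_mem hh) hy
              rw [inv_inv] at hy'
              have h3 := h2 _ hy'
              calc y * (h * c' * h⁻¹) = h * ((h⁻¹ * y * h) * c') * h⁻¹ := by group
                _ = h * (c' * (h⁻¹ * y * h)) * h⁻¹ := by rw [h3]
                _ = (h * c' * h⁻¹) * y := by group) hne'
          have hcV : c ∈ V := ⟨(mem_cz.1 hcc).1, hc2, hch⟩
          exact hcO (hR (mem_zc.2 ⟨hcV, (mem_cz.1 hcc).2⟩))
        apply hle
        refine mem_cz.2 ⟨H.mul_mem hg hg, fun v hv => ?_⟩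
        apply commutatorElement_eq_one_iff_mul_comm.mp
        have h2 : ⁅v, g⁆ ∈ Om hc := hv.2.2 g hg
        rw [c_mul_right, hc.conj h2]
        exact h2
      · exfalso
        have P := pkg_one hc hH hOZ hZO hR
        have hcz := P.cz_abelian hIH
        have hle := P.cz_le hcz (Or.inr rfl)
        refine P.false hle (Or.inr ⟨rfl, hZO, ?_⟩)
        intro v hv hv2 hv3 y hy
        exact ((mem_zc.1 hy).2 v ⟨hv, hv2, hv3⟩).symm
    · exfalso
      obtain ⟨e, Y, P, hT⟩ := pkg_two hc hH hOZ hnon hZO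
      have hcz := P.cz_abelian hIH
      have hle := P.cz_le hcz (Or.inl hT)
      exact P.false hle (Or.inl hT)

/-- Higman's theorem, for the whole group. -/
theorem higman_top (hc : Ctx ξ) (hnon : ∃ a b : G, a * b ≠ b * a) (g : G) : g * g ∈ Om hc := by
  obtain ⟨a, b, hab⟩ := hnon
  exact higman hc _ ⊤ rfl (fun _ _ => trivial) ⟨a, trivial, b, trivial, hab⟩ g trivial

theorem comm_mem_Om (hc : Ctx ξ) (hnon : ∃ a b : G, a * b ≠ b * a) (x y : G) : ⁅x, y⁆ ∈ Om hc := by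
  have h1 := higman_top hc hnon (x * y)
  have h2 := higman_top hc hnon x
  have h3 := higman_top hc hnon y
  have h4 : ⁅x, y⁆ = (x * y * (x * y)) * (y⁻¹ * (x * x)⁻¹ * y) * (y * y)⁻¹ := by
    simp only [commutatorElement_def]; group
  rw [h4, hc.conj' ((Om hc).inv_mem h2) y]
  exact (Om hc).mul_mem ((Om hc).mul_mem h1 ((Om hc).inv_mem h2)) ((Om hc).inv_mem h3)

end Cfsg.Agent.H24.Suz
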