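import Mathlib
import Cfsg.Prelude.Def_LieRecognition
import Cfsg.Agent.Lib.H24.SuzF
import Cfsg.Agent.Lib.H24.SuzG

/-!
Higman's theorem on Suzuki 2-groups: the centre, the order and the exponent.
-/

set_option autoImplicit false

namespace Cfsg.Agent.H24.Suz

open scoped commutatorElement

variable {G : Type*} [Group G] [Finite G] {ξ : MulAut G}

theorem center_le_Om (hc : Ctx ξ) (hnon : ∃ a b : G, a * b ≠ b * a) {z : G}
    (hz : z ∈ Subgroup.center G) : z ∈ Om hc := by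
  obtain ⟨a, b, hab⟩ := hnon
  have hH : ∀ x ∈ (⊤ : Subgroup G), ξ x ∈ (⊤ : Subgroup G) := fun _ _ => trivial
  have hOZ : Om hc ≤ zc ⊤ := fun w hw => mem_zc.2 ⟨trivial, fun h _ => hc.comm hw h⟩
  have hZ : zc (⊤ : Subgroup G) ≤ Om hc := by
    by_contra hZO
    obtain ⟨e, Y, P, hT⟩ := pkg_two hc hH hOZ ⟨a, trivial, b, trivial, hab⟩ hZO
    have hcz := P.cz_abelian (fun H' h1 _ h3 => higman hc _ H' rfl h1 h3)
    have hle := P.cz_le hcz (Or.inl hT)
    exact P.false hle (Or.inl hT)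
  exact hZ (mem_zc.2 ⟨trivial, fun h _ => Subgroup.mem_center_iff.mp hz h⟩)

theorem center_eq_Om (hc : Ctx ξ) (hnon : ∃ a b : G, a * b ≠ b * a) : Subgroup.center G = Om hc :=
  le_antisymm (fun _ hz => center_le_Om hc hnon hz)
    (fun _ hw => Subgroup.mem_center_iff.mpr fun g => hc.comm hw g)

/-- Counting the elements outside `Om` by their squares. -/
theorem card_count (hc : Ctx ξ) (hnon : ∃ a b : G, a * b ≠ b * a) :
    ∃ c, Nat.card G = Nat.card (Om hc) + orderOf ξ * c := by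
  classical
  have : Fintype G := Fintype.ofFinite G
  obtain ⟨x₀, -, -, hx1, hx2, -, -⟩ := hc.two
  let T : Finset G := Finset.univ.filter (· ∉ Om hc)
  let W : Finset G := (Finset.univ.filter (· ∈ Om hc)).erase 1
  have hTcard : T.card = Nat.card G - Nat.card (Om hc) := by
    have h1 : (Finset.univ.filter (· ∈ Om hc)).card = Nat.card (Om hc) := by
      rw [Nat.card_eq_fintype_card, Fintype.card_subtype]
    have h2 := Finset.card_filter_add_card_filter_not (s := (Finset.univ : Finset G)) (· ∈ Om hc)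
    rw [Finset.card_univ, h1] at h2
    rw [Nat.card_eq_fintype_card (α := G)]
    show (Finset.univ.filter (· ∉ Om hc)).card = _
    omega
  have hWcard : W.card = orderOf ξ := by
    rw [Finset.card_erase_of_mem (by simp [(Om hc).one_mem])]
    have h1 : (Finset.univ.filter (· ∈ Om hc)).card = Nat.card (Om hc) := by
      rw [Nat.card_eq_fintype_card, Fintype.card_subtype]
    rw [h1, hc.card_Om]
    simp
  have hmaps : ∀ g ∈ T, g * g ∈ W := by
    intro g hg
    have hg' : g ∉ Om hc := (Finset.mem_filter.mp hg).2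
    refine Finset.mem_erase.mpr ⟨fun h => hg' h, Finset.mem_filter.mpr ⟨Finset.mem_univ _, higman_top hc hnon g⟩⟩
  have hfib := Finset.card_eq_sum_card_fiberwise hmaps
  have hW0 : ∀ w ∈ W, (T.filter (fun g => g * g = w)).card = (T.filter (fun g => g * g = x₀)).card := by
    intro w hw
    obtain ⟨hw1, hw2⟩ := Finset.mem_erase.mp hw
    have hw3 : w * w = 1 := (Finset.mem_filter.mp hw2).2
    obtain ⟨j, rfl⟩ := hc.trans x₀ w hx1 hx2 hw1 hw3
    symm
    refine Finset.card_bij (fun g _ => (ξ ^ j) g) ?_ ?_ ?_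
    · intro g hg
      obtain ⟨h1, h2⟩ := Finset.mem_filter.mp hg
      have h3 : g ∉ Om hc := (Finset.mem_filter.mp h1).2
      refine Finset.mem_filter.mpr ⟨Finset.mem_filter.mpr ⟨Finset.mem_univ _, fun h => h3 ?_⟩, ?_⟩
      · have h4 : (ξ ^ j) (g * g) = 1 := by rw [map_mul]; exact h
        have h5 : g * g = 1 := by
          apply (ξ ^ j).injective
          rw [h4, map_one]
        exact h5
      · rw [← map_mul, h2]
    · intro a _ b _ hab
      exact (ξ ^ j).injective hab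
    · intro g hg
      obtain ⟨h1, h2⟩ := Finset.mem_filter.mp hg
      have h3 : g ∉ Om hc := (Finset.mem_filter.mp h1).2
      refine ⟨(ξ ^ j).symm g, ?_, by simp⟩
      refine Finset.mem_filter.mpr ⟨Finset.mem_filter.mpr ⟨Finset.mem_univ _, fun h => h3 ?_⟩, ?_⟩
      · have h4 : (ξ ^ j).symm g * (ξ ^ j).symm g = 1 := h
        have h5 := congrArg (ξ ^ j) h4
        rw [map_mul] at h5
        have h6 : g * g = 1 := by simpa using h5
        exact h6
      · apply (ξ ^ j).injective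
        rw [map_mul]
        simpa using h2
  refine ⟨(T.filter (fun g => g * g = x₀)).card, ?_⟩
  rw [Finset.sum_congr rfl hW0, Finset.sum_const, smul_eq_mul, hWcard, hTcard] at hfib
  have hle : Nat.card (Om hc) ≤ Nat.card G := Subgroup.card_le_card_group _
  omega

theorem nt_dvd (n d c : ℕ) (hn : 0 < n) (h : 2 ^ d * 2 ^ n = 2 ^ n + (2 ^ n - 1) * c) : n ∣ d := by
  have h1 : 1 ≤ 2 ^ d := Nat.one_le_two_pow
  have h2 : (2 ^ n - 1) ∣ 2 ^ n * (2 ^ d - 1) := by
    refine ⟨c, ?_⟩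
    rw [Nat.mul_sub, mul_one, mul_comm (2 ^ n) (2 ^ d), h]
    omega
  have hcop : Nat.Coprime (2 ^ n - 1) (2 ^ n) := by
    have h3 : 1 ≤ 2 ^ n := Nat.one_le_two_pow
    have : Nat.Coprime (2 ^ n - 1) (2 ^ n - 1 + 1) := by simp
    rwa [Nat.sub_add_cancel h3] at this
  have h3 := hcop.dvd_of_dvd_mul_left h2
  have h4 := Nat.pow_sub_one_gcd_pow_sub_one 2 n d
  rw [Nat.gcd_eq_left h3] at h4
  have h5 : 1 ≤ 2 ^ n := Nat.one_le_two_pow
  have h6 : 1 ≤ 2 ^ (Nat.gcd n d) := Nat.one_le_two_pow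
  have h7 : 2 ^ n = 2 ^ (Nat.gcd n d) := by omega
  have h8 := Nat.pow_right_injective (le_refl 2) h7
  rw [h8]
  exact Nat.gcd_dvd_right n d

theorem card_bound (hc : Ctx ξ) (hnon : ∃ a b : G, a * b ≠ b * a) :
    ∃ d n : ℕ, Nat.card (G ⧸ Om hc) = 2 ^ d ∧ Nat.card (Om hc) = 2 ^ n ∧ d ≤ 2 * n := by
  have hN : (Om hc).Normal := ⟨fun w hw g => by rw [hc.conj hw]; exact hw⟩
  have hsqO : ∀ a : G, a * a ∈ Om hc := higman_top hc hnon
  have hcO : ∀ a b : G, ⁅a, b⁆ ∈ Om hc := comm_mem_Om hc hnon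
  let cg : CommGroup (G ⧸ Om hc) :=
    { (inferInstance : Group (G ⧸ Om hc)) with
      mul_comm := by
        intro a b
        obtain ⟨a, rfl⟩ := QuotientGroup.mk_surjective a
        obtain ⟨b, rfl⟩ := QuotientGroup.mk_surjective b
        show ((a * b : G) : G ⧸ Om hc) = ((b * a : G) : G ⧸ Om hc)
        rw [QuotientGroup.eq]
        have h1 : (a * b)⁻¹ * (b * a) = ⁅b⁻¹, a⁻¹⁆ := by
          simp only [commutatorElement_def]; group
        rw [h1]
        exact hcO _ _ }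
  let co : CommGroup (Om hc) := omCG hc
  have hrep : ∀ {a b : G}, ((a : G) : G ⧸ Om hc) = b → ∃ w ∈ Om hc, b = a * w := by
    intro a b h
    rw [QuotientGroup.eq] at h
    exact ⟨_, h, by group⟩
  have hsqrep : ∀ {a b : G}, ((a : G) : G ⧸ Om hc) = b → a * a = b * b := by
    intro a b h
    obtain ⟨w, hw, rfl⟩ := hrep h
    have h1 : w * a = a * w := (hc.comm hw a).symm
    calc a * a = a * a * (w * w) := by rw [show w * w = 1 from hw, mul_one]
      _ = a * (a * w) * w := by group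
      _ = a * (w * a) * w := by rw [h1]
      _ = a * w * (a * w) := by group
  have hcl : ∀ {a w c : G}, w ∈ Om hc → ⁅a * w, c⁆ = ⁅a, c⁆ := by
    intro a w c hw
    rw [c_mul_left, show ⁅w, c⁆ = 1 from commutatorElement_eq_one_iff_mul_comm.mpr (hc.comm hw c).symm]
    group
  have hcr : ∀ {a w c : G}, w ∈ Om hc → ⁅c, a * w⁆ = ⁅c, a⁆ := by
    intro a w c hw
    rw [c_mul_right, show ⁅c, w⁆ = 1 from commutatorElement_eq_one_iff_mul_comm.mpr (hc.comm hw c)]
    group
  have hcrep : ∀ {a b a' b' : G}, ((a : G) : G ⧸ Om hc) = a' → ((b : G) : G ⧸ Om hc) = b' →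
      ⁅a, b⁆ = ⁅a', b'⁆ := by
    intro a b a' b' h1 h2
    obtain ⟨w, hw, rfl⟩ := hrep h1
    obtain ⟨w', hw', rfl⟩ := hrep h2
    rw [hcl hw, hcr hw']
  -- the maps
  let sq0 : G ⧸ Om hc → Om hc := fun q => ⟨q.out * q.out, hsqO _⟩
  let br0 : G ⧸ Om hc → G ⧸ Om hc → Om hc := fun q r => ⟨⁅q.out, r.out⁆, hcO _ _⟩
  have hsq0 : ∀ a : G, ((sq0 (a : G ⧸ Om hc) : Om hc) : G) = a * a := by
    intro a
    exact (hsqrep (QuotientGroup.out_eq' (a : G ⧸ Om hc))).symm ▸ rfl
  have hbr0 : ∀ a b : G, ((br0 (a : G ⧸ Om hc) (b : G ⧸ Om hc) : Om hc) : G) = ⁅a, b⁆ := by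
    intro a b
    exact (hcrep (QuotientGroup.out_eq' (a : G ⧸ Om hc)) (QuotientGroup.out_eq' (b : G ⧸ Om hc))).symm ▸ rfl
  have hadd : ∀ x : Additive (G ⧸ Om hc), ∃ a : G, x = Additive.ofMul (a : G ⧸ Om hc) := by
    intro x
    obtain ⟨a, ha⟩ := QuotientGroup.mk_surjective (Additive.toMul x)
    exact ⟨a, by rw [ha]; rfl⟩
  have hmk : ∀ a b : G, (Additive.ofMul (a : G ⧸ Om hc) + Additive.ofMul (b : G ⧸ Om hc) :
      Additive (G ⧸ Om hc)) = Additive.ofMul ((a * b : G) : G ⧸ Om hc) := fun _ _ => rfl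
  let s : Additive (G ⧸ Om hc) → Additive (Om hc) :=
    fun x => Additive.ofMul (sq0 (Additive.toMul x))
  let B : Additive (G ⧸ Om hc) → Additive (G ⧸ Om hc) → Additive (Om hc) :=
    fun x y => Additive.ofMul (br0 (Additive.toMul x) (Additive.toMul y))
  have hs1 : ∀ a : G, ((Additive.toMul (s (Additive.ofMul (a : G ⧸ Om hc))) : Om hc) : G) = a * a :=
    fun a => hsq0 a
  have hB1' : ∀ a b : G, ((Additive.toMul (B (Additive.ofMul (a : G ⧸ Om hc)) (Additive.ofMul (b : G ⧸ Om hc))) : Om hc) : G) = ⁅a, b⁆ :=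
    fun a b => hbr0 a b
  have hWadd : ∀ u v : Additive (Om hc), ((Additive.toMul (u + v) : Om hc) : G) =
      ((Additive.toMul u : Om hc) : G) * ((Additive.toMul v : Om hc) : G) := fun _ _ => rfl
  have hWext : ∀ u v : Additive (Om hc), ((Additive.toMul u : Om hc) : G) = ((Additive.toMul v : Om hc) : G) → u = v := by
    intro u v h
    exact Additive.toMul.injective (Subtype.ext h)
  have hfinA : Finite (Additive (G ⧸ Om hc)) := inferInstanceAs (Finite (G ⧸ Om hc))
  have hfinW : Finite (Additive (Om hc)) := inferInstanceAs (Finite (Om hc))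
  have key := chev_abs (A := Additive (G ⧸ Om hc)) (W := Additive (Om hc)) ?_ ?_ s B ?_ ?_ ?_ ?_
  · obtain ⟨d, n, h1, h2, h3⟩ := key
    exact ⟨d, n, h1, h2, h3⟩
  · intro a
    obtain ⟨a, rfl⟩ := hadd a
    rw [hmk]
    show ((a * a : G) : G ⧸ Om hc) = 1
    exact (QuotientGroup.eq_one_iff _).mpr (hsqO a)
  · intro w
    apply hWext
    exact w.2
  · intro x x' y
    obtain ⟨a, rfl⟩ := hadd x
    obtain ⟨a', rfl⟩ := hadd x'
    obtain ⟨b, rfl⟩ := hadd y
    apply hWext
    rw [hmk, hWadd, hB1', hB1', hB1', c_mul_left, hc.conj (hcO _ _)]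
    exact hc.comm (hcO _ _) _
  · intro x y y'
    obtain ⟨a, rfl⟩ := hadd x
    obtain ⟨b, rfl⟩ := hadd y
    obtain ⟨b', rfl⟩ := hadd y'
    apply hWext
    rw [hmk, hWadd, hB1', hB1', hB1', c_mul_right, hc.conj (hcO _ _)]
  · intro x y
    obtain ⟨a, rfl⟩ := hadd x
    obtain ⟨b, rfl⟩ := hadd y
    apply hWext
    rw [hmk, hWadd, hWadd, hs1, hs1, hs1, hB1']
    have hω : ⁅b, a⁆ ∈ Om hc := hcO b a
    have h1 : ⁅b, a⁆ = ⁅a, b⁆ := by
      have h2 : ⁅b, a⁆ = ⁅a, b⁆⁻¹ := (commutatorElement_inv a b).symm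
      have h3 : ⁅a, b⁆ * ⁅a, b⁆ = 1 := hcO a b
      rw [h2]
      exact inv_eq_of_mul_eq_one_left h3
    have h2 : b * a = ⁅b, a⁆ * (a * b) := by
      simp only [commutatorElement_def]; group
    have h3 : (a * a) * ⁅b, a⁆ = ⁅b, a⁆ * (a * a) := hc.comm hω _
    calc a * b * (a * b) = a * (b * a) * b := by group
      _ = a * (⁅b, a⁆ * (a * b)) * b := by rw [h2]
      _ = (a * ⁅b, a⁆) * (a * b) * b := by group
      _ = (⁅b, a⁆ * a) * (a * b) * b := by rw [hc.comm hω a]
      _ = ⁅b, a⁆ * (a * a) * (b * b) := by group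
      _ = (a * a) * ⁅b, a⁆ * (b * b) := by rw [h3]
      _ = (a * a) * (⁅b, a⁆ * (b * b)) := by group
      _ = (a * a) * ((b * b) * ⁅b, a⁆) := by rw [← hc.comm hω (b * b)]
      _ = _ := by rw [h1]; group
  · intro x hx
    obtain ⟨a, rfl⟩ := hadd x
    have h1 := congrArg (fun u : Additive (Om hc) => ((Additive.toMul u : Om hc) : G)) hx
    have h2 : a * a = 1 := (hs1 a).symm.trans h1
    show Additive.ofMul (a : G ⧸ Om hc) = Additive.ofMul 1
    congr 1
    exact (QuotientGroup.eq_one_iff _).mpr h2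

theorem card_cases (hc : Ctx ξ) (hnon : ∃ a b : G, a * b ≠ b * a) :
    Nat.card G = Nat.card (Om hc) ^ 2 ∨ Nat.card G = Nat.card (Om hc) ^ 3 := by
  obtain ⟨d, n, h1, h2, h3⟩ := card_bound hc hnon
  obtain ⟨c, hc'⟩ := card_count hc hnon
  have hmul : Nat.card G = Nat.card (G ⧸ Om hc) * Nat.card (Om hc) :=
    Subgroup.card_eq_card_quotient_mul_card_subgroup _
  have hcard := hc.card_Om
  rw [h2] at hcard
  have horder : orderOf ξ = 2 ^ n - 1 := by omega
  have hn : 0 < n := by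
    obtain ⟨x₀, y₀, hne, hx1, hx2, hy1, hy2⟩ := hc.two
    obtain ⟨n', hn', hq', hm'⟩ := hc.data
    rcases Nat.eq_zero_or_pos n with rfl | h
    · rw [pow_zero] at hcard
      omega
    · exact h
  rw [hmul, h1, h2, horder] at hc'
  have hdvd := nt_dvd n d c hn hc'
  obtain ⟨t, rfl⟩ := hdvd
  have ht : t ≤ 2 := by
    have : n * t ≤ n * 2 := by rw [mul_comm n 2]; exact h3
    exact Nat.le_of_mul_le_mul_left this hn
  have ht0 : t ≠ 0 := by
    rintro rfl
    apply (show ¬ ∀ a b : G, a * b = b * a by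
      push Not
      exact hnon)
    intro a b
    have h4 : Nat.card (G ⧸ Om hc) = 1 := by simpa using h1
    have h5 : Om hc = ⊤ := by
      rw [Subgroup.eq_top_iff']
      intro g
      have : Subsingleton (G ⧸ Om hc) := (Nat.card_eq_one_iff_unique.mp h4).1
      have h6 : ((g : G) : G ⧸ Om hc) = ((1 : G) : G ⧸ Om hc) := Subsingleton.elim _ _
      rw [QuotientGroup.eq] at h6
      have h7 := (Om hc).inv_mem h6
      simpa using h7
    have h6 : b ∈ Om hc := by rw [h5]; trivial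
    exact (hc.comm h6 a).symm ▸ rfl
  have hG : Nat.card G = 2 ^ (n * t) * 2 ^ n := by rw [hmul, h1, h2]
  rw [hG, h2]
  have ht12 : t = 1 ∨ t = 2 := by omega
  rcases ht12 with rfl | rfl
  · left
    rw [mul_one, ← pow_two]
  · right
    rw [pow_mul, ← pow_succ, pow_right_comm]

/-- **Higman's theorem.** -/
theorem higman_main {P : Type*} [Group P] (hP : Cfsg.IsSuzukiTwoGroup P) :
    (∀ x : P, x * x ∈ Subgroup.center P) ∧ (∀ x y : P, x⁻¹ * y⁻¹ * x * y ∈ Subgroup.center P) ∧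
      (Nat.card P = Nat.card (Subgroup.center P) ^ 2 ∨ Nat.card P = Nat.card (Subgroup.center P) ^ 3) ∧
      Monoid.exponent P = 4 := by
  obtain ⟨ξ, hc⟩ := ctx_of_suzuki hP
  have hfin : Finite P := hP.1
  have hnon : ∃ a b : P, a * b ≠ b * a := hP.2.2.1
  have hZ := center_eq_Om hc hnon
  refine ⟨?_, ?_, ?_, ?_⟩
  · intro x
    rw [hZ]
    exact higman_top hc hnon x
  · intro x y
    rw [hZ]
    have h1 : x⁻¹ * y⁻¹ * x * y = ⁅x⁻¹, y⁻¹⁆ := by
      simp only [commutatorElement_def, inv_inv]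
    rw [h1]
    exact comm_mem_Om hc hnon _ _
  · rw [hZ]
    exact card_cases hc hnon
  · have h4 : ∀ x : P, x ^ 4 = 1 := by
      intro x
      have h5 : x * x ∈ Om hc := higman_top hc hnon x
      have h6 : (x * x) * (x * x) = 1 := h5
      calc x ^ 4 = (x * x) * (x * x) := by rw [show (4 : ℕ) = 2 + 2 from rfl, pow_add, pow_two]
        _ = 1 := h6
    have hdvd : Monoid.exponent P ∣ 2 ^ 2 := Monoid.exponent_dvd_of_forall_pow_eq_one h4
    obtain ⟨k, hk, hk2⟩ := (Nat.dvd_prime_pow Nat.prime_two).1 hdvd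
    have hne : ∃ x : P, x * x ≠ 1 := by
      by_contra hcon
      push Not at hcon
      obtain ⟨a, b, hab⟩ := hnon
      exact hab (hc.comm (hcon b) a)
    obtain ⟨x, hx⟩ := hne
    have hpow := Monoid.pow_exponent_eq_one x
    rw [hk2] at hpow
    have hk' : k = 0 ∨ k = 1 ∨ k = 2 := by omega
    rcases hk' with rfl | rfl | rfl
    · exfalso
      apply hx
      rw [pow_zero, pow_one] at hpow
      rw [hpow, one_mul]
    · exfalso
      apply hx
      rw [pow_one, pow_two] at hpow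
      exact hpow
    · rw [hk2]
      rfl

end Cfsg.Agent.H24.Suz
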