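import Mathlib
import Cfsg.Prelude.Def_FusionComponents
import Cfsg.Agent.Lib.H25.InvA
import Cfsg.Agent.Lib.H24.FusMorph2
import Cfsg.Agent.Lib.H24.FusFactor
import Cfsg.Agent.Lib.H25.FusHypQ

/-!
Transport of fusion systems along an isomorphism `U ≃ U'` of the underlying groups, presented by a
pair of mutually inverse total functions.
-/

set_option autoImplicit false

namespace Cfsg.Agent.H24.TS

open Cfsg Cfsg.FusionSystem Cfsg.Agent.H25

variable {Ω Ω' : Type*} [Group Ω] [Group Ω']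

/-- `t`, `t'` are mutually inverse isomorphisms between `U` and `U'`. -/
structure Tr (U : Subgroup Ω) (U' : Subgroup Ω') (t : Ω → Ω') (t' : Ω' → Ω) : Prop where
  maps : ∀ x ∈ U, t x ∈ U'
  maps' : ∀ y ∈ U', t' y ∈ U
  lr : ∀ x ∈ U, t' (t x) = x
  rl : ∀ y ∈ U', t (t' y) = y
  mul : ∀ x ∈ U, ∀ y ∈ U, t (x * y) = t x * t y

namespace Tr

variable {U V W : Subgroup Ω} {U' V' W' : Subgroup Ω'} {t : Ω → Ω'} {t' : Ω' → Ω}

theorem one (h : Tr U U' t t') : t 1 = 1 := by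
  have := h.mul 1 U.one_mem 1 U.one_mem
  rw [mul_one] at this
  exact left_eq_mul.mp this

theorem inv (h : Tr U U' t t') {x : Ω} (hx : x ∈ U) : t x⁻¹ = (t x)⁻¹ := by
  have := h.mul x hx x⁻¹ (U.inv_mem hx)
  rw [mul_inv_cancel, h.one] at this
  exact eq_inv_of_mul_eq_one_right this.symm

theorem symm (h : Tr U U' t t') : Tr U' U t' t where
  maps := h.maps'
  maps' := h.maps
  lr := h.rl
  rl := h.lr
  mul := fun x hx y hy => by
    have : t (t' x * t' y) = x * y := by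
      rw [h.mul _ (h.maps' x hx) _ (h.maps' y hy), h.rl x hx, h.rl y hy]
    rw [← this, h.lr _ (U.mul_mem (h.maps' x hx) (h.maps' y hy))]

/-- The image of a subgroup. -/
def im (h : Tr U U' t t') (P : Subgroup Ω) : Subgroup Ω' where
  carrier := {y | y ∈ U' ∧ t' y ∈ P}
  mul_mem' := by
    rintro a b ⟨ha, ha'⟩ ⟨hb, hb'⟩
    refine ⟨U'.mul_mem ha hb, ?_⟩
    rw [h.symm.mul a ha b hb]
    exact P.mul_mem ha' hb'
  one_mem' := by
    refine ⟨U'.one_mem, ?_⟩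
    rw [h.symm.one]
    exact P.one_mem
  inv_mem' := by
    rintro a ⟨ha, ha'⟩
    refine ⟨U'.inv_mem ha, ?_⟩
    rw [h.symm.inv ha]
    exact P.inv_mem ha'

theorem mem_im (h : Tr U U' t t') {P : Subgroup Ω} {y : Ω'} : y ∈ h.im P ↔ y ∈ U' ∧ t' y ∈ P := Iff.rfl

theorem mem_symm_im (h : Tr U U' t t') {P : Subgroup Ω'} {x : Ω} : x ∈ h.symm.im P ↔ x ∈ U ∧ t x ∈ P := Iff.rfl

theorem map_mem_im (h : Tr U U' t t') {P : Subgroup Ω} {x : Ω} (hU : x ∈ U) (hx : x ∈ P) : t x ∈ h.im P :=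
  ⟨h.maps x hU, by rw [h.lr x hU]; exact hx⟩

theorem map_mem_im' (h : Tr U U' t t') {P : Subgroup Ω} (hP : P ≤ U) {x : Ω} (hx : x ∈ P) : t x ∈ h.im P :=
  h.map_mem_im (hP hx) hx

theorem im_le (h : Tr U U' t t') (P : Subgroup Ω) : h.im P ≤ U' := fun _ hy => hy.1

theorem im_mono (h : Tr U U' t t') {P Q : Subgroup Ω} (hPQ : P ≤ Q) : h.im P ≤ h.im Q :=
  fun _ hy => ⟨hy.1, hPQ hy.2⟩

theorem symm_im_im (h : Tr U U' t t') {P : Subgroup Ω} (hP : P ≤ U) : h.symm.im (h.im P) = P := by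
  ext x
  constructor
  · rintro ⟨hx, hx'⟩
    have := hx'.2
    rwa [h.lr x hx] at this
  · intro hx
    exact ⟨hP hx, h.map_mem_im (hP hx) hx⟩

theorem im_symm_im (h : Tr U U' t t') {P : Subgroup Ω'} (hP : P ≤ U') : h.im (h.symm.im P) = P := by
  ext x
  constructor
  · rintro ⟨hx, hx'⟩
    have := hx'.2
    rwa [h.rl x hx] at this
  · intro hx
    exact ⟨hP hx, h.maps' x (hP hx), by rw [h.rl x (hP hx)]; exact hx⟩

theorem im_self (h : Tr U U' t t') : h.im U = U' := by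
  ext y
  exact ⟨fun hy => hy.1, fun hy => ⟨hy, h.maps' y hy⟩⟩

theorem im_sup (h : Tr U U' t t') {P Q : Subgroup Ω} (hP : P ≤ U) (hQ : Q ≤ U) :
    h.im (P ⊔ Q) = h.im P ⊔ h.im Q := by
  apply le_antisymm
  · have hR : h.im P ⊔ h.im Q ≤ U' := sup_le (h.im_le _) (h.im_le _)
    have h1 : P ⊔ Q ≤ h.symm.im (h.im P ⊔ h.im Q) := by
      refine sup_le ?_ ?_
      · intro x hx
        exact ⟨hP hx, Subgroup.mem_sup_left (h.map_mem_im (hP hx) hx)⟩
      · intro x hx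
        exact ⟨hQ hx, Subgroup.mem_sup_right (h.map_mem_im (hQ hx) hx)⟩
    have h2 := h.im_mono h1
    rwa [h.im_symm_im hR] at h2
  · exact sup_le (h.im_mono le_sup_left) (h.im_mono le_sup_right)

/-- Restriction to a subgroup. -/
theorem res (h : Tr U U' t t') {V : Subgroup Ω} (hV : V ≤ U) : Tr V (h.im V) t t' where
  maps := fun _ hx => h.map_mem_im (hV hx) hx
  maps' := fun _ hy => hy.2
  lr := fun x hx => h.lr x (hV hx)
  rl := fun y hy => h.rl y hy.1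
  mul := fun x hx y hy => h.mul x (hV hx) y (hV hy)

theorem eq_im (h₁ : Tr V V' t t') (h₂ : Tr U U' t t') (hVU : V ≤ U) : V' = h₂.im V := by
  ext y
  constructor
  · intro hy
    refine ⟨?_, h₁.maps' y hy⟩
    rw [← h₁.rl y hy]
    exact h₂.maps _ (hVU (h₁.maps' y hy))
  · rintro ⟨hy, hy'⟩
    rw [← h₂.rl y hy]
    exact h₁.maps _ hy'

theorem le_of_le (h₁ : Tr V V' t t') (h₂ : Tr U U' t t') (hVU : V ≤ U) : V' ≤ U' := by
  rw [h₁.eq_im h₂ hVU]
  exact h₂.im_le _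

theorem im_eq_im (h₁ : Tr V V' t t') (h₂ : Tr U U' t t') (hVU : V ≤ U) {P : Subgroup Ω} (hP : P ≤ V) :
    h₁.im P = h₂.im P := by
  ext y
  constructor
  · rintro ⟨hy, hy'⟩
    exact ⟨h₁.le_of_le h₂ hVU hy, hy'⟩
  · rintro ⟨hy, hy'⟩
    refine ⟨?_, hy'⟩
    rw [h₁.eq_im h₂ hVU]
    exact ⟨hy, hP hy'⟩

theorem im_symm_im' (h₁ : Tr V V' t t') (h₂ : Tr U U' t t') (hVU : V ≤ U) {P : Subgroup Ω'} (hP : P ≤ V') :
    h₂.im (h₁.symm.im P) = P := by
  rw [← h₁.im_eq_im h₂ hVU (h₁.symm.im_le P)]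
  exact h₁.im_symm_im hP

theorem symm_im_eq_im (h₁ : Tr V V' t t') (h₂ : Tr U U' t t') (hVU : V ≤ U) {P : Subgroup Ω'} (hP : P ≤ V') :
    h₂.symm.im P = h₁.symm.im P :=
  h₁.symm.im_eq_im h₂.symm (h₁.le_of_le h₂ hVU) hP |>.symm

theorem map_comm (h : Tr U U' t t') {x y : Ω} (hx : x ∈ U) (hy : y ∈ U) (hxy : x * y = y * x) :
    t x * t y = t y * t x := by
  rw [← h.mul x hx y hy, hxy, h.mul y hy x hx]

theorem map_mem_inf (h : Tr U U' t t') {V : Subgroup Ω} (hV : V ≤ U) {z : Ω}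
    (hz : z ∈ V ⊓ Subgroup.centralizer (V : Set Ω)) :
    t z ∈ h.im V ⊓ Subgroup.centralizer (h.im V : Set Ω') := by
  refine ⟨h.map_mem_im (hV hz.1) hz.1, Subgroup.mem_centralizer_iff.mpr ?_⟩
  intro y hy
  have hc := Subgroup.mem_centralizer_iff.mp hz.2 (t' y) hy.2
  have := h.map_comm (hV hy.2) (hV hz.1) hc
  rwa [h.rl y hy.1] at this

theorem im_centralizerIn (h : Tr U U' t t') {V : Subgroup Ω} (hV : V ≤ U) :
    h.im (centralizerIn U V) = centralizerIn U' (h.im V) := by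
  ext y
  constructor
  · rintro ⟨hy, hy1, hy2⟩
    refine ⟨hy, Subgroup.mem_centralizer_iff.mpr ?_⟩
    intro z hz
    have hc := Subgroup.mem_centralizer_iff.mp hy2 (t' z) hz.2
    have := h.map_comm (hV hz.2) hy1 hc
    rwa [h.rl y hy, h.rl z hz.1] at this
  · rintro ⟨hy, hy2⟩
    refine ⟨hy, h.maps' y hy, Subgroup.mem_centralizer_iff.mpr ?_⟩
    intro z hz
    have hc := Subgroup.mem_centralizer_iff.mp hy2 (t z) (h.map_mem_im (hV hz) hz)
    have := h.symm.map_comm (h.maps z (hV hz)) hy hc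
    rwa [h.lr z (hV hz)] at this

/-- The homomorphism attached to the transport datum. -/
def hom (h : Tr U U' t t') : U →* Ω' :=
  MonoidHom.mk' (fun x => t x) (fun a b => h.mul a a.2 b b.2)

theorem hom_apply (h : Tr U U' t t') (x : U) : h.hom x = t x := rfl

theorem range_hom (h : Tr U U' t t') : h.hom.range = U' := by
  ext y
  constructor
  · rintro ⟨x, rfl⟩
    exact h.maps x x.2
  · intro hy
    refine ⟨⟨t' y, h.maps' y hy⟩, ?_⟩
    exact h.rl y hy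

theorem imageAlong_hom (h : Tr U U' t t') {P : Subgroup Ω} (hP : P ≤ U) : imageAlong h.hom P = h.im P := by
  ext y
  constructor
  · rintro ⟨x, hx, rfl⟩
    exact h.map_mem_im x.2 (Subgroup.mem_subgroupOf.mp hx)
  · rintro ⟨hy, hy'⟩
    refine ⟨⟨t' y, hP hy'⟩, Subgroup.mem_subgroupOf.mpr hy', ?_⟩
    exact h.rl y hy

theorem preimageAlong_hom (h : Tr U U' t t') (P : Subgroup Ω') : preimageAlong h.hom P = h.symm.im P := by
  ext x
  constructor
  · rintro ⟨a, ha, rfl⟩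
    exact ⟨a.2, ha⟩
  · rintro ⟨hx, hx'⟩
    exact ⟨⟨x, hx⟩, hx', rfl⟩

theorem surj (h : Tr U U' t t') :
    Function.Surjective (h.hom.codRestrict U' (fun x => h.maps x x.2)) := by
  intro y
  refine ⟨⟨t' y, h.maps' y y.2⟩, Subtype.ext ?_⟩
  exact h.rl y y.2

theorem finite (h : Tr U U' t t') [Finite U] : Finite U' :=
  Finite.of_surjective _ h.surj

theorem isPGroup {p : ℕ} (h : Tr U U' t t') (hU : IsPGroup p U) : IsPGroup p U' :=
  hU.of_surjective _ h.surj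

theorem eq_bot_of (h : Tr U U' t t') (hU : U = ⊥) : U' = ⊥ := by
  rw [eq_bot_iff]
  intro y hy
  have h1 := h.maps' y hy
  rw [hU, Subgroup.mem_bot] at h1
  have h2 := h.rl y hy
  rw [h1, h.one] at h2
  rw [Subgroup.mem_bot, h2]

theorem congr {s : Ω → Ω'} {s' : Ω' → Ω} (h : Tr U U' t t') (hs : ∀ x ∈ U, s x = t x) (hs' : ∀ y ∈ U', s' y = t' y) :
    Tr U U' s s' where
  maps := fun x hx => by rw [hs x hx]; exact h.maps x hx
  maps' := fun y hy => by rw [hs' y hy]; exact h.maps' y hy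
  lr := fun x hx => by rw [hs x hx, hs' _ (h.maps x hx)]; exact h.lr x hx
  rl := fun y hy => by rw [hs' y hy, hs _ (h.maps' y hy)]; exact h.rl y hy
  mul := fun x hx y hy => by
    rw [hs _ (U.mul_mem hx hy), hs x hx, hs y hy]
    exact h.mul x hx y hy

theorem unique_target (h₁ : Tr U U' t t') (h₂ : Tr U V' t t') : U' = V' := by
  ext y
  constructor
  · intro hy
    rw [← h₁.rl y hy]
    exact h₂.maps _ (h₁.maps' y hy)
  · intro hy
    rw [← h₂.rl y hy]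
    exact h₁.maps _ (h₂.maps' y hy)

end Tr

/-! ### Transport of systems -/

variable {U V : Subgroup Ω} {U' V' : Subgroup Ω'} {t : Ω → Ω'} {t' : Ω' → Ω}

/-- `D` and `D'` correspond under the transport datum `(t, t')`. -/
structure Trs (D : FusionSystem U) (D' : FusionSystem U') (t : Ω → Ω') (t' : Ω' → Ω) : Prop where
  tr : Tr U U' t t'
  fwd : ∀ (P : Subgroup Ω) (f : Ω → Ω), Mp D P f → Mp D' (tr.im P) (t ∘ f ∘ t')
  bwd : ∀ (P : Subgroup Ω') (f : Ω' → Ω'), Mp D' P f → Mp D (tr.symm.im P) (t' ∘ f ∘ t)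

namespace Trs

variable {D : FusionSystem U} {D' : FusionSystem U'} {X : FusionSystem V} {X' : FusionSystem V'}
  {P Q : Subgroup Ω} {f : Ω → Ω}

theorem symm (h : Trs D D' t t') : Trs D' D t' t where
  tr := h.tr.symm
  fwd := h.bwd
  bwd := h.fwd

theorem push (h : Trs D D' t t') (hf : Mp D P f) {g : Ω' → Ω'} (hg : ∀ x ∈ P, g (t x) = t (f x)) :
    Mp D' (h.tr.im P) g := by
  refine (h.fwd P f hf).congr fun y hy => ?_
  show t (f (t' y)) = g y
  rw [← hg _ hy.2, h.tr.rl y hy.1]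

theorem pull (h : Trs D D' t t') {P : Subgroup Ω'} {f : Ω' → Ω'} (hf : Mp D' P f) {g : Ω → Ω}
    (hg : ∀ y ∈ P, g (t' y) = t' (f y)) : Mp D (h.tr.symm.im P) g :=
  h.symm.push hf hg

theorem isoPush (h : Trs D D' t t') (hf : Iso D P Q f) (hQ : Q ≤ U) {g : Ω' → Ω'}
    (hg : ∀ x ∈ P, g (t x) = t (f x)) : Iso D' (h.tr.im P) (h.tr.im Q) g := by
  refine ⟨h.push hf.mp hg, ?_, ?_⟩
  · rintro y ⟨hy, hy'⟩
    have e := hg _ hy'
    rw [h.tr.rl y hy] at e
    rw [e]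
    exact h.tr.map_mem_im' hQ (hf.maps _ hy')
  · rintro y ⟨hy, hy'⟩
    obtain ⟨x, hx, hxy⟩ := hf.surj _ hy'
    have hPU : P ≤ U := hf.mp.le
    refine ⟨t x, h.tr.map_mem_im' hPU hx, ?_⟩
    rw [hg x hx, hxy, h.tr.rl y hy]

/-- Transport of automorphisms. -/
theorem autPush (h : Trs D D' t t') {W : Subgroup Ω} (hW : W ≤ U) {α : MulAut W} (hα : α ∈ D.autGroup W)
    {W' : Subgroup Ω'} (hW' : W' = h.tr.im W) :
    ∃ α' ∈ D'.autGroup W', ∀ x ∈ W, tf α' (t x) = t (tf α x) := by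
  subst hW'
  have hI := Iso.of_mem_autGroup hW hα
  have hg : ∀ x ∈ W, (t ∘ tf α ∘ t') (t x) = t (tf α x) := by
    intro x hx
    simp only [Function.comp]
    rw [h.tr.lr x (hW hx)]
  have hI' := h.isoPush hI hW hg
  refine ⟨autOfIso hI', autOfIso_mem hI', fun x hx => ?_⟩
  have hm : t x ∈ h.tr.im W := h.tr.map_mem_im' hW hx
  rw [tf_apply _ hm, autOfIso_apply]
  exact hg x hx

theorem congr {s : Ω → Ω'} {s' : Ω' → Ω} (h : Trs D D' t t') (hs : ∀ x ∈ U, s x = t x)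
    (hs' : ∀ y ∈ U', s' y = t' y) : Trs D D' s s' := by
  have htr : Tr U U' s s' := h.tr.congr hs hs'
  have e1 : ∀ P : Subgroup Ω, htr.im P = h.tr.im P := by
    intro P
    ext y
    constructor
    · rintro ⟨hy, hy'⟩
      rw [hs' y hy] at hy'
      exact ⟨hy, hy'⟩
    · rintro ⟨hy, hy'⟩
      exact ⟨hy, by rw [hs' y hy]; exact hy'⟩
  have e2 : ∀ P : Subgroup Ω', htr.symm.im P = h.tr.symm.im P := by
    intro P
    ext y
    constructor
    · rintro ⟨hy, hy'⟩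
      rw [hs y hy] at hy'
      exact ⟨hy, hy'⟩
    · rintro ⟨hy, hy'⟩
      exact ⟨hy, by rw [hs y hy]; exact hy'⟩
  refine ⟨htr, fun P f hf => ?_, fun P f hf => ?_⟩
  · rw [e1]
    refine (h.fwd P f hf).congr fun y hy => ?_
    simp only [Function.comp]
    rw [hs' y hy.1, hs _ (hf.mem hy.2)]
  · rw [e2]
    refine (h.bwd P f hf).congr fun y hy => ?_
    simp only [Function.comp]
    rw [hs y hy.1, hs' _ (hf.mem hy.2)]

/-- The same transport datum on the same source yields the same system. -/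
theorem unique {E' : FusionSystem V'} (h₁ : Trs D D' t t') (h₂ : Trs D E' t t') (P : Subgroup Ω') :
    E'.Hom P = D'.Hom P := by
  have key : ∀ {U₁ U₂ : Subgroup Ω'} {D₁ : FusionSystem U₁} {D₂ : FusionSystem U₂}
      (_ : Trs D D₁ t t') (_ : Trs D D₂ t t'), D₁.Hom P ⊆ D₂.Hom P := by
    intro U₁ U₂ D₁ D₂ h₁ h₂ φ hφ
    have hf := mp_of_mem hφ
    have hP : P ≤ U₁ := hf.le
    have h3 := h₁.bwd P _ hf
    have e : h₂.tr.im (h₁.tr.symm.im P) = P := h₁.tr.im_symm_im' h₂.tr le_rfl hP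
    have h4 := h₂.fwd _ _ h3
    rw [e] at h4
    refine h4.mem_hom fun x => ?_
    simp only [Function.comp]
    have hx : (x : Ω') ∈ U₁ := hP x.2
    rw [h₁.tr.rl x hx, h₁.tr.rl _ (hf.mem x.2)]
    exact (toFun_coe φ x).symm
  exact Set.Subset.antisymm (key h₂ h₁) (key h₁ h₂)

/-- Restricting `Mp` along a subsystem. -/
theorem mp_sub {E : FusionSystem V} {F : FusionSystem U} (hsub : E.IsSubsystemOf F) {f : Ω → Ω}
    (h : Mp E P f) : Mp F P f := by
  obtain ⟨φ, hφ, e⟩ := h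
  exact ⟨φ, hsub P hφ, e⟩

/-- The surjective morphism attached to a transport. -/
theorem morphism (h : Trs D D' t t') : D.IsSurjectiveMorphism D' h.tr.hom := by
  refine ⟨⟨fun s => h.tr.maps s s.2, ?_⟩, h.tr.range_hom, ?_⟩
  · intro P φ hφ
    have hf := mp_of_mem hφ
    have hP : P ≤ U := hf.le
    rw [h.tr.imageAlong_hom hP]
    obtain ⟨φ', hφ', e⟩ := h.fwd P _ hf
    refine ⟨φ', hφ', hP, fun x => (D.le_of_mem hφ).2 x, fun x => h.tr.map_mem_im' hP x.2, fun x => ?_⟩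
    rw [e]
    simp only [Function.comp]
    show t (toFun φ (t' (t x))) = t (φ x)
    rw [h.tr.lr x (hP x.2), toFun_coe φ x]
  · intro P' hP' φ' hφ'
    have hf := mp_of_mem hφ'
    rw [h.tr.preimageAlong_hom]
    obtain ⟨φ, hφ, e⟩ := h.bwd P' _ hf
    refine ⟨φ, hφ, h.tr.symm.im_le _, fun x => (D.le_of_mem hφ).2 x, fun x => x.2.2, fun x => ?_⟩
    have hx := x.2.2
    have e1 : toFun φ' (t x) = φ' ⟨t x, hx⟩ := toFun_coe φ' ⟨t x, hx⟩
    have e2 := e x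
    simp only [Function.comp] at e2
    show φ' ⟨t x, hx⟩ = t (φ x)
    rw [e2, h.tr.rl _ (hf.mem hx), e1]

theorem saturated {p : ℕ} [Fact p.Prime] (h : Trs D D' t t') [Finite U] (hU : IsPGroup p U) (hs : D.IsSaturated p) :
    D'.IsSaturated p :=
  saturated_of_surjective_morphism hU hs h.morphism

theorem hyperfocal {p : ℕ} [Fact p.Prime] (h : Trs D D' t t') [Finite U] (hU : IsPGroup p U)
    (hy : D.hyperfocalSubgroup p = U) : D'.hyperfocalSubgroup p = U' := by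
  rw [hyp_eq_map hU h.morphism, hy]
  refine Eq.trans ?_ h.tr.range_hom
  ext y
  constructor
  · rintro ⟨x, -, rfl⟩
    exact ⟨x, rfl⟩
  · rintro ⟨x, rfl⟩
    exact ⟨x, Subgroup.mem_subgroupOf.mpr x.2, rfl⟩

end Trs

/-! ### From factor systems -/

theorem mp_cast {D : FusionSystem U} {P Q : Subgroup Ω} {f : Ω → Ω} (h : P = Q) (hf : Mp D P f) : Mp D Q f :=
  h ▸ hf

/-- An isomorphism presented as a factor system modulo the trivial subgroup gives a transport. -/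
theorem exists_trs_of_factor {D : FusionSystem U} {D' : FusionSystem U'} {θ : U →* Ω'}
    (hf : D.IsFactorSystem ⊥ θ D') : ∃ t t', Trs D D' t t' ∧ ∀ x : U, t x = θ x := by
  classical
  obtain ⟨-, hker, hr, hiff⟩ := hf
  have hinj : Function.Injective θ := by
    rw [injective_iff_map_eq_one]
    intro a ha
    have := (hker a).1 ha
    rw [Subgroup.mem_bot] at this
    exact Subtype.ext this
  let t : Ω → Ω' := fun x => if h : x ∈ U then θ ⟨x, h⟩ else 1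
  have ht : ∀ x : U, t x = θ x := fun x => by simp [t]
  have hsurj : ∀ y : U', ∃ x : U, θ x = y := fun y => by
    have : (y : Ω') ∈ θ.range := hr ▸ y.2
    exact this
  let t' : Ω' → Ω := fun y => if h : y ∈ U' then ((hsurj ⟨y, h⟩).choose : Ω) else 1
  have ht' : ∀ y (hy : y ∈ U'), ∃ (h : t' y ∈ U), θ ⟨t' y, h⟩ = y := by
    intro y hy
    have e : t' y = ((hsurj ⟨y, hy⟩).choose : Ω) := by simp [t', hy]
    refine ⟨e ▸ (hsurj ⟨y, hy⟩).choose.2, ?_⟩
    have e2 : (⟨t' y, e ▸ (hsurj ⟨y, hy⟩).choose.2⟩ : U) = (hsurj ⟨y, hy⟩).choose := Subtype.ext e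
    rw [e2]
    exact (hsurj ⟨y, hy⟩).choose_spec
  have hval : ∀ x : U, θ x ∈ U' := fun x => hr ▸ (⟨x, rfl⟩ : θ x ∈ θ.range)
  have htr : Tr U U' t t' := {
    maps := fun x hx => by
      have := ht ⟨x, hx⟩
      rw [this]
      exact hval _
    maps' := fun y hy => (ht' y hy).1
    lr := fun x hx => by
      have h1 := ht ⟨x, hx⟩
      obtain ⟨h2, h3⟩ := ht' (t x) (by rw [h1]; exact hval _)
      have h4 : θ ⟨t' (t x), h2⟩ = θ ⟨x, hx⟩ := by rw [h3, h1]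
      exact congrArg Subtype.val (hinj h4)
    rl := fun y hy => by
      obtain ⟨h2, h3⟩ := ht' y hy
      rw [ht ⟨t' y, h2⟩]
      exact h3
    mul := fun x hx y hy => by
      have h1 := ht ⟨x, hx⟩
      have h2 := ht ⟨y, hy⟩
      have h3 := ht ⟨x * y, U.mul_mem hx hy⟩
      rw [h3]
      show θ (⟨x, hx⟩ * ⟨y, hy⟩) = _
      rw [map_mul, h1, h2] }
  have hp : ∀ P : Subgroup Ω', preimageAlong θ P = htr.symm.im P := by
    intro P
    ext x
    constructor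
    · rintro ⟨a, ha, rfl⟩
      refine ⟨a.2, ?_⟩
      show t a ∈ P
      rw [ht a]
      exact ha
    · rintro ⟨hx, hx'⟩
      refine ⟨⟨x, hx⟩, ?_, rfl⟩
      show θ ⟨x, hx⟩ ∈ P
      rw [← ht ⟨x, hx⟩]
      exact hx'
  refine ⟨t, t', ⟨htr, ?_, ?_⟩, ht⟩
  · intro P f hfm
    have hP : P ≤ U := hfm.le
    have h1 : htr.symm.im (htr.im P) = P := htr.symm_im_im hP
    obtain ⟨φ, hφ, e⟩ := hfm
    have hfm' : Mp D P f := ⟨φ, hφ, e⟩
    let φ' : htr.im P →* Ω' := MonoidHom.mk' (fun y => t (f (t' y))) (fun a b => by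
      have ha : t' a ∈ P := a.2.2
      have hb : t' b ∈ P := b.2.2
      show t (f (t' (a * b))) = _
      rw [htr.symm.mul a a.2.1 b b.2.1, hfm'.map_mul ha hb, htr.mul _ (hfm'.mem ha) _ (hfm'.mem hb)])
    refine ⟨φ', ?_, fun x => rfl⟩
    rw [hiff]
    refine ⟨htr.im_le _, ?_⟩
    rw [hp, h1]
    refine ⟨φ, hφ, hP, fun x => (D.le_of_mem hφ).2 x, fun x => ?_, fun x => ?_⟩
    · rw [← ht ⟨x, hP x.2⟩]
      exact htr.map_mem_im' hP x.2
    · show t (f (t' (θ ⟨x, hP x.2⟩))) = θ ⟨φ x, (D.le_of_mem hφ).2 x⟩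
      have h5 : t' (θ ⟨x, hP x.2⟩) = x := by
        rw [← ht ⟨x, hP x.2⟩]
        exact htr.lr x (hP x.2)
      have h6 : θ ⟨φ x, (D.le_of_mem hφ).2 x⟩ = t (φ x) := (ht ⟨φ x, (D.le_of_mem hφ).2 x⟩).symm
      rw [h5, h6, e x]
  · intro P f hfm
    obtain ⟨φ', hφ', e⟩ := hfm
    obtain ⟨hP, φ, hφ, hle, hv, hP', hind⟩ := (hiff P φ').1 hφ'
    have hm : Mp D (htr.symm.im P) (toFun φ) := mp_cast (hp P) (mp_of_mem hφ)
    refine hm.congr fun x hx => ?_
    have xm : x ∈ preimageAlong θ P := by rw [hp]; exact hx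
    have h7 := hind ⟨x, xm⟩
    rw [toFun_coe φ ⟨x, xm⟩]
    simp only [Function.comp]
    have h8 : (⟨θ ⟨(⟨x, xm⟩ : preimageAlong θ P), hle xm⟩, hP' ⟨x, xm⟩⟩ : P) = ⟨t x, hx.2⟩ :=
      Subtype.ext (ht ⟨x, hle xm⟩).symm
    rw [h8] at h7
    have h9 := e ⟨t x, hx.2⟩
    rw [h7] at h9
    have h10 : f (t x) = t (φ ⟨x, xm⟩) := by
      rw [← h9]
      exact (ht ⟨_, hv ⟨x, xm⟩⟩).symm
    rw [h10, htr.lr _ (hv ⟨x, xm⟩)]

end Cfsg.Agent.H24.TS
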