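import Mathlib
import Cfsg.Agent.Lib.H24.TrsA

/-!
Transport of normal subsystems along an isomorphism of fusion systems.
-/

set_option autoImplicit false

namespace Cfsg.Agent.H24.TS

open Cfsg Cfsg.FusionSystem Cfsg.Agent.H25

variable {Ω Ω' : Type*} [Group Ω] [Group Ω']
variable {U V : Subgroup Ω} {U' V' : Subgroup Ω'} {t : Ω → Ω'} {t' : Ω' → Ω}
variable {D : FusionSystem U} {D' : FusionSystem U'} {X : FusionSystem V} {X' : FusionSystem V'} {p : ℕ}

theorem stronglyClosed_bot' (X : FusionSystem V) : X.StronglyClosed ⊥ := by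
  refine ⟨bot_le, fun R hR φ _ x => ?_⟩
  have h1 : x = 1 := Subtype.ext (Subgroup.mem_bot.mp (hR x.2))
  rw [h1, map_one]
  exact Subgroup.one_mem _

/-- Existence of the transported system. -/
theorem exists_trs (h : Tr V V' t t') [Finite V] (X : FusionSystem V) : ∃ X' : FusionSystem V', Trs X X' t t' := by
  obtain ⟨E, hE⟩ := Cfsg.Agent.H24.exists_factorSystem (F := X) (θ := h.hom) (S₀ := ⊥) (fun s => by
      constructor
      · intro hs
        have h2 : t s = 1 := hs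
        have h3 := h.lr s s.2
        rw [h2, h.symm.one] at h3
        rw [Subgroup.mem_bot]
        exact h3.symm
      · intro hs
        rw [Subgroup.mem_bot] at hs
        have h4 : s = 1 := Subtype.ext hs
        rw [h4, map_one]) (stronglyClosed_bot' X) h.range_hom
  obtain ⟨s, s', hs, hse⟩ := exists_trs_of_factor hE
  refine ⟨E, hs.congr (fun x hx => ?_) (fun y hy => ?_)⟩
  · exact (hse ⟨x, hx⟩).symm ▸ rfl
  · have h1 : t (s' y) = y := by
      have h2 := hs.tr.rl y hy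
      rw [hse ⟨s' y, hs.tr.maps' y hy⟩] at h2
      exact h2
    have h3 := h.lr (s' y) (hs.tr.maps' y hy)
    rw [h1] at h3
    exact h3

theorem invariant_of_mp {S T : Subgroup Ω} {F : FusionSystem S} {E : FusionSystem T} (hsub : E.IsSubsystemOf F)
    (hsc : F.StronglyClosed T)
    (hinv : ∀ P, P ≤ T → ∀ f, Mp E P f → ∀ α ∈ F.autGroup T,
      ∃ g, Mp E (imT α P) g ∧ ∀ x ∈ P, g (tf α x) = tf α (f x))
    (hfr : ∀ P, P ≤ T → ∀ f, Mp F P f → ∃ α ∈ F.autGroup T, ∃ f₀, Mp E P f₀ ∧ ∀ x ∈ P, f x = tf α (f₀ x)) :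
    E.IsInvariantIn F := by
  refine ⟨hsub, hsc, ?_, ?_⟩
  · intro P hPT φ hφ α hα
    obtain ⟨g, ⟨χ, hχ, hge⟩, he⟩ := hinv P hPT _ (mp_of_mem hφ) α hα
    refine ⟨χ, hχ, fun x hφx hαx => ?_⟩
    rw [hge ⟨_, hαx⟩]
    have := he x x.2
    rw [tf_apply α (hPT x.2), toFun_coe φ x, tf_apply α hφx] at this
    exact this
  · intro P hP φ hφ
    obtain ⟨α, hα, f₀, ⟨φ₀, hφ₀, e⟩, he⟩ := hfr P hP _ (mp_of_mem hφ)
    refine ⟨α, hα, φ₀, hφ₀, fun x hx => ?_⟩
    have := he x x.2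
    rw [toFun_coe φ x, ← e x, tf_apply α hx] at this
    exact this

section Main

variable (hD : Trs D D' t t') (hX : Trs X X' t t') (hVU : V ≤ U)
include hD hX hVU

theorem sub_tr (hsub : X.IsSubsystemOf D) : X'.IsSubsystemOf D' := by
  intro P φ hφ
  have hf := mp_of_mem hφ
  have hP : P ≤ V' := hf.le
  have h1 : Mp D (hX.tr.symm.im P) (t' ∘ toFun φ ∘ t) := Trs.mp_sub hsub (hX.bwd P _ hf)
  have h2 := hD.fwd _ _ h1
  rw [hX.tr.im_symm_im' hD.tr hVU hP] at h2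
  refine h2.mem_hom fun x => ?_
  simp only [Function.comp]
  have hV'U' := hX.tr.le_of_le hD.tr hVU
  rw [hD.tr.rl x (hV'U' (hP x.2)), hD.tr.rl _ (hV'U' (hf.mem x.2))]
  exact (toFun_coe φ x).symm

theorem sc_tr (hsc : D.StronglyClosed V) : D'.StronglyClosed V' := by
  have hV'U' := hX.tr.le_of_le hD.tr hVU
  refine ⟨hV'U', fun R hR φ hφ x => ?_⟩
  have hf := mp_of_mem hφ
  have h1 := hD.bwd R _ hf
  have hR' : hD.tr.symm.im R ≤ V := fun z hz => by
    have := hX.tr.maps' _ (hR hz.2)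
    rwa [hD.tr.lr z hz.1] at this
  obtain ⟨ψ, hψ, e⟩ := h1
  have hxU : (x : Ω') ∈ U' := hV'U' (hR x.2)
  have hm : t' x ∈ hD.tr.symm.im R := ⟨hD.tr.maps' x hxU, by rw [hD.tr.rl x hxU]; exact x.2⟩
  have h2 := hsc.2 _ hR' ψ hψ ⟨t' x, hm⟩
  rw [e] at h2
  simp only [Function.comp] at h2
  rw [hD.tr.rl x hxU, toFun_coe φ x] at h2
  have h3 := hX.tr.maps _ h2
  rwa [hD.tr.rl _ ((D'.le_of_mem hφ).2 x)] at h3

theorem inv_tr (hI : X.IsInvariantIn D) : X'.IsInvariantIn D' := by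
  have hV'U' := hX.tr.le_of_le hD.tr hVU
  have hVeq : V = hD.tr.symm.im V' := hX.tr.symm.eq_im hD.tr.symm hV'U'
  refine invariant_of_mp (sub_tr hD hX hVU hI.1) (sc_tr hD hX hVU hI.2.1) ?_ ?_
  · intro P hP f hf α' hα'
    obtain ⟨α, hα, hαe⟩ := hD.symm.autPush hV'U' hα' hVeq
    have hP₀ : hX.tr.symm.im P ≤ V := hX.tr.symm.im_le P
    obtain ⟨g, hg, hge⟩ := inv_mp hI hα hP₀ (hX.bwd P f hf)
    refine ⟨t ∘ g ∘ t', ?_, ?_⟩
    · have e : hX.tr.im (imT α (hX.tr.symm.im P)) = imT α' P := by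
        ext z
        constructor
        · rintro ⟨hz, hz'⟩
          obtain ⟨x, hx, hxz⟩ := (mem_imT hP₀).1 hz'
          refine (mem_imT hP).2 ⟨t x, hx.2, ?_⟩
          have h1 := hαe (t x) (hX.tr.maps x hx.1)
          rw [hX.tr.lr x hx.1, hxz] at h1
          have := congrArg t h1
          rw [hX.tr.rl z hz, hX.tr.rl _ (tf_mem (hX.tr.maps x hx.1))] at this
          exact this.symm
        · intro hz
          obtain ⟨y, hy, rfl⟩ := (mem_imT hP).1 hz
          refine ⟨tf_mem (hP hy), ?_⟩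
          rw [← hαe y (hP hy)]
          exact (mem_imT hP₀).2 ⟨t' y, ⟨hX.tr.maps' y (hP hy), by rw [hX.tr.rl y (hP hy)]; exact hy⟩, rfl⟩
      rw [← e]
      exact hX.fwd _ g hg
    · intro y hy
      simp only [Function.comp]
      have hyV := hP hy
      rw [← hαe y hyV]
      have hm : t' y ∈ hX.tr.symm.im P := ⟨hX.tr.maps' y hyV, by rw [hX.tr.rl y hyV]; exact hy⟩
      rw [hge _ hm]
      simp only [Function.comp]
      rw [hX.tr.rl y hyV, hαe _ (hf.mem hy), hX.tr.rl _ (tf_mem (hf.mem hy))]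
  · intro P hP f hf
    have hP' : P ≤ U' := hP.trans hV'U'
    have e0 : hD.tr.symm.im P = hX.tr.symm.im P := hX.tr.symm_im_eq_im hD.tr hVU hP
    have hf₀ := hD.bwd P f hf
    rw [e0] at hf₀
    obtain ⟨α, hα, f₁, hf₁, he⟩ := inv_frat hI (hX.tr.symm.im_le P) hf₀
    obtain ⟨α', hα', hαe⟩ := hD.autPush hVU hα (hX.tr.eq_im hD.tr hVU)
    refine ⟨α', hα', t ∘ f₁ ∘ t', ?_, fun y hy => ?_⟩
    · have := hX.fwd _ f₁ hf₁
      rwa [hX.tr.im_symm_im hP] at this
    · have hyV := hP hy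
      have hm : t' y ∈ hX.tr.symm.im P := ⟨hX.tr.maps' y hyV, by rw [hX.tr.rl y hyV]; exact hy⟩
      have h1 := he _ hm
      simp only [Function.comp] at h1 ⊢
      rw [hX.tr.rl y hyV] at h1
      rw [hαe _ (hf₁.mem hm), ← h1, hD.tr.rl _ (hf.mem hy)]

theorem ext_tr
    (hext : ∀ α ∈ X.autGroup V, ∃ β ∈ D.autGroup (V ⊔ centralizerIn U V),
      (∀ x : V, ((β (Subgroup.inclusion le_sup_left x) : ↥(V ⊔ centralizerIn U V)) : Ω) = ((α x : V) : Ω)) ∧
      ∀ c : ↥(V ⊔ centralizerIn U V), (c : Ω) ∈ centralizerIn U V →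
        (c : Ω)⁻¹ * ((β c : ↥(V ⊔ centralizerIn U V)) : Ω) ∈ V ⊓ Subgroup.centralizer (V : Set Ω)) :
    ∀ α ∈ X'.autGroup V', ∃ β ∈ D'.autGroup (V' ⊔ centralizerIn U' V'),
      (∀ x : V', ((β (Subgroup.inclusion le_sup_left x) : ↥(V' ⊔ centralizerIn U' V')) : Ω') = ((α x : V') : Ω')) ∧
      ∀ c : ↥(V' ⊔ centralizerIn U' V'), (c : Ω') ∈ centralizerIn U' V' →
        (c : Ω')⁻¹ * ((β c : ↥(V' ⊔ centralizerIn U' V')) : Ω') ∈ V' ⊓ Subgroup.centralizer (V' : Set Ω') := by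
  intro α' hα'
  have hV'U' := hX.tr.le_of_le hD.tr hVU
  have hV'eq : V' = hD.tr.im V := hX.tr.eq_im hD.tr hVU
  obtain ⟨α, hα, hαe⟩ := hX.symm.autPush (le_refl V') hα' hX.tr.symm.im_self.symm
  obtain ⟨β, hβ, hβ1, hβ2⟩ := hext α hα
  have hW : V ⊔ centralizerIn U V ≤ U := sup_le hVU inf_le_left
  have hC' : centralizerIn U' V' = hD.tr.im (centralizerIn U V) := by
    rw [hD.tr.im_centralizerIn hVU, ← hV'eq]
  have hW' : V' ⊔ centralizerIn U' V' = hD.tr.im (V ⊔ centralizerIn U V) := by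
    have hCU : centralizerIn U V ≤ U := inf_le_left
    rw [hD.tr.im_sup hVU hCU, ← hC', ← hV'eq]
  obtain ⟨β', hβ', hβe⟩ := hD.autPush hW hβ hW'
  refine ⟨β', hβ', fun x => ?_, fun c hc => ?_⟩
  · have hxV : (x : Ω') ∈ V' := x.2
    have hxU := hV'U' hxV
    have h0 : t' x ∈ V := hX.tr.maps' x hxV
    have h1 : ((β' (Subgroup.inclusion le_sup_left x) : ↥(V' ⊔ centralizerIn U' V')) : Ω') = tf β' x :=
      (tf_apply β' (Subgroup.mem_sup_left hxV)).symm
    rw [h1]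
    have h2 := hβe (t' x) (Subgroup.mem_sup_left h0)
    rw [hD.tr.rl x hxU] at h2
    rw [h2]
    have h3 : tf β (t' x) = tf α (t' x) := by
      rw [tf_apply β (Subgroup.mem_sup_left h0), tf_apply α h0]
      exact hβ1 ⟨t' x, h0⟩
    rw [h3, hαe x hxV, hX.tr.rl _ (tf_mem hxV), tf_apply α' hxV]
  · have hcW := c.2
    have hcc : ∀ z, z ∈ centralizerIn U' V' → z ∈ hD.tr.im (centralizerIn U V) := fun z hz => by
      rw [← hC']
      exact hz
    have hc0 : (t' (c : Ω')) ∈ centralizerIn U V := (hcc _ hc).2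
    have hcU : (c : Ω') ∈ U' := hc.1
    have hc1 : t' (c : Ω') ∈ V ⊔ centralizerIn U V := Subgroup.mem_sup_right hc0
    have h1 := hβ2 ⟨t' c, hc1⟩ hc0
    have hb : ((β ⟨t' c, hc1⟩ : ↥(V ⊔ centralizerIn U V)) : Ω) = tf β (t' c) := (tf_apply β hc1).symm
    have h2 := hD.tr.map_mem_inf hVU h1
    rw [← hV'eq] at h2
    have hbU : tf β (t' c) ∈ U := hW (tf_mem hc1)
    rw [hb, hD.tr.mul _ (U.inv_mem hc0.1) _ hbU, hD.tr.inv hc0.1, hD.tr.rl c hcU, ← hβe _ hc1, hD.tr.rl c hcU] at h2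
    have h3 : ((β' c : ↥(V' ⊔ centralizerIn U' V')) : Ω') = tf β' c := (tf_apply β' c.2).symm
    rw [h3]
    exact h2

end Main

theorem normalIn_tr [Fact p.Prime] (hD : Trs D D' t t') (hX : Trs X X' t t') [Finite U] (hU : IsPGroup p U)
    (hN : X.IsNormalIn D p) : X'.IsNormalIn D' p := by
  have hVU : V ≤ U := hN.1.2.2.2.1.1
  have : Finite V := Finite.of_injective _ (Subgroup.inclusion_injective hVU)
  exact ⟨⟨hX.saturated (hU.to_le hVU) hN.1.1, hD.saturated hU hN.1.2.1, inv_tr hD hX hVU hN.1.2.2⟩,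
    ext_tr hD hX hVU hN.2⟩

/-! ### Subnormality -/

theorem subnormal_le {X : FusionSystem V} {D : FusionSystem U} (h : X.IsSubnormalIn D p) : V ≤ U := by
  induction h with
  | refl F p => exact le_rfl
  | step _ hN ih => exact ih.trans hN.1.2.2.2.1.1

theorem fs_ext' {T : Subgroup Ω'} {E E' : FusionSystem T} (h : ∀ P, E.Hom P = E'.Hom P) : E = E' := by
  cases E
  cases E'
  congr
  funext P
  exact h P

theorem subnormal_tr {T W : Subgroup Ω} {X : FusionSystem T} {D : FusionSystem W} (h : X.IsSubnormalIn D p) :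
    ∀ [Fact p.Prime] [Finite W] (_ : IsPGroup p W) {W' T' : Subgroup Ω'} (D' : FusionSystem W') (X' : FusionSystem T'),
      Trs D D' t t' → Trs X X' t t' → X'.IsSubnormalIn D' p := by
  induction h with
  | refl F p =>
    intro _ _ _ W' T' D' X' h1 h2
    have e := h1.tr.unique_target h2.tr
    subst e
    have : X' = D' := fs_ext' (fun P => Trs.unique h1 h2 P)
    rw [this]
    exact IsSubnormalIn.refl D' p
  | step hXD hN ih =>
    rename_i U₁ S₁ E₁ D₁ F₁ p₁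
    intro _ _ hU W' T' D' X' h1 h2
    have hU₁ : U₁ ≤ S₁ := hN.1.2.2.2.1.1
    have : Finite U₁ := Finite.of_injective _ (Subgroup.inclusion_injective hU₁)
    obtain ⟨D₁', hD₁'⟩ := exists_trs (h1.tr.res hU₁) D₁
    have := ih (hU.to_le hU₁) D₁' X' hD₁' h2
    exact IsSubnormalIn.step this (normalIn_tr h1 hD₁' hU hN)

end Cfsg.Agent.H24.TS
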