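import Mathlib
import Cfsg.Agent.Lib.H24.TrsB

/-!
Images of subnormal subsystems and of quasisimple systems under maps of a fusion system.
-/

set_option autoImplicit false

namespace Cfsg.Agent.H24.TS

open Cfsg Cfsg.FusionSystem Cfsg.Agent.H25

variable {Ω Ω' Ω'' : Type*} [Group Ω] [Group Ω'] [Group Ω'']
variable {U V : Subgroup Ω} {U' V' : Subgroup Ω'} {t : Ω → Ω'} {t' : Ω' → Ω}
variable {D : FusionSystem U} {D' : FusionSystem U'} {X : FusionSystem V} {X' : FusionSystem V'} {p : ℕ}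

/-! ### Composition -/

theorem tr_comp {A : Subgroup Ω} {B : Subgroup Ω'} {C : Subgroup Ω''} {s : Ω → Ω'} {s' : Ω' → Ω}
    {u : Ω → Ω''} {u' : Ω'' → Ω} (hs : Tr A B s s') (hu : Tr A C u u') : Tr B C (u ∘ s') (s ∘ u') where
  maps := fun x hx => hu.maps _ (hs.maps' x hx)
  maps' := fun x hx => hs.maps _ (hu.maps' x hx)
  lr := fun x hx => by
    simp only [Function.comp]
    rw [hu.lr _ (hs.maps' x hx), hs.rl x hx]
  rl := fun x hx => by
    simp only [Function.comp]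
    rw [hs.lr _ (hu.maps' x hx), hu.rl x hx]
  mul := fun x hx y hy => by
    simp only [Function.comp]
    rw [hs.symm.mul x hx y hy, hu.mul _ (hs.maps' x hx) _ (hs.maps' y hy)]

theorem comp_fwd {A : Subgroup Ω} {B : Subgroup Ω'} {C : Subgroup Ω''} {s : Ω → Ω'} {s' : Ω' → Ω}
    {u : Ω → Ω''} {u' : Ω'' → Ω} {DA : FusionSystem A} {DB : FusionSystem B} {DC : FusionSystem C}
    (hs : Trs DA DB s s') (hu : Trs DA DC u u') (P : Subgroup Ω') (f : Ω' → Ω') (hf : Mp DB P f) :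
    Mp DC ((tr_comp hs.tr hu.tr).im P) ((u ∘ s') ∘ f ∘ (s ∘ u')) := by
  have h1 := hu.fwd _ _ (hs.bwd P f hf)
  have e : hu.tr.im (hs.tr.symm.im P) = (tr_comp hs.tr hu.tr).im P := by
    ext z
    constructor
    · rintro ⟨hz, -, hz'⟩
      exact ⟨hz, hz'⟩
    · rintro ⟨hz, hz'⟩
      exact ⟨hz, hu.tr.maps' z hz, hz'⟩
  rw [e] at h1
  exact h1

theorem trs_comp {A : Subgroup Ω} {B : Subgroup Ω'} {C : Subgroup Ω''} {s : Ω → Ω'} {s' : Ω' → Ω}
    {u : Ω → Ω''} {u' : Ω'' → Ω} {DA : FusionSystem A} {DB : FusionSystem B} {DC : FusionSystem C}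
    (hs : Trs DA DB s s') (hu : Trs DA DC u u') : Trs DB DC (u ∘ s') (s ∘ u') :=
  ⟨tr_comp hs.tr hu.tr, comp_fwd hs hu, comp_fwd hu hs⟩

/-! ### Automorphisms of the ambient system -/

section SelfAut

variable {S W : Subgroup Ω} {F : FusionSystem S} {E : FusionSystem W}

theorem tr_aut (α : MulAut W) : Tr W W (tf α) (tf α⁻¹) where
  maps := fun _ hx => tf_mem hx
  maps' := fun _ hx => tf_mem hx
  lr := fun _ hx => tf_inv' hx
  rl := fun _ hx => tf_inv hx
  mul := fun x hx y hy => by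
    rw [tf_apply α (W.mul_mem hx hy), tf_apply α hx, tf_apply α hy]
    have e : (⟨x * y, W.mul_mem hx hy⟩ : W) = ⟨x, hx⟩ * ⟨y, hy⟩ := rfl
    rw [e, map_mul]
    rfl

theorem im_aut (α : MulAut W) {P : Subgroup Ω} (hP : P ≤ W) : (tr_aut α).im P = imT α P := by
  ext y
  constructor
  · rintro ⟨hy, hy'⟩
    exact (mem_imT hP).2 ⟨_, hy', tf_inv hy⟩
  · intro hy
    obtain ⟨x, hx, rfl⟩ := (mem_imT hP).1 hy
    refine ⟨tf_mem (hP hx), ?_⟩
    rw [tf_inv' (hP hx)]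
    exact hx

theorem trs_aut_fwd (hI : E.IsInvariantIn F) {α : MulAut W} (hα : α ∈ F.autGroup W) (P : Subgroup Ω) (f : Ω → Ω)
    (hf : Mp E P f) : Mp E ((tr_aut α).im P) (tf α ∘ f ∘ tf α⁻¹) := by
  have hP : P ≤ W := hf.le
  obtain ⟨g, hg, he⟩ := inv_mp hI hα hP hf
  rw [im_aut α hP]
  refine hg.congr fun y hy => ?_
  obtain ⟨x, hx, rfl⟩ := (mem_imT hP).1 hy
  simp only [Function.comp]
  rw [he x hx, tf_inv' (hP hx)]

/-- An element of `Aut_F(W)` induces an automorphism of an invariant subsystem over `W`. -/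
theorem trs_aut (hI : E.IsInvariantIn F) {α : MulAut W} (hα : α ∈ F.autGroup W) : Trs E E (tf α) (tf α⁻¹) := by
  refine ⟨tr_aut α, trs_aut_fwd hI hα, fun P f hf => ?_⟩
  have h1 := trs_aut_fwd hI (inv_mem hα) P f hf
  have h2 : (tr_aut α⁻¹).im P = (tr_aut α).symm.im P := by
    ext y
    constructor
    · rintro ⟨hy, hy'⟩
      refine ⟨hy, ?_⟩
      have := hy'
      rwa [inv_inv] at this
    · rintro ⟨hy, hy'⟩
      refine ⟨hy, ?_⟩
      rwa [inv_inv]
  rw [h2] at h1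
  refine h1.congr fun y _ => ?_
  simp only [Function.comp, inv_inv]

end SelfAut

/-! ### The image of a subnormal subsystem -/

theorem mp_inv_tr {S T : Subgroup Ω} {F : FusionSystem S} {f : Ω → Ω} (hf : Mp F T f) :
    ∃ g, Mp F hf.img g ∧ Tr T hf.img f g := by
  obtain ⟨g, hg, h1, h2⟩ := hf.inv
  refine ⟨g, hg, ?_⟩
  exact {
    maps := fun x hx => (Mp.mem_img hf).2 ⟨x, hx, rfl⟩
    maps' := fun y hy => by
      obtain ⟨x, hx, rfl⟩ := (Mp.mem_img hf).1 hy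
      rw [h1 x hx]
      exact hx
    lr := h1
    rl := h2
    mul := fun x hx y hy => hf.map_mul hx hy }

theorem subnormal_image {T S : Subgroup Ω} {C : FusionSystem T} {F : FusionSystem S}
    (h : C.IsSubnormalIn F p) :
    ∀ [Fact p.Prime] [Finite S] (_ : IsPGroup p S) {T' : Subgroup Ω} (E : FusionSystem T') {g g' : Ω → Ω},
      Trs C E g g' → Mp F T g → E.IsSubnormalIn F p := by
  induction h with
  | refl F p =>
    intro _ _ hS T' E g g' h1 hg
    have hI : Iso F T T g := Iso.of_maps hg (fun x hx => hg.mem hx)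
    have hT' : T' = T := by
      ext y
      constructor
      · intro hy
        rw [← h1.tr.rl y hy]
        exact hg.mem (h1.tr.maps' y hy)
      · intro hy
        obtain ⟨x, hx, rfl⟩ := hI.surj y hy
        exact h1.tr.maps x hx
    subst hT'
    have hg' : Mp F T' g' := by
      obtain ⟨k, hk, hk1, hk2⟩ := hI.inv
      refine hk.mp.congr fun y hy => ?_
      obtain ⟨x, hx, rfl⟩ := hI.surj y hy
      rw [hk1 x hx, h1.tr.lr x hx]
    have : E = F := by
      refine fs_ext' fun P => ?_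
      ext φ
      constructor
      · intro hφ
        have hf := mp_of_mem hφ
        have hP : P ≤ T' := hf.le
        have h2 := h1.bwd P _ hf
        have hm : ∀ x ∈ P, g' x ∈ h1.tr.symm.im P := fun x hx =>
          ⟨h1.tr.maps' x (hP hx), by rw [h1.tr.rl x (hP hx)]; exact hx⟩
        have h3 : Mp F P (g ∘ (g' ∘ toFun φ ∘ g) ∘ g') :=
          ((hg'.restrict hP).comp hm h2).comp (Q := T') (fun x hx =>
            h1.tr.maps' _ (hf.mem (hm x hx).2)) hg
        refine h3.mem_hom fun x => ?_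
        simp only [Function.comp]
        rw [h1.tr.rl x (hP x.2), h1.tr.rl _ (hf.mem x.2)]
        exact (toFun_coe φ x).symm
      · intro hφ
        have hf := mp_of_mem hφ
        have hP : P ≤ T' := hf.le
        have hm : ∀ x ∈ h1.tr.symm.im P, g x ∈ P := fun x hx => hx.2
        have h3 : Mp F (h1.tr.symm.im P) (g' ∘ toFun φ ∘ g) :=
          ((hg.restrict (h1.tr.symm.im_le P)).comp hm hf).comp (Q := T') (fun x hx => hf.mem (hm x hx)) hg'
        have h4 := h1.fwd _ _ h3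
        rw [h1.tr.im_symm_im hP] at h4
        refine h4.mem_hom fun x => ?_
        simp only [Function.comp]
        rw [h1.tr.rl x (hP x.2), h1.tr.rl _ (hf.mem x.2)]
        exact (toFun_coe φ x).symm
    rw [this]
    exact IsSubnormalIn.refl F p
  | step hCD hN ih =>
    rename_i U₁ S₁ C₁ D₁ F₁ p₁
    intro _ _ hS T' E g g' h1 hg
    have hU₁ : U₁ ≤ S₁ := hN.1.2.2.2.1.1
    have : Finite U₁ := Finite.of_injective _ (Subgroup.inclusion_injective hU₁)
    have hT₁ : T ≤ U₁ := subnormal_le hCD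
    have : Finite T := Finite.of_injective _ (Subgroup.inclusion_injective hT₁)
    have hI := hN.1.2.2
    obtain ⟨α, hα, f₀, hf₀, he⟩ := inv_frat hI hT₁ hg
    obtain ⟨g₀, hg₀, htr₀⟩ := mp_inv_tr hf₀
    obtain ⟨E₀, hE₀⟩ := exists_trs htr₀ C₁
    have h2 := ih (hS.to_le hU₁) E₀ hE₀ hf₀
    have h3 : Trs E₀ E (tf α) (tf α⁻¹) := by
      have h4 := trs_comp hE₀ h1
      refine h4.congr (fun y hy => ?_) (fun y hy => ?_)
      · simp only [Function.comp]
        have hy' := htr₀.maps' y hy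
        rw [he _ hy', htr₀.rl y hy]
      · simp only [Function.comp]
        have hy' := h1.tr.maps' y hy
        have hv : f₀ (g' y) ∈ U₁ := hf₀.mem hy'
        have e1 := he _ hy'
        rw [h1.tr.rl y hy] at e1
        calc tf α⁻¹ y = tf α⁻¹ (tf α (f₀ (g' y))) := by rw [← e1]
          _ = f₀ (g' y) := tf_inv' hv
    have h5 := subnormal_tr h2 (hS.to_le hU₁) D₁ E (trs_aut hI hα) h3
    exact IsSubnormalIn.step h5 hN

/-! ### Centres -/

theorem central_tr (h : Trs D D' t t') {Q : Subgroup Ω} (hQ : D.IsCentral Q) : D'.IsCentral (h.tr.im Q) := by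
  refine ⟨h.tr.im_le _, fun P φ hφ => ?_⟩
  have hf := mp_of_mem hφ
  have hP : P ≤ U' := hf.le
  obtain ⟨φ₀, hφ₀, e₀⟩ := h.bwd P _ hf
  obtain ⟨ψ, hψ, h1, h2⟩ := hQ.2 _ φ₀ hφ₀
  have h3 := h.fwd _ _ (mp_of_mem hψ)
  rw [h.tr.im_sup (h.tr.symm.im_le P) hQ.1, h.tr.im_symm_im hP] at h3
  obtain ⟨ψ', hψ', e'⟩ := h3
  refine ⟨ψ', hψ', fun x => ?_, fun x => ?_⟩
  · have hx : (x : Ω') ∈ U' := hP x.2
    have hm : t' x ∈ h.tr.symm.im P := ⟨h.tr.maps' x hx, by rw [h.tr.rl x hx]; exact x.2⟩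
    have h4 : ψ (Subgroup.inclusion le_sup_left (⟨t' x, hm⟩ : h.tr.symm.im P)) = φ₀ ⟨t' x, hm⟩ := h1 _
    rw [e' (Subgroup.inclusion le_sup_left x)]
    simp only [Function.comp]
    have h5 : toFun ψ (t' x) = t' (φ x) := by
      have h6 := toFun_coe ψ (Subgroup.inclusion le_sup_left (⟨t' x, hm⟩ : h.tr.symm.im P))
      refine h6.trans ?_
      rw [h4, e₀ ⟨t' x, hm⟩]
      simp only [Function.comp]
      rw [h.tr.rl x hx, toFun_coe φ x]
    show t (toFun ψ (t' x)) = φ x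
    rw [h5, h.tr.rl _ ((D'.le_of_mem hφ).2 x)]
  · have hx : (x : Ω') ∈ U' := h.tr.im_le _ x.2
    have hm : t' x ∈ Q := x.2.2
    have h4 := h2 ⟨t' x, hm⟩
    rw [e' (Subgroup.inclusion le_sup_right x)]
    simp only [Function.comp]
    have h5 : toFun ψ (t' x) = t' x := by
      have h6 := toFun_coe ψ (Subgroup.inclusion le_sup_right (⟨t' x, hm⟩ : Q))
      exact h6.trans h4
    show t (toFun ψ (t' x)) = x
    rw [h5, h.tr.rl x hx]

theorem center_tr (h : Trs D D' t t') [Finite U] : D'.center = h.tr.im D.center := by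
  apply le_antisymm
  · refine sSup_le fun Q hQ y hy => ?_
    have hQ' := central_tr h.symm hQ
    have hyU : y ∈ U' := hQ.1 hy
    have hl : h.tr.symm.im Q ≤ D.center := le_sSup hQ'
    exact ⟨hyU, hl ⟨h.tr.maps' y hyU, by rw [h.tr.rl y hyU]; exact hy⟩⟩
  · exact le_sSup (central_tr h Cfsg.Agent.H24.isCentral_center)

theorem stronglyClosed_central {Q : Subgroup Ω} (hQ : D.IsCentral Q) : D.StronglyClosed Q := by
  refine ⟨hQ.1, fun R hR φ hφ x => ?_⟩
  obtain ⟨ψ, -, h1, h2⟩ := hQ.2 R φ hφ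
  have h3 := h1 x
  have h4 := h2 ⟨x, hR x.2⟩
  have h5 : (Subgroup.inclusion (le_sup_left : R ≤ R ⊔ Q) x) = Subgroup.inclusion (le_sup_right : Q ≤ R ⊔ Q) ⟨x, hR x.2⟩ :=
    Subtype.ext rfl
  rw [h5, h4] at h3
  rw [← h3]
  exact hR x.2

/-! ### Factor systems -/

section Factor

variable {Q₁ Q₂ : Type*} [Group Q₁] [Group Q₂] {R₁ : Subgroup Q₁} {R₂ : Subgroup Q₂}
  {C' : FusionSystem R₁} {E' : FusionSystem R₂} {Z : Subgroup Ω} {Z' : Subgroup Ω'}
  {θ : U →* Q₁} {θ' : U' →* Q₂} {k : Q₁ → Q₂} {k' : Q₂ → Q₁}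

theorem factor_push (h : Trs D D' t t') (hC : D.IsFactorSystem Z θ C') (hE : D'.IsFactorSystem Z' θ' E')
    (hk : Tr R₁ R₂ k k') (hk1 : ∀ x : U, k (θ x) = θ' ⟨t x, h.tr.maps x x.2⟩)
    (hk2 : ∀ y : U', k' (θ' y) = θ ⟨t' y, h.tr.maps' y y.2⟩) (P : Subgroup Q₁) (f : Q₁ → Q₁) (hf : Mp C' P f) :
    Mp E' (hk.im P) (k ∘ f ∘ k') := by
  obtain ⟨φ, hφ, e⟩ := id hf
  obtain ⟨hPR, φ₁, hφ₁, hle, hv, hP', hind⟩ := (hC.2.2.2 P φ).1 hφ
  have h1 := h.fwd _ _ (mp_of_mem hφ₁)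
  have e1 : h.tr.im (preimageAlong θ P) = preimageAlong θ' (hk.im P) := by
    ext y
    constructor
    · rintro ⟨hy, hy'⟩
      obtain ⟨hy1, hy2⟩ := Cfsg.Agent.H24.mem_preimageAlong.1 hy'
      refine Cfsg.Agent.H24.mem_preimageAlong.2 ⟨hy, ?_⟩
      refine ⟨hE.2.2.1 ▸ ⟨⟨y, hy⟩, rfl⟩, ?_⟩
      rw [hk2 ⟨y, hy⟩]
      exact hy2
    · intro hy
      obtain ⟨hy1, hy2⟩ := Cfsg.Agent.H24.mem_preimageAlong.1 hy
      refine ⟨hy1, Cfsg.Agent.H24.mem_preimageAlong.2 ⟨h.tr.maps' y hy1, ?_⟩⟩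
      have := hy2.2
      rwa [hk2 ⟨y, hy1⟩] at this
  rw [e1] at h1
  obtain ⟨φ₁', hφ₁', e₁'⟩ := h1
  let φ' : hk.im P →* Q₂ := MonoidHom.mk' (fun y => k (f (k' y))) (fun a b => by
    have ha : k' a ∈ P := a.2.2
    have hb : k' b ∈ P := b.2.2
    show k (f (k' (a * b))) = _
    rw [hk.symm.mul a a.2.1 b b.2.1, hf.map_mul ha hb, hk.mul _ (hf.mem ha) _ (hf.mem hb)])
  refine ⟨φ', (hE.2.2.2 _ φ').2 ⟨hk.im_le _, φ₁', hφ₁', ?_⟩, fun x => rfl⟩
  have hpre : preimageAlong θ' (hk.im P) ≤ U' := Cfsg.Agent.H24.preimageAlong_le _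
  refine ⟨hpre, fun x => (D'.le_of_mem hφ₁').2 x, fun x => ?_, fun x => ?_⟩
  · obtain ⟨hy1, hy2⟩ := Cfsg.Agent.H24.mem_preimageAlong.1 x.2
    exact hy2
  · have hxU : (x : Ω') ∈ U' := hpre x.2
    obtain ⟨hy1, hy2⟩ := Cfsg.Agent.H24.mem_preimageAlong.1 x.2
    have hm : t' x ∈ preimageAlong θ P := by
      have hx2 : (x : Ω') ∈ h.tr.im (preimageAlong θ P) := by
        rw [e1]
        exact x.2
      exact hx2.2
    have h2 := hind ⟨t' x, hm⟩
    have h3 := e ⟨θ ⟨t' x, hle hm⟩, hP' ⟨t' x, hm⟩⟩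
    rw [h2] at h3
    show k (f (k' (θ' ⟨x, hxU⟩))) = _
    rw [hk2 ⟨x, hxU⟩]
    have h4 : f (θ ⟨t' x, h.tr.maps' x hxU⟩) = θ ⟨φ₁ ⟨t' x, hm⟩, hv ⟨t' x, hm⟩⟩ := h3.symm
    rw [h4, hk1 ⟨_, hv ⟨t' x, hm⟩⟩]
    congr 2
    show t (φ₁ ⟨t' x, hm⟩) = φ₁' x
    rw [e₁' x]
    simp only [Function.comp]
    rw [toFun_coe φ₁ ⟨t' x, hm⟩]

theorem factor_trs (h : Trs D D' t t') (hC : D.IsFactorSystem Z θ C') (hE : D'.IsFactorSystem Z' θ' E')
    (hk : Tr R₁ R₂ k k') (hk1 : ∀ x : U, k (θ x) = θ' ⟨t x, h.tr.maps x x.2⟩)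
    (hk2 : ∀ y : U', k' (θ' y) = θ ⟨t' y, h.tr.maps' y y.2⟩) : Trs C' E' k k' :=
  ⟨hk, factor_push h hC hE hk hk1 hk2, factor_push h.symm hE hC hk.symm hk2 hk1⟩

end Factor

/-! ### Simple systems -/

theorem simple_tr [Fact p.Prime] (h : Trs D D' t t') [Finite U] (hU : IsPGroup p U) (hs : D.IsSimple p) :
    D'.IsSimple p := by
  have hfin : Finite U' := h.tr.finite
  have hU' : IsPGroup p U' := h.tr.isPGroup hU
  refine ⟨h.saturated hU hs.1, fun hb => hs.2.1 (h.tr.symm.eq_bot_of hb), fun W N hN => ?_⟩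
  have hWU : W ≤ U' := hN.1.2.2.2.1.1
  have : Finite W := Finite.of_injective _ (Subgroup.inclusion_injective hWU)
  obtain ⟨V₀, htr₀⟩ : ∃ V₀, Tr W V₀ t' t := ⟨_, h.tr.symm.res hWU⟩
  obtain ⟨N₀, hN₀⟩ := exists_trs htr₀ N
  have hn := normalIn_tr h.symm hN₀ hU' hN
  rcases hs.2.2 _ N₀ hn with hb | ⟨he, hH⟩
  · exact Or.inl (hN₀.tr.symm.eq_bot_of hb)
  · subst he
    have e : N₀ = D := fs_ext' hH
    subst e
    refine Or.inr ⟨?_, fun P => Trs.unique h hN₀.symm P⟩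
    ext y
    constructor
    · intro hy
      exact hWU hy
    · intro hy
      rw [← h.tr.rl y hy]
      exact hN₀.tr.symm.maps _ (h.tr.maps' y hy)

/-! ### Quasisimple systems -/

theorem quasisimple_tr [Fact p.Prime] {T : Subgroup Ω} {T' : Subgroup Ω'} {C : FusionSystem T} {E : FusionSystem T'}
    (h : Trs C E t t') [Finite T] (hT : IsPGroup p T) (hq : C.Quasisimple p) : E.Quasisimple p := by
  have hfin : Finite T' := h.tr.finite
  refine ⟨h.saturated hT hq.1, h.hyperfocal hT hq.2.1, fun E' hE' => ?_⟩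
  have hZ : C.IsCentral C.center := Cfsg.Agent.H24.isCentral_center
  obtain ⟨C', hC'⟩ := Cfsg.Agent.H24.exists_factorSystem_quotient (F := C) (stronglyClosed_central hZ)
  have hZe : E.center = h.tr.im C.center := center_tr h
  let γ₁ : T →* T' := h.tr.hom.codRestrict T' (fun x => h.tr.maps x x.2)
  let γ₂ : T' →* T := h.tr.symm.hom.codRestrict T (fun x => h.tr.maps' x x.2)
  have h12 : ∀ x, γ₂ (γ₁ x) = x := fun x => Subtype.ext (h.tr.lr x x.2)
  have h21 : ∀ y, γ₁ (γ₂ y) = y := fun y => Subtype.ext (h.tr.rl y y.2)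
  have hm1 : (C.center).subgroupOf T ≤ ((E.center).subgroupOf T').comap γ₁ := by
    intro x hx
    rw [Subgroup.mem_comap, Subgroup.mem_subgroupOf, hZe]
    exact h.tr.map_mem_im x.2 (Subgroup.mem_subgroupOf.mp hx)
  have hm2 : (E.center).subgroupOf T' ≤ ((C.center).subgroupOf T).comap γ₂ := by
    intro x hx
    rw [Subgroup.mem_comap, Subgroup.mem_subgroupOf]
    have h2 := Subgroup.mem_subgroupOf.mp hx
    rw [hZe] at h2
    exact h2.2
  let κ := QuotientGroup.map _ _ γ₁ hm1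
  let κ' := QuotientGroup.map _ _ γ₂ hm2
  have hκ : Tr (⊤ : Subgroup (T ⧸ (C.center).subgroupOf T)) (⊤ : Subgroup (T' ⧸ (E.center).subgroupOf T')) κ κ' := {
    maps := fun _ _ => Subgroup.mem_top _
    maps' := fun _ _ => Subgroup.mem_top _
    lr := fun x _ => by
      induction x using QuotientGroup.induction_on with
      | H x =>
        show (QuotientGroup.mk (γ₂ (γ₁ x)) : T ⧸ (C.center).subgroupOf T) = QuotientGroup.mk x
        rw [h12]
    rl := fun y _ => by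
      induction y using QuotientGroup.induction_on with
      | H y =>
        show (QuotientGroup.mk (γ₁ (γ₂ y)) : T' ⧸ (E.center).subgroupOf T') = QuotientGroup.mk y
        rw [h21]
    mul := fun x _ y _ => map_mul κ x y }
  have htrs : Trs C' E' κ κ' := factor_trs h hC' hE' hκ (fun x => rfl) (fun y => rfl)
  have hQfin : Finite (⊤ : Subgroup (T ⧸ (C.center).subgroupOf T)) := inferInstance
  have hQp : IsPGroup p (⊤ : Subgroup (T ⧸ (C.center).subgroupOf T)) := by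
    have h3 : IsPGroup p (T ⧸ (C.center).subgroupOf T) :=
      hT.of_surjective (QuotientGroup.mk' _) (QuotientGroup.mk'_surjective _)
    intro g
    obtain ⟨k, hk⟩ := h3 g
    exact ⟨k, Subtype.ext hk⟩
  exact simple_tr htrs hQp (hq.2.2 C' hC')

end Cfsg.Agent.H24.TS
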